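import Mathlib
import Cfsg.Agent.H75.JacobiTrudi

/-!
Rank three actions of `PSL_n(q)`: definitions and the statements of the steps.
-/

set_option autoImplicit false

namespace Cfsg.Agent.H79.R3

open Cfsg Module
open scoped Pointwise MatrixGroups

universe u w

section geo
variable {F V : Type u} [Field F] [AddCommGroup V] [Module F V]

/-- Dimension of a subspace. -/
noncomputable abbrev dm (A : Submodule F V) : ℕ := finrank F A

/-- `1 + q + ⋯ + q^(k-1)`. -/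
def br (q k : ℕ) : ℕ := ∑ i ∈ Finset.range k, q ^ i

/-- The subspaces between `A` and `D` of dimension `dm A + 1`. -/
def Cov (A D : Submodule F V) : Set (Submodule F V) := {P | A ≤ P ∧ P ≤ D ∧ dm P = dm A + 1}

/-- The number of members of `Cov A D` with property `s`. -/
noncomputable def cnt (s : Submodule F V → Prop) (A D : Submodule F V) : ℕ :=
  {P | P ∈ Cov A D ∧ s P}.ncard

theorem smul_def (g : V ≃ₗ[F] V) (A : Submodule F V) : g • A = A.map (g : V →ₗ[F] V) := rfl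

theorem mem_smul {g : V ≃ₗ[F] V} {A : Submodule F V} {v : V} : v ∈ g • A ↔ g.symm v ∈ A := by
  rw [smul_def, Submodule.mem_map_equiv]

theorem smul_mem_smul {g : V ≃ₗ[F] V} {A : Submodule F V} {v : V} : g v ∈ g • A ↔ v ∈ A := by
  rw [mem_smul, LinearEquiv.symm_apply_apply]

theorem dm_smul (g : V ≃ₗ[F] V) (A : Submodule F V) : dm (g • A) = dm A :=
  LinearEquiv.finrank_map_eq g A

theorem smul_le_smul {g : V ≃ₗ[F] V} {A B : Submodule F V} : g • A ≤ g • B ↔ A ≤ B :=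
  Submodule.map_le_map_iff_of_injective g.injective A B

theorem smul_sup (g : V ≃ₗ[F] V) (A B : Submodule F V) : g • (A ⊔ B) = g • A ⊔ g • B :=
  Submodule.map_sup A B _

theorem smul_inf (g : V ≃ₗ[F] V) (A B : Submodule F V) : g • (A ⊓ B) = g • A ⊓ g • B :=
  Submodule.map_inf _ g.injective

theorem smul_bot (g : V ≃ₗ[F] V) : g • (⊥ : Submodule F V) = ⊥ := Submodule.map_bot _

theorem smul_top (g : V ≃ₗ[F] V) : g • (⊤ : Submodule F V) = ⊤ := by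
  rw [smul_def, Submodule.map_top, LinearEquiv.range]

theorem smul_span (g : V ≃ₗ[F] V) (v : V) : g • (F ∙ v) = F ∙ (g v) := by
  rw [smul_def, Submodule.map_span, Set.image_singleton]; rfl

theorem smul_mem_Cov {g : V ≃ₗ[F] V} {A D P : Submodule F V} :
    g • P ∈ Cov (g • A) (g • D) ↔ P ∈ Cov A D := by
  simp only [Cov, Set.mem_setOf_eq, smul_le_smul, dm_smul]

theorem cnt_smul (g : V ≃ₗ[F] V) {s s' : Submodule F V → Prop} {A D : Submodule F V}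
    (h : ∀ P ∈ Cov A D, s' (g • P) ↔ s P) : cnt s' (g • A) (g • D) = cnt s A D := by
  symm
  refine Set.ncard_congr (fun P _ => g • P) ?_ ?_ ?_
  · rintro P ⟨h1, h2⟩
    exact ⟨smul_mem_Cov.2 h1, (h P h1).2 h2⟩
  · intro P Q _ _ e
    exact MulAction.injective g e
  · rintro P ⟨h1, h2⟩
    have h3 : g⁻¹ • P ∈ Cov A D := by
      rw [← smul_mem_Cov (g := g), smul_inv_smul]; exact h1
    exact ⟨g⁻¹ • P, ⟨h3, (h _ h3).1 (by rwa [smul_inv_smul])⟩, smul_inv_smul _ _⟩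

/-- `K` has exactly `m` orbits on the `a`-dimensional subspaces. -/
def Orb1 (K : Subgroup (V ≃ₗ[F] V)) (a m : ℕ) : Prop :=
  ∃ c : Submodule F V → Fin m, (∀ j, ∃ A, dm A = a ∧ c A = j) ∧
    ∀ A A', dm A = a → dm A' = a → (c A = c A' ↔ ∃ g ∈ K, g • A = A')

/-- `K` has exactly `m` orbits on the flags `A ≤ B` of dimensions `a`, `b`. -/
def Orb2 (K : Subgroup (V ≃ₗ[F] V)) (a b m : ℕ) : Prop :=
  ∃ c : Submodule F V → Submodule F V → Fin m,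
    (∀ j, ∃ A B, A ≤ B ∧ dm A = a ∧ dm B = b ∧ c A B = j) ∧
    ∀ A B A' B', A ≤ B → dm A = a → dm B = b → A' ≤ B' → dm A' = a → dm B' = b →
      (c A B = c A' B' ↔ ∃ g ∈ K, g • A = A' ∧ g • B = B')

/-- Flags `A ≤ B ≤ D` of dimensions `a`, `b`, `d`. -/
def Fl (a b d : ℕ) (A B D : Submodule F V) : Prop :=
  A ≤ B ∧ B ≤ D ∧ dm A = a ∧ dm B = b ∧ dm D = d

/-- `K` has exactly `m` orbits on the flags `A ≤ B ≤ D` of dimensions `a`, `b`, `d`. -/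
def Orb3 (K : Subgroup (V ≃ₗ[F] V)) (a b d m : ℕ) : Prop :=
  ∃ c : Submodule F V → Submodule F V → Submodule F V → Fin m,
    (∀ j, ∃ A B D, Fl a b d A B D ∧ c A B D = j) ∧
    ∀ A B D A' B' D', Fl a b d A B D → Fl a b d A' B' D' →
      (c A B D = c A' B' D' ↔ ∃ g ∈ K, g • A = A' ∧ g • B = B' ∧ g • D = D')

/-- Transitivity on `a`-dimensional subspaces. -/
def Tr1 (K : Subgroup (V ≃ₗ[F] V)) (a : ℕ) : Prop :=
  ∀ A A' : Submodule F V, dm A = a → dm A' = a → ∃ g ∈ K, g • A = A'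

/-- Transitivity on flags `A ≤ B` of dimensions `a`, `b`. -/
def Tr2 (K : Subgroup (V ≃ₗ[F] V)) (a b : ℕ) : Prop :=
  ∀ A B A' B' : Submodule F V, A ≤ B → dm A = a → dm B = b → A' ≤ B' → dm A' = a → dm B' = b →
    ∃ g ∈ K, g • A = A' ∧ g • B = B'

theorem Orb1.tr {K : Subgroup (V ≃ₗ[F] V)} {a : ℕ} (h : Orb1 K a 1) : Tr1 K a := by
  obtain ⟨c, -, h⟩ := h
  exact fun A A' e e' => (h A A' e e').1 (Subsingleton.elim _ _)

theorem Orb2.tr {K : Subgroup (V ≃ₗ[F] V)} {a b : ℕ} (h : Orb2 K a b 1) : Tr2 K a b := by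
  obtain ⟨c, -, h⟩ := h
  exact fun A B A' B' l e f l' e' f' => (h A B A' B' l e f l' e' f').1 (Subsingleton.elim _ _)

theorem Orb3.two [FiniteDimensional F V] {K : Subgroup (V ≃ₗ[F] V)} {b d m : ℕ}
    (h : Orb3 K 0 b d m) : Orb2 K b d m := by
  obtain ⟨c, h1, h2⟩ := h
  refine ⟨c ⊥, fun j => ?_, fun A B A' B' l e f l' e' f' => ?_⟩
  · obtain ⟨A, B, D, ⟨-, a2, a3, a4, a5⟩, e⟩ := h1 j
    obtain rfl := Submodule.finrank_eq_zero.1 a3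
    exact ⟨B, D, a2, a4, a5, e⟩
  · rw [h2 ⊥ A B ⊥ A' B' ⟨bot_le, l, finrank_bot F V, e, f⟩ ⟨bot_le, l', finrank_bot F V, e', f'⟩]
    simp only [smul_bot, true_and]

theorem Orb2.one [FiniteDimensional F V] {K : Subgroup (V ≃ₗ[F] V)} {d m : ℕ}
    (h : Orb2 K 0 d m) : Orb1 K d m := by
  obtain ⟨c, h1, h2⟩ := h
  refine ⟨c ⊥, fun j => ?_, fun A A' e e' => ?_⟩
  · obtain ⟨A, B, -, a3, a4, e⟩ := h1 j
    obtain rfl := Submodule.finrank_eq_zero.1 a3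
    exact ⟨B, a4, e⟩
  · rw [h2 ⊥ A ⊥ A' bot_le (finrank_bot F V) e bot_le (finrank_bot F V) e']
    simp only [smul_bot, true_and]

/-- `K` fixes a proper non-zero subspace. -/
def Red (K : Subgroup (V ≃ₗ[F] V)) : Prop :=
  ∃ W : Submodule F V, W ≠ ⊥ ∧ W ≠ ⊤ ∧ ∀ g ∈ K, g • W = W

/-- An invariant family `t` of lines; those through a point `x` fill the subspace `W x`. -/
structure Bd (K : Subgroup (V ≃ₗ[F] V)) (t : Submodule F V → Prop)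
    (W : Submodule F V → Submodule F V) (k : ℕ) : Prop where
  inv : ∀ g ∈ K, ∀ L, dm L = 2 → (t (g • L) ↔ t L)
  le : ∀ x, dm x = 1 → x ≤ W x
  dim : ∀ x, dm x = 1 → dm (W x) = k + 1
  mem : ∀ x L, dm x = 1 → dm L = 2 → x ≤ L → (t L ↔ L ≤ W x)

/-- `Γ` fixes the line `L` and is transitive on the points of `L` with and without `s`. -/
structure Split (Γ : Subgroup (V ≃ₗ[F] V)) (L : Submodule F V) (s : Submodule F V → Prop) :
    Prop where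
  dim : dm L = 2
  fix : ∀ g ∈ Γ, g • L = L
  inv : ∀ g ∈ Γ, ∀ y, dm y = 1 → y ≤ L → (s (g • y) ↔ s y)
  tr : ∀ y z, dm y = 1 → y ≤ L → dm z = 1 → z ≤ L → (s y ↔ s z) → ∃ g ∈ Γ, g • y = z

/-- Every flag type point-line occurs at every point of every plane. -/
def Mixed (K : Subgroup (V ≃ₗ[F] V)) : Prop :=
  ∀ x E x' L' : Submodule F V, x ≤ E → dm x = 1 → dm E = 3 → x' ≤ L' → dm x' = 1 → dm L' = 2 →
    ∃ L, x ≤ L ∧ L ≤ E ∧ dm L = 2 ∧ ∃ g ∈ K, g • x = x' ∧ g • L = L'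

/-- The stabiliser of a point of `L` is transitive on the other points of `L`. -/
def Two (K : Subgroup (V ≃ₗ[F] V)) (L : Submodule F V) : Prop :=
  ∀ y z z' : Submodule F V, dm y = 1 → dm z = 1 → dm z' = 1 → y ≤ L → z ≤ L → z' ≤ L → z ≠ y →
    z' ≠ y → ∃ g ∈ K, g • y = y ∧ g • z = z'

/-- Scalar maps. -/
def IsSc (g : V ≃ₗ[F] V) : Prop := ∃ c : F, ∀ v, g v = c • v

theorem IsSc.smul {g : V ≃ₗ[F] V} (h : IsSc g) [FiniteDimensional F V] (A : Submodule F V) :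
    g • A = A := by
  obtain ⟨c, h⟩ := h
  refine Submodule.eq_of_le_of_finrank_eq ?_ (dm_smul g A)
  rintro _ ⟨v, hv, rfl⟩
  exact (h v).symm ▸ A.smul_mem c hv

/-- `K` contains the map `v ↦ v + φ v • w`. -/
def Tv (K : Subgroup (V ≃ₗ[F] V)) (w : V) (φ : V →ₗ[F] F) : Prop :=
  ∃ g ∈ K, ∀ v, g v = v + φ v • w

/-- `K` contains a transvection. -/
def HasTv (K : Subgroup (V ≃ₗ[F] V)) : Prop := ∃ w φ, w ≠ 0 ∧ φ ≠ 0 ∧ φ w = 0 ∧ Tv K w φ

/-- Plane stabilisers are transitive on the `a`-dimensional subspaces of the plane. -/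
def PlTr (K : Subgroup (V ≃ₗ[F] V)) (a : ℕ) : Prop :=
  ∀ E A A' : Submodule F V, dm E = 3 → A ≤ E → A' ≤ E → dm A = a → dm A' = a →
    ∃ g ∈ K, g • E = E ∧ g • A = A'

/-- An involution modulo scalars that fixes a point. -/
def PtInv (K : Subgroup (V ≃ₗ[F] V)) : Prop :=
  ∃ g ∈ K, ∃ x : Submodule F V, dm x = 1 ∧ g • x = x ∧ ¬ IsSc g ∧ IsSc (g * g)

/-- Transitivity on incident and on non-incident point-hyperplane pairs. -/
def PH (K : Subgroup (V ≃ₗ[F] V)) : Prop :=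
  ∀ x H x' H' : Submodule F V, dm x = 1 → dm H + 1 = finrank F V → dm x' = 1 →
    dm H' + 1 = finrank F V → (x ≤ H ↔ x' ≤ H') → ∃ g ∈ K, g • x = x' ∧ g • H = H'

/-- Transitivity on independent pairs of vectors. -/
def TwoV (K : Subgroup (V ≃ₗ[F] V)) : Prop :=
  ∀ x y x' y' : V, x ≠ 0 → y ∉ F ∙ x → x' ≠ 0 → y' ∉ F ∙ x' → ∃ g ∈ K, g x = x' ∧ g y = y'

end geo

/-! ### Geometric steps -/

def CovStmt : Prop :=
  ∀ (F V : Type u) [Field F] [Finite F] [AddCommGroup V] [Module F V] [Finite V]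
    (A D : Submodule F V), A ≤ D → (Cov A D).ncard = br (Nat.card F) (dm D - dm A)

def ZdStmt : Prop :=
  ∀ (F V : Type u) [Field F] [Finite F] [AddCommGroup V] [Module F V] [Finite V]
    (A E : Submodule F V) (s : Submodule F V → Prop) (b : ℕ), A ≤ E → dm E = dm A + 3 →
    (∀ L, A ≤ L → L ≤ E → dm L = dm A + 2 → cnt s A L = 0 ∨ cnt s A L = b) →
    (∃ L, A ≤ L ∧ L ≤ E ∧ dm L = dm A + 2 ∧ cnt s A L = 0) → (∃ P ∈ Cov A E, s P) →
    b ∣ Nat.card F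

def ZtStmt : Prop :=
  ∀ (F V : Type u) [Field F] [Finite F] [AddCommGroup V] [Module F V] [Finite V]
    (A : Submodule F V) (s : Submodule F V → Prop) (b : ℕ), 1 ≤ b → b ≤ Nat.card F →
    (∀ L, A ≤ L → dm L = dm A + 2 →
      cnt s A L = 0 ∨ cnt s A L = b ∨ cnt s A L = Nat.card F + 1) →
    (∃ L, A ≤ L ∧ dm L = dm A + 2 ∧ cnt s A L = 0) →
    (∃ L, A ≤ L ∧ dm L = dm A + 2 ∧ cnt s A L = Nat.card F + 1) → b = 1 ∨ b = Nat.card F

def ZsStmt : Prop :=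
  ∀ (F V : Type u) [Field F] [Finite F] [AddCommGroup V] [Module F V] [Finite V]
    (A : Submodule F V) (s : Submodule F V → Prop),
    (∀ L, A ≤ L → dm L = dm A + 2 →
      cnt s A L = 0 ∨ cnt s A L = 1 ∨ cnt s A L = Nat.card F + 1) →
    ∃ W, A ≤ W ∧ ∀ P ∈ Cov A ⊤, s P ↔ P ≤ W

def ZbStmt : Prop :=
  ∀ (F V : Type u) [Field F] [Finite F] [AddCommGroup V] [Module F V] [Finite V]
    (A : Submodule F V) (s : Submodule F V → Prop) (b : ℕ), dm A + 4 ≤ finrank F V →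
    b ≤ Nat.card F → (∀ L, A ≤ L → dm L = dm A + 2 → cnt s A L = 0 ∨ cnt s A L = b) →
    (∃ L, A ≤ L ∧ dm L = dm A + 2 ∧ cnt s A L = 0) → (∃ P ∈ Cov A ⊤, s P) →
    (∃ P₀ ∈ Cov A ⊤, ∀ P ∈ Cov A ⊤, s P ↔ P = P₀) ∨
      ∃ H, A ≤ H ∧ dm H + 1 = finrank F V ∧ ∀ P ∈ Cov A ⊤, s P ↔ ¬ P ≤ H

def CaStmt : Prop :=
  ∀ (F V : Type u) [Field F] [Finite F] [AddCommGroup V] [Module F V] [Finite V]
    (K : Subgroup (V ≃ₗ[F] V)), 5 ≤ finrank F V → Orb1 K 1 2 → Orb1 K 2 2 → Orb2 K 1 2 3 → Red K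

def Cb1Stmt : Prop :=
  ∀ (F V : Type u) [Field F] [Finite F] [AddCommGroup V] [Module F V] [Finite V]
    (K : Subgroup (V ≃ₗ[F] V)), 5 ≤ finrank F V → Tr1 K 1 → Orb1 K 2 2 → Orb2 K 1 2 2 →
    Orb2 K 1 3 3 → Orb3 K 1 2 3 4 → ∃ t W k, Bd K t W k ∧ 1 ≤ k ∧ k + 2 ≤ finrank F V

def Cb2Stmt : Prop :=
  ∀ (F V : Type u) [Field F] [Finite F] [AddCommGroup V] [Module F V] [Finite V]
    (K : Subgroup (V ≃ₗ[F] V)) (t : Submodule F V → Prop) (W : Submodule F V → Submodule F V)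
    (k : ℕ), Bd K t W k → 2 ≤ k → k + 3 ≤ finrank F V → Orb2 K 1 3 3 → False

def Cb3Stmt : Prop :=
  ∀ (F V : Type u) [Field F] [Finite F] [AddCommGroup V] [Module F V] [Finite V]
    (K : Subgroup (V ≃ₗ[F] V)) (t : Submodule F V → Prop) (W : Submodule F V → Submodule F V)
    (m : ℕ), 5 ≤ finrank F V → Bd K t W 1 → m ≤ 4 → Orb2 K 2 4 m → False

def Cb4Stmt : Prop :=
  ∀ (F V : Type u) [Field F] [Finite F] [AddCommGroup V] [Module F V] [Finite V]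
    (K : Subgroup (V ≃ₗ[F] V)) (t : Submodule F V → Prop) (W : Submodule F V → Submodule F V)
    (k m : ℕ), 3 ≤ k → k + 2 = finrank F V → Bd K t W k → m ≤ 4 → Orb2 K 2 k m → False

def Cc1Stmt : Prop :=
  ∀ (F V : Type u) [Field F] [Finite F] [AddCommGroup V] [Module F V] [Finite V]
    (K : Subgroup (V ≃ₗ[F] V)), 5 ≤ finrank F V → Tr1 K 1 → Tr1 K 2 → Orb2 K 1 2 2 →
    Orb2 K 1 3 2 → Mixed K

def Cc2Stmt : Prop :=
  ∀ (F V : Type u) [Field F] [Finite F] [AddCommGroup V] [Module F V] [Finite V]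
    (K : Subgroup (V ≃ₗ[F] V)), Tr1 K 2 → Tr1 K 3 → Orb2 K 1 2 2 → Orb2 K 1 3 2 →
    Orb2 K 2 3 2 → Orb3 K 1 2 3 4 → Mixed K →
    ∃ (Γ : Subgroup (V ≃ₗ[F] V)) (L : Submodule F V) (s : Submodule F V → Prop) (d : ℕ),
      Split Γ L s ∧ 1 < d ∧ d ∣ Nat.card F ∧ cnt (fun y => ¬ s y) ⊥ L = cnt s ⊥ L + d

def AffStmt : Prop :=
  ∀ (F V : Type u) [Field F] [Finite F] [AddCommGroup V] [Module F V] [Finite V]
    (Γ : Subgroup (V ≃ₗ[F] V)) (L y z : Submodule F V), dm L = 2 → dm y = 1 → dm z = 1 →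
    y ≤ L → z ≤ L → (∀ g ∈ Γ, g • L = L ∧ g • y = y) →
    (MulAction.orbit Γ z).ncard ∣ Nat.card F * (Nat.card F - 1)

def Cc3Stmt : Prop :=
  ∀ (F V : Type u) [Field F] [Finite F] [AddCommGroup V] [Module F V] [Finite V]
    (Γ : Subgroup (V ≃ₗ[F] V)) (L : Submodule F V) (s : Submodule F V → Prop) (d : ℕ),
    Split Γ L s → 1 < d → d ∣ Nat.card F → cnt (fun y => ¬ s y) ⊥ L = cnt s ⊥ L + d → False

def Ce1Stmt : Prop :=
  ∀ (F V : Type u) [Field F] [Finite F] [AddCommGroup V] [Module F V] [Finite V]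
    (K : Subgroup (V ≃ₗ[F] V)), Tr1 K 3 → Orb2 K 1 3 2 → Orb2 K 2 3 2 → Orb3 K 1 2 3 3 →
    ∃ (Γ : Subgroup (V ≃ₗ[F] V)) (L : Submodule F V) (s : Submodule F V → Prop),
      Γ ≤ K ∧ Split Γ L s ∧ cnt s ⊥ L ∣ Nat.card F

def Ce2Stmt : Prop :=
  ∀ (F V : Type u) [Field F] [Finite F] [AddCommGroup V] [Module F V] [Finite V]
    (K Γ : Subgroup (V ≃ₗ[F] V)) (L : Submodule F V) (s : Submodule F V → Prop),
    Tr2 K 1 2 → Γ ≤ K → Split Γ L s → cnt s ⊥ L ∣ Nat.card F → Two K L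

def FriendStmt : Prop :=
  ∀ (P : Type u) [Finite P] [Nonempty P] (r : P → P → Prop) (d : ℕ), (∀ a b, r a b → r b a) →
    (∀ a, ¬ r a a) → (∀ a b, a ≠ b → ∃! c, r a c ∧ r b c) → (∀ a, {b | r a b}.ncard = d) →
    3 ≤ d → False

def W2Stmt : Prop :=
  ∀ (F V : Type u) [Field F] [Finite F] [AddCommGroup V] [Module F V] [Finite V]
    (Γ : Subgroup (V ≃ₗ[F] V)), finrank F V = 3 → (∀ g, IsSc g → g ∈ Γ) → Tr1 Γ 1 → Tr1 Γ 2 →
    (∃ h ∈ Γ, ¬ IsSc h ∧ h * h = 1) → HasTv Γ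

def W1aStmt : Prop :=
  ∀ (F V : Type u) [Field F] [Finite F] [AddCommGroup V] [Module F V] [Finite V]
    (Γ : Subgroup (V ≃ₗ[F] V)), finrank F V = 3 → Tr1 Γ 1 → Tr1 Γ 2 → HasTv Γ → Tr2 Γ 1 2

def W1bStmt : Prop :=
  ∀ (F V : Type u) [Field F] [Finite F] [AddCommGroup V] [Module F V] [Finite V]
    (Γ : Subgroup (V ≃ₗ[F] V)), finrank F V = 3 → Tr2 Γ 1 2 → HasTv Γ →
    ∀ L : Submodule F V, dm L = 2 → Two Γ L

def InvStmt : Prop :=
  ∀ (F V : Type u) [Field F] [Finite F] [AddCommGroup V] [Module F V] [Finite V]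
    (g : V ≃ₗ[F] V), 3 ≤ finrank F V → ¬ IsSc g → IsSc (g * g) →
    ((2 : F) = 0 ∨ ∃ x : Submodule F V, dm x = 1 ∧ g • x = x) →
    ∃ (E : Submodule F V) (d : F), dm E = 3 ∧ g • E = E ∧ (∀ v, g (g v) = (d * d) • v) ∧
      ¬ ∃ c : F, ∀ v ∈ E, g v = c • v

def ResStmt : Prop :=
  ∀ (F V : Type u) [Field F] [Finite F] [AddCommGroup V] [Module F V] [Finite V]
    (K : Subgroup (V ≃ₗ[F] V)) (g : V ≃ₗ[F] V) (E : Submodule F V) (d : F), PlTr K 1 →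
    PlTr K 2 → g ∈ K → dm E = 3 → g • E = E → (∀ v, g (g v) = (d * d) • v) →
    (¬ ∃ c : F, ∀ v ∈ E, g v = c • v) → ∃ L : Submodule F V, dm L = 2 ∧ Two K L

def PlStmt : Prop :=
  ∀ (F V : Type u) [Field F] [Finite F] [AddCommGroup V] [Module F V] [Finite V]
    (K : Subgroup (V ≃ₗ[F] V)) (a m : ℕ), a ≤ 3 → Orb1 K 3 m → Orb2 K a 3 m → PlTr K a

def EvStmt : Prop :=
  ∀ (F V : Type u) [Field F] [Finite F] [AddCommGroup V] [Module F V] [Finite V]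
    (Γ : Subgroup (V ≃ₗ[F] V)) (A : Submodule F V), Even (MulAction.orbit Γ A).ncard →
    ∃ g ∈ Γ, ¬ IsSc g ∧ IsSc (g * g)

def Par1Stmt : Prop :=
  ∀ (F V : Type u) [Field F] [Finite F] [AddCommGroup V] [Module F V] [Finite V]
    (K : Subgroup (V ≃ₗ[F] V)) (m : ℕ), 3 ≤ finrank F V → Odd (Nat.card F) → Orb2 K 1 3 m →
    Orb3 K 1 2 3 m → PtInv K

def Par2Stmt : Prop :=
  ∀ (F V : Type u) [Field F] [Finite F] [AddCommGroup V] [Module F V] [Finite V]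
    (K : Subgroup (V ≃ₗ[F] V)), 5 ≤ finrank F V → Odd (Nat.card F) → Tr2 K 1 2 → Tr2 K 1 3 →
    (7 ≤ finrank F V → Orb3 K 1 2 4 2) → PtInv K

def Tt1Stmt : Prop :=
  ∀ (F V : Type u) [Field F] [Finite F] [AddCommGroup V] [Module F V] [Finite V]
    (K : Subgroup (V ≃ₗ[F] V)) (L : Submodule F V), Tr2 K 1 2 → dm L = 2 → Two K L → PH K

def Tt2Stmt : Prop :=
  ∀ (F V : Type u) [Field F] [Finite F] [AddCommGroup V] [Module F V] [Finite V]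
    (K : Subgroup (V ≃ₗ[F] V)), 3 ≤ finrank F V → PH K → TwoV K

def CkStmt : Prop :=
  ∀ (F V : Type u) [Field F] [Finite F] [AddCommGroup V] [Module F V] [Finite V]
    (K : Subgroup (V ≃ₗ[F] V)), 5 ≤ finrank F V → TwoV K → ∀ w φ, φ w = 0 → Tv K w φ

/-! ### Characters -/

/-- The composition `(a, b - a, d - b, n - d, 0, …)`. -/
def cmp (n a b d : ℕ) : Fin n → ℕ := fun i =>
  if i.val = 0 then a else if i.val = 1 then b - a else if i.val = 2 then d - b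
    else if i.val = 3 then n - d else 0

/-- The number of `3 × 3` matrices of naturals with row sums at most `r₁ r₂ r₃`, column sums at
most `c₁ c₂ c₃` and total at least `s`. -/
def ct (r₁ r₂ r₃ c₁ c₂ c₃ s : ℕ) : ℕ :=
  ∑ x₁ ∈ Finset.range (r₁ + 1), ∑ x₂ ∈ Finset.range (r₁ + 1), ∑ x₃ ∈ Finset.range (r₁ + 1),
  ∑ y₁ ∈ Finset.range (r₂ + 1), ∑ y₂ ∈ Finset.range (r₂ + 1), ∑ y₃ ∈ Finset.range (r₂ + 1),
  ∑ z₁ ∈ Finset.range (r₃ + 1), ∑ z₂ ∈ Finset.range (r₃ + 1), ∑ z₃ ∈ Finset.range (r₃ + 1),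
    if x₁ + x₂ + x₃ ≤ r₁ ∧ y₁ + y₂ + y₃ ≤ r₂ ∧ z₁ + z₂ + z₃ ≤ r₃ ∧ x₁ + y₁ + z₁ ≤ c₁ ∧
      x₂ + y₂ + z₂ ≤ c₂ ∧ x₃ + y₃ + z₃ ≤ c₃ ∧ s ≤ x₁ + x₂ + x₃ + (y₁ + y₂ + y₃) + (z₁ + z₂ + z₃)
    then 1 else 0

/-- A family of characters that behaves like the flag characters. -/
structure Fam (G : Type w) [Group G] [Fintype G] (n p : ℕ) (π : (Fin n → ℕ) → G → ℂ) : Prop where
  ch : ∀ α, IsCharacter G (π α)
  inner : ∀ α β : Fin n → ℕ, ∑ i, α i = n → ∑ i, β i = n →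
    classInner (π α) (π β) = Nat.card (H75.ContTab α β)
  one : ∀ α : Fin n → ℕ, ∑ i, α i = n → classInner (π α) 1 = 1
  deg : ∀ α : Fin n → ℕ, ∑ i, α i = n → ∃ k : ℕ, π α 1 = (k * p + 1 : ℕ)

/-- The possible orbit numbers. -/
def NTab (o : ℕ → ℕ → ℕ → ℕ) (n : ℕ) : Prop :=
  (o 0 0 1 = 2 ∧ o 0 0 2 = 2 ∧ o 0 1 2 = 3) ∨
  (o 0 0 1 = 1 ∧ o 0 0 2 = 2 ∧ o 0 1 2 = 2 ∧ o 0 1 3 = 3 ∧ o 1 2 3 = 4 ∧ o 0 2 4 ≤ 4 ∧
    o 0 2 (n - 2) ≤ 4) ∨
  (o 0 0 1 = 1 ∧ o 0 0 2 = 1 ∧ o 0 0 3 = 1 ∧ o 0 1 2 = 2 ∧ o 0 1 3 = 2 ∧ o 0 2 3 = 2 ∧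
    o 1 2 3 = 4) ∨
  (o 0 1 2 = 1 ∧ o 0 1 3 = o 0 0 3 ∧ o 0 2 3 = o 0 0 3 ∧ o 1 2 3 = o 0 0 3) ∨
  (o 0 1 2 = 1 ∧ o 0 0 3 = 1 ∧ o 0 1 3 = 2 ∧ o 0 2 3 = 2 ∧ o 1 2 3 = 3) ∨
  (o 0 1 2 = 1 ∧ o 0 0 3 = 1 ∧ o 0 1 3 = 1 ∧ o 0 2 3 = 1 ∧ (7 ≤ n → o 1 2 4 = 2))

def CtStmt : Prop :=
  ∀ n a b d a' b' d' : ℕ, 4 ≤ n → a ≤ b → b ≤ d → d ≤ n → a' ≤ b' → b' ≤ d' → d' ≤ n →
    Nat.card (H75.ContTab (cmp n a b d) (cmp n a' b' d')) =
      ct a (b - a) (d - b) a' (b' - a') (d' - b') (d + d' - n)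

def PermStmt : Prop :=
  ∀ (G : Type w) [Group G] [Fintype G] (n p : ℕ) (π : (Fin n → ℕ) → G → ℂ), Fam G n p π →
    ∀ (α : Fin n → ℕ) (σ : Equiv.Perm (Fin n)), ∑ i, α i = n → π (α ∘ σ) = π α

def UniStmt : Prop :=
  ∀ (G : Type w) [Group G] [Fintype G] (n p : ℕ) (π : (Fin n → ℕ) → G → ℂ), Fam G n p π →
    ∀ (χ : G → ℂ) (α : Fin n → ℕ), IsIrrCharacter G χ → χ ≠ 1 → ∑ i, α i = n →
      classInner χ (π α) ≠ 0 → ∃ k : ℕ, χ 1 = (k * p : ℕ)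

def OneStmt : Prop :=
  ∀ (G : Type w) [Group G] [Fintype G] (n p : ℕ) (π : (Fin n → ℕ) → G → ℂ), Fam G n p π →
    2 ≤ p → ∀ (θ : G → ℂ) (k : ℕ), IsCharacter G θ → classInner θ θ = 3 → classInner θ 1 = 1 →
    θ 1 = (k * p : ℕ) → ∃ χ : G → ℂ, (χ = 0 ∨ (IsIrrCharacter G χ ∧ χ ≠ 1)) ∧
      ∀ α : Fin n → ℕ, ∑ i, α i = n → classInner θ (π α) = 1 + classInner χ (π α)

def TabStmt : Prop :=
  ∀ (G : Type w) [Group G] [Fintype G] (n p : ℕ) (π : (Fin n → ℕ) → G → ℂ), Fam G n p π →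
    5 ≤ n → ∀ (χ : G → ℂ) (o : ℕ → ℕ → ℕ → ℕ), (χ = 0 ∨ (IsIrrCharacter G χ ∧ χ ≠ 1)) →
    (∀ a b d, a ≤ b → b ≤ d → d ≤ n → (o a b d : ℂ) = 1 + classInner χ (π (cmp n a b d))) →
    NTab o n

section mat
variable (n : ℕ) (F : Type u) [Field F]

/-- Invertible matrices as linear automorphisms. -/
noncomputable def lin : GL (Fin n) F →* ((Fin n → F) ≃ₗ[F] (Fin n → F)) :=
  (LinearMap.GeneralLinearGroup.generalLinearEquiv F (Fin n → F)).toMonoidHom.comp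
    Matrix.GeneralLinearGroup.toLin.toMonoidHom

/-- Matrices of determinant one as linear automorphisms. -/
noncomputable def slin : Matrix.SpecialLinearGroup (Fin n) F →* ((Fin n → F) ≃ₗ[F] (Fin n → F)) :=
  (lin n F).comp Matrix.SpecialLinearGroup.toGL

/-- The flag characters restricted to `SL`. -/
noncomputable def piS (α : Fin n → ℕ) : Matrix.SpecialLinearGroup (Fin n) F → ℂ := fun g =>
  fixedPointCharacter (parabolicGL n F α) (Matrix.SpecialLinearGroup.toGL g)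

variable {n F}

theorem lin_apply (g : GL (Fin n) F) (v : Fin n → F) :
    lin n F g v = (g : Matrix (Fin n) (Fin n) F).mulVec v := rfl

theorem slin_apply (g : Matrix.SpecialLinearGroup (Fin n) F) (v : Fin n → F) :
    slin n F g v = (g : Matrix (Fin n) (Fin n) F).mulVec v := rfl

end mat

theorem sum_cmp {n a b d : ℕ} (hn : 4 ≤ n) (h1 : a ≤ b) (h2 : b ≤ d) (h3 : d ≤ n) :
    ∑ i, cmp n a b d i = n := by
  obtain ⟨m, rfl⟩ := Nat.exists_eq_add_of_le' hn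
  simp only [Fin.sum_univ_succ, cmp, Fin.val_zero, Fin.val_succ]
  simp
  omega

def FamStmt : Prop :=
  ∀ (n : ℕ) (F : Type u) [Field F] [Finite F] [Fintype (Matrix.SpecialLinearGroup (Fin n) F)],
    1 ≤ n → Fam (Matrix.SpecialLinearGroup (Fin n) F) n (ringChar F) (piS n F)

def FlgStmt : Prop :=
  ∀ (n : ℕ) (F : Type u) [Field F] (a b d : ℕ), 4 ≤ n → a ≤ b → b ≤ d → d ≤ n →
    ∃ A B D : Submodule F (Fin n → F), Fl a b d A B D ∧
      (∀ g : GL (Fin n) F, g ∈ parabolicGL n F (cmp n a b d) ↔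
        lin n F g • A = A ∧ lin n F g • B = B ∧ lin n F g • D = D) ∧
      ∀ A' B' D', Fl a b d A' B' D' → ∃ g : Matrix.SpecialLinearGroup (Fin n) F,
        slin n F g • A = A' ∧ slin n F g • B = B' ∧ slin n F g • D = D'

def OrbStmt : Prop :=
  ∀ (n : ℕ) (F : Type u) [Field F] [Finite F] [Fintype (Matrix.SpecialLinearGroup (Fin n) F)]
    (X : Type w) [Finite X] [MulAction (Matrix.SpecialLinearGroup (Fin n) F) X]
    [MulAction.IsPretransitive (Matrix.SpecialLinearGroup (Fin n) F) X] (x : X) (a b d : ℕ),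
    4 ≤ n → a ≤ b → b ≤ d → d ≤ n → ∃ m : ℕ,
      classInner (H11.permChar (Matrix.SpecialLinearGroup (Fin n) F) X) (piS n F (cmp n a b d)) = m ∧
      Orb3 ((MulAction.stabilizer (Matrix.SpecialLinearGroup (Fin n) F) x).map (slin n F)) a b d m

def RedStmt : Prop :=
  ∀ (n : ℕ) (F : Type u) [Field F] [Finite F]
    (X : Type w) [Finite X] [MulAction (Matrix.SpecialLinearGroup (Fin n) F) X]
    [MulAction.IsPretransitive (Matrix.SpecialLinearGroup (Fin n) F) X] (x : X), 4 ≤ n →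
    IsCoatom (MulAction.stabilizer (Matrix.SpecialLinearGroup (Fin n) F) x) →
    Red ((MulAction.stabilizer (Matrix.SpecialLinearGroup (Fin n) F) x).map (slin n F)) →
    ∃ j, j ≤ n ∧ H11.permChar (Matrix.SpecialLinearGroup (Fin n) F) X = piS n F (cmp n 0 0 j)

def NumStmt : Prop :=
  ∀ (n : ℕ) (F : Type u) [Field F] [Finite F] (j N : ℕ), 5 ≤ n → j ≤ n →
    ct 0 0 j 0 0 j (j + j - n) = 3 → piS n F (cmp n 0 0 j) 1 = N →
    N * ((Nat.card F ^ 2 - 1) * (Nat.card F - 1)) = (Nat.card F ^ n - 1) * (Nat.card F ^ (n - 1) - 1)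

def SylStmt : Prop :=
  ∀ (n : ℕ) (F : Type u) [Field F] [Finite F] (K : Subgroup (Matrix.SpecialLinearGroup (Fin n) F)),
    1 ≤ n → ¬ ringChar F ∣ K.index → Red (K.map (slin n F)) ∨ K = ⊤

def FullStmt : Prop :=
  ∀ (n : ℕ) (F : Type u) [Field F] (K : Subgroup (Matrix.SpecialLinearGroup (Fin n) F)),
    (∀ w φ, φ w = 0 → Tv (K.map (slin n F)) w φ) → K = ⊤

def Ev2Stmt : Prop :=
  ∀ (n : ℕ) (F : Type u) [Field F] [Finite F]
    (X : Type w) [Finite X] [MulAction (Matrix.SpecialLinearGroup (Fin n) F) X] (x : X),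
    (∀ z ∈ Subgroup.center (Matrix.SpecialLinearGroup (Fin n) F), ∀ y : X, z • y = y) →
    Nat.card (MulAction.orbitRel.Quotient
      (MulAction.stabilizer (Matrix.SpecialLinearGroup (Fin n) F) x) X) = 3 →
    Even (Nat.card X) →
    ∃ g ∈ (MulAction.stabilizer (Matrix.SpecialLinearGroup (Fin n) F) x).map (slin n F),
      ¬ IsSc g ∧ IsSc (g * g)

end Cfsg.Agent.H79.R3
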