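import Cfsg.Agent.H42.PcDefs

/-! Project PC: the hypothesis passes to quotients. -/

set_option autoImplicit false
set_option linter.style.haveILetI false

namespace Cfsg.Agent.H79.PcQuot

open Subgroup Cfsg.Agent.H42.Pc

universe u

theorem lift {G : Type u} [Group G] [Finite G] (N : Subgroup G) [N.Normal] {p : ℕ} [Fact p.Prime]
    {a : G ⧸ N} (h : IsPGroup p (zpowers a)) :
    ∃ y : G, IsPGroup p (zpowers y) ∧ (y : G ⧸ N) = a := by
  obtain ⟨Q, hQ⟩ := h.exists_le_sylow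
  obtain ⟨P, rfl⟩ := Sylow.mapSurjective_surjective (QuotientGroup.mk'_surjective N) p Q
  obtain ⟨y, hy, e⟩ := hQ (mem_zpowers a)
  exact ⟨y, P.isPGroup'.to_le (zpowers_le.2 hy), e⟩

theorem quot (key : KeyStmt.{u}) : QuotStmt.{u} := by
  intro G _ _ hP N _ p hp A B hA hB pA e
  haveI := Fact.mk hp
  obtain ⟨j, hj⟩ := pA.exists_card_eq
  have pB : IsPGroup p B := IsPGroup.of_card (e.symm.trans hj)
  obtain ⟨a, rfl⟩ := A.isCyclic_iff_exists_zpowers_eq_top.1 hA
  obtain ⟨b, rfl⟩ := B.isCyclic_iff_exists_zpowers_eq_top.1 hB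
  rw [Nat.card_zpowers, Nat.card_zpowers] at e
  by_cases h1 : a = 1
  · subst h1
    rw [orderOf_one, eq_comm, orderOf_eq_one_iff] at e
    exact ⟨1, by simp [e]⟩
  obtain ⟨y, py, rfl⟩ := lift N pA
  obtain ⟨y', py', rfl⟩ := lift N pB
  have w : ∀ {y : G}, IsPGroup p (zpowers y) → ∃ k, y ^ p ^ k = 1 := fun {y} h =>
    (h ⟨y, mem_zpowers y⟩).imp fun _ k => congrArg Subtype.val k
  have o := key G hP N p hp y y' (w py) (w py') (fun k => h1 ((QuotientGroup.eq_one_iff y).2 k))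
    (fun k => h1 (orderOf_eq_one_iff.1 (by rw [e, (QuotientGroup.eq_one_iff y').2 k, orderOf_one]))) e
  obtain ⟨g, hg⟩ := hP p hp (zpowers y) (zpowers y') inferInstance inferInstance py
    (by rw [Nat.card_zpowers, Nat.card_zpowers, o])
  refine ⟨g, ?_⟩
  have := congrArg (Subgroup.map (QuotientGroup.mk' N)) hg
  simpa [MonoidHom.map_zpowers] using this

end Cfsg.Agent.H79.PcQuot
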