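import Cfsg.Agent.H53.AhDefs

/-! Project AH: the pieces LIFT and PAIR. -/

set_option autoImplicit false

namespace Cfsg.Agent.H79.AhLift

open MulAction Cfsg.Agent.H12.RO Cfsg.Agent.H53.AH

universe u

section
variable {G V : Type*} [Group G] [AddCommGroup V] [DistribMulAction G V] {v : V} {N : Subgroup G}

theorem nz' (h : Blk G v N) {x y : G} (hxy : x⁻¹ * y ∉ N) : x • v + y • v ≠ 0 := fun e =>
  h.nz _ hxy (by rw [mul_smul, ← inv_smul_smul x v, ← smul_add, inv_smul_smul, e, smul_zero])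

theorem uniq' (h : Blk G v N) {x y x' y' : G} (hxy : x⁻¹ * y ∉ N) (hxy' : x'⁻¹ * y' ∉ N)
    (e : x • v + y • v = x' • v + y' • v) :
    (x' • v = x • v ∧ y' • v = y • v) ∨ (x' • v = y • v ∧ y' • v = x • v) := by
  have := h.uniq (x⁻¹ * y) (x⁻¹ * x') (x⁻¹ * y') hxy (by simpa [mul_assoc] using hxy') (by
    rw [mul_smul, mul_smul, mul_smul, ← smul_add, ← e, smul_add, inv_smul_smul])
  simpa [mul_smul, inv_smul_eq_iff] using this

theorem norm' (h : Blk G v N) {x y c : G} (hc : c ∈ N) (e : x • v = y • v) :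
    x • c • v = y • c • v := by
  have := h.norm (y⁻¹ * x) (by rw [mul_smul, e, inv_smul_smul]) c hc
  rwa [mul_smul, inv_smul_eq_iff] at this

theorem conj_not_mem {a b c : G} (hab : a⁻¹ * b ∉ N) (hc : c ∈ N) : (a * c)⁻¹ * (b * c) ∉ N :=
  fun e => hab (by simpa [mul_assoc] using mul_mem (mul_mem hc e) (inv_mem hc))

theorem stab_le (h : Blk G v N) {a b c : G} (hab : a⁻¹ * b ∉ N) (hc : c ∈ N) :
    stabilizer G (a • v + b • v) ≤ stabilizer G ((a * c) • v + (b * c) • v) := fun g hg => by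
  rw [mem_stabilizer_iff, smul_add, ← mul_smul, ← mul_smul] at hg
  rw [mem_stabilizer_iff, smul_add, mul_smul, mul_smul, ← mul_smul g, ← mul_smul g]
  rcases uniq' h hab (by simpa [mul_assoc] using hab) hg.symm with ⟨e1, e2⟩ | ⟨e1, e2⟩
  · rw [norm' h hc e1, norm' h hc e2]
  · rw [norm' h hc e1, norm' h hc e2, add_comm]

end

theorem pair : PairStmt.{u} := by
  intro G V _ _ _ v N hd h a b hab c hc
  have hab' := conj_not_mem hab hc
  obtain ⟨g, hg⟩ := hd _ _ (nz' h hab) (nz' h hab') (by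
    rw [le_antisymm (stab_le h hab hc) (by simpa using stab_le h hab' (inv_mem hc))])
  rw [smul_add, ← mul_smul, ← mul_smul] at hg
  refine ⟨g * g, ?_⟩
  rcases uniq' h hab' (by simpa [mul_assoc] using hab) hg.symm with ⟨e1, e2⟩ | ⟨e1, e2⟩ <;>
  · have f1 := norm' h hc e1
    have f2 := norm' h hc e2
    simp only [mul_smul] at *
    rw [e1, e2, f1, f2]
    exact ⟨rfl, rfl⟩

theorem lift : LiftStmt.{u} := by
  classical
  intro G V Ω _ _ _ _ _ S ω
  letI := subAct (S.inv_range ω)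
  rintro ⟨v, N, h, hg⟩
  have hv : v.1 ≠ 0 := fun e => h.ne (Subtype.ext e)
  have e0 : S.e ω v.1 = v.1 := by obtain ⟨_, x, rfl⟩ := v; exact S.idem ω x
  have e1 : ∀ g : G, S.e (g • ω) (g • v.1) = g • v.1 := fun g => by rw [S.equiv, e0]
  have e2 : ∀ (g : G) ω', ω' ≠ g • ω → S.e ω' (g • v.1) = 0 := fun g ω' e => by
    rw [← e1, S.orth _ _ e]
  have e3 : ∀ ω', ω' ≠ ω → S.e ω' v.1 = 0 := fun ω' e => by rw [← e0, S.orth _ _ e]
  have e4 : ∀ g : G, g • v.1 ≠ 0 := fun g e => hv ((smul_eq_zero_iff_eq g).1 e)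
  have hst : ∀ g : G, g • v.1 = v.1 → g ∈ stabilizer G ω := fun g e => by
    by_contra hc
    exact hv (by rw [← e0, ← e, e2 g ω fun e' => hc e'.symm])
  have hm : ∀ g : stabilizer G ω, g.1 ∈ N.map (stabilizer G ω).subtype ↔ g ∈ N := fun g =>
    Subgroup.mem_map_iff_mem Subtype.val_injective
  have hnz : ∀ a : G, a ∉ N.map (stabilizer G ω).subtype → v.1 + a • v.1 ≠ 0 := fun a ha e => by
    by_cases hω : a • ω = ω
    · exact h.nz ⟨a, hω⟩ (fun e' => ha ((hm _).2 e')) (Subtype.ext e)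
    · have := congrArg (S.e ω) e
      rw [map_add, e0, e2 a ω (Ne.symm hω), add_zero, map_zero] at this
      exact hv this
  refine ⟨v.1, N.map (stabilizer G ω).subtype, ⟨hv, fun g e => (hm ⟨g, hst g e⟩).2
    (h.le _ (Subtype.ext e)), ?_, hnz, fun a b c ha hbc e => ?_⟩, hg.imp ?_ ?_⟩
  · rintro g e _ ⟨n, hn, rfl⟩
    exact congrArg Subtype.val (h.norm ⟨g, hst g e⟩ (Subtype.ext e) n hn)
  · by_cases hω : a • ω = ω
    · have key : ∀ b c : G, v.1 + a • v.1 = b • v.1 + c • v.1 → b • ω = ω := fun b c e => by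
        by_contra hb
        have := congrArg (S.e (b • ω)) e
        rw [map_add, map_add, e3 _ hb, e2 a _ (hω.symm ▸ hb), e1, add_zero] at this
        by_cases hc : b • ω = c • ω
        · rw [hc, e1] at this
          exact hnz a ha (e.trans this.symm)
        · rw [e2 c _ hc, add_zero] at this
          exact e4 b this.symm
      exact (h.uniq ⟨a, hω⟩ ⟨b, key b c e⟩ ⟨c, key c b (e.trans (add_comm _ _))⟩
        (fun e' => ha ((hm _).2 e')) (fun e' => hbc ((hm _).2 e')) (Subtype.ext e)).imp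
        (fun e => ⟨congrArg Subtype.val e.1, congrArg Subtype.val e.2⟩)
        fun e => ⟨congrArg Subtype.val e.1, congrArg Subtype.val e.2⟩
    · by_cases hb : b • ω = ω
      · have := congrArg (S.e (a • ω)) e
        rw [map_add, map_add, e3 _ hω, e1, e2 b _ (hb.symm ▸ hω), zero_add, zero_add] at this
        have hc : a • ω = c • ω := by
          by_contra hc
          exact e4 a (this.trans (e2 c _ hc))
        rw [hc, e1] at this
        rw [this] at e ⊢
        exact Or.inl ⟨(add_right_cancel e).symm, rfl⟩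
      · have := congrArg (S.e ω) e
        rw [map_add, map_add, e0, e2 a _ (Ne.symm hω), e2 b _ (Ne.symm hb), zero_add,
          add_zero] at this
        have hc : ω = c • ω := by
          by_contra hc
          exact hv (this.trans (e2 c _ hc))
        have h2 := e1 c
        rw [← hc, ← this] at h2
        rw [← h2, add_comm] at e
        exact Or.inr ⟨(add_right_cancel e).symm, h2.symm⟩
  · rintro ⟨τ, h1, h2, c, hc, h3⟩
    have h4 := (Subtype.val_injective (p := (· ∈ stabilizer G ω))).extend_apply τ 0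
    refine ⟨Function.extend Subtype.val τ 0, ?_, fun g e => (h4 ⟨g, hst g e⟩).trans
      (h2 _ (Subtype.ext e)), c, (hm c).2 hc, by rwa [h4]⟩
    rintro _ ⟨a, ha, rfl⟩ _ ⟨b, hb, rfl⟩
    exact (h4 (a * b)).trans ((h1 a ha b hb).trans (congrArg₂ (· + ·) (h4 a) (h4 b)).symm)
  · rintro ⟨c, hc, h1, h2, n, hn, h3⟩
    refine ⟨c, (hm c).2 hc, ?_, ?_, n, (hm n).2 hn, congrArg Subtype.val h3⟩
    · rintro _ ⟨n, hn, rfl⟩
      exact congrArg Subtype.val (h1 n hn)
    · rintro _ ⟨n, hn, rfl⟩ e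
      exact h2 n hn (Subtype.ext e)

end Cfsg.Agent.H79.AhLift
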