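import Mathlib

/-! Groups whose element orders lie in `{1, 2, 3, 4, 6, 8, 13}`. -/

set_option autoImplicit false

namespace Cfsg.Agent.H79.Cr

open Subgroup

/-- All element orders lie in `{1, 2, 3, 4, 6, 8, 13}`. -/
def Sub (G : Type*) [Group G] : Prop := ∀ g : G, g ^ 13 = 1 ∨ g ^ 8 = 1 ∨ g ^ 6 = 1

variable {G : Type*} [Group G]

theorem pow_one_of {g : G} {a b : ℕ} (ha : g ^ a = 1) (hb : g ^ b = 1) (c : ℕ)
    (h : Nat.gcd a b ∣ c := by norm_num) : g ^ c = 1 := by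
  obtain ⟨k, rfl⟩ := h
  rw [pow_mul, pow_gcd_eq_one.2 ⟨ha, hb⟩, one_pow]

theorem one_of {g : G} {a b : ℕ} (ha : g ^ a = 1) (hb : g ^ b = 1)
    (h : Nat.gcd a b ∣ 1 := by norm_num) : g = 1 := by
  simpa using pow_one_of ha hb 1 h

theorem pow_mul_one {g : G} {a : ℕ} (ha : g ^ a = 1) (c : ℕ) (h : a ∣ c := by norm_num) :
    g ^ c = 1 := by
  obtain ⟨k, rfl⟩ := h
  rw [pow_mul, ha, one_pow]

theorem sub_of_range (h : Set.range (orderOf : G → ℕ) = ({1, 2, 3, 4, 6, 8, 13} : Set ℕ)) :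
    Sub G := fun g => by
  have h1 : orderOf g ∈ ({1, 2, 3, 4, 6, 8, 13} : Set ℕ) := h ▸ Set.mem_range_self g
  simp only [← orderOf_dvd_iff_pow_eq_one]
  simp only [Set.mem_insert_iff, Set.mem_singleton_iff] at h1
  rcases h1 with h1 | h1 | h1 | h1 | h1 | h1 | h1 <;> rw [h1] <;> norm_num

theorem Sub.of_surj (h : Sub G) {Q : Type*} [Group Q] (f : G →* Q) (hf : Function.Surjective f) :
    Sub Q := fun q => by
  obtain ⟨g, rfl⟩ := hf q
  simp only [← map_pow]
  rcases h g with h | h | h <;> simp [h]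

theorem Sub.of_inj (h : Sub G) {Q : Type*} [Group Q] (f : Q →* G) (hf : Function.Injective f) :
    Sub Q := fun q => by
  simpa only [← map_pow, map_eq_one_iff f hf] using h (f q)

theorem Sub.range (h : Sub G) {x a b : G} (hx : orderOf x = 13) (ha : orderOf a = 8)
    (hb : orderOf b = 6) : Set.range (orderOf : G → ℕ) = ({1, 2, 3, 4, 6, 8, 13} : Set ℕ) := by
  ext n
  simp only [Set.mem_range, Set.mem_insert_iff, Set.mem_singleton_iff]
  constructor
  · rintro ⟨g, rfl⟩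
    have h1 := h g
    simp only [← orderOf_dvd_iff_pow_eq_one] at h1
    generalize orderOf g = n at h1
    rcases h1 with h1 | h1 | h1 <;> have := Nat.le_of_dvd (by norm_num) h1 <;>
      interval_cases n <;> simp_all
  · rintro (rfl | rfl | rfl | rfl | rfl | rfl | rfl)
    · exact ⟨1, orderOf_one⟩
    · exact ⟨a ^ 4, by rw [orderOf_pow' _ (by norm_num), ha]; norm_num⟩
    · exact ⟨b ^ 2, by rw [orderOf_pow' _ (by norm_num), hb]; norm_num⟩
    · exact ⟨a ^ 2, by rw [orderOf_pow' _ (by norm_num), ha]; norm_num⟩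
    · exact ⟨b, hb⟩
    · exact ⟨a, ha⟩
    · exact ⟨x, hx⟩

theorem Sub.pow24 (h : Sub G) {g : G} (hg : g ^ 13 ≠ 1) : g ^ 24 = 1 := by
  rcases h g with h | h | h
  · exact absurd h hg
  · exact pow_mul_one h _
  · exact pow_mul_one h _

theorem Sub.cent13 (h : Sub G) {x g : G} (hx : x ^ 13 = 1) (hx1 : x ≠ 1) (hc : Commute x g) :
    g ^ 13 = 1 := by
  by_contra hg
  have h1 : (x * g) ^ 13 ≠ 1 := by rwa [hc.mul_pow, hx, one_mul]
  have h2 := h.pow24 h1
  rw [hc.mul_pow, h.pow24 hg, mul_one] at h2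
  exact hx1 (one_of hx h2)

theorem Sub.no_four (h : Sub G) {t y : G} (hc : Commute t y) (hy : y ^ 3 = 1) (hy1 : y ≠ 1)
    (ht : t ^ 16 = 1) : t ^ 2 = 1 := by
  rcases h (t * y) with h | h | h
  · have h1 := pow_mul_one h 208
    rw [hc.mul_pow, pow_mul_one ht 208, one_mul] at h1
    exact absurd (one_of hy h1) hy1
  · have h1 := pow_mul_one h 16
    rw [hc.mul_pow, ht, one_mul] at h1
    exact absurd (one_of hy h1) hy1
  · rw [hc.mul_pow, pow_mul_one hy 6, mul_one] at h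
    exact pow_one_of h ht 2

theorem Sub.prime (h : Sub G) [Finite G] {p : ℕ} (hp : p.Prime) (hd : p ∣ Nat.card G) :
    p = 2 ∨ p = 3 ∨ p = 13 := by
  have := Fact.mk hp
  obtain ⟨g, hg⟩ := exists_prime_orderOf_dvd_card' p hd
  have h1 := h g
  simp only [← orderOf_dvd_iff_pow_eq_one, hg] at h1
  rcases h1 with h1 | h1 | h1 <;> have := Nat.le_of_dvd (by norm_num) h1 <;>
      interval_cases p <;> simp_all (config := {decide := true})

theorem pow_ne_one_of_order {g : G} {n k : ℕ} (h : orderOf g = n) (hk : ¬ n ∣ k := by norm_num) :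
    g ^ k ≠ 1 := fun e => hk (h ▸ orderOf_dvd_of_pow_eq_one e)

theorem pow_of_order {g : G} {n : ℕ} (h : orderOf g = n) : g ^ n = 1 := h ▸ pow_orderOf_eq_one g

end Cfsg.Agent.H79.Cr
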