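import Mathlib
import Cfsg.Agent.H79.CrDefs
import Cfsg.Agent.H5.Semiregular
import Cfsg.Agent.H81.Basic

/-! The Frobenius complement of order `48` and its module of dimension `4` over `𝔽₁₃`. -/

set_option autoImplicit false

namespace Cfsg.Agent.H79.Cr

open Subgroup

theorem omega_eq {R : Type*} [Ring R] {I J W e : R} (hI : I * I = -1) (hJ : J * J = -1)
    (hIJ : I * J * (I * J) = -1) (hW : W * W + W + 1 = 0) (hWI : W * I = J * W)
    (he : e = 1 ∨ e = -1) (hU : I * W * (I * W) + e * (I * W) + 1 = 0) :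
    J * I = -(I * J) ∧ W + W = (e + J) * (J + I) := by
  have h1 : J * I = -(I * J) :=
    calc J * I = (I * I) * J * I * (J * J) := by rw [hI, hJ]; noncomm_ring
      _ = I * (I * J * (I * J)) * J := by noncomm_ring
      _ = -(I * J) := by rw [hIJ]; noncomm_ring
  refine ⟨h1, ?_⟩
  have h2 : I * W * (I * W) = I * J * (-W - 1) := by
    rw [show -W - 1 = W * W from by rw [← sub_eq_zero, ← neg_eq_zero, ← hW]; noncomm_ring,
      mul_assoc, ← mul_assoc W, hWI]
    noncomm_ring
  rw [h2] at hU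
  have h3 : I * (I * J * (-W - 1) + e * (I * W) + 1) = 0 := by rw [hU, mul_zero]
  rcases he with rfl | rfl
  · have h4 : (1 - J) * W = J + I := by
      rw [← sub_eq_zero, ← neg_eq_zero, ← h3]
      have : I * (I * J * (-W - 1) + 1 * (I * W) + 1) = I * I * (J * (-W - 1) + W) + I := by
        noncomm_ring
      rw [this, hI]; noncomm_ring
    rw [← h4, ← mul_assoc, show (1 + J) * (1 - J) = 1 - J * J by noncomm_ring, hJ]
    noncomm_ring
  · have h4 : (-1 - J) * W = J + I := by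
      rw [← sub_eq_zero, ← neg_eq_zero, ← h3]
      have : I * (I * J * (-W - 1) + -1 * (I * W) + 1) = I * I * (J * (-W - 1) - W) + I := by
        noncomm_ring
      rw [this, hI]; noncomm_ring
    rw [← h4, ← mul_assoc, show (-1 + J) * (-1 - J) = 1 - J * J by noncomm_ring, hJ]
    noncomm_ring

/-- A `4`-cycle. -/
def c4 : Equiv.Perm (Fin 4) := Equiv.swap 0 3 * Equiv.swap 0 2 * Equiv.swap 0 1
/-- A `3`-cycle. -/
def c3 : Equiv.Perm (Fin 4) := Equiv.swap 0 2 * Equiv.swap 0 1

theorem dim_four {A V : Type*} [Group A] [AddCommGroup V] [Module (ZMod 13) V] [Nontrivial V]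
    (ρ : A →* Module.End (ZMod 13) V) (π : A →* Equiv.Perm (Fin 4)) (hπ : Function.Surjective π)
    {z : A} (hz : orderOf z = 2) (hu : ∀ t : A, orderOf t = 2 → t = z)
    (hk : ∀ g, π g = 1 ↔ g = 1 ∨ g = z) (hρ : ρ z = -1)
    (h3 : ∀ y : A, y ^ 3 = 1 → y ≠ 1 → ρ y * ρ y + ρ y + 1 = 0) :
    ∃ (s w : A) (f : Fin 4 → V), orderOf s = 8 ∧ orderOf (s ^ 4 * w) = 6 ∧ f 0 ≠ 0 ∧
      (∀ v ∈ Submodule.span (ZMod 13) (Set.range f), ρ s v ∈ Submodule.span (ZMod 13) (Set.range f)) ∧
      ∀ v ∈ Submodule.span (ZMod 13) (Set.range f), ρ w v ∈ Submodule.span (ZMod 13) (Set.range f) := by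
  have : Fact (Nat.Prime 2) := ⟨Nat.prime_two⟩
  have : Fact (Nat.Prime 3) := ⟨Nat.prime_three⟩
  have hz2 : z ^ 2 = 1 := pow_of_order hz
  have hzc : ∀ g, Commute z g := fun g => by
    have := hu (g * z * g⁻¹) (by rw [← hz]; exact (MulAut.conj g).orderOf_eq z)
    exact (mul_inv_eq_iff_eq_mul.1 this).symm
  have hsq : ∀ g, π g ≠ 1 → π g * π g = 1 → g * g = z := fun g h1 h2 => by
    rcases (hk (g * g)).1 (by rw [map_mul, h2]) with h | h
    · have := hu g (orderOf_eq_prime (by rw [pow_two, h]) fun e => h1 (by rw [e, map_one]))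
      exact absurd ((hk g).2 (Or.inr this)) h1
    · exact h
  have hsq' : ∀ g, π g ≠ 1 → π g * π g = 1 → ρ g * ρ g = -1 := fun g h1 h2 => by
    rw [← map_mul, hsq g h1 h2, hρ]
  obtain ⟨s, hs⟩ := hπ c4
  obtain ⟨w₀, hw₀⟩ := hπ c3
  obtain ⟨w, hw, hw3⟩ : ∃ w, π w = c3 ∧ w ^ 3 = 1 := ⟨w₀ ^ 4, by rw [map_pow, hw₀]; decide +kernel, by
    rcases (hk (w₀ ^ 3)).1 (by rw [map_pow, hw₀]; decide +kernel) with h | h
    · rw [← pow_mul, mul_comm, pow_mul, h, one_pow]
    · rw [← pow_mul, mul_comm, pow_mul, h, pow_mul_one hz2 4]⟩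
  have hw1 : w ≠ 1 := fun e => by rw [e, map_one] at hw; exact absurd hw (by decide +kernel)
  have hs4 : s ^ 4 = z := by
    rw [← hsq (s * s) (by rw [map_mul, hs]; decide +kernel) (by rw [map_mul, hs]; decide +kernel)]
    simp only [pow_succ, pow_zero, one_mul, mul_assoc]
  have hs8 : orderOf s = 8 := orderOf_eq_prime_pow (p := 2) (n := 2)
    (by rw [show 2 ^ 2 = 4 from rfl, hs4]; exact fun e => by simp [e] at hz)
    (by rw [show 2 ^ (2 + 1) = 4 * 2 from rfl, pow_mul, hs4, hz2])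
  have hw6 : orderOf (s ^ 4 * w) = 6 := by
    rw [hs4, (hzc w).orderOf_mul_eq_mul_orderOf_of_coprime (by
      rw [hz, orderOf_eq_prime hw3 hw1]; norm_num), hz, orderOf_eq_prime hw3 hw1]
  obtain ⟨j, hj⟩ : ∃ j, j = w * (s * s) * w⁻¹ := ⟨_, rfl⟩
  have hπj : π j = c3 * (c4 * c4) * c3⁻¹ := by simp [hj, hs, hw]
  have hI := hsq' (s * s) (by rw [map_mul, hs]; decide +kernel) (by rw [map_mul, hs]; decide +kernel)
  have hJ := hsq' j (by rw [hπj]; decide +kernel) (by rw [hπj]; decide +kernel)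
  have hIJ := hsq' (s * s * j) (by rw [map_mul, map_mul, hs, hπj]; decide +kernel)
    (by rw [map_mul, map_mul, hs, hπj]; decide +kernel)
  have hJS := hsq' (j * s) (by rw [map_mul, hs, hπj]; decide +kernel) (by rw [map_mul, hs, hπj]; decide +kernel)
  have hW := h3 w hw3 hw1
  have hWI : ρ w * ρ (s * s) = ρ j * ρ w := by rw [← map_mul, ← map_mul, hj]; simp
  obtain ⟨e, he, hU⟩ : ∃ e : Module.End (ZMod 13) V, (e = 1 ∨ e = -1) ∧
      ρ (s * s) * ρ w * (ρ (s * s) * ρ w) + e * (ρ (s * s) * ρ w) + 1 = 0 := by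
    have hne : π (s * s * w) ≠ 1 := by rw [map_mul, map_mul, hs, hw]; decide +kernel
    rw [← map_mul]
    rcases (hk ((s * s * w) ^ 3)).1 (by rw [map_pow, map_mul, map_mul, hs, hw]; decide +kernel) with h | h
    · exact ⟨1, Or.inl rfl, by rw [one_mul]; exact h3 _ h fun e => hne (by rw [e, map_one])⟩
    · refine ⟨-1, Or.inr rfl, ?_⟩
      have := h3 (z * (s * s * w)) (by rw [(hzc _).mul_pow, h, ← pow_succ, pow_mul_one hz2 4])
        fun e => hne (by rw [← map_one π, ← e, map_mul π z, (hk z).2 (Or.inr rfl), one_mul])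
      rw [map_mul ρ z, hρ] at this
      rw [← this]
      noncomm_ring
  rw [map_mul ρ (s * s)] at hIJ
  obtain ⟨h1, h2⟩ := omega_eq hI hJ hIJ hW hWI he hU
  rw [map_mul] at hI hJS h1 h2
  generalize ρ j = J at *
  refine ⟨s, w, ?_⟩
  generalize ρ s = S at *
  generalize ρ w = W at *
  have h4 : J * S = -(S * (S * S) * J) := by
    have a : S * J * S = J :=
      calc S * J * S = -(J * J) * S * J * S := by rw [hJ]; noncomm_ring
        _ = -(J * (J * S * (J * S))) := by noncomm_ring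
        _ = J := by rw [hJS]; noncomm_ring
    calc J * S = -(S * S * (S * S)) * J * S := by rw [hI]; noncomm_ring
      _ = -(S * (S * S) * (S * J * S)) := by noncomm_ring
      _ = _ := by rw [a]
  obtain ⟨v, l, hv, hl⟩ : ∃ (v : V) (l : ZMod 13), v ≠ 0 ∧ S (S v) = l • v := by
    obtain ⟨v, hv⟩ := exists_ne (0 : V)
    by_cases h : S (S v) + (5 : ZMod 13) • v = 0
    · exact ⟨v, -5, hv, by rw [neg_smul]; exact eq_neg_of_add_eq_zero_left h⟩
    · refine ⟨_, 5, h, ?_⟩
      have h5 : S (S (S (S v))) = -v := LinearMap.congr_fun hI v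
      rw [map_add, map_add, h5, map_smul, map_smul, smul_add, smul_smul,
        show (5 : ZMod 13) * 5 = -1 by decide, neg_smul, one_smul, add_comm]
  have e1 : J (J v) = -v := LinearMap.congr_fun hJ v
  have e2 : S (S (J v)) = -(l • J v) := by
    have : J (S (S v)) = -S (S (J v)) := LinearMap.congr_fun h1 v
    rw [hl, map_smul] at this
    rw [this, neg_neg]
  have e3 : J (S v) = l • S (J v) := by
    have : J (S v) = -S (S (S (J v))) := LinearMap.congr_fun h4 v
    rw [this, e2, map_neg, map_smul, neg_neg]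
  have e4 : J (S (J v)) = l • S v := by
    have : J (S (J v)) = -S (S (S (J (J v)))) := LinearMap.congr_fun h4 (J v)
    rw [this, e1, map_neg, map_neg, map_neg, neg_neg, hl, map_smul]
  let f : Fin 4 → V := ![v, J v, S v, S (J v)]
  set U := Submodule.span (ZMod 13) (Set.range f)
  have m0 : v ∈ U := Submodule.subset_span ⟨0, rfl⟩
  have m1 : J v ∈ U := Submodule.subset_span ⟨1, rfl⟩
  have m2 : S v ∈ U := Submodule.subset_span ⟨2, rfl⟩
  have m3 : S (J v) ∈ U := Submodule.subset_span ⟨3, rfl⟩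
  have iS : U ≤ U.comap S := Submodule.span_le.2 (by
    rintro _ ⟨i, rfl⟩
    fin_cases i
    · exact m2
    · exact m3
    · change S (S v) ∈ U
      rw [hl]; exact U.smul_mem _ m0
    · change S (S (J v)) ∈ U
      rw [e2]; exact U.neg_mem (U.smul_mem _ m1))
  have iJ : U ≤ U.comap J := Submodule.span_le.2 (by
    rintro _ ⟨i, rfl⟩
    fin_cases i
    · exact m1
    · change J (J v) ∈ U
      rw [e1]; exact U.neg_mem m0
    · change J (S v) ∈ U
      rw [e3]; exact U.smul_mem _ m3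
    · change J (S (J v)) ∈ U
      rw [e4]; exact U.smul_mem _ m2)
  refine ⟨f, hs8, hw6, hv, iS, fun u hu => ?_⟩
  have m4 : J u + S (S u) ∈ U := U.add_mem (iJ hu) (iS (iS hu))
  have m5 : W u + W u ∈ U := by
    have : W u + W u = e (J u + S (S u)) + J (J u + S (S u)) := LinearMap.congr_fun h2 u
    rw [this]
    refine U.add_mem ?_ (iJ m4)
    rcases he with rfl | rfl
    · exact m4
    · exact U.neg_mem m4
  have := U.smul_mem (7 : ZMod 13) m5
  rwa [← two_smul (ZMod 13), smul_smul, show (7 : ZMod 13) * 2 = 1 by decide, one_smul] at this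

end Cfsg.Agent.H79.Cr
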