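import Mathlib
import Cfsg.Agent.H90.HKK

/-! Lie rings with a Frobenius group `13 : 3` of operators whose complement has abelian
fixed points. -/

set_option autoImplicit false

namespace Cfsg.Agent.H79.Cr

open Submodule TensorProduct Cfsg.Agent.H90

/-- The pairs of weights whose bracket vanishes. -/
def Good (i j : ZMod 13) : Prop :=
  i = 0 ∨ j = 0 ∨ i + j = 0 ∨
    (i + j ≠ i + 3 * j ∧ i + j ≠ i + 3 * (3 * j) ∧ i + j ≠ 3 * i + j ∧ i + j ≠ 3 * i + 3 * j ∧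
      i + j ≠ 3 * i + 3 * (3 * j) ∧ i + j ≠ 3 * (3 * i) + j ∧ i + j ≠ 3 * (3 * i) + 3 * j ∧
      i + j ≠ 3 * (3 * i) + 3 * (3 * j))

instance (i j : ZMod 13) : Decidable (Good i j) := by unfold Good; infer_instance

theorem good_cases : ∀ i j l : ZMod 13, Good i j ∨ Good (i + j) l ∨ (Good i l ∧ Good j l) := by
  decide +kernel

section
variable {R M : Type*} [CommRing R] [IsDomain R] [LieRing M] [LieAlgebra R M] {ω : R}
  {Φ Ψ : Module.End R M}

/-- The projector. -/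
noncomputable def proj (ω : R) (Φ : Module.End R M) (e : ZMod 13) : Module.End R M :=
  ∑ k ∈ Finset.range 13, (ω ^ (-e).val • Φ) ^ k

omit [IsDomain R] in
theorem proj_apply (hω : ω ^ 13 = 1) (e f : ZMod 13) {z : M} (hz : z ∈ Φ.eigenspace (ω ^ f.val)) :
    proj ω Φ e z = (∑ k ∈ Finset.range 13, (ω ^ (-e + f).val) ^ k) • z := by
  rw [Module.End.mem_eigenspace_iff] at hz
  have h1 : (ω ^ (-e).val • Φ) z = ω ^ (-e + f).val • z := by
    rw [LinearMap.smul_apply, hz, smul_smul, ← pow_add, ZMod.val_add, ← pow_eq_pow_mod _ hω]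
  have h2 : ∀ k : ℕ, ((ω ^ (-e).val • Φ) ^ k) z = (ω ^ (-e + f).val) ^ k • z := by
    intro k
    induction k with
    | zero => simp
    | succ k ih => rw [pow_succ', Module.End.mul_apply, ih, map_smul, h1, smul_smul, pow_succ]
  rw [proj, LinearMap.sum_apply, Finset.sum_smul]
  exact Finset.sum_congr rfl fun k _ => h2 k

omit [IsDomain R] in
theorem proj_self (hω : ω ^ 13 = 1) (e : ZMod 13) {z : M} (hz : z ∈ Φ.eigenspace (ω ^ e.val)) :
    proj ω Φ e z = 13 • z := by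
  rw [proj_apply hω e e hz, neg_add_cancel, ZMod.val_zero, pow_zero]
  simp only [one_pow, Finset.sum_const, Finset.card_range]
  rw [smul_assoc, one_smul]

theorem proj_ne (hω : IsPrimitiveRoot ω 13) {e f : ZMod 13} (h : e ≠ f) {z : M}
    (hz : z ∈ Φ.eigenspace (ω ^ f.val)) : proj ω Φ e z = 0 := by
  have hp : Nat.Prime 13 := by norm_num
  have h0 : (-e + f).val ≠ 0 := fun h0 => h (by
    rw [ZMod.val_eq_zero] at h0; exact neg_add_eq_zero.1 h0)
  rw [proj_apply hω.pow_eq_one e f hz,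
    (hω.pow_of_coprime _ (Nat.coprime_of_lt_prime h0 (ZMod.val_lt _) hp).symm).geom_sum_eq_zero
      hp.one_lt, zero_smul]

omit [IsDomain R] in
theorem psi_mem (hω : ω ^ 13 = 1) (h : Φ * Ψ = Ψ * Φ ^ 3) {i : ZMod 13} {u : M}
    (hu : u ∈ Φ.eigenspace (ω ^ i.val)) : Ψ u ∈ Φ.eigenspace (ω ^ (3 * i).val) := by
  rw [Module.End.mem_eigenspace_iff] at hu ⊢
  have h1 := LinearMap.congr_fun h u
  have h3 : (3 * i).val = (3 * i.val) % 13 := by rw [ZMod.val_mul]; rfl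
  simp only [pow_succ, pow_zero, one_mul, Module.End.mul_apply, hu, map_smul, smul_smul] at h1
  rw [h1, h3, ← pow_eq_pow_mod _ hω]
  congr 1
  ring

omit [IsDomain R] in
theorem zero_comp (hs : ∑ k ∈ Finset.range 13, Φ ^ k = 0) {x : M}
    (hx : x ∈ Φ.eigenspace (ω ^ (0 : ZMod 13).val)) : 13 • x = 0 := by
  rw [ZMod.val_zero, pow_zero, Module.End.mem_eigenspace_iff, one_smul] at hx
  have h2 := LinearMap.congr_fun hs x
  rw [LinearMap.sum_apply, Finset.sum_congr rfl fun k _ =>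
    Module.End.pow_apply Φ k x ▸ Function.iterate_fixed hx k, Finset.sum_const,
    Finset.card_range] at h2
  exact h2

theorem good_lie (hω : IsPrimitiveRoot ω 13) (hΦ : ∀ x y, Φ ⁅x, y⁆ = ⁅Φ x, Φ y⁆)
    (hs : ∑ k ∈ Finset.range 13, Φ ^ k = 0) (h : Φ * Ψ = Ψ * Φ ^ 3)
    (hN : ∀ u v : M, ⁅u + Ψ u + Ψ (Ψ u), v + Ψ v + Ψ (Ψ v)⁆ = 0) {i j : ZMod 13} (hg : Good i j)
    {u v : M} (hu : u ∈ Φ.eigenspace (ω ^ i.val)) (hv : v ∈ Φ.eigenspace (ω ^ j.val)) :
    13 • ⁅u, v⁆ = 0 := by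
  have hG := isGr_eigenspace (n := 13) hω.pow_eq_one Φ hΦ
  have hb : ∀ {i j : ZMod 13} {u v : M}, u ∈ Φ.eigenspace (ω ^ i.val) →
      v ∈ Φ.eigenspace (ω ^ j.val) → ⁅u, v⁆ ∈ Φ.eigenspace (ω ^ (i + j).val) :=
    fun hu hv => hG _ _ (lie_mem_br hu hv)
  rcases hg with rfl | rfl | h0 | ⟨h1, h2, h3, h4, h5, h6, h7, h8⟩
  · rw [← nsmul_lie, zero_comp hs hu, zero_lie]
  · rw [← lie_nsmul, zero_comp hs hv, lie_zero]
  · exact zero_comp hs (h0 ▸ hb hu hv)
  · have hu1 := psi_mem hω.pow_eq_one h hu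
    have hu2 := psi_mem hω.pow_eq_one h hu1
    have hv1 := psi_mem hω.pow_eq_one h hv
    have hv2 := psi_mem hω.pow_eq_one h hv1
    have e := congrArg (proj ω Φ (i + j)) (hN u v)
    simp only [add_lie, lie_add, map_add, map_zero] at e
    rw [proj_self hω.pow_eq_one _ (hb hu hv), proj_ne hω h1 (hb hu hv1), proj_ne hω h2 (hb hu hv2),
      proj_ne hω h3 (hb hu1 hv), proj_ne hω h4 (hb hu1 hv1), proj_ne hω h5 (hb hu1 hv2),
      proj_ne hω h6 (hb hu2 hv), proj_ne hω h7 (hb hu2 hv1), proj_ne hω h8 (hb hu2 hv2)] at e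
    simpa using e

theorem triple_lie (hω : IsPrimitiveRoot ω 13) (hΦ : ∀ x y, Φ ⁅x, y⁆ = ⁅Φ x, Φ y⁆)
    (h13 : Φ ^ 13 = 1) (hs : ∑ k ∈ Finset.range 13, Φ ^ k = 0) (h : Φ * Ψ = Ψ * Φ ^ 3)
    (hN : ∀ u v : M, ⁅u + Ψ u + Ψ (Ψ u), v + Ψ v + Ψ (Ψ v)⁆ = 0) (u v w : M) :
    13 ^ 4 • ⁅⁅u, v⁆, w⁆ = 0 := by
  have hp : Nat.Prime 13 := by norm_num
  have hG := isGr_eigenspace (n := 13) hω.pow_eq_one Φ hΦ
  have hg := fun (i j : ZMod 13) (hij : Good i j) (u v : M) => good_lie hω hΦ hs h hN hij (u := u) (v := v)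
  have key : ∀ u ∈ ⨆ j : ZMod 13, Φ.eigenspace (ω ^ j.val),
      ∀ v ∈ ⨆ j : ZMod 13, Φ.eigenspace (ω ^ j.val),
      ∀ w ∈ ⨆ j : ZMod 13, Φ.eigenspace (ω ^ j.val), 13 • ⁅⁅u, v⁆, w⁆ = 0 := by
    intro u hu v hv w hw
    induction hu using Submodule.iSup_induction' with
    | zero => simp
    | add u u' _ _ h1 h2 => rw [add_lie, add_lie, smul_add, h1, h2, add_zero]
    | mem i u hu =>
      induction hv using Submodule.iSup_induction' with
      | zero => simp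
      | add v v' _ _ h1 h2 => rw [lie_add, add_lie, smul_add, h1, h2, add_zero]
      | mem j v hv =>
        induction hw using Submodule.iSup_induction' with
        | zero => simp
        | add w w' _ _ h1 h2 => rw [lie_add, smul_add, h1, h2, add_zero]
        | mem l w hw =>
          rcases good_cases i j l with h1 | h1 | ⟨h1, h2⟩
          · rw [← nsmul_lie, hg i j h1 u v hu hv, zero_lie]
          · exact hg _ _ h1 _ _ (hG _ _ (lie_mem_br hu hv)) hw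
          · rw [lie_lie, smul_sub, ← lie_nsmul u ⁅v, w⁆, ← lie_nsmul v ⁅u, w⁆, hg _ _ h1 _ _ hu hw,
              hg _ _ h2 _ _ hv hw, lie_zero, lie_zero, sub_zero]
  have h1 := key _ (smul_mem_iSup_eigenspace hp hω Φ h13 u) _
    (smul_mem_iSup_eigenspace hp hω Φ h13 v) _ (smul_mem_iSup_eigenspace hp hω Φ h13 w)
  rw [lie_nsmul, nsmul_lie, lie_nsmul, nsmul_lie, nsmul_lie, smul_smul, smul_smul, smul_smul] at h1
  exact h1

end

theorem lie_class_two {L : Type*} [LieRing L] (X Y : Module.End ℤ L)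
    (hX : ∀ x y, X ⁅x, y⁆ = ⁅X x, X y⁆) (h13 : X ^ 13 = 1)
    (hs : ∑ k ∈ Finset.range 13, X ^ k = 0) (h : X * Y = Y * X ^ 3)
    (hN : ∀ u v : L, ⁅u + Y u + Y (Y u), v + Y v + Y (Y v)⁆ = 0) (u v w : L) :
    13 ^ 4 • ⁅⁅u, v⁆, w⁆ = 0 := by
  obtain ⟨R, _, _, _, ω, hω⟩ := exists_cyclotomic_ring (n := 13) (by norm_num)
  let Φ : Module.End R (R ⊗[ℤ] L) := Module.End.baseChangeHom ℤ R L X
  let Ψ : Module.End R (R ⊗[ℤ] L) := Module.End.baseChangeHom ℤ R L Y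
  have hΦ : ∀ x y, Φ ⁅x, y⁆ = ⁅Φ x, Φ y⁆ := baseChange_lie X hX
  have hΦp : Φ ^ 13 = 1 := by rw [← map_pow, h13, map_one]
  have hΦm : ∑ k ∈ Finset.range 13, Φ ^ k = 0 := by
    simp only [Φ, ← map_pow, ← map_sum, hs, map_zero]
  have hΦΨ : Φ * Ψ = Ψ * Φ ^ 3 := by rw [← map_pow, ← map_mul, ← map_mul, h]
  have hΨ : ∀ (a : R) (x : L), Ψ (a ⊗ₜ x) = a ⊗ₜ Y x := fun a x => rfl
  have hN' : ∀ u v : R ⊗[ℤ] L, ⁅u + Ψ u + Ψ (Ψ u), v + Ψ v + Ψ (Ψ v)⁆ = 0 := by
    intro u v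
    induction u with
    | zero => simp
    | add x x' h1 h2 =>
      have : x + x' + Ψ (x + x') + Ψ (Ψ (x + x')) =
        (x + Ψ x + Ψ (Ψ x)) + (x' + Ψ x' + Ψ (Ψ x')) := by simp only [map_add]; abel
      rw [this, add_lie, h1, h2, add_zero]
    | tmul a x =>
      induction v with
      | zero => simp
      | add y y' h1 h2 =>
        have : y + y' + Ψ (y + y') + Ψ (Ψ (y + y')) =
          (y + Ψ y + Ψ (Ψ y)) + (y' + Ψ y' + Ψ (Ψ y')) := by simp only [map_add]; abel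
        rw [this]
        exact (LieRing.lie_add _ _ _).trans (by rw [h1, h2, add_zero])
      | tmul b y =>
        rw [hΨ, hΨ, hΨ, hΨ, ← tmul_add, ← tmul_add, ← tmul_add, ← tmul_add,
          LieAlgebra.ExtendScalars.bracket_tmul, hN, tmul_zero]
  have h1 := triple_lie hω hΦ hΦp hΦm hΦΨ hN' (1 ⊗ₜ u) (1 ⊗ₜ v) (1 ⊗ₜ w)
  rw [LieAlgebra.ExtendScalars.bracket_tmul, LieAlgebra.ExtendScalars.bracket_tmul, mul_one, mul_one,
    ← TensorProduct.mk_apply, ← map_nsmul] at h1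
  exact Module.FaithfullyFlat.tensorProduct_mk_injective (A := ℤ) (B := R) L
    (h1.trans (map_zero _).symm)

/-- The averaging identity for a Frobenius group with kernel of order `13`. -/
theorem conj_sum {A : Type*} [Ring A] {X Z : A} (h13 : X ^ 13 = 1)
    (hs : ∑ k ∈ Finset.range 13, X ^ k = 0) {c : ℕ} (hc : c % 13 ≠ 1) (h : X * Z = Z * X ^ c) :
    ∑ k ∈ Finset.range 13, X ^ k * Z * X ^ (12 * k) = 0 := by
  have h1 : ∀ k : ℕ, X ^ k * Z = Z * X ^ (c * k) := by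
    intro k
    induction k with
    | zero => simp
    | succ k ih => rw [pow_succ', mul_assoc, ih, ← mul_assoc, h, mul_assoc, ← pow_add]; congr 2; ring
  have h2 : ∀ k : ℕ, X ^ k * Z * X ^ (12 * k) = Z * X ^ ((((c + 12) % 13) * k) % 13) := by
    intro k
    rw [h1, mul_assoc, ← pow_add, pow_eq_pow_mod _ h13, ← add_mul, Nat.mod_mul_mod]
  simp only [h2, ← Finset.mul_sum]
  have h3 : ∑ k ∈ Finset.range 13, X ^ ((((c + 12) % 13) * k) % 13) =
      ∑ k ∈ Finset.range 13, X ^ k := by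
    have h4 : (c + 12) % 13 ≠ 0 := by omega
    have h5 : (c + 12) % 13 < 13 := Nat.mod_lt _ (by norm_num)
    generalize (c + 12) % 13 = d at h4 h5
    simp only [Finset.sum_range_succ, Finset.sum_range_zero]
    interval_cases d
    · exact absurd rfl h4
    all_goals (norm_num <;> abel)
  rw [h3, hs, mul_zero]

theorem conj_sum_one {A : Type*} [Ring A] {X : A} (h13 : X ^ 13 = 1) :
    ∑ k ∈ Finset.range 13, X ^ k * 1 * X ^ (12 * k) = 13 := by
  have h2 : ∀ k : ℕ, X ^ k * 1 * X ^ (12 * k) = 1 := by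
    intro k
    rw [mul_one, ← pow_add, show k + 12 * k = 13 * k by ring, pow_mul, h13, one_pow]
  rw [Finset.sum_congr rfl fun k _ => h2 k]
  simp

end Cfsg.Agent.H79.Cr
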