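import Mathlib
import Cfsg.Agent.H79.CrLie

/-! `2`-groups with a Frobenius group `13 : 3` or `13 : 6` of operators. -/

set_option autoImplicit false

namespace Cfsg.Agent.H79.Cr

open Subgroup Cfsg.Agent.H90
open scoped commutatorElement

variable {T : Type*} [Group T]

theorem lcs_map (α : MulAut T) {i : ℕ} {x : T} (hx : x ∈ (lcsSeries T).N i) :
    α x ∈ (lcsSeries T).N i := map_mem_lcs (α : T →* T) i x hx

theorem lcs_map' (α : MulAut T) : ∀ i, ∀ x ∈ (lcsSeries T).N i,
    (α : T →* T) x ∈ (lcsSeries T).N i := fun _ _ hx => lcs_map α hx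

/-- The action on the associated Lie ring. -/
noncomputable def mE (T : Type*) [Group T] : MulAut T →* Module.End ℤ (lcsSeries T).Lie where
  toFun α := NSeries.mapEnd (s := lcsSeries T) (α : T →* T) (lcs_map' α)
  map_one' := NSeries.end_ext fun i x hx => by rw [NSeries.mapEnd_cls _ _ hx]; rfl
  map_mul' α β := NSeries.end_ext fun i x hx => by
    rw [Module.End.mul_apply, NSeries.mapEnd_cls _ _ hx, NSeries.mapEnd_cls _ _ hx,
      NSeries.mapEnd_cls _ _ (lcs_map' β i x hx)]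
    rfl

theorem mE_cls (α : MulAut T) {i : ℕ} {x : T} (hx : x ∈ (lcsSeries T).N i) :
    mE T α ((lcsSeries T).cls i x) = (lcsSeries T).cls i (α x) :=
  NSeries.mapEnd_cls _ (lcs_map' α) hx

theorem mE_lie (α : MulAut T) (u v : (lcsSeries T).Lie) :
    mE T α ⁅u, v⁆ = ⁅mE T α u, mE T α v⁆ := NSeries.mapEnd_lie _ (lcs_map' α) u v

theorem mE_sum [Finite T] {α : MulAut T} (hα : α ^ 13 = 1) (hf : ∀ t, α t = t → t = 1) :
    ∑ k ∈ Finset.range 13, mE T α ^ k = 0 := by
  have h1 : Nat.card (fixS (α : T →* T)) = 1 := card_eq_one.2 (eq_bot_iff.2 fun x hx => hf x hx)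
  have := (lcsSeries T).factorial_smul_sum (p := 13) (lcs_map' α)
    (fun x => by rw [iterate_mulAut, hα]; rfl) h1.le
  rw [Nat.factorial_one, one_smul] at this
  exact this

theorem mem_of_pow_mem [Finite T] (h2 : IsPGroup 2 T) {H : Subgroup T} {t : T} {n : ℕ} (hn : Odd n)
    (h : t ^ n ∈ H) : t ∈ H := by
  have : Fact (Nat.Prime 2) := ⟨Nat.prime_two⟩
  obtain ⟨k, hk⟩ := IsPGroup.iff_orderOf.1 h2 t
  have h1 : t ∈ zpowers (t ^ n) := mem_zpowers_pow_iff.2 (by
    rw [hk]; exact (Nat.coprime_two_right.2 hn).pow_right k)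
  exact zpowers_le.2 h h1

theorem exists_fixed [Finite T] (h2 : IsPGroup 2 T) {β : MulAut T} (hβ : β ^ 3 = 1)
    {N : Subgroup T} (hN : ∀ n ∈ N, β n ∈ N) {d : T} (hd : d⁻¹ * β d ∈ N) :
    ∃ c, β c = c ∧ d⁻¹ * c ∈ N := by
  classical
  have : Fact (Nat.Prime 2) := ⟨Nat.prime_two⟩
  have : Fact (Nat.Prime 3) := ⟨Nat.prime_three⟩
  have := Fintype.ofFinite T
  have h1 : ∀ g, d⁻¹ * g ∈ N → d⁻¹ * β g ∈ N := fun g hg => by
    have := N.mul_mem hd (hN _ hg)
    simpa [mul_assoc] using this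
  have h3 : ∀ g, β (β (β g)) = g := fun g => by
    have := MulEquiv.congr_fun hβ g
    simpa [pow_succ] using this
  let σ : Equiv.Perm {g // d⁻¹ * g ∈ N} := Equiv.Perm.subtypePerm β.toEquiv
    fun g => ⟨fun h => by have := h1 _ (h1 _ h); exact h3 g ▸ this, h1 g⟩
  have hσ : σ ^ 3 ^ 1 = 1 := Equiv.ext fun g => Subtype.ext (h3 g.1)
  have hc : Fintype.card {g // d⁻¹ * g ∈ N} = Nat.card N := by
    rw [← Nat.card_eq_fintype_card]
    exact Nat.card_congr (Equiv.subtypeEquiv (Equiv.mulLeft d⁻¹) fun g => Iff.rfl)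
  obtain ⟨k, hk⟩ := IsPGroup.iff_card.1 (h2.to_subgroup N)
  obtain ⟨a, ha⟩ := Equiv.Perm.exists_fixed_point_of_prime (p := 3) (n := 1) (by
    rw [hc, hk]; intro h; exact absurd (Nat.prime_three.dvd_of_dvd_pow h) (by norm_num)) hσ
  exact ⟨a.1, congrArg Subtype.val ha, a.2⟩

theorem exists_rep [Finite T] (h2 : IsPGroup 2 T) {β : MulAut T} (hβ : β ^ 3 = 1) {i : ℕ} {t : T}
    (ht : t ∈ (lcsSeries T).N i) : ∃ c ∈ (lcsSeries T).N i, β c = c ∧
      (lcsSeries T).cls i t + mE T β ((lcsSeries T).cls i t) +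
        mE T β (mE T β ((lcsSeries T).cls i t)) = (lcsSeries T).cls i c := by
  have h3 : β (β (β t)) = t := by
    have := MulEquiv.congr_fun hβ t
    simpa [pow_succ] using this
  have h1 := lcs_map β ht
  have h2' := lcs_map β h1
  have hd : t * β t * β (β t) ∈ (lcsSeries T).N i := mul_mem (mul_mem ht h1) h2'
  obtain ⟨c, hc, hc'⟩ := exists_fixed h2 hβ (N := (lcsSeries T).N (i + 1))
    (fun n hn => lcs_map β hn) (d := t * β t * β (β t)) (by
      rw [← NSeries.cls_eq_zero_iff (mul_mem (inv_mem hd) (lcs_map β hd)),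
        NSeries.cls_mul (inv_mem hd) (lcs_map β hd), NSeries.cls_inv hd, map_mul, map_mul, h3,
        NSeries.cls_mul (mul_mem h1 h2') ht, NSeries.cls_mul h1 h2',
        NSeries.cls_mul (mul_mem ht h1) h2', NSeries.cls_mul ht h1]
      abel)
  have hc2 : c ∈ (lcsSeries T).N i := by
    have := mul_mem hd ((lcsSeries T).succ_le i hc')
    rwa [mul_inv_cancel_left] at this
  refine ⟨c, hc2, hc, ?_⟩
  have h4 := NSeries.cls_eq_zero hc'
  rw [NSeries.cls_mul (inv_mem hd) hc2, NSeries.cls_inv hd, neg_add_eq_zero] at h4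
  rw [mE_cls β ht, mE_cls β h1, ← h4, NSeries.cls_mul (mul_mem ht h1) h2', NSeries.cls_mul ht h1]

theorem ring_comm_sq {A : Type*} [Monoid A] {X Y Z : A} {c d : ℕ} (h : X * Y = Y * X ^ c)
    (h' : X * Z = Z * X ^ d) : X * (Y * Z) = Y * Z * X ^ (d * c) := by
  have h1 : ∀ k : ℕ, X ^ k * Z = Z * X ^ (d * k) := by
    intro k
    induction k with
    | zero => simp
    | succ k ih => rw [pow_succ', mul_assoc, ih, ← mul_assoc, h', mul_assoc, ← pow_add]; congr 2; ring
  rw [← mul_assoc, h, mul_assoc, h1, mul_assoc]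

theorem lcs_eq_bot_of_le [Finite T] (h2 : IsPGroup 2 T) {i : ℕ}
    (h : (lcsSeries T).N i ≤ (lcsSeries T).N (i + 1)) : (lcsSeries T).N i = ⊥ := by
  have : Fact (Nat.Prime 2) := ⟨Nat.prime_two⟩
  have := h2.isNilpotent
  by_contra hne
  exact (H7.commutator_lt_of_nilpotent hne).not_ge h

theorem exp_four [Finite T] (h2 : IsPGroup 2 T) {α β : MulAut T} (hα : α ^ 13 = 1)
    (hf : ∀ t, α t = t → t = 1) (hαβ : α * β = β * α ^ 3) (hβ : β ^ 3 = 1)
    (hc : ∀ c, β c = c → c * c = 1) (t : T) : t ^ 4 = 1 := by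
  set X := mE T α with hXdef
  set Y := mE T β with hYdef
  have hX13 : X ^ 13 = 1 := by rw [← map_pow, hα, map_one]
  have hs : ∑ k ∈ Finset.range 13, X ^ k = 0 := mE_sum hα hf
  have hXY : X * Y = Y * X ^ 3 := by rw [← map_pow, ← map_mul, ← map_mul, hαβ]
  have h1 : 2 * (1 + Y + Y * Y) = 0 := NSeries.end_ext fun i x hx => by
    obtain ⟨c, hc1, hc2, hc3⟩ := exists_rep h2 hβ hx
    rw [two_mul, LinearMap.add_apply, LinearMap.add_apply, LinearMap.add_apply,
      Module.End.mul_apply, Module.End.one_apply, hc3, ← NSeries.cls_mul hc1 hc1, hc c hc2,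
      NSeries.cls_one]
    rfl
  have h3 : (26 : Module.End ℤ (lcsSeries T).Lie) = 0 := by
    have e1 := conj_sum_one hX13
    have e2 := conj_sum hX13 hs (c := 3) (by norm_num) hXY
    have e3 := conj_sum hX13 hs (c := 3 * 3) (by norm_num) (ring_comm_sq hXY hXY)
    have e4 : ∑ k ∈ Finset.range 13, X ^ k * (2 * (1 + Y + Y * Y)) * X ^ (12 * k) = 26 := by
      simp only [two_mul, mul_add, add_mul, Finset.sum_add_distrib, e1, e2, e3]
      norm_num
    rw [← e4, h1]
    simp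
  have h4 : ∀ i, ∀ x ∈ (lcsSeries T).N i, x ^ 2 ∈ (lcsSeries T).N (i + 1) := fun i x hx => by
    refine mem_of_pow_mem h2 (n := 13) (by decide) ?_
    rw [← pow_mul, ← NSeries.cls_eq_zero_iff (pow_mem hx _), NSeries.cls_pow hx]
    have := LinearMap.congr_fun h3 ((lcsSeries T).cls i x)
    exact this
  have hN : ∀ u v : (lcsSeries T).Lie, ⁅u + Y u + Y (Y u), v + Y v + Y (Y v)⁆ = 0 := by
    intro u v
    induction u using NSeries.induction_on with
    | hadd x x' h1 h2 =>
      have : x + x' + Y (x + x') + Y (Y (x + x')) =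
        (x + Y x + Y (Y x)) + (x' + Y x' + Y (Y x')) := by simp only [map_add]; abel
      rw [this, add_lie, h1, h2, add_zero]
    | h i x hx =>
      induction v using NSeries.induction_on with
      | hadd y y' h1 h2 =>
        have : y + y' + Y (y + y') + Y (Y (y + y')) =
          (y + Y y + Y (Y y)) + (y' + Y y' + Y (Y y')) := by simp only [map_add]; abel
        rw [this, lie_add, h1, h2, add_zero]
      | h j y hy =>
        obtain ⟨c, hc1, hc2, hc3⟩ := exists_rep h2 hβ hx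
        obtain ⟨d, hd1, hd2, hd3⟩ := exists_rep h2 hβ hy
        have e1 := hc c hc2
        have e2 := hc d hd2
        have e3 := hc (c * d) (by rw [map_mul, hc2, hd2])
        have e4 : ⁅c, d⁆ = 1 := by
          rw [commutatorElement_def, inv_eq_of_mul_eq_one_right e1, inv_eq_of_mul_eq_one_right e2,
            ← e3]
          group
        rw [hc3, hd3, NSeries.lie_cls hc1 hd1, e4, NSeries.cls_one]
  have h5 := lie_class_two X Y (mE_lie α) hX13 hs hXY hN
  have h6 : brIter (⊤ : Submodule ℤ (lcsSeries T).Lie) ⊤ 2 ≤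
      LinearMap.ker (13 ^ 4 • LinearMap.id : (lcsSeries T).Lie →ₗ[ℤ] (lcsSeries T).Lie) := by
    change br (br ⊤ ⊤) ⊤ ≤ _
    rw [br_comm, br_le]
    intro w _
    have : br (⊤ : Submodule ℤ (lcsSeries T).Lie) ⊤ ≤ (LinearMap.ker (13 ^ 4 • LinearMap.id :
        (lcsSeries T).Lie →ₗ[ℤ] (lcsSeries T).Lie)).comap (LieAlgebra.ad ℤ _ w) :=
      br_le.2 fun u _ v _ => by
        rw [Submodule.mem_comap, LieAlgebra.ad_apply, ← lie_skew]
        exact neg_mem (h5 u v w)
    exact fun x hx => this hx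
  have h7 : (lcsSeries T).N 2 = ⊥ := lcs_eq_bot_of_le h2 fun x hx => by
    refine mem_of_pow_mem h2 (n := 13 ^ 4) (by decide) ?_
    rw [← NSeries.cls_eq_zero_iff (pow_mem hx _), NSeries.cls_pow hx]
    exact h6 (cls_mem_brIter 2 hx)
  have h8 := h4 1 _ (h4 0 t ((lcsSeries T).mem_zero t))
  rw [h7, mem_bot, ← pow_mul] at h8
  exact h8

theorem key_six [Finite T] (h2 : IsPGroup 2 T) {α β δ : MulAut T} (hα : α ^ 13 = 1)
    (hf : ∀ t, α t = t → t = 1) (hαβ : α * β = β * α ^ 3) (hβ : β ^ 3 = 1)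
    (hαδ : α * δ = δ * α ^ 12) (hc : ∀ c, β c = c → c * δ c = 1) (t : T) : t = 1 := by
  set X := mE T α with hXdef
  set Y := mE T β with hYdef
  set W := mE T δ with hWdef
  have hX13 : X ^ 13 = 1 := by rw [← map_pow, hα, map_one]
  have hs : ∑ k ∈ Finset.range 13, X ^ k = 0 := mE_sum hα hf
  have hXY : X * Y = Y * X ^ 3 := by rw [← map_pow, ← map_mul, ← map_mul, hαβ]
  have hXW : X * W = W * X ^ 12 := by rw [← map_pow, ← map_mul, ← map_mul, hαδ]
  have h1 : (1 + W) * (1 + Y + Y * Y) = 0 := NSeries.end_ext fun i x hx => by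
    obtain ⟨c, hc1, hc2, hc3⟩ := exists_rep h2 hβ hx
    rw [Module.End.mul_apply, LinearMap.add_apply (1 + Y), LinearMap.add_apply 1 Y,
      Module.End.mul_apply, Module.End.one_apply, hc3, LinearMap.add_apply, Module.End.one_apply,
      mE_cls δ hc1, ← NSeries.cls_mul hc1 (lcs_map δ hc1), hc c hc2, NSeries.cls_one]
    rfl
  have h3 : (13 : Module.End ℤ (lcsSeries T).Lie) = 0 := by
    have hYY := ring_comm_sq hXY hXY
    have e1 := conj_sum_one hX13
    have e2 := conj_sum hX13 hs (by norm_num) hXY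
    have e3 := conj_sum hX13 hs (by norm_num) hYY
    have e4 := conj_sum hX13 hs (by norm_num) hXW
    have e5 := conj_sum hX13 hs (by norm_num) (ring_comm_sq hXW hXY)
    have e6 := conj_sum hX13 hs (by norm_num) (ring_comm_sq hXW hYY)
    have e7 : ∑ k ∈ Finset.range 13, X ^ k * ((1 + W) * (1 + Y + Y * Y)) * X ^ (12 * k) = 13 := by
      rw [show (1 + W) * (1 + Y + Y * Y) = 1 + Y + Y * Y + W + W * Y + W * (Y * Y) by noncomm_ring]
      simp only [mul_add, add_mul, Finset.sum_add_distrib, e1, e2, e3, e4, e5, e6]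
      norm_num
    rw [← e7, h1]
    simp
  have h7 : (lcsSeries T).N 0 = ⊥ := lcs_eq_bot_of_le h2 fun x hx => by
    refine mem_of_pow_mem h2 (n := 13) (by decide) ?_
    rw [← NSeries.cls_eq_zero_iff (pow_mem hx _), NSeries.cls_pow hx]
    have := LinearMap.congr_fun h3 ((lcsSeries T).cls 0 x)
    exact this
  have := (lcsSeries T).mem_zero t
  rwa [h7, mem_bot] at this

end Cfsg.Agent.H79.Cr
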