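import Mathlib
import Cfsg.Agent.H79.CrDefs
import Cfsg.Agent.H79.CrExp
import Cfsg.Agent.H11.ChiefNil
import Cfsg.Agent.H53.PSolv
import Cfsg.Agent.H24.PSolv
import Cfsg.Agent.H3.Cores
import Cfsg.Agent.H5.Semiregular
import Cfsg.Agent.H81.Basic

/-! Solvable groups with the spectrum of `L₃(3)` have a nontrivial normal `13`-subgroup. -/

set_option autoImplicit false

namespace Cfsg.Agent.H79.Cr

open Subgroup Cfsg

variable {G : Type*} [Group G]

theorem eq_one_of_coprime {N : Subgroup G} {p : ℕ} (hN : (Nat.card N).Coprime p) {n : G}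
    (hn : n ∈ N) (h : n ^ p = 1) : n = 1 :=
  orderOf_eq_one_iff.1 (Nat.eq_one_of_dvd_coprimes hN (N.orderOf_dvd_natCard hn)
    (orderOf_dvd_of_pow_eq_one h))

theorem comm_pow {x h : G} {m : ℕ} (e : x * h = h * x ^ m) (k : ℕ) :
    x * h ^ k = h ^ k * x ^ m ^ k := by
  induction k with
  | zero => simp
  | succ k ih => rw [pow_succ, ring_comm_sq ih e, pow_succ' m]

theorem modEq_of_pow {x h : G} (hx : orderOf x = 13) {m k : ℕ} (e : x * h = h * x ^ m)
    (hk : h ^ k = 1) : m ^ k % 13 = 1 := by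
  have h1 := comm_pow e k
  rw [hk, mul_one, one_mul] at h1
  have h2 : x ^ 1 = x ^ m ^ k := by rwa [pow_one]
  rw [pow_eq_pow_iff_modEq, hx] at h2
  exact h2.symm

theorem pow_eq_of_mod {x : G} (hx : orderOf x = 13) {m k : ℕ} (h : m % 13 = k) : x ^ m = x ^ k := by
  rw [← h, ← hx, pow_mod_orderOf]

theorem Sub.pow13_of (hS : Sub G) {x h : G} (hx : orderOf x = 13) {m : ℕ} (e : x * h = h * x ^ m)
    (hm : m % 13 = 1) : h ^ 13 = 1 := by
  rw [pow_eq_of_mod hx hm, pow_one] at e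
  exact hS.cent13 (pow_of_order hx) (by simpa using pow_ne_one_of_order hx (k := 1)) e

theorem structB [Finite G] (hS : Sub G) (hs : Group.IsSolvable G) (hO : pCore 13 G = ⊥)
    (h13 : 13 ∣ Nat.card G) : pPrimeCore 13 G ≠ ⊥ ∧ ∃ x : G, orderOf x = 13 ∧
      ∀ g : G, ∃ h : G, h⁻¹ * g ∈ pPrimeCore 13 G ∧ ∃ m : ℕ, x * h = h * x ^ m := by
  classical
  have : Fact (Nat.Prime 13) := ⟨by norm_num⟩
  have hps := H24.isPSolvable_of_isSolvable (p := 13) Fact.out G hs
  set N := pPrimeCore 13 G with hNdef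
  have hcop : (Nat.card N).Coprime 13 := H3.pPrimeCore_coprime 13 G
  have hN : N ≠ ⊥ := fun h => by
    have h1 := H53.centralizer_pPrimeCore_le hps hO
    rw [← hNdef, h] at h1
    have h2 : (⊤ : Subgroup G) ≤ ⊥ := fun g _ => h1 (by
      rw [mem_centralizer_iff]; intro n hn; rw [mem_bot.1 hn]; simp)
    have h3 := card_le_of_le h2
    rw [card_bot, card_top] at h3
    have := Nat.le_of_dvd Nat.card_pos h13
    omega
  refine ⟨hN, ?_⟩
  obtain ⟨P⟩ : Nonempty (Sylow 13 G) := inferInstance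
  have hPe : ∀ y ∈ (P : Subgroup G), y ^ 13 = 1 := fun y hy => by
    by_contra h
    obtain ⟨k, hk⟩ := P.isPGroup' ⟨y, hy⟩
    have h1 : y ^ 13 ^ k = 1 := congrArg Subtype.val hk
    have h2 := one_of (hS.pow24 h) h1 (by
      rw [Nat.Coprime.gcd_eq_one (Nat.Coprime.pow_right k (by norm_num))])
    exact h (by rw [h2, one_pow])
  obtain ⟨x, hxP, hx1, hx13⟩ := H81.exists_order_prime_mem P.isPGroup' (P.ne_bot_of_dvd_card h13)
  have hx : orderOf x = 13 := orderOf_eq_prime hx13 hx1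
  have hPx : (P : Subgroup G) = zpowers x := by
    refine le_antisymm (fun y hy => ?_) (zpowers_le.2 hxP)
    by_cases hy1 : y = 1
    · rw [hy1]; exact one_mem _
    have hn : (P : Subgroup G) ≤ normalizer (N : Set G) := le_normalizer_of_normal
    letI := H5.conjAction P N hn
    have : Nontrivial N := (nontrivial_iff_ne_bot N).2 hN
    have hsr : H5.Semireg P N := H5.semireg_conjAction hn fun a ha ha1 => eq_bot_iff.2
      fun n ⟨h1, h2⟩ => eq_one_of_coprime hcop h1 (hS.cent13 (hPe a ha) ha1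
        (mem_centralizer_singleton_iff.1 h2).symm)
    obtain ⟨k, hk⟩ := hsr.mem_zpowers_of_isPGroup P.isPGroup' (x := ⟨y, hy⟩) (y := ⟨x, hxP⟩)
      (by rw [orderOf_mk]; exact orderOf_eq_prime (hPe y hy) hy1) (by rw [orderOf_mk]; exact hx)
    exact ⟨k, congrArg Subtype.val hk⟩
  let π := QuotientGroup.mk' N
  have hπ : Function.Surjective π := QuotientGroup.mk'_surjective N
  have hxN : x ∉ N := fun h => hx1 (eq_one_of_coprime hcop h hx13)
  have hO1 : pCore 13 (G ⧸ N) ≤ zpowers (π x) := by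
    have := H3.pCore_le_sylow (P.mapSurjective hπ)
    rwa [Sylow.coe_mapSurjective, hPx, MonoidHom.map_zpowers] at this
  have hO2 : π x ∈ pCore 13 (G ⧸ N) := by
    refine H53.centralizer_pCore_le (H53.isPSolvable_quotient hps N)
      (H3.pPrimeCore_quotient_pPrimeCore 13 G) ?_
    rw [mem_centralizer_iff]
    intro g hg
    obtain ⟨k, rfl⟩ := hO1 hg
    exact ((Commute.refl (π x)).zpow_left k).eq
  refine ⟨x, hx, fun g => ?_⟩
  have hF := P.normalizer_sup_eq_top' (N := (pCore 13 (G ⧸ N)).comap π) (by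
    rw [hPx, zpowers_le]; exact hO2)
  have hF' : normalizer (P : Set G) ⊔ N = ⊤ := by
    rw [eq_top_iff, ← hF]
    refine sup_le le_sup_left fun m hm => ?_
    obtain ⟨k, hk⟩ := hO1 hm
    have h1 : (x ^ k)⁻¹ * m ∈ N := by
      rw [← QuotientGroup.eq]
      exact (map_zpow π x k).trans hk
    have h2 : x ^ k ∈ normalizer (P : Set G) := le_normalizer (zpow_mem hxP k)
    simpa using mul_mem_sup h2 h1
  have h1 : g ∈ ((normalizer (P : Set G) ⊔ N : Subgroup G) : Set G) := by rw [hF']; trivial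
  rw [mul_normal] at h1
  obtain ⟨h, hh, n, hn, rfl⟩ := h1
  refine ⟨h, by simpa using hn, ?_⟩
  have h2 : h⁻¹ * x * h⁻¹⁻¹ ∈ (P : Subgroup G) :=
    (mem_normalizer_iff.1 (inv_mem hh) x).1 hxP
  rw [hPx, mem_zpowers_iff_mem_range_orderOf] at h2
  obtain ⟨m, -, hm⟩ := Finset.mem_image.1 h2
  exact ⟨m, by rw [hm]; group⟩

section
variable {N : Subgroup G} [hNn : N.Normal] {x : G}

theorem pow_mem_iff {g h : G} (e : h⁻¹ * g ∈ N) (k : ℕ) : g ^ k ∈ N ↔ h ^ k ∈ N := by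
  rw [← QuotientGroup.eq] at e
  rw [← QuotientGroup.eq_one_iff, ← QuotientGroup.eq_one_iff, QuotientGroup.mk_pow,
    QuotientGroup.mk_pow, e]

theorem Sub.eq_one_of_mem (hS : Sub G) (hcop : (Nat.card N).Coprime 13) (hx : orderOf x = 13)
    {h : G} {m : ℕ} (e : x * h = h * x ^ m) (hh : h ∈ N) : h = 1 := by
  have h1 : x⁻¹ * x ^ m ∈ N := by
    have := N.mul_mem (hNn.conj_mem _ (N.inv_mem hh) x⁻¹) hh
    rw [inv_inv, mul_assoc, e] at this
    simpa [mul_assoc] using this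
  have h2 := eq_one_of_coprime hcop h1 (by
    rw [((Commute.refl x).pow_right m).inv_left.mul_pow, inv_pow, ← pow_mul, mul_comm, pow_mul,
      pow_of_order hx]; simp)
  rw [inv_mul_eq_one] at h2
  rw [← h2] at e
  exact eq_one_of_coprime hcop hh
    (hS.cent13 (pow_of_order hx) (by simpa using pow_ne_one_of_order hx (k := 1)) e)

theorem Sub.pow_four (hS : Sub G) (hx : orderOf x = 13) {h : G} {m : ℕ} (e : x * h = h * x ^ m)
    (h8 : h ^ 8 = 1) : h ^ 4 = 1 := by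
  have h1 := modEq_of_pow hx e h8
  have h2 : m ^ 4 % 13 = 1 := by
    rw [Nat.pow_mod] at h1 ⊢
    have := Nat.mod_lt m (show 0 < 13 by norm_num)
    generalize m % 13 = r at *
    interval_cases r <;> simp_all
  exact one_of (hS.pow13_of hx (comm_pow e 4) h2) (by rw [← pow_mul]; exact h8 : (h ^ 4) ^ 2 = 1)

theorem caseB1 [Finite G] (hS : Sub G) (hcop : (Nat.card N).Coprime 13) (hx : orderOf x = 13)
    (hF : ∀ g : G, ∃ h : G, h⁻¹ * g ∈ N ∧ ∃ m : ℕ, x * h = h * x ^ m) {a : G} (ha : orderOf a = 8)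
    (h3 : 3 ∣ Nat.card N) : False := by
  have hx1 : x ≠ 1 := by simpa using pow_ne_one_of_order hx (k := 1)
  have hnil : Group.IsNilpotent N := H90.isNilpotent_of_fixS (p := 13) (by norm_num)
    (α := (MulAut.conjNormal x : MulAut N)) (fun n => by
      rw [H90.iterate_mulAut, ← map_pow, pow_of_order hx, map_one]; rfl) fun n hn => by
      have h1 : x * n * x⁻¹ = n := congrArg Subtype.val hn
      exact Subtype.ext (eq_one_of_coprime hcop n.2 (hS.cent13 (pow_of_order hx) hx1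
        (mul_inv_eq_iff_eq_mul.1 h1)))
  have : Fact (Nat.Prime 3) := ⟨Nat.prime_three⟩
  obtain ⟨z, hz, hz1, k, hk⟩ := H11.exists_mem_center_pow_prime_pow Nat.prime_three h3
  obtain ⟨j, hj1, hj3⟩ := H81.exists_pow_order_prime hk hz1
  let V : G → Prop := fun v => v ∈ N ∧ (∀ n ∈ N, n * v = v * n) ∧ v ^ 3 = 1
  have hv : V ((z ^ j : N) : G) := ⟨(z ^ j).2, fun n hn => congrArg Subtype.val
    (mem_center_iff.1 (pow_mem hz j) ⟨n, hn⟩), congrArg Subtype.val hj3⟩
  have hv1 : ((z ^ j : N) : G) ≠ 1 := fun h => hj1 (Subtype.ext h)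
  generalize ((z ^ j : N) : G) = v at hv hv1
  have hVc : ∀ v g, V v → V (g * v * g⁻¹) := fun v g ⟨h1, h2, h3⟩ =>
    ⟨hNn.conj_mem _ h1 g, fun n hn => by
      have := h2 _ (hNn.conj_mem _ hn g⁻¹)
      calc n * (g * v * g⁻¹) = g * (g⁻¹ * n * g⁻¹⁻¹ * v) * g⁻¹ := by group
        _ = _ := by rw [this]; group, by rw [conj_pow, h3]; group⟩
  obtain ⟨h, hh, m, hm⟩ := hF a
  have h8 : h ^ 8 = 1 := hS.eq_one_of_mem hcop hx (comm_pow hm 8)
    ((pow_mem_iff hh 8).1 (by rw [pow_of_order ha]; exact one_mem _))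
  have h4 := hS.pow_four hx hm h8
  have ha4 : a ^ 4 ∈ N := (pow_mem_iff hh 4).2 (by rw [h4]; exact one_mem _)
  have hinv : ∀ w, V w → a ^ 2 * w * (a ^ 2)⁻¹ = w⁻¹ := fun w hw => by
    have hw' := hVc w (a ^ 2) hw
    have c1 : Commute w (a ^ 2 * w * (a ^ 2)⁻¹) := hw'.2.1 _ hw.1
    have c2 : a ^ 4 * w = w * a ^ 4 := hw.2.1 _ ha4
    by_contra hne
    have c3 : Commute (a ^ 2) (w * (a ^ 2 * w * (a ^ 2)⁻¹)) := by
      change _ = _
      conv_rhs => rw [c1.eq]
      calc a ^ 2 * (w * (a ^ 2 * w * (a ^ 2)⁻¹)) = a ^ 2 * w * (a ^ 2)⁻¹ * (a ^ 4 * w) *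
          (a ^ 2)⁻¹ := by group
        _ = _ := by rw [c2]; group
    have := hS.no_four c3 (by rw [c1.mul_pow, hw.2.2, hw'.2.2, one_mul])
      (fun e => hne (eq_inv_of_mul_eq_one_right e))
      (by rw [← pow_mul]; exact pow_mul_one (pow_of_order ha) _)
    rw [← pow_mul] at this
    exact pow_ne_one_of_order ha (by norm_num) this
  have hh2 : (h ^ 2)⁻¹ * a ^ 2 ∈ N := by
    rw [← QuotientGroup.eq] at hh ⊢
    rw [QuotientGroup.mk_pow, QuotientGroup.mk_pow, hh]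
  have hinv' : ∀ w, V w → h ^ 2 * w * (h ^ 2)⁻¹ = w⁻¹ := fun w hw => by
    rw [← hinv w hw]
    have := hw.2.1 _ hh2
    calc h ^ 2 * w * (h ^ 2)⁻¹ = h ^ 2 * (w * ((h ^ 2)⁻¹ * a ^ 2)) * (a ^ 2)⁻¹ := by group
      _ = _ := by rw [← this]; group
  have e2 := comm_pow hm 2
  have hc : Commute (x⁻¹ * x ^ m ^ 2) v := by
    have e3 : x⁻¹ * x ^ m ^ 2 = x⁻¹ * (h ^ 2)⁻¹ * x * h ^ 2 := by
      rw [mul_assoc _ x, e2]; group
    have e4 := hinv' v hv
    have e5 := hinv' _ (hVc v x hv)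
    rw [e3]
    generalize h ^ 2 = u at e4 e5
    have e6 : u⁻¹ * (x * v * x⁻¹)⁻¹ * u = x * v * x⁻¹ := by rw [← e5]; group
    change _ = _
    calc x⁻¹ * u⁻¹ * x * u * v = x⁻¹ * u⁻¹ * x * (u * v * u⁻¹) * u := by group
      _ = x⁻¹ * (u⁻¹ * (x * v * x⁻¹)⁻¹ * u) * u⁻¹ * x * u := by rw [e4]; group
      _ = _ := by rw [e6]; group
  by_cases hc1 : x⁻¹ * x ^ m ^ 2 = 1
  · rw [inv_mul_eq_one] at hc1
    rw [← hc1] at e2
    have e3 : h ^ 2 = 1 := one_of (hS.cent13 (pow_of_order hx) hx1 e2)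
      (by rw [← pow_mul]; exact h4 : (h ^ 2) ^ 2 = 1)
    have e4 := hinv' v hv
    rw [e3, inv_one, mul_one, one_mul] at e4
    exact hv1 (one_of hv.2.2 (by rw [pow_two]; exact mul_eq_one_iff_eq_inv.2 e4 : v ^ 2 = 1))
  · refine hv1 (one_of hv.2.2 (hS.cent13 ?_ hc1 hc))
    rw [((Commute.refl x).pow_right _).inv_left.mul_pow, inv_pow, ← pow_mul, mul_comm, pow_mul,
      pow_of_order hx]
    simp

theorem caseB2 [Finite G] (hS : Sub G) (hcop : (Nat.card N).Coprime 13) (hx : orderOf x = 13)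
    (hF : ∀ g : G, ∃ h : G, h⁻¹ * g ∈ N ∧ ∃ m : ℕ, x * h = h * x ^ m) {a b : G}
    (ha : orderOf a = 8) (hb : orderOf b = 6) (h3 : ¬ 3 ∣ Nat.card N) (hN : N ≠ ⊥) : False := by
  have hx1 : x ≠ 1 := by simpa using pow_ne_one_of_order hx (k := 1)
  have hcop3 : (Nat.card N).Coprime 3 := ((Nat.Prime.coprime_iff_not_dvd Nat.prime_three).2 h3).symm
  have hN8 : ∀ n ∈ N, n ^ 8 = 1 := fun n hn => by
    rcases hS n with h | h | h
    · rw [eq_one_of_coprime hcop hn h, one_pow]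
    · exact h
    · exact pow_mul_one (eq_one_of_coprime hcop3 (pow_mem hn 2) (by rw [← pow_mul]; exact h)) _
  have h2 : IsPGroup 2 N := fun n => ⟨3, Subtype.ext (hN8 n n.2)⟩
  let φ : G →* MulAut N := MulAut.conjNormal
  have hφ : ∀ (g : G) (n : N), φ g n = n → Commute (n : G) g := fun g n h => by
    have h1 : g * n * g⁻¹ = n := congrArg Subtype.val h
    exact (mul_inv_eq_iff_eq_mul.1 h1).symm
  have hα : φ x ^ 13 = 1 := by rw [← map_pow, pow_of_order hx, map_one]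
  have hf : ∀ t, φ x t = t → t = 1 := fun t ht => Subtype.ext (eq_one_of_coprime hcop t.2
    (hS.cent13 (pow_of_order hx) hx1 (hφ x t ht).symm))
  obtain ⟨y, hy3, hy1, hxy⟩ : ∃ y : G, y ^ 3 = 1 ∧ y ≠ 1 ∧ x * y = y * x ^ 3 := by
    obtain ⟨y, hy, m, hm⟩ := hF (b ^ 2)
    have hb3 : (b ^ 2) ^ 3 = 1 := by rw [← pow_mul]; exact pow_of_order hb
    have y3 : y ^ 3 = 1 := hS.eq_one_of_mem hcop hx (comm_pow hm 3)
      ((pow_mem_iff hy 3).1 (by rw [hb3]; exact one_mem _))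
    have y1 : y ≠ 1 := by
      rintro rfl
      exact pow_ne_one_of_order hb (by norm_num) (eq_one_of_coprime hcop3 (by simpa using hy) hb3)
    have h1 := modEq_of_pow hx hm y3
    have h4 : m % 13 ≠ 1 := fun h => y1 (one_of y3 (hS.pow13_of hx hm h))
    have h5 : m % 13 = 3 ∨ m ^ 2 % 13 = 3 := by
      rw [Nat.pow_mod] at h1 ⊢
      have := Nat.mod_lt m (show 0 < 13 by norm_num)
      generalize m % 13 = r at *
      interval_cases r <;> simp_all
    rcases h5 with h5 | h5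
    · exact ⟨y, y3, y1, by rw [hm, pow_eq_of_mod hx h5]⟩
    · exact ⟨y ^ 2, by rw [← pow_mul]; exact pow_mul_one y3 _, fun h => y1 (one_of h y3),
        by rw [comm_pow hm, pow_eq_of_mod hx h5]⟩
  obtain ⟨h, hh, m, hm⟩ := hF a
  have h8 : h ^ 8 = 1 := hS.eq_one_of_mem hcop hx (comm_pow hm 8)
    ((pow_mem_iff hh 8).1 (by rw [pow_of_order ha]; exact one_mem _))
  have h4 := hS.pow_four hx hm h8
  by_cases h1 : h = 1
  · have haN : a ∈ N := by simpa [h1] using hh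
    have := exp_four h2 (α := φ x) (β := φ y) hα hf
      (by rw [← map_pow, ← map_mul, ← map_mul, hxy]) (by rw [← map_pow, hy3, map_one])
      (fun c hc => Subtype.ext (by
        have := hS.no_four (hφ y c hc) hy3 hy1 (pow_mul_one (hN8 c c.2) _)
        rwa [pow_two] at this)) ⟨a, haN⟩
    exact pow_ne_one_of_order ha (by norm_num) (congrArg Subtype.val this)
  have : Fact (Nat.Prime 2) := ⟨Nat.prime_two⟩
  obtain ⟨j, hj1, hj2⟩ := H81.exists_pow_order_prime (p := 2) (k := 2) h4 h1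
  have hw := comm_pow hm j
  generalize h ^ j = w at hj1 hj2 hw
  generalize m ^ j = l at hw
  have hl : l % 13 = 12 := by
    have h5 := modEq_of_pow hx hw hj2
    have h6 : l % 13 ≠ 1 := fun h => hj1 (one_of hj2 (hS.pow13_of hx hw h))
    rw [Nat.pow_mod] at h5
    have := Nat.mod_lt l (show 0 < 13 by norm_num)
    generalize l % 13 = r at *
    interval_cases r <;> simp_all
  rw [pow_eq_of_mod hx hl] at hw
  have hg := ring_comm_sq hxy hw
  generalize y * w = g at hg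
  have g6 : g ^ 6 = 1 := by
    rcases hS g with h | h | h
    · exact absurd (modEq_of_pow hx hg h) (by norm_num)
    · exact absurd (modEq_of_pow hx hg h) (by norm_num)
    · exact h
  have g4 : g ^ 4 ≠ 1 := fun h => absurd (modEq_of_pow hx hg h) (by norm_num)
  have g12 : (g ^ 4) ^ 3 = 1 := by rw [← pow_mul]; exact pow_mul_one g6 _
  obtain ⟨n, hn, hn1⟩ := (bot_or_exists_ne_one N).resolve_left hN
  refine hn1 (congrArg Subtype.val (key_six h2 (α := φ x) (β := φ (g ^ 4)) (δ := φ (g ^ 3)) hα hf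
    ?_ (by rw [← map_pow, g12, map_one]) ?_ (fun c hc => Subtype.ext ?_) ⟨n, hn⟩))
  · rw [← map_pow _ x, ← map_mul, ← map_mul, comm_pow hg, pow_eq_of_mod hx (k := 3) (by norm_num)]
  · rw [← map_pow _ x, ← map_mul, ← map_mul, comm_pow hg, pow_eq_of_mod hx (k := 12) (by norm_num)]
  · have e1 : ((c * φ (g ^ 3) c : N) : G) = (c * g ^ 3) ^ 2 := by
      change (c : G) * (g ^ 3 * c * (g ^ 3)⁻¹) = _
      rw [inv_eq_of_mul_eq_one_right (by rw [← pow_add]; exact g6 : g ^ 3 * g ^ 3 = 1), pow_two]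
      group
    rw [e1]
    refine hS.no_four ((hφ _ c hc).mul_left ((Commute.refl g).pow_pow 3 4)) g12 g4 ?_
    rw [show 16 = 2 * 8 from rfl, pow_mul, ← e1]
    exact hN8 _ (c * φ (g ^ 3) c).2

end

theorem caseB [Finite G] (hS : Sub G) (hs : Group.IsSolvable G) {x a b : G} (hx : orderOf x = 13)
    (ha : orderOf a = 8) (hb : orderOf b = 6) : pCore 13 G ≠ ⊥ := fun hO => by
  obtain ⟨hN, x, hx, hF⟩ := structB hS hs hO (hx ▸ orderOf_dvd_natCard x)
  by_cases h3 : 3 ∣ Nat.card (pPrimeCore 13 G)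
  · exact caseB1 hS (H3.pPrimeCore_coprime 13 G) hx hF ha h3
  · exact caseB2 hS (H3.pPrimeCore_coprime 13 G) hx hF ha hb h3 hN

end Cfsg.Agent.H79.Cr
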