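import Mathlib
import Cfsg.Agent.H79.CrDefs
import Cfsg.Agent.H5.Semiregular
import Cfsg.Agent.H81.Basic

/-! A Frobenius complement with element orders in `{1, 2, 3, 4, 6, 8}`, `8` and `6` occurring. -/

set_option autoImplicit false

namespace Cfsg.Agent.H79.Cr

open Subgroup

variable {A K : Type*} [Group A] [Finite A] [Group K] [Finite K] [Nontrivial K]
  [MulDistribMulAction A K]

theorem sylow_three (h : H5.Semireg A K) (hA : ∀ g : A, g ^ 8 = 1 ∨ g ^ 6 = 1) (Q : Sylow 3 A)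
    {y : A} (hy : y ∈ (Q : Subgroup A)) (hy1 : y ≠ 1) : y ^ 3 = 1 ∧ (Q : Subgroup A) = zpowers y := by
  have : Fact (Nat.Prime 3) := ⟨Nat.prime_three⟩
  have h3 : ∀ w ∈ (Q : Subgroup A), w ^ 3 = 1 := fun w hw => by
    obtain ⟨k, hk⟩ := Q.isPGroup' ⟨w, hw⟩
    have h1 : w ^ 3 ^ k = 1 := congrArg Subtype.val hk
    rcases hA w with h | h
    · rw [one_of h h1 (by rw [Nat.Coprime.gcd_eq_one (Nat.Coprime.pow_right k (by norm_num))]),
        one_pow]
    · have h2 : (w ^ 3) ^ 2 = 1 := by rw [← pow_mul]; exact h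
      exact one_of h2 (by rw [← pow_mul, mul_comm, pow_mul, h1, one_pow] : (w ^ 3) ^ 3 ^ k = 1)
        (by rw [Nat.Coprime.gcd_eq_one (Nat.Coprime.pow_right k (by norm_num))])
  refine ⟨h3 y hy, le_antisymm (fun w hw => ?_) (zpowers_le.2 hy)⟩
  by_cases hw1 : w = 1
  · rw [hw1]; exact one_mem _
  obtain ⟨k, hk⟩ := (h.subgroup Q).mem_zpowers_of_isPGroup Q.isPGroup' (x := ⟨w, hw⟩)
    (y := ⟨y, hy⟩) (by rw [orderOf_mk]; exact orderOf_eq_prime (h3 w hw) hw1)
    (by rw [orderOf_mk]; exact orderOf_eq_prime (h3 y hy) hy1)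
  exact ⟨k, congrArg Subtype.val hk⟩

theorem card_dvd_48 (h : H5.Semireg A K) (hA : ∀ g : A, g ^ 8 = 1 ∨ g ^ 6 = 1) :
    Nat.card A ∣ 48 := by
  refine (Nat.dvd_iff_prime_pow_dvd_dvd _ _).2 fun p k hp hk => ?_
  have := Fact.mk hp
  obtain ⟨P⟩ : Nonempty (Sylow p A) := inferInstance
  refine (P.pow_dvd_card_of_pow_dvd_card hk).trans ?_
  by_cases hP : (P : Subgroup A) = ⊥
  · rw [hP, card_bot]; exact one_dvd _
  obtain ⟨y, hy, hy1, hyp⟩ := H81.exists_order_prime_mem P.isPGroup' hP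
  have h1 : p ∣ 24 := by
    rw [← orderOf_eq_prime hyp hy1, orderOf_dvd_iff_pow_eq_one]
    rcases hA y with h | h <;> exact pow_mul_one h _
  have h2 : p = 2 ∨ p = 3 := by
    have := Nat.le_of_dvd (by norm_num) h1
    interval_cases p <;> simp_all (config := {decide := true})
  rcases h2 with rfl | rfl
  · have h8 : ∀ w : P, w ^ 8 = 1 := fun w => by
      obtain ⟨k, hk⟩ := P.isPGroup' w
      rcases hA w with h | h
      · exact Subtype.ext h
      · have h2 : (w ^ 2) ^ 3 = 1 := by rw [← pow_mul]; exact Subtype.ext h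
        exact pow_mul_one (one_of h2
          (by rw [← pow_mul, mul_comm, pow_mul, hk, one_pow] : (w ^ 2) ^ 2 ^ k = 1)
          (by rw [Nat.Coprime.gcd_eq_one (Nat.Coprime.pow_right k (by norm_num))])) _
    rcases (h.subgroup P).isCyclic_or_quaternion P.isPGroup' with hc | ⟨-, n, ⟨e⟩⟩
    · obtain ⟨g, hg⟩ := isCyclic_iff_exists_orderOf_eq_natCard.1 hc
      rw [← hg]
      exact (orderOf_dvd_of_pow_eq_one (h8 g)).trans (by norm_num)
    · have h3 := orderOf_dvd_of_pow_eq_one (h8 (e.symm (QuaternionGroup.a 1)))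
      rw [e.symm.orderOf_eq, QuaternionGroup.orderOf_a_one] at h3
      rw [Nat.card_congr e.toEquiv, Nat.card_eq_fintype_card, QuaternionGroup.card]
      obtain ⟨c, hc⟩ := h3
      exact ⟨3 * c, by nlinarith⟩
  · obtain ⟨h3, h4⟩ := sylow_three h hA P hy hy1
    rw [h4, Nat.card_zpowers, orderOf_eq_prime h3 hy1]
    norm_num

theorem struc_compl (h : H5.Semireg A K) (hS : Sub A) (hA : ∀ g : A, g ^ 8 = 1 ∨ g ^ 6 = 1)
    {a b : A} (ha : orderOf a = 8) (hb : orderOf b = 6) :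
    ∃ (π : A →* Equiv.Perm (Fin 4)) (z : A), Function.Surjective π ∧ orderOf z = 2 ∧
      (∀ g, π g = 1 ↔ g = 1 ∨ g = z) ∧ Nat.card A = 48 := by
  classical
  have : Fact (Nat.Prime 2) := ⟨Nat.prime_two⟩
  have : Fact (Nat.Prime 3) := ⟨Nat.prime_three⟩
  have hz : orderOf (a ^ 4) = 2 := by rw [orderOf_pow' _ (by norm_num), ha]; norm_num
  have ha4 : a ^ 4 ≠ 1 := pow_ne_one_of_order ha
  obtain ⟨z, hza⟩ : ∃ z, z = a ^ 4 := ⟨_, rfl⟩
  rw [← hza] at hz
  have hu : ∀ t : A, t ^ 2 = 1 → t = 1 ∨ t = z := fun t ht => by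
    by_cases h1 : t = 1
    · exact Or.inl h1
    · exact Or.inr (h.involution_unique hz (orderOf_eq_prime ht h1))
  have hzc : ∀ g, g * z = z * g := fun g => by
    have := h.involution_unique hz (t := g * z * g⁻¹)
      (by rw [← hz]; exact (MulAut.conj g).orderOf_eq z)
    exact mul_inv_eq_iff_eq_mul.1 this
  have hzn : ∀ Q : Sylow 3 A, z ∈ normalizer (Q : Set A) := fun Q =>
    center_le_normalizer _ (mem_center_iff.2 hzc)
  have d48 := card_dvd_48 h hA
  have d8 : 8 ∣ Nat.card A := ha ▸ orderOf_dvd_natCard a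
  have d6 : 6 ∣ Nat.card A := hb ▸ orderOf_dvd_natCard b
  have d3 : 3 ∣ Nat.card A := by omega
  have hQ : ∀ Q : Sylow 3 A, ∃ y : A, y ≠ 1 ∧ y ^ 3 = 1 ∧ (Q : Subgroup A) = zpowers y := fun Q => by
    obtain ⟨y, hy, hy1⟩ := (bot_or_exists_ne_one (Q : Subgroup A)).resolve_left
      (Q.ne_bot_of_dvd_card d3)
    exact ⟨y, hy1, sylow_three h hA Q hy hy1⟩
  have hmem : ∀ {y w : A}, y ^ 3 = 1 → y ≠ 1 → w ∈ zpowers y → w = 1 ∨ w = y ∨ w = y ^ 2 :=
    fun {y w} h3 h1 hw => by
      rw [mem_zpowers_iff_mem_range_orderOf, orderOf_eq_prime h3 h1] at hw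
      obtain ⟨m, hm, rfl⟩ := Finset.mem_image.1 hw
      have := Finset.mem_range.1 hm
      interval_cases m <;> simp
  obtain ⟨Q⟩ : Nonempty (Sylow 3 A) := inferInstance
  obtain ⟨y, hy1, hy3, hQy⟩ := hQ Q
  have hyQ : y ∈ (Q : Subgroup A) := hQy ▸ mem_zpowers y
  have hn1 : Nat.card (Sylow 3 A) ≠ 1 := fun h1 => by
    have : Subsingleton (Sylow 3 A) := (Nat.card_eq_one_iff_unique.1 h1).1
    have h2 := Q.normal_of_subsingleton.conj_mem y hyQ a
    rw [hQy] at h2
    have h4 : Commute (a ^ 2) y := by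
      rcases hmem hy3 hy1 h2 with h3 | h3 | h3
      · exact absurd (by simpa using h3) hy1
      · exact Commute.pow_left (mul_inv_eq_iff_eq_mul.1 h3) 2
      · have h5 : a * (a * y * a⁻¹) * a⁻¹ = y := by
          rw [h3, ← conj_pow, h3, ← pow_mul, pow_succ, hy3, one_mul]
        change _ = _
        conv_rhs => rw [← h5]
        simp only [pow_two]
        group
    have := hS.no_four h4 hy3 hy1 (by rw [← pow_mul]; exact pow_mul_one (pow_of_order ha) _)
    rw [← pow_mul] at this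
    exact ha4 this
  have hn4 : Nat.card (Sylow 3 A) = 4 := by
    have h1 := card_sylow_modEq_one 3 A
    have h2 := Q.card_eq_index_normalizer
    have h3 := (normalizer (Q : Set A)).card_mul_index
    have h4 := hz ▸ (normalizer (Q : Set A)).orderOf_dvd_natCard (hzn Q)
    have h5 := orderOf_eq_prime hy3 hy1 ▸
      (normalizer (Q : Set A)).orderOf_dvd_natCard (le_normalizer hyQ)
    obtain ⟨c, hc⟩ : 6 ∣ Nat.card (normalizer (Q : Set A)) := by omega
    rw [hc, ← h2] at h3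
    rw [← h3, mul_assoc] at d48
    have h6 : Nat.card (Sylow 3 A) ∣ 8 :=
      (Dvd.intro_left c rfl).trans (Nat.dvd_of_mul_dvd_mul_left (by norm_num : 0 < 6) d48)
    have := Nat.le_of_dvd (by norm_num) h6
    unfold Nat.ModEq at h1
    generalize Nat.card (Sylow 3 A) = n at h1 h6 hn1 this ⊢
    interval_cases n <;> omega
  let e : Sylow 3 A ≃ Fin 4 := Finite.equivFinOfCardEq hn4
  let π : A →* Equiv.Perm (Fin 4) := e.permCongrHom.toMonoidHom.comp (MulAction.toPermHom A _)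
  have hπ : ∀ g, π g = 1 ↔ ∀ Q : Sylow 3 A, g ∈ normalizer (Q : Set A) := fun g => by
    change e.permCongrHom (MulAction.toPermHom A _ g) = 1 ↔ _
    rw [map_eq_one_iff _ e.permCongrHom.injective, Equiv.ext_iff]
    exact forall_congr' fun Q => Sylow.smul_eq_iff_mem_normalizer
  have h3 : ∀ w, π w = 1 → w ^ 3 = 1 → w = 1 := fun w hw hw3 => by
    by_contra hw1
    have h1 : ∀ Q : Sylow 3 A, (Q : Subgroup A) = zpowers w := fun Q => by
      have h2 : IsPGroup 3 (zpowers w) := IsPGroup.of_card (n := 1) (by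
        rw [Nat.card_zpowers, orderOf_eq_prime hw3 hw1, pow_one])
      have h4 := h2.inf_normalizer_sylow Q
      have h5 : w ∈ zpowers w ⊓ normalizer (Q : Set A) := ⟨mem_zpowers w, (hπ w).1 hw Q⟩
      rw [h4] at h5
      exact (sylow_three h hA Q h5.2 hw1).2
    have : Subsingleton (Sylow 3 A) := ⟨fun Q Q' => Sylow.ext ((h1 Q).trans (h1 Q').symm)⟩
    exact hn1 (Nat.card_eq_one_iff_unique.2 ⟨this, ⟨Q⟩⟩)
  have hk : ∀ g, π g = 1 ↔ g = 1 ∨ g = z := fun g => ⟨fun hg => hu g (by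
    rcases hA g with h8 | h6
    · have h1 : g * y * g⁻¹ * y⁻¹ ∈ (Q : Subgroup A) :=
        mul_mem ((mem_normalizer_iff.1 ((hπ g).1 hg Q) y).1 hyQ) (inv_mem hyQ)
      have h2 : g * y * g⁻¹ * y⁻¹ = 1 := by
        by_contra h2
        exact h2 (h3 _ (by simp [hg]) (sylow_three h hA Q h1 h2).1)
      exact hS.no_four (commutatorElement_eq_one_iff_commute.1 h2) hy3 hy1 (pow_mul_one h8 _)
    · exact h3 _ (by rw [map_pow, hg, one_pow]) (by rw [← pow_mul]; exact h6)), by
    rintro (rfl | rfl)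
    · exact map_one _
    · exact (hπ _).2 hzn⟩
  have hker : π.ker = zpowers z := by
    refine le_antisymm (fun g hg => ?_) (zpowers_le.2 ((hk z).2 (Or.inr rfl)))
    rcases (hk g).1 hg with rfl | rfl
    · exact one_mem _
    · exact mem_zpowers _
  have hc : Nat.card A = 2 * Nat.card π.range := by
    rw [← π.ker.card_mul_index, index_ker, hker, Nat.card_zpowers, hz]
  have hc2 := π.range.card_mul_index
  rw [Nat.card_perm, Nat.card_eq_fintype_card (α := Fin 4), Fintype.card_fin] at hc2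
  have h48 : Nat.card A = 48 := by
    have h24 : Nat.card A = 24 ∨ Nat.card A = 48 := by
      have := Nat.le_of_dvd (by norm_num) d48
      have : 0 < Nat.card A := Nat.card_pos
      omega
    refine h24.resolve_left fun h24 => ?_
    have h12 : Nat.card π.range = 12 := by omega
    rw [h12] at hc2
    have h2 := Equiv.Perm.eq_alternatingGroup_of_index_eq_two (G := π.range) (by
      change 12 * _ = 24 at hc2; omega)
    have h4 : π a ∈ alternatingGroup (Fin 4) := h2 ▸ ⟨a, rfl⟩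
    have h5 : ∀ σ : Equiv.Perm (Fin 4), Equiv.Perm.sign σ = 1 → σ ^ 4 = 1 → σ ^ 2 = 1 := by
      decide +kernel
    have h6 := h5 _ h4 (by rw [← map_pow, ← hza]; exact (hk z).2 (Or.inr rfl))
    rw [← map_pow, hk] at h6
    rcases h6 with h6 | h6
    · exact pow_ne_one_of_order ha (by norm_num) h6
    · refine ha4 ?_
      rw [show 4 = 2 * 2 from rfl, pow_mul, h6, pow_of_order hz]
  refine ⟨π, z, ?_, hz, hk, h48⟩
  have h24 : Nat.card π.range = 24 := by omega
  rw [h24] at hc2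
  exact MonoidHom.range_eq_top.1 (index_eq_one.1 (by change 24 * _ = 24 at hc2; omega))

end Cfsg.Agent.H79.Cr
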