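import Mathlib
import Cfsg.Agent.H11.ElDefs

/-! Project EL, piece FA: the order of a group of odd order with a four-group acting on it. -/

set_option autoImplicit false

namespace Cfsg.Agent.H79.ElFa

open Subgroup Cfsg.Agent.H11.EL

universe u

theorem fa : FAStmt.{u} := by
  intro G _ _ A O t y hA S htA t2 y2 hty hyA hy
  obtain ⟨n, hn⟩ := S.odd
  have root : ∀ w ∈ O, (w * w) ^ (n + 1) = w := fun w hw => by
    have : w ^ (2 * n + 1) = 1 := by
      rw [← hn]; exact congrArg Subtype.val (pow_card_eq_one' (G := O) (x := ⟨w, hw⟩))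
    rw [← pow_two, ← pow_mul, show 2 * (n + 1) = 2 * n + 1 + 1 by ring, pow_succ, this, one_mul]
  have sq1 : ∀ a ∈ O, a * a = 1 → a = 1 := fun a ha h => by rw [← root a ha, h, one_pow]
  have yi : ∀ a ∈ A, y * a * y⁻¹ = a⁻¹ := fun a ha => by simpa using hy a ha
  have tc : ∀ a ∈ A, t * a * t⁻¹ = a := fun a ha => by rw [← htA a ha, mul_inv_cancel_right]
  have ac : ∀ a ∈ A, ∀ x ∈ O, a * x = x * a := fun a ha x hx => S.ct hx a ha
  have yy : y⁻¹ = y := inv_eq_of_mul_eq_one_right y2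
  have yO : ∀ x ∈ O, y * x * y⁻¹ ∈ O := fun x hx => (mem_normalizer_iff.1 (S.nm hyA) x).1 hx
  have yt : ∀ x, y * t * x * (y * t)⁻¹ = y * (t * x * t⁻¹) * y⁻¹ := fun x => by group
  have cj2 : ∀ x, y * (y * x * y⁻¹) * y⁻¹ = x := fun x => by
    rw [show y * (y * x * y⁻¹) * y⁻¹ = (y * y) * x * (y * y)⁻¹ by group, y2]; group
  -- `y` inverts the centraliser of `y t`
  have inv2 : ∀ x ∈ O ⊓ C1 (y * t), y * x * y⁻¹ = x⁻¹ := by
    intro x hx
    have h1 : y * (t * x * t⁻¹) * y⁻¹ = x := by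
      rw [← yt, ← mem_centralizer_singleton_iff.1 hx.2, mul_inv_cancel_right]
    have h2 : y * x * y⁻¹ = t * x * t⁻¹ := by
      conv_lhs => rw [← h1]
      exact cj2 _
    have ha := S.inv x hx.1
    set a := t * x * t⁻¹ * x with hadef
    have h3 : t * x * t⁻¹ = a * x⁻¹ := by rw [hadef]; group
    have h4 : a * a = 1 := by
      have h5 : x = a⁻¹ * (a * x⁻¹)⁻¹ := by
        rw [← h3, ← h2, ← yi a ha]
        conv_lhs => rw [← h1, h3]
        group
      have h6 := ac a ha x hx.1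
      have h7 : a * x * a = x := by
        calc a * x * a = a * (a⁻¹ * (a * x⁻¹)⁻¹) * a := by rw [← h5]
          _ = x := by group
      rw [h6, mul_assoc] at h7
      exact mul_eq_left.1 h7
    rw [h2, h3, sq1 a (S.le ha) h4, one_mul]
  have inv3 : ∀ a ∈ A, ∀ x ∈ O ⊓ C1 (y * t), y * (a * x) * y⁻¹ = (a * x)⁻¹ := by
    intro a ha x hx
    rw [show y * (a * x) * y⁻¹ = (y * a * y⁻¹) * (y * x * y⁻¹) by group, yi a ha, inv2 x hx,
      ac a ha x hx.1, mul_inv_rev]
  let f : A × (O ⊓ C1 y : Subgroup G) × (O ⊓ C1 (y * t) : Subgroup G) → O := fun p =>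
    ⟨p.1 * p.2.2 * p.2.1, mul_mem (mul_mem (S.le p.1.2) p.2.2.2.1) p.2.1.2.1⟩
  have hf : Function.Bijective f := by
    constructor
    · rintro ⟨⟨a, ha⟩, ⟨c, hc⟩, ⟨x, hx⟩⟩ ⟨⟨a', ha'⟩, ⟨c', hc'⟩, ⟨x', hx'⟩⟩ h
      have e : a * x * c = a' * x' * c' := congrArg Subtype.val h
      have key : ∀ w c : G, y * w * y⁻¹ = w⁻¹ → c * y = y * c →
          w * c * (y * (w * c) * y⁻¹)⁻¹ = w * w := fun w c h1 h2 => by
        rw [show y * (w * c) * y⁻¹ = (y * w * y⁻¹) * (y * c * y⁻¹) by group, h1, ← h2]; group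
      have e1 : a * x = a' * x' := by
        rw [← root _ (mul_mem (S.le ha) hx.1), ← root _ (mul_mem (S.le ha') hx'.1),
          ← key _ c (inv3 a ha x hx) (mem_centralizer_singleton_iff.1 hc.2),
          ← key _ c' (inv3 a' ha' x' hx') (mem_centralizer_singleton_iff.1 hc'.2), e]
      have hb : a'⁻¹ * a ∈ A := mul_mem (inv_mem ha') ha
      have e2 : a'⁻¹ * a = x' * x⁻¹ := by
        rw [inv_mul_eq_iff_eq_mul, ← mul_assoc, ← e1, mul_inv_cancel_right]
      have e3 : a'⁻¹ * a = 1 := by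
        refine sq1 _ (S.le hb) ?_
        have h1 := mem_centralizer_singleton_iff.1 (mul_mem hx' (inv_mem hx)).2
        rw [← e2] at h1
        have h2 := yt (a'⁻¹ * a)
        rw [← h1, mul_inv_cancel_right, tc _ hb, yi _ hb] at h2
        exact mul_eq_one_iff_eq_inv.2 h2
      obtain rfl : a' = a := inv_mul_eq_one.1 e3
      obtain rfl : x = x' := mul_left_cancel e1
      obtain rfl : c = c' := mul_left_cancel e
      rfl
    · rintro ⟨x, hx⟩
      set v := x * (y * x * y⁻¹)⁻¹ with hv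
      have hvO : v ∈ O := mul_mem hx (inv_mem (yO x hx))
      have hvi : y * v * y⁻¹ = v⁻¹ := by
        rw [hv, show y * (x * (y * x * y⁻¹)⁻¹) * y⁻¹ =
          (y * x * y⁻¹) * (y * (y * x * y⁻¹) * y⁻¹)⁻¹ by group, cj2]; group
      set w := v ^ (n + 1) with hw
      have hwO : w ∈ O := pow_mem hvO _
      have hwi : y * w * y⁻¹ = w⁻¹ := by rw [hw, ← conj_pow, hvi, inv_pow]
      have hww : w * w = v := by rw [hw, ← (Commute.refl v).mul_pow, root v hvO]
      have hc : w⁻¹ * x ∈ O ⊓ C1 y := ⟨O.mul_mem (O.inv_mem hwO) hx, by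
        refine mem_centralizer_singleton_iff.2 (mul_inv_eq_iff_eq_mul.1 ?_).symm
        rw [show y * (w⁻¹ * x) * y⁻¹ = (y * w * y⁻¹)⁻¹ * (y * x * y⁻¹) by group, hwi, inv_inv,
          eq_inv_mul_iff_mul_eq, ← mul_assoc, hww, hv]; group⟩
      have ha := S.inv w hwO
      set a := t * w * t⁻¹ * w with hadef
      have h3 : t * w * t⁻¹ = a * w⁻¹ := by rw [hadef]; group
      set b := a⁻¹ ^ (n + 1) with hb'
      have hbA : b ∈ A := by rw [hb']; exact pow_mem (inv_mem ha) _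
      have hbb : b * b = a⁻¹ := by
        rw [hb', ← (Commute.refl a⁻¹).mul_pow, root _ (S.le (inv_mem ha))]
      have hx2 : b * w ∈ O ⊓ C1 (y * t) := ⟨O.mul_mem (S.le hbA) hwO, by
        refine mem_centralizer_singleton_iff.2 (mul_inv_eq_iff_eq_mul.1 ?_).symm
        rw [yt, show t * (b * w) * t⁻¹ = (t * b * t⁻¹) * (t * w * t⁻¹) by group, tc b hbA, h3,
          show y * (b * (a * w⁻¹)) * y⁻¹ = (y * b * y⁻¹) * (y * a * y⁻¹) * (y * w * y⁻¹)⁻¹ by group,
          yi b hbA, yi a ha, hwi, ← hbb]; group⟩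
      exact ⟨(⟨b⁻¹, inv_mem hbA⟩, ⟨_, hc⟩, ⟨_, hx2⟩), Subtype.ext (by simp [f])⟩
  rw [← Nat.card_eq_of_bijective f hf, Nat.card_prod, Nat.card_prod, hA, mul_assoc]

end Cfsg.Agent.H79.ElFa
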