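import Cfsg.Agent.H50.L81Defs

/-! Project L81: the graded cocycles with values in a simple module. -/

set_option autoImplicit false

namespace Cfsg.Agent.H79.L81Coc

open Module Finset H50.SL2S H50.E83 H50.L81

/-- the binomial coefficient is prime to three -/
def un (n k : ℕ) : Bool := n.descFactorial k / k.factorial % 3 != 0

theorem un_iff (n k : ℕ) : un n k = true ↔ ¬ 3 ∣ n.choose k := by
  simp [un, Nat.choose_eq_descFactorial_div_factorial, Nat.dvd_iff_mod_eq_zero]

theorem un_K (n k : ℕ) : un n k = true ↔ (n.choose k : K) ≠ 0 := by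
  rw [un_iff, Ne, CharP.cast_eq_zero_iff K 3]

/-- the free coordinates -/
def tab (r : ℕ) : List (Fin 4 × ℕ) :=
  ([[], [(0, 0)], [(0, 1)], [(1, 0)], [(0, 3)], [], [(1, 3)], [], [], [(2, 0)], [(0, 9)], [],
    [(1, 9)], [(0, 12)], [(3, 27)], [], [], [], [(2, 9)], [], [], [], [], [], [], [], [], [(3, 0)],
    [(0, 27)], [], [(1, 27)], [(0, 30)], [], [], [], [], [(2, 27)], [(0, 36)], [], [(1, 36)],
    [(0, 39), (0, 79)]] : List (List (Fin 4 × ℕ))).getD (r / 2) []

/-- the coordinates known to vanish -/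
def s0 (r : ℕ) (i : Fin 4) (n : ℕ) : Bool :=
  (r / 2 + 39 * n) % 40 != 3 ^ (i : ℕ) || !un r n || decide ((i, n) ∈ tab r)

/-- the coordinates killed by one equation -/
def s1 (r : ℕ) (i : Fin 4) (n : ℕ) : Bool :=
  s0 r i n || (decide (2 * 3 ^ (i : ℕ) ≤ n) && un (n - 3 ^ (i : ℕ)) (3 ^ (i : ℕ)) && un n (3 ^ (i : ℕ))) ||
    decide (∃ j : Fin 4, 3 ^ (j : ℕ) ≤ n ∧ un n (3 ^ (j : ℕ)) = true ∧
      (un (n - 3 ^ (j : ℕ) + 3 ^ (i : ℕ)) (3 ^ (i : ℕ)) = false ∨
        s0 r j (n - 3 ^ (j : ℕ) + 3 ^ (i : ℕ)) = true))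

theorem cert : ∀ r < 81, r % 2 = 0 → ∀ i : Fin 4, ∀ n < 81, s1 r i n = true := by decide +kernel

theorem len : ∀ r < 81, Even r → (tab r).length ≤ eps r := by
  have h : ∀ r, JJ 3 r = (range (r + 1)).filter fun j => un r j = true := fun r => by
    simp only [JJ, un_iff]
  simp only [eps, EE, h]
  decide +kernel

theorem kill {r : ℕ} (x : Fin 4 → ℕ → K)
    (h1 : ∀ (i j : Fin 4) k, ((k + 3 ^ (i : ℕ)).choose (3 ^ (i : ℕ)) : K) * x j (k + 3 ^ (i : ℕ)) =
      ((k + 3 ^ (j : ℕ)).choose (3 ^ (j : ℕ)) : K) * x i (k + 3 ^ (j : ℕ)))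
    (h2 : ∀ (i : Fin 4) k, ((k + 3 ^ (i : ℕ)).choose (3 ^ (i : ℕ)) : K) *
      (((k + 3 ^ (i : ℕ) + 3 ^ (i : ℕ)).choose (3 ^ (i : ℕ)) : K) * x i (k + 3 ^ (i : ℕ) + 3 ^ (i : ℕ))) = 0)
    (h0 : ∀ i n, s0 r i n = true → x i n = 0) {i : Fin 4} {n : ℕ} (h : s1 r i n = true) :
    x i n = 0 := by
  simp only [s1, Bool.or_eq_true, Bool.and_eq_true, decide_eq_true_eq] at h
  rcases h with (h | ⟨⟨a, b⟩, c⟩) | ⟨j, a, b, c⟩
  · exact h0 _ _ h
  · obtain ⟨k, rfl⟩ : ∃ k, n = k + 3 ^ (i : ℕ) + 3 ^ (i : ℕ) := ⟨n - 2 * 3 ^ (i : ℕ), by omega⟩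
    rw [Nat.add_sub_cancel] at b
    exact (mul_eq_zero.1 ((mul_eq_zero.1 (h2 i k)).resolve_left ((un_K _ _).1 b))).resolve_left
      ((un_K _ _).1 c)
  · obtain ⟨k, rfl⟩ : ∃ k, n = k + 3 ^ (j : ℕ) := ⟨n - 3 ^ (j : ℕ), by omega⟩
    rw [Nat.add_sub_cancel] at c
    refine (mul_eq_zero.1 ((h1 i j k).symm.trans (mul_eq_zero.2 ?_))).resolve_left ((un_K _ _).1 b)
    refine c.imp (fun c => ?_) (h0 _ _)
    by_contra e
    simp [(un_K _ _).2 e] at c

theorem coc (hp : ParStmt) (hm : MonoStmt) (ha : MonaStmt) : CocStmt := fun p r hr he => by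
  obtain ⟨⟨cf, hcf⟩, hs⟩ := hm p
  obtain ⟨hs, -, -⟩ := hs r hr
  have hz : IsPrimitiveRoot (zy p : K) 40 :=
    IsPrimitiveRoot.coe_units_iff.2 (hp.2.2.2 p).2.2.2.2.2.2.1
  have hJ : ∀ j ∈ JJ 3 r, j ≤ r := fun j h => Nat.lt_succ_iff.1 (mem_range.1 (mem_filter.1 h).1)
  have hc : ∀ (c : ℕ → K) n, cf n (∑ j ∈ JJ 3 r, c j • mono p r j) = if n ∈ JJ 3 r then c n else 0 :=
    fun c n => by
      rw [map_sum, sum_congr rfl fun j h => by rw [map_smul, hcf r hr j (hJ j h), smul_ite, smul_zero]]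
      simp
  let T : Submodule K (SL → K) := Submodule.span K (mono p r '' Set.Iic r)
  have hT : ∀ c ≤ 80, ∀ f ∈ T, Aop reg p c f ∈ T ∧
      ∀ k, cf k (Aop reg p c f) = ((k + c).choose c : K) * cf (k + c) f := fun c h f hf => by
    induction hf using Submodule.span_induction with
    | mem f hf =>
      obtain ⟨j, hj, rfl⟩ := hf
      have hj' : j - c ≤ r := (Nat.sub_le _ _).trans hj
      rw [(ha p r hr j hj).2.2.2.1 c h]
      refine ⟨T.smul_mem _ (Submodule.subset_span ⟨_, hj', rfl⟩), fun k => ?_⟩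
      rw [map_smul, hcf r hr _ hj', hcf r hr _ hj, smul_eq_mul]
      by_cases e : k + c = j
      · subst e; simp
      · rw [if_neg e, mul_zero]
        split_ifs with e'
        · rw [Nat.choose_eq_zero_of_lt (by omega)]; simp
        · simp
    | zero => simp
    | add f g _ _ a b =>
      rw [map_add]
      exact ⟨T.add_mem a.1 b.1, fun k => by rw [map_add, map_add, a.2, b.2, mul_add]⟩
    | smul s f _ a =>
      rw [map_smul]
      exact ⟨T.smul_mem _ a.1, fun k => by
        rw [map_smul, map_smul, a.2, smul_eq_mul, smul_eq_mul, mul_left_comm]⟩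
  have hST : ∀ f ∈ SP p r, f ∈ T := fun f hf => by
    obtain ⟨c, rfl⟩ := (hs f).1 hf
    exact T.sum_mem fun j h => T.smul_mem _ (Submodule.subset_span ⟨_, hJ j h, rfl⟩)
  have h80 : ∀ i : Fin 4, 3 ^ (i : ℕ) ≤ 27 := by decide
  let Φ : Zg reg p (SP p r) →ₗ[K] (Fin (tab r).length → K) := LinearMap.pi fun t =>
    (cf ((tab r).get t).2).comp ((LinearMap.proj ((tab r).get t).1).comp (Submodule.subtype _))
  have hΦ : Function.Injective Φ := (injective_iff_map_eq_zero _).2 fun m h0 => by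
    obtain ⟨m, h1, h2, h3⟩ := m
    have hA := fun i j : Fin 4 => hT (3 ^ (i : ℕ)) ((h80 i).trans (by norm_num)) _ (hST _ (h1 j).1)
    have key : ∀ i n, s1 r i n = true → cf n (m i) = 0 := fun i n =>
      kill (fun i n => cf n (m i)) (fun i j k => by rw [← (hA i j).2, ← (hA j i).2, h2])
        (fun i k => by
          rw [← (hA i i).2, ← (hT _ ((h80 i).trans (by norm_num)) _ (hA i i).1).2, h3, map_zero])
        fun i n h => by
          obtain ⟨c, e⟩ := (hs _).1 (h1 i).1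
          simp only [s0, Bool.or_eq_true, bne_iff_ne, decide_eq_true_eq, Bool.not_eq_true'] at h
          rcases h with (h | h) | h
          · have w := Module.End.mem_eigenspace_iff.1 (h1 i).2
            rw [e] at w ⊢
            rw [map_sum, smul_sum, sum_congr rfl fun j hj => by
              rw [map_smul, Module.End.mem_eigenspace_iff.1 ((ha p r hr j (hJ j hj)).2.2.2.2 he),
                smul_smul], sum_congr rfl fun j _ => smul_smul _ (c j) _] at w
            have w' := congrArg (cf n) w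
            rw [hc, hc] at w'
            rw [hc]
            split_ifs at w' ⊢ with hn
            · by_contra c0
              exact h (hz.pow_inj (Nat.mod_lt _ (by norm_num)) ((h80 i).trans_lt (by norm_num))
                (mul_left_cancel₀ c0 (w'.trans (mul_comm _ _))))
            · rfl
          · rw [e, hc, if_neg fun k => by simp [(un_iff _ _).2 (mem_filter.1 k).2] at h]
          · obtain ⟨t, ht⟩ := List.get_of_mem h
            have : cf ((tab r).get t).2 (m ((tab r).get t).1) = 0 := congrFun h0 t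
            rwa [ht] at this
    refine Subtype.ext (funext fun i => ?_)
    obtain ⟨c, e⟩ := (hs _).1 (h1 i).1
    refine e.trans (sum_eq_zero fun j hj => ?_)
    have := key i j (cert r hr (Nat.even_iff.1 he) i j ((hJ j hj).trans_lt hr))
    rw [e, hc, if_pos hj] at this
    rw [this, zero_smul]
  have := LinearMap.finrank_le_finrank_of_injective hΦ
  rw [finrank_fin_fun] at this
  exact this.trans (len r hr he)

end Cfsg.Agent.H79.L81Coc
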