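import Cfsg.Agent.H79.NuRed

/-! The fixed point ratio of a Sylow subgroup of order at least `2 p` that is semiregular on its
support. -/

set_option autoImplicit false

namespace Cfsg.Agent.H79.Nu

open MulAction Subgroup
open scoped Pointwise

universe w

variable {p : ℕ} [hp : Fact p.Prime]

/-- the fixed points of `P` -/
def Fx {G : Type*} [Group G] (P : Subgroup G) (Ω : Type*) [MulAction G Ω] : Set Ω :=
  {ω | P ≤ stabilizer G ω}

/-- every set of at most `j` points can be moved into the fixed points of `P` -/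
def Cov {G : Type*} [Group G] (P : Subgroup G) (Ω : Type*) [MulAction G Ω] (j : ℕ) : Prop :=
  ∀ Y : Finset Ω, Y.card ≤ j → ∃ g : G, ∀ y ∈ Y, g • y ∈ Fx P Ω

section
variable {G : Type*} [Group G] [Finite G]

theorem exists_smul_ge {R L : Subgroup G} (hR : IsPGroup p R) (h : R ≤ L) (P : Sylow p G)
    (hP : (P : Subgroup G) ≤ L) : ∃ g ∈ L, R ≤ (g • P : Sylow p G) := by
  obtain ⟨Q, hQ⟩ := (hR.comap_subtype (K := L)).exists_le_sylow
  obtain ⟨g, hg⟩ := exists_smul_eq L (P.subtype hP) Q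
  refine ⟨g, g.2, fun x hx => ?_⟩
  have := hQ (show (⟨x, h hx⟩ : L) ∈ R.comap L.subtype from hx)
  rw [← hg, Sylow.coe_subgroup_smul, mem_pointwise_smul_iff_inv_smul_mem] at this
  rw [Sylow.coe_subgroup_smul, mem_pointwise_smul_iff_inv_smul_mem]
  exact this

theorem pg_zpowers {x : G} (hx : orderOf x = p) : IsPGroup p (zpowers x) :=
  IsPGroup.of_card (n := 1) (by rw [Nat.card_zpowers, hx, pow_one])

variable {Ω : Type*} [MulAction G Ω]

/-- A cycle of an element of order `p` is fixed by no Sylow subgroup. -/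
theorem not_cov (h : Semi p G Ω) (P : Sylow p G) (hm : ∃ ω, ω ∉ Fx (P : Subgroup G) Ω) :
    ¬ Cov (P : Subgroup G) Ω p := by
  classical
  intro hc
  obtain ⟨ω, hω⟩ := hm
  obtain ⟨x, hx, hx1⟩ : ∃ x ∈ (P : Subgroup G), orderOf x = p := by
    obtain ⟨k, hk⟩ := P.isPGroup'.exists_card_eq
    rcases k with _ | k
    · exact absurd ((card_eq_one.1 hk).le.trans bot_le) hω
    · obtain ⟨x, hx⟩ := exists_prime_orderOf_dvd_card' (G := (P : Subgroup G)) p
        (hk ▸ dvd_pow_self p k.succ_ne_zero)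
      exact ⟨x, x.2, by rw [orderOf_coe, hx]⟩
  have hx2 : x ≠ 1 := fun e => hp.out.one_lt.ne (by rw [← hx1, e, orderOf_one])
  have := Fintype.ofFinite (zpowers x)
  obtain ⟨g, hg⟩ := hc (Finset.univ.image fun c : zpowers x => (c : G) • ω)
    (Finset.card_image_le.trans (by rw [Finset.card_univ, ← Nat.card_eq_fintype_card,
      Nat.card_zpowers, hx1]))
  have h1 : ∀ y ∈ orbit (zpowers x) ω, ((g⁻¹ • P : Sylow p G) : Subgroup G) ≤ stabilizer G y := by
    rintro _ ⟨c, rfl⟩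
    rw [← le_stab_smul _ g, smul_inv_smul]
    exact hg _ (Finset.mem_image_of_mem _ (Finset.mem_univ c))
  obtain ⟨k, hk, h2⟩ := exists_smul_ge (L := stabilizer G (orbit (zpowers x) ω)) (pg_zpowers hx1)
    (fun c hc => smul_orbit (⟨c, hc⟩ : zpowers x) ω) (g⁻¹ • P) fun c hc => by
      rw [mem_stabilizer_iff, ← Set.image_smul]
      exact (Set.image_congr fun y hy => h1 y hy hc).trans (Set.image_id _)
  have h3 : k⁻¹ • ω ∈ orbit (zpowers x) ω := by
    rw [← Set.mem_smul_set_iff_inv_smul_mem, mem_stabilizer_iff.1 hk]; exact mem_orbit_self ω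
  have h4 := (le_stab_smul _ k _).2 (h1 _ h3) (h2 (mem_zpowers x))
  rw [smul_inv_smul] at h4
  exact hω (h P P.isPGroup' x hx hx2 ω h4)

omit hp [Finite G] in
theorem Semi.sub (h : Semi p G Ω) (H : Subgroup G) (β : Ω) : Semi p H (orbit H β) :=
  fun S hS a ha ha1 γ hγ b hb => Subtype.ext (h (S.map H.subtype) (hS.map _) a ⟨a, ha, rfl⟩
    (fun e => ha1 (Subtype.ext e)) γ (congrArg Subtype.val hγ) b ⟨b, hb, rfl⟩)

omit hp in
theorem card_mul_fx [IsPretransitive G Ω] (P : Sylow p G) (α : Ω) :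
    {g : G | ((g⁻¹ • P : Sylow p G) : Subgroup G) ≤ stabilizer G α}.ncard =
      Nat.card (stabilizer G α) * (Fx (P : Subgroup G) Ω).ncard := by
  have := H58.ncard_smul_mem (G := G) α (Fx (P : Subgroup G) Ω)
  rw [orbit_eq_univ, Set.inter_univ] at this
  rw [← this]
  congr 1
  ext g
  rw [Set.mem_ofPred_eq, ← le_stab_smul _ g, smul_inv_smul]
  rfl

end

/-- The inductive claim. -/
def Claim (p n : ℕ) : Prop :=
  ∀ (G Ω : Type w) [Group G] [Finite G] [MulAction G Ω] [Finite Ω] [IsPretransitive G Ω]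
    (P : Sylow p G), Nat.card Ω = n → Semi p G Ω → 2 * p ≤ Nat.card (P : Subgroup G) →
    (∃ ω, ω ∉ Fx (P : Subgroup G) Ω) → ∃ j, Cov (P : Subgroup G) Ω j ∧
      (2 * p - 1) * (Fx (P : Subgroup G) Ω).ncard + 2 * (p * (p - 1)) ≤ (p - 1) * n + p * j

theorem Claim.le {n : ℕ} (hc : Claim.{w} p n) {G Ω : Type w} [Group G] [Finite G] [MulAction G Ω]
    [Finite Ω] [IsPretransitive G Ω] (P : Sylow p G) (hn : Nat.card Ω = n) (h : Semi p G Ω)
    (hq : 2 * p ≤ Nat.card (P : Subgroup G)) (hm : ∃ ω, ω ∉ Fx (P : Subgroup G) Ω) :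
    (2 * p - 1) * (Fx (P : Subgroup G) Ω).ncard + p * (p - 1) ≤ (p - 1) * n := by
  obtain ⟨j, h1, h2⟩ := hc G Ω P hn h hq hm
  have h3 : j ≤ p - 1 := by
    by_contra h3
    exact not_cov h P hm fun Y hY => h1 Y (by omega)
  have := Nat.mul_le_mul_left p h3
  omega

theorem claim (n : ℕ) : Claim.{w} p n := by
  classical
  induction n using Nat.strong_induction_on with
  | _ n ih =>
  intro G Ω _ _ _ _ _ P hn h hq hm
  rcases (Fx (P : Subgroup G) Ω).eq_empty_or_nonempty with h0 | ⟨α, hα⟩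
  · obtain ⟨ω, hω⟩ := hm
    refine ⟨0, fun Y hY => ⟨1, by simp [Finset.card_eq_zero.1 (Nat.le_zero.1 hY)]⟩, ?_⟩
    have h1 := Nat.card_le_card_of_injective (fun x : (P : Subgroup G) => (x : G) • ω)
      fun x y e => by
        by_contra hne
        exact hω (h P P.isPGroup' ((y : G)⁻¹ * x) (mul_mem (inv_mem y.2) x.2)
          (fun e' => hne (Subtype.ext (inv_mul_eq_one.1 e').symm)) ω
          (by rw [mul_smul, inv_smul_eq_iff]; exact e))
    rw [h0, Set.ncard_empty, ← mul_assoc, mul_comm (2 * p)]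
    simpa using Nat.mul_le_mul_left (p - 1) (hq.trans (hn ▸ h1))
  have hcov1 : Cov (P : Subgroup G) Ω 1 := fun Y hY => by
    have : Nonempty Ω := ⟨α⟩
    obtain ⟨y, hy⟩ := Finset.card_le_one_iff_subset_singleton.1 hY
    obtain ⟨g, hg⟩ := exists_smul_eq G y α
    exact ⟨g, fun z hz => by rw [Finset.mem_singleton.1 (hy hz), hg]; exact hα⟩
  set H := stabilizer G α with hH
  let T : Set (Sylow p G) := {Q | (Q : Subgroup G) ≤ H}
  let M := stabilizer G T
  have hHM : H ≤ M := fun g hg => by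
    ext Q
    rw [Set.mem_smul_set_iff_inv_smul_mem]
    change _ ≤ stabilizer G α ↔ _ ≤ stabilizer G α
    rw [← le_stab_smul _ g, smul_inv_smul, mem_stabilizer_iff.1 hg]
  have hMH : ∀ Q : Sylow p G, (Q : Subgroup G) ≤ M ↔ (Q : Subgroup G) ≤ H := fun Q => by
    refine ⟨fun hQ => ?_, fun hQ => hQ.trans hHM⟩
    obtain ⟨g, hg, e⟩ := exists_smul_ge Q.isPGroup' hQ P (le_trans hα hHM)
    exact e.trans (show g • P ∈ T from mem_stabilizer_iff.1 hg ▸ Set.smul_mem_smul_set hα)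
  have hidx : H.index = n := by rw [← hn, index_stabilizer_of_transitive]
  by_cases hk : M ≤ H
  swap
  · -- pass to the quotient
    have e1 := relIndex_mul_index hHM
    have e2 : 2 ≤ H.relIndex M := by
      have h1 : H.relIndex M ≠ 0 := FiniteIndex.index_ne_zero
      have h2 : H.relIndex M ≠ 1 := fun e => hk (relIndex_eq_one.1 e)
      omega
    have e0 : 0 < M.index := Nat.pos_of_ne_zero FiniteIndex.index_ne_zero
    have e3 := card_mul_fx P α
    have e4 := card_mul_fx P ((1 : G) : G ⧸ M)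
    rw [stabilizer_quotient] at e4
    simp only [hMH] at e4
    have e5 : Nat.card H * H.relIndex M = Nat.card M := by
      rw [← Nat.card_congr (subgroupOfEquivOfLe hHM).toEquiv]; exact card_mul_index _
    rw [e4, ← e5, mul_assoc] at e3
    have e6 := Nat.eq_of_mul_eq_mul_left Nat.card_pos e3
    have hst : ∀ (Q : Sylow p G) (g : G), (Q : Subgroup G) ≤ stabilizer G (g : G ⧸ M) ↔
        (Q : Subgroup G) ≤ stabilizer G (g • α) := fun Q g => by
      rw [show (g : G ⧸ M) = g • ((1 : G) : G ⧸ M) by simp, ← smul_inv_smul g Q, le_stab_smul,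
        le_stab_smul, stabilizer_quotient, hMH]
    have hs : Semi p G (G ⧸ M) := by
      intro S hS a ha ha1 γ hγ b hb
      obtain ⟨g, rfl⟩ := QuotientGroup.mk_surjective γ
      obtain ⟨Q, q1, q2⟩ := exists_sylow_le (L := stabilizer G (g : G ⧸ M))
        (hS.to_le (zpowers_le.2 ha)) (zpowers_le.2 hγ) (g • P)
        ((hst _ g).2 ((le_stab_smul P g α).2 hα))
      obtain ⟨S', hS'⟩ := hS.exists_le_sylow
      exact (hst S' g).2 (h S' S'.isPGroup' a (hS' ha) ha1 _
        ((hst Q g).1 q2 (q1 (mem_zpowers a)))) (hS' hb)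
    have e7 := (ih M.index (by nlinarith)).le P rfl hs hq (by
      obtain ⟨ω, hω⟩ := hm
      obtain ⟨g, rfl⟩ := exists_smul_eq G α ω
      exact ⟨g, fun e => hω ((hst P g).1 e)⟩)
    refine ⟨0, fun Y hY => hcov1 Y (by omega), ?_⟩
    rw [← e6, ← hidx, ← e1]
    nlinarith [Nat.mul_le_mul_left (H.relIndex M) e7, Nat.mul_le_mul_right (p * (p - 1)) e2]
  -- the orbits of the point stabilizer
  let P' : Sylow p H := P.subtype hα
  have hq' : 2 * p ≤ Nat.card (P' : Subgroup H) := by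
    rwa [show Nat.card (P' : Subgroup H) = Nat.card (P : Subgroup G) from
      Nat.card_congr (subgroupOfEquivOfLe hα).toEquiv]
  have hfx : ∀ (β : Ω) (γ : orbit H β), γ ∈ Fx (P' : Subgroup H) (orbit H β) ↔
      γ.1 ∈ Fx (P : Subgroup G) Ω := fun β γ =>
    ⟨fun e x hx => congrArg Subtype.val (e (x := ⟨x, hα hx⟩) hx), fun e x hx => Subtype.ext (e hx)⟩
  have hmv : ∀ β ≠ α, ∃ γ, γ ∉ Fx (P' : Subgroup H) (orbit H β) := fun β hβ => by
    by_contra hc
    push Not at hc
    obtain ⟨g, rfl⟩ := exists_smul_eq G α β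
    refine hβ (hk (Set.eq_of_subset_of_ncard_le (fun Q hQ => ?_) (Set.ncard_smul_set g T).le).symm)
    obtain ⟨c, hc', e⟩ := exists_smul_ge Q.isPGroup' hQ P hα
    rw [Set.mem_smul_set_iff_inv_smul_mem]
    change _ ≤ stabilizer G α
    rw [← le_stab_smul _ g, smul_inv_smul]
    refine e.trans ?_
    rw [← smul_inv_smul c (g • α), le_stab_smul]
    exact (hfx _ _).1 (hc ⟨_, ⟨⟨c⁻¹, inv_mem hc'⟩, rfl⟩⟩)
  have hαo : ∀ β ≠ α, α ∉ orbit H β := fun β hβ ⟨c, hc⟩ =>
    hβ ((eq_inv_smul_iff.2 hc).trans (inv_mem c.2))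
  have hlt : ∀ β ≠ α, (orbit H β).ncard < n := fun β hβ => by
    rw [← hn, ← Set.ncard_univ]
    exact Set.ncard_lt_ncard (Set.ssubset_univ_iff.2 fun e => hαo β hβ (e ▸ Set.mem_univ α))
  have hcard : ∀ β, (Fx (P' : Subgroup H) (orbit H β)).ncard =
      (Fx (P : Subgroup G) Ω ∩ orbit H β).ncard := fun β => by
    rw [← Set.ncard_image_of_injective _ Subtype.val_injective]
    congr 1
    ext γ
    exact ⟨by rintro ⟨γ, e, rfl⟩; exact ⟨(hfx β γ).1 e, γ.2⟩,
      fun e => ⟨⟨γ, e.2⟩, (hfx β _).2 e.1, rfl⟩⟩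
  have hle : ∀ β ≠ α, (2 * p - 1) * (Fx (P : Subgroup G) Ω ∩ orbit H β).ncard + p * (p - 1) ≤
      (p - 1) * (orbit H β).ncard := fun β hβ =>
    hcard β ▸ (ih _ (hlt β hβ)).le P' rfl (h.sub H β) hq' (hmv β hβ)
  have hinv : ∀ (k : ℕ) (S : Set Ω), S.ncard = k → α ∉ S → (∀ β ∈ S, orbit H β ⊆ S) →
      S.Nonempty → (2 * p - 1) * (Fx (P : Subgroup G) Ω ∩ S).ncard + p * (p - 1) ≤
        (p - 1) * S.ncard := by
    intro k
    induction k using Nat.strong_induction_on with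
    | _ k ih' =>
    rintro S rfl h1 h2 ⟨β, hβ⟩
    have h3 := hle β (by rintro rfl; exact h1 hβ)
    rcases (S \ orbit H β).eq_empty_or_nonempty with h4 | h4
    · rwa [← (Set.sdiff_eq_empty.1 h4).antisymm (h2 β hβ)] at h3
    have h5 := Set.ncard_sdiff_add_ncard_of_subset (h2 β hβ)
    have h6 : 0 < (orbit H β).ncard := (Set.ncard_pos).2 ⟨β, mem_orbit_self β⟩
    have h7 := ih' _ (by omega) (S \ orbit H β) rfl (fun e => h1 e.1) (fun γ hγ δ hδ =>
      ⟨h2 γ hγ.1 hδ, fun e => hγ.2 (orbit_eq_iff.2 e ▸ mem_orbit_symm.1 hδ)⟩) h4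
    have h8 := Set.ncard_union_le (Fx (P : Subgroup G) Ω ∩ (S \ orbit H β))
      (Fx (P : Subgroup G) Ω ∩ orbit H β)
    rw [← Set.inter_union_distrib_left, Set.sdiff_union_of_subset (h2 β hβ)] at h8
    have := Nat.mul_le_mul_left (2 * p - 1) h8
    rw [← h5]
    nlinarith [Nat.zero_le (p * (p - 1))]
  obtain ⟨β, hβ'⟩ := hm
  have hβ : β ≠ α := by rintro rfl; exact hβ' hα
  set S := (insert α (orbit H β))ᶜ with hS
  have e1 : S.ncard + ((orbit H β).ncard + 1) = n := by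
    rw [← Set.ncard_insert_of_notMem (hαo β hβ), add_comm, Set.ncard_add_ncard_compl, hn]
  have e2 : (Fx (P : Subgroup G) Ω).ncard ≤ (Fx (P : Subgroup G) Ω ∩ S).ncard +
      ((Fx (P : Subgroup G) Ω ∩ orbit H β).ncard + 1) := by
    refine le_trans (Set.ncard_le_ncard (t := (Fx (P : Subgroup G) Ω ∩ S) ∪
      insert α (Fx (P : Subgroup G) Ω ∩ orbit H β)) fun γ hγ => ?_) ((Set.ncard_union_le _ _).trans
      (Nat.add_le_add_left (Set.ncard_insert_le _ _) _))
    by_cases h1 : γ ∈ insert α (orbit H β)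
    · exact Or.inr (h1.imp id fun e => ⟨hγ, e⟩)
    · exact Or.inl ⟨hγ, h1⟩
  have e3 := Nat.mul_le_mul_left (2 * p - 1) e2
  obtain ⟨r, hr⟩ : ∃ r, p = r + 1 := ⟨p - 1, by have := hp.out.pos; omega⟩
  have r1 : p - 1 = r := by omega
  have r2 : 2 * p - 1 = 2 * r + 1 := by omega
  rcases S.eq_empty_or_nonempty with h0 | h0
  · obtain ⟨j, h1, h2⟩ := ih _ (hlt β hβ) H (orbit H β) P' rfl (h.sub H β) hq' (hmv β hβ)
    refine ⟨j + 1, fun Y hY => ?_, ?_⟩
    · rcases Y.eq_empty_or_nonempty with rfl | ⟨y, hy⟩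
      · exact ⟨1, by simp⟩
      obtain ⟨g, hg⟩ := exists_smul_eq G y α
      have h3 : ∀ z : Y.erase y, g • (z : Ω) ∈ orbit H β := fun z => by
        have : g • (z : Ω) ∈ insert α (orbit H β) := by
          rw [Set.compl_empty_iff.1 h0]; trivial
        exact this.resolve_left fun e => (Finset.mem_erase.1 z.2).1
          (smul_left_cancel g (e.trans hg.symm))
      obtain ⟨c, hc⟩ := h1 (Finset.univ.image fun z => (⟨_, h3 z⟩ : orbit H β))
        (Finset.card_image_le.trans (by simp [Finset.card_erase_of_mem hy]; omega))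
      refine ⟨c * g, fun z hz => ?_⟩
      rw [mul_smul]
      by_cases e : z = y
      · rw [e, hg, mem_stabilizer_iff.1 c.2]; exact hα
      · exact (hfx β _).1 (hc _ (Finset.mem_image_of_mem _
          (Finset.mem_univ ⟨z, Finset.mem_erase.2 ⟨e, hz⟩⟩)))
    · rw [hcard] at h2
      rw [h0] at e1 e3
      simp only [Set.inter_empty, Set.ncard_empty, zero_add] at e1 e3
      rw [← e1]
      rw [r1, r2] at *
      nlinarith
  · have h1 := hinv _ S rfl (fun e => e (Set.mem_insert _ _)) (fun γ hγ δ hδ e => hγ (by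
      rcases e with rfl | e
      · by_contra hc
        exact hαo γ (fun e => hc (Or.inl e)) hδ
      · exact Or.inr (orbit_eq_iff.2 e ▸ mem_orbit_symm.1 hδ))) h0
    have h2 := hle β hβ
    refine ⟨1, hcov1, ?_⟩
    rw [← e1]
    rw [r1, r2] at *
    nlinarith

end Cfsg.Agent.H79.Nu
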