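import Cfsg.Agent.H79.NuBig

/-! The semiregular case for odd primes from the bound on the number of Sylow orbits. -/

set_option autoImplicit false

namespace Cfsg.Agent.H79.Nu

open MulAction Subgroup

universe w

/-- The bound on the number of orbits of a Sylow subgroup of order `p`. -/
def OrbStmt (p : ℕ) : Prop :=
  ∀ (G Ω : Type w) [Group G] [Finite G] [MulAction G Ω] [FaithfulSMul G Ω] [Finite Ω]
    [IsPretransitive G Ω] (P : Sylow p G), Nat.card (P : Subgroup G) = p →
    (2 * p - 1) * Nat.card (orbitRel.Quotient (P : Subgroup G) Ω) ≤ p * Nat.card Ω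

theorem arith {p o n f : ℕ} (hp : 2 ≤ p) (h2 : (2 * p - 1) * o ≤ p * n)
    (h3 : n + (p - 1) * f = o * p) : (2 * p - 1) * f ≤ (p - 1) * n := by
  obtain ⟨r, rfl⟩ : ∃ r, p = r + 1 := ⟨p - 1, by omega⟩
  rw [show 2 * (r + 1) - 1 = 2 * r + 1 by omega] at *
  rw [Nat.add_sub_cancel] at *
  refine Nat.le_of_mul_le_mul_left ?_ (show 0 < r by omega)
  have h4 := Nat.mul_le_mul_right (r + 1) h2
  rw [mul_assoc, ← h3] at h4
  nlinarith

variable {p : ℕ} [hp : Fact p.Prime]

theorem semi_of_orb (ho : OrbStmt.{w} p) : SemiStmt.{w} p := by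
  classical
  intro X Γ _ _ _ _ _ h a ha ⟨γ, hγ⟩
  obtain ⟨P, hP⟩ := (pg_zpowers ha).exists_le_sylow
  have haP : a ∈ (P : Subgroup X) := hP (mem_zpowers a)
  have ha1 : a ≠ 1 := by rintro rfl; exact hγ (one_smul _ _)
  have hfx : ∀ x ∈ (P : Subgroup X), x ≠ 1 → fixedBy Γ x = Fx (P : Subgroup X) Γ :=
    fun x hx hx1 => Set.ext fun ω => ⟨fun e => h P P.isPGroup' x hx hx1 ω e, fun e => e hx⟩
  rw [Nat.card_coe_set_eq, hfx a haP ha1]
  by_cases hq : 2 * p ≤ Nat.card (P : Subgroup X)
  · exact le_of_add_le_left ((claim _).le P rfl h hq ⟨γ, fun e => hγ (e haP)⟩)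
  let φ := (toPermHom X Γ).rangeRestrict
  have hφ : Function.Surjective φ := MonoidHom.rangeRestrict_surjective _
  let Q := P.mapSurjective hφ
  have hQ : (Q : Subgroup _) = (P : Subgroup X).map φ := rfl
  have : IsPretransitive (toPermHom X Γ).range Γ := ⟨fun x y => by
    obtain ⟨g, hg⟩ := exists_smul_eq X x y
    exact ⟨φ g, hg⟩⟩
  have h1 : Nat.card (Q : Subgroup (toPermHom X Γ).range) = p := by
    obtain ⟨k, hk⟩ := Q.isPGroup'.exists_card_eq
    have h2 : Nat.card (Q : Subgroup (toPermHom X Γ).range) ≤ Nat.card (P : Subgroup X) :=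
      Nat.le_of_dvd Nat.card_pos (hQ ▸ card_map_dvd _ φ)
    rcases k with _ | _ | k
    · refine absurd ?_ hγ
      have h3 : φ a ∈ (Q : Subgroup (toPermHom X Γ).range) := mem_map_of_mem φ haP
      rw [card_eq_one.1 hk, mem_bot] at h3
      exact (show φ a • γ = γ by rw [h3, one_smul])
    · simpa using hk
    · exfalso
      have h3 := hp.out.two_le
      have h4 : 0 < p ^ k := pow_pos hp.out.pos k
      rw [hk, pow_succ, pow_succ] at h2
      nlinarith [Nat.mul_le_mul_right p h3, Nat.mul_le_mul_right (p * p) h4]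
  have h2 := ho _ Γ Q h1
  have := Fintype.ofFinite (Q : Subgroup (toPermHom X Γ).range)
  have := Fintype.ofFinite (orbitRel.Quotient (Q : Subgroup (toPermHom X Γ).range) Γ)
  have := fun x : (Q : Subgroup (toPermHom X Γ).range) => Fintype.ofFinite (fixedBy Γ x)
  have h3 := sum_card_fixedBy_eq_card_orbits_mul_card_group
    (Q : Subgroup (toPermHom X Γ).range) Γ
  rw [← Finset.add_sum_erase _ _ (Finset.mem_univ 1), Finset.sum_congr rfl
    (g := fun _ => (Fx (P : Subgroup X) Γ).ncard) (fun x hx => by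
      obtain ⟨⟨_, y, hy, rfl⟩, rfl⟩ : ∃ z : (Q : Subgroup (toPermHom X Γ).range), z = x := ⟨x, rfl⟩
      rw [← Nat.card_eq_fintype_card, Nat.card_coe_set_eq, ← hfx y hy fun e =>
        (Finset.mem_erase.1 hx).1 (Subtype.ext (by simp [e]))]
      rfl), Finset.sum_const, Finset.card_erase_of_mem (Finset.mem_univ _), Finset.card_univ,
    smul_eq_mul] at h3
  simp only [← Nat.card_eq_fintype_card, h1, fixedBy_one_eq_univ, Nat.card_univ] at h3
  exact arith hp.out.two_le h2 h3

end Cfsg.Agent.H79.Nu
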