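import Cfsg.Agent.H87.Sylow
import Cfsg.Agent.H58.Conj

/-! Praeger's reduction: Sylow numbers of an overgroup of a Sylow subgroup, reduced to actions in
which the Sylow subgroups are semiregular on their supports. -/

set_option autoImplicit false

namespace Cfsg.Agent.H79.Nu

open MulAction Subgroup

universe w

/-- Every `p`-subgroup is semiregular on its support. -/
def Semi (p : ℕ) (X Γ : Type*) [Group X] [MulAction X Γ] : Prop :=
  ∀ S : Subgroup X, IsPGroup p S → ∀ a ∈ S, a ≠ 1 → ∀ γ : Γ, a • γ = γ → ∀ b ∈ S, b • γ = γ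

/-- The fixed point ratio bound in the semiregular case. -/
def SemiStmt (p : ℕ) : Prop :=
  ∀ (X Γ : Type w) [Group X] [Finite X] [MulAction X Γ] [Finite Γ] [IsPretransitive X Γ],
    Semi p X Γ → ∀ a : X, orderOf a = p → (∃ γ : Γ, a • γ ≠ γ) →
      (2 * p - 1) * Nat.card (fixedBy Γ a) ≤ (p - 1) * Nat.card Γ

variable {G : Type*} [Group G] [Finite G] {p : ℕ} [hp : Fact p.Prime]

/-- A proper subgroup `R` of a `p`-group `Q` is normalized by an element of order `p` mod `R`. -/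
theorem exists_big {R Q : Subgroup G} (hQ : IsPGroup p Q) (h : R ≤ Q) (hne : ¬ Q ≤ R) :
    ∃ a : normalizer (R : Set G), (a : G) ∈ Q ∧
      orderOf (a : _ ⧸ R.subgroupOf (normalizer (R : Set G))) = p := by
  obtain ⟨x, h1, h2, h3⟩ := H87.exists_mem_normalizer_not_mem hQ h hne
  set y : _ ⧸ R.subgroupOf (normalizer (R : Set G)) :=
    QuotientGroup.mk (⟨x, h3⟩ : normalizer (R : Set G)) with hy
  obtain ⟨k, hk⟩ := hQ ⟨x, h1⟩
  have h4 : y ^ p ^ k = 1 := by
    rw [hy, ← QuotientGroup.mk_pow, show (⟨x, h3⟩ : normalizer (R : Set G)) ^ p ^ k = 1 from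
      Subtype.ext (show x ^ p ^ k = 1 from congrArg Subtype.val hk), QuotientGroup.mk_one]
  obtain ⟨j, -, hj⟩ := (Nat.dvd_prime_pow hp.out).1 (orderOf_dvd_of_pow_eq_one h4)
  have h5 : p ∣ orderOf y := by
    rcases j with _ | j
    · exact absurd ((QuotientGroup.eq_one_iff _).1 (orderOf_eq_one_iff.1 hj)) h2
    · exact hj ▸ dvd_pow_self p j.succ_ne_zero
  exact ⟨⟨x, h3⟩ ^ (orderOf y / p), pow_mem h1 _, by
    rw [QuotientGroup.mk_pow]; exact orderOf_pow_orderOf_div (orderOf_pos y).ne' h5⟩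

/-- A `p`-subgroup of a subgroup containing a Sylow subgroup lies in a Sylow subgroup inside it. -/
theorem exists_sylow_le {R L : Subgroup G} (hR : IsPGroup p R) (h : R ≤ L) (P : Sylow p G)
    (hP : (P : Subgroup G) ≤ L) : ∃ Q : Sylow p G, R ≤ Q ∧ (Q : Subgroup G) ≤ L := by
  obtain ⟨Q, hQ⟩ := (hR.comap_subtype (K := L)).exists_le_sylow
  obtain ⟨g, hg⟩ := exists_smul_eq L (P.subtype hP) Q
  refine ⟨(g : G) • P, fun x hx => ?_, fun x hx => ?_⟩
  · have := hQ (show (⟨x, h hx⟩ : L) ∈ R.comap L.subtype from hx)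
    rw [← hg, Sylow.coe_subgroup_smul, mem_pointwise_smul_iff_inv_smul_mem] at this
    rw [Sylow.coe_subgroup_smul, mem_pointwise_smul_iff_inv_smul_mem]
    exact this
  · rw [Sylow.coe_subgroup_smul, mem_pointwise_smul_iff_inv_smul_mem] at hx
    have := mul_mem (mul_mem g.2 (hP hx)) (inv_mem g.2)
    simpa [mul_assoc] using this

omit [Finite G] hp in
theorem le_stab_smul {Ω : Type*} [MulAction G Ω] (Q : Sylow p G) (g : G) (ω : Ω) :
    ((g • Q : Sylow p G) : Subgroup G) ≤ stabilizer G (g • ω) ↔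
      (Q : Subgroup G) ≤ stabilizer G ω := by
  rw [stabilizer_smul_eq_stabilizer_map_conj]
  exact map_le_map_iff_of_injective (MulAut.conj g).injective

omit [Finite G] hp in
theorem ncard_le_stab {Ω : Type*} [MulAction G Ω] [IsPretransitive G Ω] (α β : Ω) :
    {Q : Sylow p G | (Q : Subgroup G) ≤ stabilizer G β}.ncard =
      {Q : Sylow p G | (Q : Subgroup G) ≤ stabilizer G α}.ncard := by
  obtain ⟨g, rfl⟩ := exists_smul_eq G α β
  rw [← Set.ncard_preimage_of_injective_subset_range (MulAction.injective g)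
    (by rw [(MulAction.surjective g).range_eq]; exact Set.subset_univ _)]
  simp only [Set.preimage_ofPred_eq, le_stab_smul]

theorem red {G : Type w} [Group G] [Finite G] {Ω : Type w} [MulAction G Ω] [Finite Ω]
    [IsPretransitive G Ω] (hs : SemiStmt.{w} p) (α : Ω) (P : Sylow p G)
    (hm : ∃ β : Ω, ¬ (P : Subgroup G) ≤ stabilizer G β) :
    (2 * p - 1) * {Q : Sylow p G | (Q : Subgroup G) ≤ stabilizer G α}.ncard ≤
      (p - 1) * Nat.card (Sylow p G) := by
  classical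
  obtain ⟨⟨Q, β⟩, hQ, hmax⟩ := Set.exists_max_image
    {x : Sylow p G × Ω | ¬ (x.1 : Subgroup G) ≤ stabilizer G x.2}
    (fun x => Nat.card ↥((x.1 : Subgroup G) ⊓ stabilizer G x.2)) (Set.toFinite _)
    (hm.elim fun β h => ⟨(P, β), h⟩)
  simp only [Set.mem_ofPred_eq] at hQ hmax
  set R := (Q : Subgroup G) ⊓ stabilizer G β with hR
  have hRp : IsPGroup p R := Q.isPGroup'.to_inf_left
  set N := normalizer (R : Set G)
  set K := R.subgroupOf N
  let β' : fixedPoints K Ω := ⟨β, fun k => k.2.2⟩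
  let Γ := orbit (N ⧸ K) β'
  have hne : ∀ a : N, orderOf (a : N ⧸ K) = p → (a : N ⧸ K) ≠ 1 := fun a ha e =>
    hp.out.one_lt.ne (by rw [← ha, e, orderOf_one])
  have hfix : ∀ (a : N) (γ : Γ), (a : N ⧸ K) • γ = γ ↔ (a : G) • γ.1.1 = γ.1.1 := fun a γ => by
    rw [Subtype.ext_iff, Subtype.ext_iff]; rfl
  have hRγ : ∀ γ : Γ, R ≤ stabilizer G γ.1.1 := fun γ x hx => γ.1.2 ⟨⟨x, le_normalizer hx⟩, hx⟩
  have hsemi : Semi p (N ⧸ K) Γ := by
    intro S hS a ha ha1 γ hγ b hb
    obtain ⟨a, rfl⟩ := QuotientGroup.mk_surjective a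
    obtain ⟨b, rfl⟩ := QuotientGroup.mk_surjective b
    have h1 : IsPGroup p ((S.comap (QuotientGroup.mk' K)).map N.subtype) :=
      (hS.comap_of_ker_isPGroup _ (by rw [QuotientGroup.ker_mk']; exact hRp.comap_subtype)).map _
    obtain ⟨T, hT⟩ := h1.exists_le_sylow
    by_contra hb'
    have h2 := hmax (T, γ.1.1) fun h => hb' ((hfix b γ).2 (h (hT ⟨b, hb, rfl⟩)))
    have h3 : R ≤ (T : Subgroup G) ⊓ stabilizer G γ.1.1 := le_inf (fun x hx => hT
      ⟨⟨x, le_normalizer hx⟩, by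
        change ((⟨x, _⟩ : N) : N ⧸ K) ∈ S
        rw [(QuotientGroup.eq_one_iff _).2 (show _ ∈ K from hx)]; exact one_mem _, rfl⟩) (hRγ γ)
    have h4 := eq_of_le_of_card_ge h3 h2
    exact ha1 ((QuotientGroup.eq_one_iff _).2
      (show (a : G) ∈ R from h4 ▸ ⟨hT ⟨a, ha, rfl⟩, (hfix a γ).1 hγ⟩))
  obtain ⟨u, hu1, hu2⟩ := exists_big (R := R) Q.isPGroup' inf_le_left fun h => hQ (h.trans inf_le_right)
  have hu3 : (u : N ⧸ K) • (⟨β', mem_orbit_self _⟩ : Γ) ≠ ⟨β', mem_orbit_self _⟩ := fun h =>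
    hne u hu2 ((QuotientGroup.eq_one_iff _).2 (show (u : G) ∈ R from ⟨hu1, (hfix _ _).1 h⟩))
  have hall : ∀ a : N ⧸ K, orderOf a = p → ∃ γ : Γ, a • γ ≠ γ := by
    intro a ha
    by_contra h
    push Not at h
    have h1 : ∀ c : N ⧸ K, orderOf c = p → IsPGroup p (zpowers c) := fun c hc =>
      IsPGroup.of_card (n := 1) (by rw [Nat.card_zpowers, hc, pow_one])
    obtain ⟨S, hS⟩ := (h1 a ha).exists_le_sylow
    obtain ⟨T, hT⟩ := (h1 _ hu2).exists_le_sylow
    obtain ⟨g, rfl⟩ := exists_smul_eq (N ⧸ K) S T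
    refine hu3 (mem_stabilizer_iff.1 (hT.trans ?_ (mem_zpowers _)))
    rw [← smul_inv_smul g (⟨β', mem_orbit_self _⟩ : Γ), le_stab_smul]
    exact fun b hb => hsemi S S.isPGroup' a (hS (mem_zpowers a))
      (fun e => hp.out.one_lt.ne (by rw [← ha, e, orderOf_one])) _ (h _) b hb
  have hcardR : ∀ T : Sylow p G, ¬ (T : Subgroup G) ≤ R := fun T h =>
    hQ ((eq_of_le_of_card_ge (h.trans inf_le_left) (Nat.card_congr (Sylow.equiv Q T).toEquiv).le).ge.trans
      (h.trans inf_le_right))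
  have := Fintype.ofFinite Γ
  have := Fintype.ofFinite (Sylow p G)
  have key : ∀ T : Sylow p G, (2 * p - 1) * (Finset.univ.filter fun γ : Γ =>
      (T : Subgroup G) ≤ stabilizer G γ.1.1).card ≤ (p - 1) * Nat.card Γ := by
    intro T
    obtain ⟨T', h1, h2⟩ := exists_sylow_le hRp
      (L := ⨅ γ : {γ : Γ // (T : Subgroup G) ≤ stabilizer G γ.1.1}, stabilizer G γ.1.1.1)
      (le_iInf fun γ => hRγ γ.1) T (le_iInf fun γ => γ.2)
    obtain ⟨a, h3, h4⟩ := exists_big T'.isPGroup' h1 (hcardR T')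
    refine le_trans (Nat.mul_le_mul_left _ ?_) (hs (N ⧸ K) Γ hsemi a h4 (hall _ h4))
    rw [Nat.card_coe_set_eq, ← Set.ncard_coe_finset]
    refine Set.ncard_le_ncard fun γ hγ => (hfix a γ).2 (mem_iInf.1 (h2 h3) ⟨γ, by simpa using hγ⟩)
  have h1 := Finset.sum_le_sum fun T (_ : T ∈ Finset.univ) => key T
  rw [← Finset.mul_sum, Finset.sum_const, Finset.card_univ, smul_eq_mul,
    ← Nat.card_eq_fintype_card] at h1
  simp_rw [Finset.card_filter] at h1
  rw [Finset.sum_comm] at h1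
  simp_rw [← Finset.card_filter] at h1
  rw [Finset.sum_congr rfl fun γ _ => (by
    rw [← ncard_le_stab α γ.1.1, ← Set.ncard_coe_finset, Finset.coe_filter_univ] :
    _ = {Q : Sylow p G | (Q : Subgroup G) ≤ stabilizer G α}.ncard), Finset.sum_const,
    Finset.card_univ, smul_eq_mul, ← Nat.card_eq_fintype_card] at h1
  have : Nonempty Γ := ⟨⟨β', mem_orbit_self _⟩⟩
  have hpos : 0 < Nat.card Γ := Nat.card_pos
  exact Nat.le_of_mul_le_mul_left (by nlinarith) hpos

theorem card_sylow_le {H : Subgroup G} (P : Sylow p G) (hP : (P : Subgroup G) ≤ H) :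
    Nat.card (Sylow p H) ≤ {Q : Sylow p G | (Q : Subgroup G) ≤ H}.ncard := by
  have key : ∀ T : Sylow p H, ∃ Q : Sylow p G, (Q : Subgroup G) ≤ H ∧
      (T : Subgroup H) = (Q : Subgroup G).subgroupOf H := fun T => by
    obtain ⟨Q, h1, h2⟩ := exists_sylow_le (T.isPGroup'.map H.subtype) (map_subtype_le _) P hP
    exact ⟨Q, h2, (T.is_maximal' Q.isPGroup'.comap_subtype (map_le_iff_le_comap.1 h1)).symm⟩
  choose f h1 h2 using key
  rw [← Nat.card_coe_set_eq]
  exact Nat.card_le_card_of_injective (fun T => ⟨f T, h1 T⟩) fun T T' h =>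
    Sylow.ext (by rw [h2 T, h2 T', show f T = f T' from congrArg Subtype.val h])

theorem nu_le {G : Type w} [Group G] [Finite G] (hs : SemiStmt.{w} p)
    (hgen : closure {g : G | ∃ k : ℕ, orderOf g = p ^ k} = ⊤) (H : Subgroup G) (hH : H ≠ ⊤)
    (P : Sylow p G) (hP : (P : Subgroup G) ≤ H) :
    (2 * p - 1) * Nat.card (Sylow p H) ≤ (p - 1) * Nat.card (Sylow p G) := by
  have h := red hs ((1 : G) : G ⧸ H) P (by
    by_contra h
    push Not at h
    refine hH (top_le_iff.1 (hgen ▸ (closure_le _).2 ?_))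
    rintro g ⟨k, hk⟩
    obtain ⟨Q, hQ⟩ := (IsPGroup.of_card (p := p) (n := k)
      (show Nat.card (zpowers g) = _ by rw [Nat.card_zpowers, hk])).exists_le_sylow
    obtain ⟨a, rfl⟩ := exists_smul_eq G P Q
    have := (le_stab_smul P a _).2 (h (a⁻¹ • ((1 : G) : G ⧸ H)))
    rw [smul_inv_smul, stabilizer_quotient] at this
    exact this (hQ (mem_zpowers g)))
  rw [stabilizer_quotient] at h
  exact (Nat.mul_le_mul_left _ (card_sylow_le P hP)).trans h

/-- No involution fixes two points interchanged by an involution. -/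
theorem Semi.not_both {X Γ : Type*} [Group X] [Finite X] [MulAction X Γ] (h : Semi 2 X Γ)
    {u b : X} (hu : orderOf u = 2) (hb : orderOf b = 2) {β : Γ} (h1 : u • β ≠ β)
    (h2 : b • β = β) (h3 : b • u • β = u • β) : False := by
  have sq : ∀ {x : X}, orderOf x = 2 → x * x = 1 := fun hx => by
    rw [← sq, ← hx, pow_orderOf_eq_one]
  have ne : ∀ {x : X}, orderOf x = 2 → x ≠ 1 := fun hx e => by simp [e] at hx
  have pg : ∀ {x : X}, orderOf x = 2 → IsPGroup 2 (zpowers x) := fun hx =>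
    IsPGroup.of_card (n := 1) (by rw [Nat.card_zpowers, hx, pow_one])
  have tr : ∀ {x y : X}, orderOf x = 2 → orderOf y = 2 → Commute x y → x • β = β → y • β = β :=
    fun {x y} hx hy hc e => h _ ((pg hx).to_sup_of_normal_right' (pg hy)
      ((zpowers_le.2 (mem_centralizer_iff.2 (by rintro _ ⟨k, rfl⟩; exact (hc.symm.zpow_left k).eq))).trans
        (centralizer_le_normalizer _))) x (mem_sup_left (mem_zpowers x)) (ne hx) β e y
      (mem_sup_right (mem_zpowers y))
  have h4 : (u * b) ^ 2 ∈ stabilizer X β := by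
    rw [mem_stabilizer_iff, _root_.sq, mul_smul, mul_smul, mul_smul, h2, h3, ← mul_smul, sq hu,
      one_smul]
  rcases Nat.even_or_odd' (orderOf (u * b)) with ⟨k, hk | hk⟩
  · have h5 : orderOf ((u * b) ^ k) = 2 := by
      have := orderOf_pow_orderOf_div (orderOf_pos (u * b)).ne' (Dvd.intro _ hk.symm)
      rwa [hk, Nat.mul_div_cancel_left _ two_pos] at this
    have inv : ∀ {x y : X}, orderOf x = 2 → SemiconjBy x y y⁻¹ → orderOf (y ^ k) = 2 →
        Commute x (y ^ k) := fun {x y} _ hs hy => by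
      have := hs.pow_right k
      rwa [inv_pow, inv_eq_of_mul_eq_one_right (sq hy)] at this
    have e1 : (u * b)⁻¹ = b * u := by
      rw [mul_inv_rev, inv_eq_of_mul_eq_one_right (sq hu), inv_eq_of_mul_eq_one_right (sq hb)]
    have c1 := inv hu (y := u * b) (by
      rw [SemiconjBy, e1, ← mul_assoc, mul_assoc b, sq hu, one_mul, mul_one]) h5
    have c2 := inv hb (y := u * b) (by rw [SemiconjBy, e1, mul_assoc]) h5
    exact h1 (tr h5 hu c1.symm (tr hb h5 c2 h2))
  · have h5 : u * b ∈ stabilizer X β := by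
      have := pow_mem h4 (k + 1)
      rwa [← pow_mul, show 2 * (k + 1) = orderOf (u * b) + 1 by omega, pow_succ,
        pow_orderOf_eq_one, one_mul] at this
    rw [mem_stabilizer_iff, mul_smul, h2] at h5
    exact h1 h5

theorem semi_two : SemiStmt.{w} 2 := by
  intro X Γ _ _ _ _ _ h a ha ⟨γ, hγ⟩
  rcases (fixedBy Γ a).eq_empty_or_nonempty with h0 | ⟨β, hβ⟩
  · simp [h0]
  have hc : ∀ {x : X} (g : X), orderOf x = 2 → orderOf (g⁻¹ * x * g) = 2 := fun {x} g hx => by
    rwa [show g⁻¹ * x * g = g⁻¹ * x * g⁻¹⁻¹ by rw [inv_inv], ← MulAut.conj_apply,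
      MulEquiv.orderOf_eq]
  obtain ⟨g, rfl⟩ := exists_smul_eq X β γ
  have hu := hc g ha
  have h1 : (g⁻¹ * a * g) • β ≠ β := fun e => hγ (by rwa [mul_smul, mul_smul, inv_smul_eq_iff] at e)
  generalize g⁻¹ * a * g = u at hu h1
  have huu : u⁻¹ = u := inv_eq_of_mul_eq_one_right (by rw [← sq, ← hu, pow_orderOf_eq_one])
  have hβ' : a • β = β := hβ
  have e1 : (u⁻¹ * a * u) • u • β = u • β := by
    rw [mul_smul, mul_smul, ← mul_smul u u, mul_eq_one_iff_inv_eq.2 huu, one_smul, hβ', huu]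
  have h2 : (u⁻¹ * a * u) • β ≠ β := fun e => h.not_both hu (hc u ha) h1 e e1
  let S : Γ → Set X := fun δ => {c | c • δ ∈ fixedBy Γ a}
  have hS : ∀ δ, (S δ).ncard * Nat.card Γ = Nat.card X * (fixedBy Γ a).ncard := fun δ => by
    rw [H58.ncard_smul_mem, orbit_eq_univ, Set.inter_univ, ← index_stabilizer_of_transitive X δ,
      mul_right_comm, card_mul_index]
  have hm : ∀ δ c, c ∈ S δ → (c⁻¹ * a * c) • δ = δ := fun δ c e => by
    rw [mul_smul, mul_smul, inv_smul_eq_iff]; exact e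
  have d1 : Disjoint (S β) (S (u • β)) := Set.disjoint_left.2 fun c e e' =>
    h.not_both hu (hc c ha) h1 (hm _ c e) (hm _ c e')
  have d2 : Disjoint (S β) (S ((u⁻¹ * a * u) • β)) := Set.disjoint_left.2 fun c e e' =>
    h.not_both (hc u ha) (hc c ha) h2 (hm _ c e) (hm _ c e')
  have d3 : Disjoint (S (u • β)) (S ((u⁻¹ * a * u) • β)) := Set.disjoint_left.2 fun c e e' => by
    refine h.not_both hu (hc (u * a) (hc c ha)) h1 ?_ ?_
    · rw [mul_smul, mul_smul, inv_smul_eq_iff, mul_smul u, hβ']; exact hm _ c e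
    · rw [mul_smul, mul_smul, ← mul_smul (u * a), inv_smul_eq_iff, ← mul_smul (u * a)]
      have := hm _ c e'
      rwa [huu] at this
  have h3 := Set.ncard_le_card (S β ∪ (S (u • β) ∪ S ((u⁻¹ * a * u) • β)))
  rw [Set.ncard_union_eq (Set.disjoint_union_right.2 ⟨d1, d2⟩), Set.ncard_union_eq d3] at h3
  have h4 := Nat.mul_le_mul_right (Nat.card Γ) h3
  rw [add_mul, add_mul, hS, hS, hS] at h4
  rw [Nat.card_coe_set_eq]
  exact Nat.le_of_mul_le_mul_left (by nlinarith) (Nat.card_pos (α := X))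

end Cfsg.Agent.H79.Nu
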