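import Cfsg.Agent.H54.O84Defs

/-!
# The index of the subsystem subgroup in its normaliser (Frattini argument)
-/

set_option autoImplicit false

namespace Cfsg.Agent.H79.O84Idx

open Cfsg.Agent.H54.O84 Subgroup Equiv

theorem frat {Γ : Type*} [Group Γ] [Finite Γ] {p k : ℕ} [Fact p.Prime] {A Y : Subgroup Γ}
    (hA : A ≤ Y) (cA : Nat.card A = p ^ k) (h : ¬ p ^ (k + 1) ∣ Nat.card Y) :
    Y.relIndex (normalizer (Y : Set Γ)) =
      Y.relIndex (normalizer (A : Set Γ) ⊓ normalizer (Y : Set Γ)) := by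
  set N : Subgroup Γ := normalizer (Y : Set Γ) with hN
  have hY : Y ≤ N := le_normalizer
  haveI : (Y.subgroupOf N).Normal := normal_in_normalizer
  have hA' : A.subgroupOf N ≤ Y.subgroupOf N := comap_mono hA
  have c1 : Nat.card ((A.subgroupOf N).subgroupOf (Y.subgroupOf N)) = p ^ k := by
    rw [Nat.card_congr (subgroupOfEquivOfLe hA').toEquiv,
      Nat.card_congr (subgroupOfEquivOfLe (hA.trans hY)).toEquiv, cA]
  have c2 : ¬ p ∣ ((A.subgroupOf N).subgroupOf (Y.subgroupOf N)).index := by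
    intro h'
    apply h
    rw [← Nat.card_congr (subgroupOfEquivOfLe hY).toEquiv,
      ← ((A.subgroupOf N).subgroupOf (Y.subgroupOf N)).card_mul_index, c1, pow_succ]
    exact Nat.mul_dvd_mul_left _ h'
  have e := Sylow.normalizer_sup_eq_top ((IsPGroup.of_card c1).toSylow c2)
  rw [IsPGroup.toSylow_coe, map_subgroupOf_eq_of_le hA',
    ← subgroupOf_normalizer_eq (hA.trans hY)] at e
  rw [← relIndex_subgroupOf (inf_le_right : normalizer (A : Set Γ) ⊓ N ≤ N), inf_subgroupOf_right,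
    ← relIndex_sup_right ((normalizer (A : Set Γ)).subgroupOf N) (Y.subgroupOf N), e,
    relIndex_top_right]
  rfl

theorem idx (hS : StabStmt) (hY : YiStmt) : IdxStmt := by
  intro Γ _ _ G i h5
  haveI : Fact (Nat.Prime 5) := ⟨by norm_num⟩
  have hA : G.a.range ≤ G.Y (Ψ i) := fun g hg => by
    have hn : g ∈ Nz G.a := le_normalizer hg
    rw [G.mem_Y i g hn, (G.ν_ker g hn).2 hg]
    exact one_mem _
  have cA : Nat.card G.a.range = 5 ^ 4 := by
    rw [← Nat.card_congr (G.a.ofInjective G.inj).toEquiv, Nat.card_congr Multiplicative.toAdd,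
      Nat.card_fun, Nat.card_zmod, Nat.card_fin]
  rw [frat hA cA h5, ← hS i]
  let φ : Nz G.a →* Perm Rt := MonoidHom.mk' (fun g => G.ν g) fun g g' => G.ν_mul g g.2 g' g'.2
  have e1 : (WS (Ψ i)).comap φ = (G.Y (Ψ i)).subgroupOf (Nz G.a) := by
    ext g
    exact (G.mem_Y i g g.2).symm
  have e2 : ((normalizer (G.Y (Ψ i) : Set Γ)).subgroupOf (Nz G.a)).map φ = CW w ⊓ St (Ψ i) := by
    ext u
    constructor
    · rintro ⟨g, hg, rfl⟩
      exact ⟨G.ν_mem g g.2, (hY Γ G i g g.2).1 hg⟩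
    · rintro ⟨h1, h2⟩
      obtain ⟨g, hg, rfl⟩ := G.ν_surj u h1
      exact ⟨⟨g, hg⟩, (hY Γ G i g hg).2 h2, rfl⟩
  rw [← e2, ← relIndex_comap, e1, ← inf_subgroupOf_left, ← inf_subgroupOf_left (normalizer _),
    inf_subgroupOf_left, relIndex_subgroupOf inf_le_left]

end Cfsg.Agent.H79.O84Idx
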