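import Cfsg.Agent.H79.OvPlane

/-!
# Consequences when every involution is a homology
-/

set_option autoImplicit false

namespace Cfsg.Agent.H79.Ov

open Finset

variable {P L : Type*} [Fintype P] [Fintype L] {I : P → L → Prop} {G : Type*} [Group G]
  [MulAction G P] [MulAction G L] {O : Finset P} {n : ℕ}

theorem Inv.mul {a b : G} (ha : Inv a) (hb : Inv b) (ne : a ≠ b) (c : Commute a b) : Inv (a * b) :=
  ⟨fun e => ne (by rw [eq_inv_of_mul_eq_one_left e, inv_eq_of_mul_eq_one_left hb.2]),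
    by rw [c.symm.mul_mul_mul_comm, ha.2, hb.2, mul_one]⟩

theorem Inv.inv {a : G} (ha : Inv a) : a⁻¹ = a := inv_eq_of_mul_eq_one_left ha.2

namespace Setup

variable (S : Setup I G O n) (all : ∀ x : G, Inv x → ∃ C l, Hom I x C l)
include S all

theorem noBad1 : NoBad1 G := by
  intro a b t₁ t₂ ha hb h₁ h₂ ab a₁ b₁ a₂ b₂ c₁ c₂ c₃ c₄
  obtain ⟨Ca, la, Ha⟩ := all a ha
  obtain ⟨Cb, lb, Hb⟩ := all b hb
  obtain ⟨C₁, l₁, H₁⟩ := all t₁ h₁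
  obtain ⟨C₂, l₂, H₂⟩ := all t₂ h₂
  have ll : la ≠ lb := fun c => ab (S.eq_of_axis ha hb Ha (c ▸ Hb))
  obtain rfl : C₁ = C₂ := (S.hU _ _ _ _ (S.centre_on ha h₁ Ha H₁ a₁.symm c₁.symm)
    (S.centre_on ha h₂ Ha H₂ a₂.symm c₃.symm) (S.centre_on hb h₁ Hb H₁ b₁.symm c₂.symm)
    (S.centre_on hb h₂ Hb H₂ b₂.symm c₄.symm)).resolve_right ll
  exact S.eq_of_centre h₁ h₂ H₁ H₂

theorem noBad2 : NoBad2 G := by
  intro z₁ z₃ t ρ r h₁ h₃ ht ne c₁ c₂ hr r2 hρ c₃ c₄ hi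
  by_contra ρ1
  have r3 : 3 ≤ r := by
    have := hr.two_le
    omega
  have nsq : ρ * ρ ≠ 1 := fun e => ρ1 (by
    obtain ⟨k, hk⟩ := hr.odd_of_ne_two r2
    rw [hk, pow_succ, pow_mul, pow_two, e, one_pow, one_mul] at hρ
    exact hρ)
  have nc : ¬ Commute t ρ := fun c => nsq (by
    rw [c.eq, mul_assoc, ht.2, mul_one] at hi
    exact mul_eq_one_iff_eq_inv.2 hi)
  have hτ : Inv (t * ρ) := ⟨fun e => nc (by
      rw [eq_inv_of_mul_eq_one_left e]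
      exact (Commute.refl ρ).inv_left), by rw [← mul_assoc, hi, inv_mul_cancel]⟩
  have h₂ := h₁.mul h₃ ne c₁
  obtain ⟨C₁, l₁, H₁⟩ := all z₁ h₁
  obtain ⟨C₂, l₂, H₂⟩ := all _ h₂
  obtain ⟨C₃, l₃, H₃⟩ := all z₃ h₃
  obtain ⟨C, l, H⟩ := all t ht
  obtain ⟨C', l', H'⟩ := all _ hτ
  have n1 : t ≠ t * ρ := fun e => ρ1 (left_eq_mul.1 e)
  have n2 : z₃ ≠ t := fun e => nc (e ▸ c₄.symm)
  have n3 : z₃ ≠ t * ρ := fun e => nc (by
    rw [eq_mul_inv_of_mul_eq e.symm]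
    exact c₄.symm.mul_left (Commute.refl ρ).inv_left)
  have c₅ : Commute (t * ρ) z₃ := c₂.mul_left c₄
  have ll : l ≠ l' := fun c => n1 (S.eq_of_axis ht hτ H (c ▸ H'))
  have l13 : l₁ ≠ l₃ := fun c => ne (S.eq_of_axis h₁ h₃ H₁ (c ▸ H₃))
  have key : ∀ p : P, ρ • p = p → p = C₃ ∨ I p l₃ := fun p hp =>
    (S.prod_fix ht hτ H H' n1 (S.centre_on h₃ ht H₃ H n2 c₂.symm)
      (S.centre_on h₃ hτ H₃ H' n3 c₅.symm) (p := p) (by rwa [← mul_assoc, ht.2, one_mul])).imp_left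
      fun e => (S.hU _ _ _ _ e.1 (S.centre_on ht h₃ H H₃ n2.symm c₂) e.2
        (S.centre_on hτ h₃ H' H₃ n3.symm c₅)).resolve_right ll
  have C21 : I C₂ l₁ := S.centre_on h₁ h₂ H₁ H₂ (fun e => h₃.1 (left_eq_mul.1 e))
    ((Commute.refl z₁).mul_right c₁)
  have C23 : I C₂ l₃ := S.centre_on h₃ h₂ H₃ H₂ (fun e => h₁.1 (right_eq_mul.1 e))
    (c₁.symm.mul_right (Commute.refl z₃))
  have C31 : I C₃ l₁ := S.centre_on h₁ h₃ H₁ H₃ ne c₁
  have key1 : ∀ p : P, ρ • p = p → I p l₁ → p = C₃ ∨ p = C₂ := fun p hp a =>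
    (key p hp).imp_right fun b => (S.hU _ _ _ _ a C21 b C23).resolve_right l13
  have m1 := card_fx_modEq (Δ := on I univ l₁) hr hρ fun p hp => by
    simp only [mem_on, mem_univ, true_and] at hp ⊢
    exact (S.hom_comm H₁ c₃).2 ▸ (S.inc ρ p l₁).2 hp
  have b1 : (fx (on I univ l₁) fun p => ρ • p).card ≤ 2 := card_le_two_of fun a ha b hb c hc => by
    simp only [mem_fx, mem_on] at ha hb hc
    rcases key1 a ha.2 ha.1.2 with rfl | rfl <;> rcases key1 b hb.2 hb.1.2 with rfl | e <;>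
      rcases key1 c hc.2 hc.1.2 with e' | e' <;> simp [*]
  have b2 : 0 < (fx (on I univ l₁) fun p => ρ • p).card :=
    card_pos.2 ⟨C₃, mem_fx.2 ⟨mem_on.2 ⟨mem_univ _, C31⟩, (S.hom_comm H₃ c₄).1⟩⟩
  have pos : ∀ {a b c : ℕ}, a ≡ b [MOD r] → a ≡ c [MOD r] → 0 < b → b ≤ 2 → 0 < c := by
    intro a b c e1 e2 e3 e4
    by_contra k
    obtain rfl : c = 0 := by omega
    have := Nat.le_of_dvd e3 (Nat.modEq_zero_iff_dvd.1 (e1.symm.trans e2))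
    omega
  have m2 := card_fx_modEq (Δ := O) hr hρ (S.inv ρ)
  rw [S.hS.cl l₁ (mem_univ _)] at m1
  rw [S.hO.card] at m2
  obtain ⟨A, hA⟩ := card_pos.1 (pos m1 m2 b2 b1)
  rw [mem_fx] at hA
  have f3 : 0 < (fx O fun p => z₃ • p).card := card_pos.2 ⟨A, mem_fx.2 ⟨hA.1,
    (H₃.pt A).2 (key A hA.2)⟩⟩
  have e1 := S.even z₁ h₁.2
  have e3 := S.even z₃ h₃.2
  have u1 := S.hom_le h₁ H₁
  have u3 := S.hom_le h₃ H₃
  have m3 := card_fx_modEq (Δ := fx O fun p => z₁ • p) hr hρ fun p hp => by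
    simp only [mem_fx] at hp ⊢
    exact ⟨S.inv ρ p hp.1, by rw [smul_smul, ← c₃.eq, mul_smul, hp.2]⟩
  obtain ⟨k, hk⟩ := S.odd
  obtain ⟨B, hB⟩ := card_pos.1 (pos (Nat.ModEq.refl _) m3 (by omega) u1)
  simp only [mem_fx] at hB
  rcases key1 B hB.2 ((S.fix_iff h₁ H₁ hB.1.1).1 hB.1.2) with e | e
  · exact S.notMem h₃ H₃ (e ▸ hB.1.1)
  · exact S.notMem h₂ H₂ (e ▸ hB.1.1)

theorem k3 : K3 G := by
  classical
  intro z₁ z₂ T h₁ h₂ ne hT m₁ m₂ hc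
  have c₁ : Commute z₁ z₂ := (hc z₁ m₁).2
  have h₃ := h₁.mul h₂ ne c₁
  obtain ⟨C₁, l₁, H₁⟩ := all z₁ h₁
  obtain ⟨C₂, l₂, H₂⟩ := all z₂ h₂
  obtain ⟨C₃, l₃, H₃⟩ := all _ h₃
  have l12 : l₁ ≠ l₂ := fun c => ne (S.eq_of_axis h₁ h₂ H₁ (c ▸ H₂))
  have C31 : I C₃ l₁ := S.centre_on h₁ h₃ H₁ H₃ (fun e => h₂.1 (left_eq_mul.1 e))
    ((Commute.refl z₁).mul_right c₁)
  have C32 : I C₃ l₂ := S.centre_on h₂ h₃ H₂ H₃ (fun e => h₁.1 (right_eq_mul.1 e))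
    (c₁.symm.mul_right (Commute.refl z₂))
  have C21 : I C₂ l₁ := S.centre_on h₁ h₂ H₁ H₂ ne c₁
  have key : ∀ p : P, I p l₁ → z₂ • p = p → p = C₂ ∨ p = C₃ := fun p a b =>
    ((H₂.pt p).1 b).imp_right fun c => (S.hU _ _ _ _ a C31 c C32).resolve_right l12
  obtain ⟨Δ, inv, card, f₁, f₂⟩ : ∃ Δ : Finset P, (∀ g ∈ T, ∀ p ∈ Δ, g • p ∈ Δ) ∧
      Δ.card % 4 = 2 ∧ (∀ p ∈ Δ, z₁ • p = p) ∧ ∀ p ∈ Δ, z₂ • p ≠ p := by
    by_cases h1 : n % 4 = 1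
    · refine ⟨fx O fun p => z₁ • p, fun g hg p hp => ?_, ?_, fun p hp => (mem_fx.1 hp).2,
        fun p hp c => ?_⟩
      · simp only [mem_fx] at hp ⊢
        exact ⟨S.inv g p hp.1, by rw [smul_smul, ← (hc g hg).1.eq, mul_smul, hp.2]⟩
      · have := S.even z₁ h₁.2
        omega
      · rw [mem_fx] at hp
        rcases key p ((S.fix_iff h₁ H₁ hp.1).1 hp.2) c with e | e
        · exact S.notMem h₂ H₂ (e ▸ hp.1)
        · exact S.notMem h₃ H₃ (e ▸ hp.1)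
    · have C23 : C₂ ≠ C₃ := fun e => H₂.nI (e ▸ C32)
      refine ⟨((on I univ l₁).erase C₂).erase C₃, fun g hg p hp => ?_, ?_, fun p hp => ?_,
        fun p hp c => ?_⟩
      · simp only [mem_erase, mem_on, mem_univ, true_and] at hp ⊢
        refine ⟨fun e => hp.1 (MulAction.injective g (e.trans ?_)),
          fun e => hp.2.1 (MulAction.injective g (e.trans ?_)), ?_⟩
        · exact (S.hom_comm H₃ ((hc g hg).1.mul_right (hc g hg).2)).1.symm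
        · exact (S.hom_comm H₂ (hc g hg).2).1.symm
        · exact (S.hom_comm H₁ (hc g hg).1).2 ▸ (S.inc g p l₁).2 hp.2.2
      · rw [card_erase_of_mem (by simp [C23.symm, C31]), card_erase_of_mem (by simp [C21]),
          S.hS.cl l₁ (mem_univ _)]
        obtain ⟨k, hk⟩ := S.odd
        omega
      · simp only [mem_erase, mem_on, mem_univ, true_and] at hp
        exact (H₁.pt p).2 (Or.inr hp.2.2)
      · simp only [mem_erase, mem_on, mem_univ, true_and] at hp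
        rcases key p hp.2.2 c with e | e
        exacts [hp.2.1 e, hp.1 e]
  obtain ⟨a, ha, b, hb, ab, h⟩ := exists_pair hT inv card
  refine ⟨MulAction.stabilizer G a, f₁ a ha, f₂ a ha, fun x hx => ?_⟩
  rcases h x hx with e | e
  · exact Or.inl e.1
  · right
    rw [MulAction.mem_stabilizer_iff, mul_smul, e.1]
    exact ((h z₂ m₂).resolve_left fun c => f₂ a ha c.1).2

end Setup

end Cfsg.Agent.H79.Ov
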