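import Mathlib

/-!
# Baer's theorem on involutory collineations, for finite subplanes given by finsets
-/

set_option autoImplicit false

namespace Cfsg.Agent.H79.Ov

open Finset

section Tools

theorem card_le_of_rel {α β : Type*} {A : Finset α} {B : Finset β} (R : α → β → Prop)
    (h1 : ∀ a ∈ A, ∃ b ∈ B, R a b)
    (u2 : ∀ b ∈ B, ∀ a ∈ A, ∀ a' ∈ A, R a b → R a' b → a = a') : A.card ≤ B.card := by
  classical
  rcases A.eq_empty_or_nonempty with rfl | ⟨a0, ha0⟩
  · simp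
  have : Nonempty β := ⟨(h1 a0 ha0).choose⟩
  choose! ψ hψ using h1
  exact card_le_card_of_injOn ψ (fun a ha => (hψ a ha).1) fun a ha a' ha' e =>
    u2 _ (hψ a ha).1 a ha a' ha' (hψ a ha).2 (e ▸ (hψ a' ha').2)

theorem card_eq_of_rel {α β : Type*} {A : Finset α} {B : Finset β} (R : α → β → Prop)
    (h1 : ∀ a ∈ A, ∃ b ∈ B, R a b) (h2 : ∀ b ∈ B, ∃ a ∈ A, R a b)
    (u1 : ∀ a ∈ A, ∀ b ∈ B, ∀ b' ∈ B, R a b → R a b' → b = b')
    (u2 : ∀ b ∈ B, ∀ a ∈ A, ∀ a' ∈ A, R a b → R a' b → a = a') : A.card = B.card :=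
  le_antisymm (card_le_of_rel R h1 u2) (card_le_of_rel (fun b a => R a b) h2 u1)

open Classical in
/-- The points of `X` fixed by `f`. -/
noncomputable def fx {P : Type*} (X : Finset P) (f : P → P) : Finset P := X.filter fun p => f p = p

@[simp] theorem mem_fx {P : Type*} {X : Finset P} {f : P → P} {p : P} :
    p ∈ fx X f ↔ p ∈ X ∧ f p = p := by
  simp [fx]

theorem card_fx_mod_two {P : Type*} {X : Finset P} {f : P → P} (hm : ∀ p ∈ X, f p ∈ X)
    (hf : ∀ p ∈ X, f (f p) = p) : (fx X f).card % 2 = X.card % 2 := by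
  classical
  have h := card_filter_add_card_filter_not (s := X) (fun p => f p = p)
  have h2 : ((X.filter fun p => ¬ f p = p).card : ZMod 2) = 0 := by
    rw [card_eq_sum_ones, Nat.cast_sum]
    refine sum_involution (fun p _ => f p) (fun _ _ => by decide) ?_ ?_ ?_
    · intro a ha _
      exact (mem_filter.1 ha).2
    · intro a ha
      rw [mem_filter] at ha ⊢
      refine ⟨hm a ha.1, ?_⟩
      rw [hf a ha.1]
      exact fun e => ha.2 e.symm
    · intro a ha
      exact hf a (mem_filter.1 ha).1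
  rw [ZMod.natCast_eq_zero_iff] at h2
  have : (fx X f).card = (X.filter fun p => f p = p).card := by
    unfold fx
    congr
  omega

end Tools

variable {P L : Type*}

open Classical in
/-- The points of `X` on the line `l`. -/
noncomputable def on (I : P → L → Prop) (X : Finset P) (l : L) : Finset P := X.filter fun p => I p l

@[simp] theorem mem_on {I : P → L → Prop} {X : Finset P} {l : L} {p : P} :
    p ∈ on I X l ↔ p ∈ X ∧ I p l := by
  simp [on]

/-- Two distinct points lie on at most one line. -/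
def Uniq (I : P → L → Prop) : Prop := ∀ p q l k, I p l → I q l → I p k → I q k → p = q ∨ l = k

/-- A subplane of order `m`. -/
structure IsSub (I : P → L → Prop) (X : Finset P) (Y : Finset L) (m : ℕ) : Prop where
  join : ∀ p ∈ X, ∀ q ∈ X, p ≠ q → ∃ l ∈ Y, I p l ∧ I q l
  meet : ∀ l ∈ Y, ∀ k ∈ Y, l ≠ k → ∃ p ∈ X, I p l ∧ I p k
  cl : ∀ l ∈ Y, (on I X l).card = m + 1
  cp : ∀ p ∈ X, (on (flip I) Y p).card = m + 1
  cX : X.card = m * m + m + 1
  cY : Y.card = m * m + m + 1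

/-- A collineation inducing an involution (or the identity) on the subplane. -/
structure Col (I : P → L → Prop) (X : Finset P) (Y : Finset L) (f : P → P) (g : L → L) : Prop where
  inc : ∀ p l, I (f p) (g l) ↔ I p l
  mX : ∀ p ∈ X, f p ∈ X
  mY : ∀ l ∈ Y, g l ∈ Y
  fX : ∀ p ∈ X, f (f p) = p
  gY : ∀ l ∈ Y, g (g l) = l

/-- A homology of the subplane with centre `C` and axis `l`. -/
structure IsHom (I : P → L → Prop) (X : Finset P) (Y : Finset L) (f : P → P) (g : L → L) (C : P)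
    (l : L) : Prop where
  mC : C ∈ X
  ml : l ∈ Y
  nI : ¬ I C l
  pt : ∀ p ∈ X, f p = p ↔ p = C ∨ I p l
  ln : ∀ k ∈ Y, g k = k ↔ k = l ∨ I C k

variable {I : P → L → Prop} {X : Finset P} {Y : Finset L} {m : ℕ} {f : P → P} {g : L → L}

theorem Uniq.dual (h : Uniq I) : Uniq (flip I) := fun l k p q a b c d => (h p q l k a c b d).symm

theorem IsSub.dual (h : IsSub I X Y m) : IsSub (flip I) Y X m :=
  ⟨h.meet, h.join, h.cp, h.cl, h.cY, h.cX⟩

theorem Col.dual (h : Col I X Y f g) : Col (flip I) Y X g f :=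
  ⟨fun l p => h.inc p l, h.mY, h.mX, h.gY, h.fX⟩

theorem IsHom.dual {C : P} {l : L} (h : IsHom I X Y f g C l) : IsHom (flip I) Y X g f l C :=
  ⟨h.ml, h.mC, h.nI, h.ln, h.pt⟩

theorem fix_of_two (hU : Uniq I) (inc : ∀ p l, I (f p) (g l) ↔ I p l) {p : P} {l k : L}
    (lk : l ≠ k) (hl : g l = l) (hk : g k = k) (pl : I p l) (pk : I p k) : f p = p := by
  have a := (inc p l).2 pl
  have b := (inc p k).2 pk
  rw [hl] at a
  rw [hk] at b
  exact (hU _ _ _ _ a pl b pk).resolve_right lk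

theorem fixl_of_two (hU : Uniq I) (inc : ∀ p l, I (f p) (g l) ↔ I p l) {p q : P} {l : L}
    (pq : p ≠ q) (hp : f p = p) (hq : f q = q) (pl : I p l) (ql : I q l) : g l = l :=
  fix_of_two (I := flip I) hU.dual (fun l p => inc p l) pq hp hq pl ql

theorem fixed_join (hU : Uniq I) (hS : IsSub I X Y m) (hc : Col I X Y f g) {p : P} (hp : p ∈ X)
    (hn : f p ≠ p) : ∃ l ∈ Y, g l = l ∧ I p l ∧ I (f p) l := by
  obtain ⟨l, hl, a, b⟩ := hS.join p hp (f p) (hc.mX p hp) hn.symm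
  refine ⟨l, hl, ?_, a, b⟩
  have a' := (hc.inc p l).2 a
  have b' := (hc.inc (f p) l).2 b
  rw [hc.fX p hp] at b'
  exact ((hU _ _ _ _ a' b' b a).resolve_left hn)

theorem exists_other {α : Type*} {A : Finset α} (h : 2 ≤ A.card) (a : α) : ∃ b ∈ A, b ≠ a := by
  classical
  have : 0 < (A.erase a).card := by
    have := pred_card_le_card_erase (s := A) (a := a)
    omega
  obtain ⟨b, hb⟩ := card_pos.1 this
  exact ⟨b, mem_of_mem_erase hb, ne_of_mem_erase hb⟩

theorem exists_other2 {α : Type*} {A : Finset α} (h : 3 ≤ A.card) (a b : α) :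
    ∃ c ∈ A, c ≠ a ∧ c ≠ b := by
  classical
  obtain ⟨c, hc, h2⟩ := exists_other (A := A.erase a) (by
    have := pred_card_le_card_erase (s := A) (a := a)
    omega) b
  exact ⟨c, mem_of_mem_erase hc, ne_of_mem_erase hc, h2⟩

theorem even_on (hS : IsSub I X Y m) (hc : Col I X Y f g) (hm : Odd m) {l : L} (hl : l ∈ Y)
    (hf : g l = l) : (on I (fx X f) l).card % 2 = 0 := by
  have h := card_fx_mod_two (X := on I X l) (f := f) (fun p hp => by
    rw [mem_on] at hp ⊢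
    exact ⟨hc.mX p hp.1, hf ▸ (hc.inc p l).2 hp.2⟩) fun p hp => hc.fX p (mem_on.1 hp).1
  have e : fx (on I X l) f = on I (fx X f) l := by
    ext p
    simp only [mem_fx, mem_on]
    tauto
  rw [e, hS.cl l hl] at h
  obtain ⟨k, rfl⟩ := hm
  omega

theorem card_fx_eq (hU : Uniq I) (hS : IsSub I X Y m) (hc : Col I X Y f g) {l : L} (hl : l ∈ Y)
    (hf : g l = l) {p : P} (hp : p ∈ X) (pl : I p l) (hn : f p ≠ p) :
    (fx X f).card = (on I (fx X f) l).card + m := by
  classical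
  have h := card_filter_add_card_filter_not (s := fx X f) (fun q => I q l)
  have e : (on I (fx X f) l).card = ((fx X f).filter fun q => I q l).card := by
    unfold on
    congr
  have h2 : ((fx X f).filter fun q => ¬ I q l).card = ((on (flip I) Y p).erase l).card := by
    refine card_eq_of_rel I ?_ ?_ ?_ ?_
    · intro q hq
      simp only [mem_filter, mem_fx] at hq
      obtain ⟨k, hk, a, b⟩ := hS.join p hp q hq.1.1 (fun e => hn (e ▸ hq.1.2))
      exact ⟨k, by simpa [flip, hk, a] using fun e : k = l => hq.2 (e ▸ b), b⟩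
    · intro k hk
      simp only [mem_erase, mem_on, flip] at hk
      have hg : g k ≠ k := fun e => hn (fix_of_two hU hc.inc hk.1 e hf hk.2.2 pl)
      obtain ⟨q, hq, a, b, -⟩ := fixed_join hU.dual hS.dual hc.dual hk.2.1 hg
      refine ⟨q, ?_, b⟩
      simp only [mem_filter, mem_fx]
      refine ⟨⟨hq, a⟩, fun c => ?_⟩
      rcases hU p q l k pl c hk.2.2 b with e | e
      · exact hn (e ▸ a)
      · exact hk.1 e.symm
    · intro q hq k hk k' hk' a b
      simp only [mem_filter, mem_fx, mem_erase, mem_on, flip] at hq hk hk'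
      exact (hU p q k k' hk.2.2 a hk'.2.2 b).resolve_left fun e => hn (e ▸ hq.1.2)
    · intro k hk q hq q' hq' a b
      simp only [mem_filter, mem_fx, mem_erase, mem_on, flip] at hq hk hq'
      by_contra e
      exact hn (fix_of_two hU hc.inc hk.1 (fixl_of_two hU hc.inc e hq.1.2 hq'.1.2 a b) hf hk.2.2 pl)
  rw [card_erase_of_mem (by simp [flip, hl, pl]), hS.cp p hp] at h2
  omega

theorem hom_of_axis (hU : Uniq I) (hS : IsSub I X Y m) (hc : Col I X Y f g) (hm : Odd m)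
    (h3 : 3 ≤ m) (hne : ∃ p ∈ X, f p ≠ p) {l : L} (hl : l ∈ Y) (ax : ∀ p ∈ X, I p l → f p = p) :
    ∃ C, IsHom I X Y f g C l := by
  obtain ⟨p0, hp0, hn⟩ := hne
  have gl : g l = l := by
    obtain ⟨a, ha, -⟩ := exists_other (A := on I X l) (by rw [hS.cl l hl]; omega) p0
    obtain ⟨b, hb, ab⟩ := exists_other (A := on I X l) (by rw [hS.cl l hl]; omega) a
    rw [mem_on] at ha hb
    exact fixl_of_two hU hc.inc ab (ax b hb.1 hb.2) (ax a ha.1 ha.2) hb.2 ha.2
  have ex : ∀ k ∈ Y, g k = k → k ≠ l → ∃ C ∈ X, f C = C ∧ I C k ∧ ¬ I C l := by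
    intro k hk gk kl
    obtain ⟨y, hy, yk, yl⟩ := hS.meet k hk l hl kl
    have h0 := even_on hS hc hm hk gk
    have h1 : 0 < (on I (fx X f) k).card := card_pos.2 ⟨y, by simp [hy, yk, ax y hy yl]⟩
    obtain ⟨C, hC, ne⟩ := exists_other (A := on I (fx X f) k) (by omega) y
    simp only [mem_on, mem_fx] at hC
    exact ⟨C, hC.1.1, hC.1.2, hC.2, fun c => ne ((hU C y k l hC.2 yk c yl).resolve_right kl)⟩
  have cen : ∀ C ∈ X, f C = C → ¬ I C l → ∀ k ∈ Y, I C k → g k = k := by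
    intro C _ fC nC k hk Ck
    obtain ⟨y, hy, yk, yl⟩ := hS.meet k hk l hl (fun e => nC (e ▸ Ck))
    exact fixl_of_two hU hc.inc (fun e : C = y => nC (e ▸ yl)) fC (ax y hy yl) Ck yk
  have uni : ∀ C ∈ X, f C = C → ¬ I C l → ∀ C' ∈ X, f C' = C' → ¬ I C' l → C = C' := by
    intro C hC fC nC C' hC' fC' nC'
    by_contra ne
    obtain ⟨k, hk, a, b⟩ := hS.join C hC C' hC' ne
    have off : ∀ y ∈ X, ¬ I y k → f y = y := by
      intro y hy ny
      obtain ⟨k1, hk1, a1, b1⟩ := hS.join y hy C hC (fun e => ny (e ▸ a))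
      obtain ⟨k2, hk2, a2, b2⟩ := hS.join y hy C' hC' (fun e => ny (e ▸ b))
      refine fix_of_two hU hc.inc (fun e : k1 = k2 => ?_) (cen C hC fC nC k1 hk1 b1)
        (cen C' hC' fC' nC' k2 hk2 b2) a1 a2
      subst e
      exact ny (((hU C C' k k1 a b b1 b2).resolve_left ne) ▸ a1)
    have p0k : I p0 k := by
      by_contra c
      exact hn (off p0 hp0 c)
    obtain ⟨k', hk', kk⟩ := exists_other (A := on (flip I) Y p0) (by rw [hS.cp p0 hp0]; omega) k
    simp only [mem_on, flip] at hk'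
    obtain ⟨y1, h1, n1⟩ := exists_other (A := on I X k') (by rw [hS.cl k' hk'.1]; omega) p0
    obtain ⟨y2, h2, n2, n3⟩ := exists_other2 (A := on I X k') (by rw [hS.cl k' hk'.1]; omega) p0 y1
    rw [mem_on] at h1 h2
    have f1 := off y1 h1.1 fun c => n1 ((hU y1 p0 k' k h1.2 hk'.2 c p0k).resolve_right kk)
    have f2 := off y2 h2.1 fun c => n2 ((hU y2 p0 k' k h2.2 hk'.2 c p0k).resolve_right kk)
    exact hn (fix_of_two hU hc.inc kk (fixl_of_two hU hc.inc n3 f2 f1 h2.2 h1.2)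
      (cen C hC fC nC k hk a) hk'.2 p0k)
  obtain ⟨k0, hk0, g0, p0k, -⟩ := fixed_join hU hS hc hp0 hn
  obtain ⟨C, hC, fC, -, nC⟩ := ex k0 hk0 g0 (fun e => hn (ax p0 hp0 (e ▸ p0k)))
  refine ⟨C, hC, hl, nC, fun p hp => ⟨fun h => ?_, ?_⟩, fun k hk => ⟨fun h => ?_, ?_⟩⟩
  · by_cases c : I p l
    · exact Or.inr c
    · exact Or.inl (uni p hp h c C hC fC nC)
  · rintro (rfl | h)
    · exact fC
    · exact ax p hp h
  · by_cases c : k = l
    · exact Or.inl c
    · obtain ⟨C', hC', fC', a, nC'⟩ := ex k hk h c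
      exact Or.inr (uni C' hC' fC' nC' C hC fC nC ▸ a)
  · rintro (rfl | h)
    · exact gl
    · exact cen C hC fC nC k hk h

theorem exists_line_ne (hU : Uniq I) (hS : IsSub I X Y m) (inc : ∀ p l, I (f p) (g l) ↔ I p l)
    (h1 : 1 ≤ m) (hne : ∃ p ∈ X, f p ≠ p) : ∃ l ∈ Y, g l ≠ l := by
  obtain ⟨p, hp, hn⟩ := hne
  by_contra! c
  obtain ⟨a, ha⟩ : (on (flip I) Y p).Nonempty := card_pos.1 (by rw [hS.cp p hp]; omega)
  obtain ⟨b, hb, ab⟩ := exists_other (A := on (flip I) Y p) (by rw [hS.cp p hp]; omega) a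
  simp only [mem_on, flip] at ha hb
  exact hn (fix_of_two hU inc ab (c b hb.1) (c a ha.1) hb.2 ha.2)

theorem card_through (hU : Uniq I) {X' : Finset P} {Y' : Finset L} {a b : ℕ}
    (join : ∀ p ∈ X', ∀ q ∈ X', p ≠ q → ∃ l ∈ Y', I p l ∧ I q l)
    (cl : ∀ l ∈ Y', (on I X' l).card = a + 1) {C : P} (hC : C ∈ X')
    (cp : (on (flip I) Y' C).card = b) : X'.card = b * a + 1 := by
  classical
  have e : X'.erase C = (on (flip I) Y' C).biUnion fun l => (on I X' l).erase C := by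
    ext q
    simp only [mem_erase, mem_biUnion, mem_on, flip]
    constructor
    · rintro ⟨h1, h2⟩
      obtain ⟨l, hl, c, d⟩ := join C hC q h2 h1.symm
      exact ⟨l, ⟨hl, c⟩, h1, h2, d⟩
    · rintro ⟨l, -, h1, h2, -⟩
      exact ⟨h1, h2⟩
  have h := congrArg card e
  rw [card_biUnion, card_erase_of_mem hC, sum_congr rfl (g := fun _ => a), sum_const, cp,
    smul_eq_mul] at h
  · have := card_pos.2 ⟨C, hC⟩
    omega
  · intro l hl
    simp only [mem_on, flip] at hl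
    rw [card_erase_of_mem (by simp [hC, hl.2]), cl l hl.1]
    rfl
  · intro l hl k hk lk
    simp only [mem_coe, mem_on, flip] at hl hk
    refine disjoint_left.2 fun q h1 h2 => ?_
    simp only [mem_erase, mem_on] at h1 h2
    exact lk ((hU q C l k h1.2.2 hl.2 h2.2.2 hk.2).resolve_left h1.1)

theorem baer (hU : Uniq I) (hS : IsSub I X Y m) (hc : Col I X Y f g) (hm : Odd m) (h3 : 3 ≤ m)
    (hne : ∃ p ∈ X, f p ≠ p) :
    (∃ C l, IsHom I X Y f g C l) ∨ ∃ s, s * s = m ∧ IsSub I (fx X f) (fx Y g) s := by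
  classical
  by_cases hax : ∃ l ∈ Y, ∀ p ∈ X, I p l → f p = p
  · obtain ⟨l, hl, ax⟩ := hax
    obtain ⟨C, h⟩ := hom_of_axis hU hS hc hm h3 hne hl ax
    exact Or.inl ⟨C, l, h⟩
  have hne' := exists_line_ne hU hS hc.inc (by omega) hne
  by_cases hce : ∃ C ∈ X, ∀ l ∈ Y, I C l → g l = l
  · obtain ⟨C, hC, ax⟩ := hce
    obtain ⟨l, h⟩ := hom_of_axis hU.dual hS.dual hc.dual hm h3 hne' hC ax
    exact Or.inl ⟨C, l, h.dual⟩
  push Not at hax hce
  right
  have c1 : ∀ l ∈ fx Y g, (fx X f).card = (on I (fx X f) l).card + m := by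
    intro l hl
    rw [mem_fx] at hl
    obtain ⟨p, hp, a, b⟩ := hax l hl.1
    exact card_fx_eq hU hS hc hl.1 hl.2 hp a b
  have c2 : ∀ p ∈ fx X f, (fx Y g).card = (on (flip I) (fx Y g) p).card + m := by
    intro p hp
    rw [mem_fx] at hp
    obtain ⟨l, hl, a, b⟩ := hce p hp.1
    exact card_fx_eq hU.dual hS.dual hc.dual hp.1 hp.2 hl a b
  have join : ∀ p ∈ fx X f, ∀ q ∈ fx X f, p ≠ q → ∃ l ∈ fx Y g, I p l ∧ I q l := by
    intro p hp q hq pq
    rw [mem_fx] at hp hq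
    obtain ⟨l, hl, a, b⟩ := hS.join p hp.1 q hq.1 pq
    exact ⟨l, mem_fx.2 ⟨hl, fixl_of_two hU hc.inc pq hp.2 hq.2 a b⟩, a, b⟩
  have meet : ∀ l ∈ fx Y g, ∀ k ∈ fx Y g, l ≠ k → ∃ p ∈ fx X f, I p l ∧ I p k := by
    intro l hl k hk lk
    rw [mem_fx] at hl hk
    obtain ⟨p, hp, a, b⟩ := hS.meet l hl.1 k hk.1 lk
    exact ⟨p, mem_fx.2 ⟨hp, fix_of_two hU hc.inc lk hl.2 hk.2 a b⟩, a, b⟩
  obtain ⟨p0, hp0, hn⟩ := hne
  obtain ⟨l0, hl0, gl0, -⟩ := fixed_join hU hS hc hp0 hn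
  have hl0' : l0 ∈ fx Y g := mem_fx.2 ⟨hl0, gl0⟩
  have F3 : 3 ≤ (fx X f).card := by
    have := c1 l0 hl0'
    omega
  obtain ⟨C, hC, -⟩ := exists_other (A := fx X f) (by omega) p0
  obtain ⟨C', hC', CC⟩ := exists_other (A := fx X f) (by omega) C
  obtain ⟨l1, hl1, a1, b1⟩ := join C' hC' C hC CC
  have p1 : 0 < (on I (fx X f) l1).card := card_pos.2 ⟨C, mem_on.2 ⟨hC, b1⟩⟩
  have p2 : 0 < (on (flip I) (fx Y g) C).card := card_pos.2 ⟨l1, mem_on.2 ⟨hl1, b1⟩⟩
  obtain ⟨s, hs⟩ : ∃ s, (fx X f).card = s + 1 + m := ⟨(on I (fx X f) l1).card - 1, by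
    have := c1 l1 hl1
    omega⟩
  obtain ⟨s', hs'⟩ : ∃ s, (fx Y g).card = s + 1 + m := ⟨(on (flip I) (fx Y g) C).card - 1, by
    have := c2 C hC
    omega⟩
  have cl : ∀ l ∈ fx Y g, (on I (fx X f) l).card = s + 1 := fun l hl => by
    have := c1 l hl
    omega
  have cp : ∀ p ∈ fx X f, (on (flip I) (fx Y g) p).card = s' + 1 := fun p hp => by
    have := c2 p hp
    omega
  have e1 := card_through hU join cl hC (cp C hC)
  have dc : ∑ l ∈ fx Y g, (on I (fx X f) l).card = ∑ p ∈ fx X f, (on (flip I) (fx Y g) p).card := by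
    simp only [on, card_filter]
    rw [sum_comm]
    rfl
  rw [sum_congr rfl cl, sum_congr rfl cp, sum_const, sum_const, hs, hs', smul_eq_mul,
    smul_eq_mul] at dc
  obtain rfl : s = s' := by
    have : m * s = m * s' := by nlinarith
    exact Nat.eq_of_mul_eq_mul_left (by omega) this
  have hm' : s * s = m := by nlinarith
  exact ⟨s, hm', join, meet, cl, cp, by omega, by omega⟩

end Cfsg.Agent.H79.Ov
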