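import Mathlib
import Cfsg.Prelude.Def_CaseTheorems

/-!
# Simple collineation groups preserving an oval: the group-theoretic interface
-/

set_option autoImplicit false

namespace Cfsg.Agent.H79.Ov

universe u v

/-- An involution. -/
def Inv {G : Type*} [Group G] (x : G) : Prop := x ≠ 1 ∧ x * x = 1

/-- Two distinct involutions are centralised by at most one further involution. -/
def NoBad1 (G : Type*) [Group G] : Prop :=
  ∀ a b t₁ t₂ : G, Inv a → Inv b → Inv t₁ → Inv t₂ → a ≠ b → t₁ ≠ a → t₁ ≠ b → t₂ ≠ a → t₂ ≠ b →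
    Commute t₁ a → Commute t₁ b → Commute t₂ a → Commute t₂ b → t₁ = t₂

/-- No element of odd prime order centralising a four-group `⟨z₁, z₃⟩` is inverted by an
involution commuting with `z₃`. -/
def NoBad2 (G : Type*) [Group G] : Prop :=
  ∀ (z₁ z₃ t ρ : G) (r : ℕ), Inv z₁ → Inv z₃ → Inv t → z₁ ≠ z₃ → Commute z₁ z₃ → Commute t z₃ →
    r.Prime → r ≠ 2 → ρ ^ r = 1 → Commute ρ z₁ → Commute ρ z₃ → t * ρ * t = ρ⁻¹ → ρ = 1

/-- A `2`-subgroup centralising and containing a four-group `⟨z₁, z₂⟩` has a subgroup of index two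
containing `z₁` and not `z₂`. -/
def K3 (G : Type*) [Group G] : Prop :=
  ∀ (z₁ z₂ : G) (T : Subgroup G), Inv z₁ → Inv z₂ → z₁ ≠ z₂ → IsPGroup 2 T → z₁ ∈ T → z₂ ∈ T →
    (∀ x ∈ T, Commute x z₁ ∧ Commute x z₂) →
    ∃ T₁ : Subgroup G, z₁ ∈ T₁ ∧ z₂ ∉ T₁ ∧ ∀ x ∈ T, x ∈ T₁ ∨ z₂ * x ∈ T₁

theorem Inv.map {G H : Type*} [Group G] [Group H] {f : G →* H} (hf : Function.Injective f) {x : G}
    (h : Inv x) : Inv (f x) :=
  ⟨fun e => h.1 (hf (e.trans (map_one f).symm)), by rw [← map_mul, h.2, map_one]⟩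

theorem NoBad1.of_inj {G H : Type*} [Group G] [Group H] (h : NoBad1 G) (f : H →* G)
    (hf : Function.Injective f) : NoBad1 H :=
  fun a b t₁ t₂ ha hb h₁ h₂ ab a₁ b₁ a₂ b₂ c₁ c₂ c₃ c₄ =>
    hf (h (f a) (f b) (f t₁) (f t₂) (ha.map hf) (hb.map hf) (h₁.map hf) (h₂.map hf) (hf.ne ab)
      (hf.ne a₁) (hf.ne b₁) (hf.ne a₂) (hf.ne b₂) (c₁.map f) (c₂.map f) (c₃.map f) (c₄.map f))

theorem NoBad2.of_inj {G H : Type*} [Group G] [Group H] (h : NoBad2 G) (f : H →* G)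
    (hf : Function.Injective f) : NoBad2 H :=
  fun z₁ z₃ t ρ r h₁ h₃ ht ne c₁ c₂ hr h2 hρ c₃ c₄ hi =>
    hf ((h (f z₁) (f z₃) (f t) (f ρ) r (h₁.map hf) (h₃.map hf) (ht.map hf) (hf.ne ne) (c₁.map f)
      (c₂.map f) hr h2 (by rw [← map_pow, hρ, map_one]) (c₃.map f) (c₄.map f)
      (by rw [← map_mul, ← map_mul, hi, map_inv])).trans (map_one f).symm)

/-- `A₇` is excluded. -/
def XA7 : Prop := ¬ NoBad2 (alternatingGroup (Fin 7))

/-- `PSL₃(q)`, `q` odd, is excluded. -/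
def XL3 : Prop := ∀ (F : Type) [Field F] [Fintype F], Odd (Fintype.card F) →
  ¬ NoBad1 (Matrix.ProjectiveSpecialLinearGroup (Fin 3) F)

/-- `PSU₃(q)`, `q ≡ 1 mod 4`, is excluded. -/
def XU3 : Prop := ∀ (F : Type) [Field F] [Fintype F] (q : ℕ), Fintype.card F = q ^ 2 → q % 4 = 1 →
  ¬ NoBad2 (Cfsg.PSU 3 F q)

/-- Simple groups of order `7920` are excluded. -/
def XM11 : Prop := ∀ (G : Type u) [Group G] [Finite G], Cfsg.IsM11 G → ¬ NoBad1 G

/-- The final identification. -/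
def FinStmt : Prop := ∀ (G : Type u) [Group G] [Finite G] [IsSimpleGroup G], ¬ IsMulCommutative G →
  NoBad1 G → NoBad2 G → K3 G →
    ∃ (F : Type) (_ : Field F) (_ : Fintype F), Odd (Fintype.card F) ∧
      Nonempty (G ≃* Matrix.ProjectiveSpecialLinearGroup (Fin 2) F)

/-- `g` fixes at most two points of `O`. -/
def Fix2 {G P : Type*} [Group G] [MulAction G P] (O : Finset P) (g : G) : Prop :=
  ∀ a ∈ O, ∀ b ∈ O, ∀ c ∈ O, g • a = a → g • b = b → g • c = c → a = b ∨ a = c ∨ b = c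

open Classical in
/-- The permutation axioms satisfied by `G` on an oval of a plane of order `≡ 1 mod 4`. -/
structure PermAx (G : Type*) {P : Type*} [Group G] [MulAction G P] (O : Finset P) : Prop where
  inv : ∀ g : G, ∀ p ∈ O, g • p ∈ O
  card : O.card % 4 = 2
  h1 : ∀ x : G, Inv x → (O.filter fun p => x • p = p).card % 4 = 2
  h2 : ∀ σ τ : G, Inv σ → Inv τ → Fix2 O σ → Fix2 O τ → σ ≠ τ → Fix2 O (σ * τ)
  h2a : ∀ σ τ : G, Inv σ → Inv τ → Fix2 O σ → Fix2 O τ → ∀ a ∈ O, ∀ b ∈ O, a ≠ b →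
    σ • a = a → σ • b = b → τ • a = a → τ • b = b → σ = τ
  h3 : ∀ T : Subgroup G, IsPGroup 2 T → ∀ a ∈ O, ∀ b ∈ O, ∀ c ∈ O, a ≠ b → a ≠ c → b ≠ c →
    (∀ g ∈ T, g • a = a ∧ g • b = b ∧ g • c = c) → IsCyclic T
  h4 : ∀ x y : G, Inv x → Inv y → x ≠ y → Commute x y → Fix2 O x ∨ Fix2 O y ∨ Fix2 O (x * y)

/-- No Baer involutions. -/
def NoBaer : Prop := ∀ (G : Type u) (P : Type v) [Group G] [Finite G] [IsSimpleGroup G]
  [MulAction G P] (O : Finset P), ¬ IsMulCommutative G → PermAx G O → ∀ x : G, Inv x → Fix2 O x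

end Cfsg.Agent.H79.Ov
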