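import Cfsg.Agent.H79.OvAll

/-!
# The homologies of a Sylow `2`-subgroup generate a dihedral group
-/

set_option autoImplicit false

namespace Cfsg.Agent.H79.Ov

open Subgroup

variable {G P : Type*} [Group G] [MulAction G P] {O : Finset P}

/-- An involution fixing at most two points. -/
def Hm (O : Finset P) (x : G) : Prop := Inv x ∧ Fix2 O x

theorem Inv.conj {x : G} (h : Inv x) (g : G) : Inv (g * x * g⁻¹) :=
  ⟨fun e => h.1 (conj_eq_one_iff.1 e), by rw [conj_mul, h.2, mul_one, mul_inv_cancel]⟩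

theorem exists_inv_pow {x : G} {k : ℕ} (h : x ^ 2 ^ k = 1) (hx : x ≠ 1) : ∃ m : ℕ, Inv (x ^ m) := by
  induction k with
  | zero => exact absurd (by simpa using h) hx
  | succ k ih =>
    by_cases c : x ^ 2 ^ k = 1
    · exact ih c
    · exact ⟨2 ^ k, c, by rw [← pow_add, ← two_mul, ← pow_succ', h]⟩

theorem mem_zpowers_odd {x : G} {k : ℕ} (h : x ^ 2 ^ k = 1) (j : ℤ) :
    ∃ i : ℤ, x = (x ^ (2 * j + 1)) ^ i := by
  obtain ⟨u, v, e⟩ : IsCoprime (2 * j + 1) ((2 : ℤ) ^ k) :=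
    IsCoprime.pow_right ⟨1, -j, by ring⟩
  refine ⟨u, ?_⟩
  have h2 : x ^ ((2 : ℤ) ^ k) = 1 := by exact_mod_cast h
  rw [← zpow_mul, show (2 * j + 1) * u = 1 - 2 ^ k * v by linear_combination e, zpow_sub, zpow_mul,
    h2, one_zpow, zpow_one, inv_one, mul_one]

namespace PermAx

variable (A : PermAx G O)
include A

theorem fix2_conj {x : G} (h : Fix2 O x) (g : G) : Fix2 O (g * x * g⁻¹) := by
  intro a ha b hb c hc fa fb fc
  simp only [mul_smul, smul_eq_iff_eq_inv_smul g] at fa fb fc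
  simpa using h _ (A.inv g⁻¹ a ha) _ (A.inv g⁻¹ b hb) _ (A.inv g⁻¹ c hc) fa fb fc

theorem hm_conj {x : G} (h : Hm O x) (g : G) : Hm O (g * x * g⁻¹) :=
  ⟨h.1.conj g, A.fix2_conj h.2 g⟩

theorem exists_fix {x : G} (h : Inv x) : ∃ a ∈ O, ∃ b ∈ O, a ≠ b ∧ x • a = a ∧ x • b = b := by
  have h1 : (fx O fun p => x • p).card % 4 = 2 := A.h1 x h
  obtain ⟨a, ha⟩ : (fx O fun p => x • p).Nonempty := Finset.card_pos.1 (by omega)
  obtain ⟨b, hb, ab⟩ := exists_other (A := fx O fun p => x • p) (by omega) a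
  rw [mem_fx] at ha hb
  exact ⟨a, ha.1, b, hb.1, ab.symm, ha.2, hb.2⟩

theorem hm_mul {x y : G} (hx : Hm O x) (hy : Hm O y) (ne : x ≠ y) (c : Commute x y) :
    Hm O (x * y) :=
  ⟨hx.1.mul hy.1 ne c, A.h2 x y hx.1 hy.1 hx.2 hy.2 ne⟩

theorem swap_of_comm {x g : G} (h : Fix2 O x) {a b : P} (ha : a ∈ O) (hb : b ∈ O) (ab : a ≠ b)
    (fa : x • a = a) (fb : x • b = b) (c : Commute g x) :
    (g • a = a ∧ g • b = b) ∨ (g • a = b ∧ g • b = a) := by
  have key : ∀ p ∈ O, x • p = p → g • p = a ∨ g • p = b := fun p hp fp => by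
    rcases h a ha b hb _ (A.inv g p hp) fa fb (by rw [smul_smul, ← c.eq, mul_smul, fp]) with
      e | e | e
    exacts [absurd e ab, Or.inl e.symm, Or.inr e.symm]
  have inj : g • a ≠ g • b := fun c => ab (MulAction.injective g c)
  rcases key a ha fa with e | e <;> rcases key b hb fb with e' | e'
  · exact absurd (e.trans e'.symm) inj
  · exact Or.inl ⟨e, e'⟩
  · exact Or.inr ⟨e, e'⟩
  · exact absurd (e.trans e'.symm) inj

end PermAx

/-- The configuration inside a `2`-subgroup `S`. -/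
structure Ctx (O : Finset P) (S : Subgroup G) (a b c d : P) (z t : G) : Prop where
  A : PermAx G O
  hS : IsPGroup 2 S
  ha : a ∈ O
  hb : b ∈ O
  hc : c ∈ O
  hd : d ∈ O
  ab : a ≠ b
  cd : c ≠ d
  pr : ∀ g ∈ S, (g • a = a ∧ g • b = b) ∨ (g • a = b ∧ g • b = a)
  zS : z ∈ S
  tS : t ∈ S
  hz : Hm O z
  ht : Hm O t
  za : z • a = a
  ta : t • a = b
  tc : t • c = c
  td : t • d = d

/-- The rotations. -/
def Rot (O : Finset P) (S : Subgroup G) (a : P) (t x : G) : Prop :=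
  x ∈ S ∧ x • a = a ∧ Hm O (t * x)

namespace Ctx

variable {S : Subgroup G} {a b c d : P} {z t : G} (C : Ctx O S a b c d z t)
include C

theorem fb {g : G} (hg : g ∈ S) (h : g • a = a) : g • b = b :=
  ((C.pr g hg).resolve_right fun e => C.ab (h.symm.trans e.1)).2

theorem tb : t • b = a := ((C.pr t C.tS).resolve_left fun e => C.ab (e.1.symm.trans C.ta)).2

theorem tt : t * t = 1 := C.ht.1.2

theorem eq_z {x : G} (hx : x ∈ S) (h : Hm O x) (xa : x • a = a) : x = z :=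
  C.A.h2a x z h.1 C.hz.1 h.2 C.hz.2 a C.ha b C.hb C.ab xa (C.fb hx xa) C.za (C.fb C.zS C.za)

theorem zc {g : G} (hg : g ∈ S) : Commute g z := by
  have : g * z * g⁻¹ = z := by
    refine C.eq_z (S.mul_mem (S.mul_mem hg C.zS) (S.inv_mem hg)) (C.A.hm_conj C.hz g) ?_
    rw [mul_smul, mul_smul, smul_eq_iff_eq_inv_smul]
    rcases C.pr _ (S.inv_mem hg) with e | e
    · rw [e.1, C.za]
    · rw [e.1, C.fb C.zS C.za]
  exact mul_inv_eq_iff_eq_mul.1 this

theorem ac : a ≠ c := fun e => C.ab (by rw [← C.ta, e, C.tc])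

theorem bc : b ≠ c := fun e => C.ab (by rw [← C.tb, e, C.tc])

theorem zcd : z • c = d ∧ z • d = c := by
  refine (C.A.swap_of_comm C.ht.2 C.hc C.hd C.cd C.tc C.td (C.zc C.tS).symm).resolve_left
    fun e => ?_
  rcases C.hz.2 a C.ha b C.hb c C.hc C.za (C.fb C.zS C.za) e.1 with e | e | e
  exacts [C.ab e, C.ac e, C.bc e]

theorem not_fix2 {g : G} (hg : g ∈ S) (h1 : g • a = a) (h2 : g • c = c) : ¬ Fix2 O g := fun k => by
  rcases k a C.ha b C.hb c C.hc h1 (C.fb hg h1) h2 with e | e | e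
  exacts [C.ab e, C.ac e, C.bc e]

theorem cent {s : G} (h : Commute s t) :
    (s • c = c ∧ s • d = d) ∨ ((z * s) • c = c ∧ (z * s) • d = d) :=
  (C.A.swap_of_comm C.ht.2 C.hc C.hd C.cd C.tc C.td h).imp_right fun e => by
    rw [mul_smul, mul_smul, e.1, e.2]
    exact C.zcd.symm

theorem comm_t {s : G} (h1 : s • c = c) (h2 : s • d = d) : Commute s t := by
  have h := C.A.hm_conj C.ht s
  have : s * t * s⁻¹ = t := C.A.h2a _ t h.1 C.ht.1 h.2 C.ht.2 c C.hc d C.hd C.cd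
    (by rw [mul_smul, mul_smul, inv_smul_eq_iff.2 h1.symm, C.tc, h1])
    (by rw [mul_smul, mul_smul, inv_smul_eq_iff.2 h2.symm, C.td, h2]) C.tc C.td
  exact mul_inv_eq_iff_eq_mul.1 this

theorem rot_inv {x : G} (h : Rot O S a t x) (j : ℤ) : x ^ j * t = t * x ^ (-j) := by
  have e : t * x * t⁻¹ = x⁻¹ := by
    rw [C.ht.1.inv]
    exact eq_inv_of_mul_eq_one_left (by rw [mul_assoc (t * x), h.2.2.1.2])
  have : t * x ^ (-j) * t⁻¹ = x ^ j := by rw [← conj_zpow, e, inv_zpow', neg_neg]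
  rw [← this, C.ht.1.inv, mul_assoc, C.tt, mul_one]

theorem rot_zpow {x : G} (h : Rot O S a t x) (j : ℤ) : Rot O S a t (x ^ j) := by
  refine ⟨S.zpow_mem h.1 j, (MulAction.stabilizer G a).zpow_mem h.2.1 j, ?_⟩
  obtain ⟨i, rfl | rfl⟩ := Int.even_or_odd' j
  · have := C.A.hm_conj C.ht (x ^ (-i))
    rwa [C.rot_inv h, mul_assoc, ← zpow_neg, ← zpow_add, neg_neg, ← two_mul] at this
  · have := C.A.hm_conj h.2.2 (x ^ (-i))
    rwa [← mul_assoc, C.rot_inv h, ← zpow_neg, neg_neg, mul_assoc, mul_assoc, ← zpow_one_add,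
      ← zpow_add, show i + (1 + i) = 2 * i + 1 by ring] at this

theorem rot_pow {x : G} (h : Rot O S a t x) (j : ℕ) : Rot O S a t (x ^ j) := by
  exact_mod_cast C.rot_zpow h j

theorem rot_eq_z {x : G} (h : Rot O S a t x) (hx : Inv x) : x = z := by
  refine C.eq_z h.1 ⟨hx, ?_⟩ h.2.1
  have := C.A.h2 t (t * x) C.ht.1 h.2.2.1 C.ht.2 h.2.2.2 fun e => hx.1 (left_eq_mul.1 e)
  rwa [← mul_assoc, C.tt, one_mul] at this

theorem tz : t ≠ z := fun e => C.ab (by rw [← C.ta, e, C.za])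

theorem rot_z : Rot O S a t z := ⟨C.zS, C.za, C.A.hm_mul C.ht C.hz C.tz (C.zc C.tS)⟩

theorem rot_same (k : ℕ) : ∀ x y : G, Rot O S a t x → Rot O S a t y → orderOf x = 2 ^ k →
    orderOf y = 2 ^ k → ∃ j : ℤ, y = x ^ j := by
  induction k with
  | zero =>
    intro x y _ _ _ oy
    exact ⟨0, by simpa using oy⟩
  | succ k ih =>
    intro x y hx hy ox oy
    have half : ∀ u : G, orderOf u = 2 ^ (k + 1) → Inv (u ^ 2 ^ k) := fun u ou =>
      ⟨pow_ne_one_of_lt_orderOf (by positivity) (by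
          rw [ou]
          exact Nat.pow_lt_pow_right (by norm_num) (by omega)),
        by rw [← pow_add, ← two_mul, ← pow_succ', ← ou, pow_orderOf_eq_one]⟩
    have xz := C.rot_eq_z (C.rot_pow hx _) (half x ox)
    have yz := C.rot_eq_z (C.rot_pow hy _) (half y oy)
    rcases k with _ | k
    · exact ⟨1, by simpa using yz.trans xz.symm⟩
    have sq : ∀ u : G, orderOf u = 2 ^ (k + 1 + 1) → orderOf (u ^ 2) = 2 ^ (k + 1) := fun u ou => by
      rw [orderOf_pow_of_dvd (by norm_num) (ou ▸ dvd_pow_self 2 (by omega)), ou, pow_succ]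
      omega
    obtain ⟨m, hm⟩ := ih _ _ (C.rot_pow hx 2) (C.rot_pow hy 2) (sq x ox) (sq y oy)
    have hm' : y ^ (2 : ℤ) = x ^ (2 * m) := by
      rw [zpow_mul]
      exact_mod_cast hm
    obtain ⟨i, rfl | rfl⟩ := Int.even_or_odd' m
    · exfalso
      refine C.hz.1.1 ?_
      have h1 : x ^ ((2 : ℤ) ^ (k + 1 + 1)) = 1 := by
        have := pow_orderOf_eq_one x
        rw [ox] at this
        exact_mod_cast this
      have h2 : y ^ 2 ^ (k + 1) = (y ^ (2 : ℤ)) ^ ((2 : ℤ) ^ k) := by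
        rw [← zpow_mul, ← pow_succ']
        norm_cast
      rw [← yz, h2, hm', ← zpow_mul, show 2 * (2 * i) * 2 ^ k = 2 ^ (k + 1 + 1) * i by ring,
        zpow_mul, h1, one_zpow]
    have e1 : y * t = t * y⁻¹ := by simpa using C.rot_inv hy 1
    have cm : Commute (x ^ (-2 * i - 1) * y) t := by
      have h1 : y⁻¹ = x ^ (-(2 * (2 * i + 1))) * y := by
        rw [zpow_neg, ← hm', zpow_two]
        group
      rw [Commute, SemiconjBy, mul_assoc, e1, ← mul_assoc, C.rot_inv hx, h1, mul_assoc, ← mul_assoc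
        (x ^ _), ← zpow_add]
      congr 3
      ring
    have fin : ∀ j : ℤ, (x ^ j * y) • c = c → ∃ j : ℤ, y = x ^ j := fun j h => by
      refine ⟨-j, ?_⟩
      by_contra ne
      have h1 := C.rot_zpow hx (-j)
      have h2 := C.A.h2 _ _ h1.2.2.1 hy.2.2.1 h1.2.2.2 hy.2.2.2
        fun e => ne (mul_left_cancel e).symm
      rw [← C.rot_inv hx, mul_assoc, ← mul_assoc t, C.tt, one_mul] at h2
      exact C.not_fix2 (S.mul_mem (S.zpow_mem hx.1 j) hy.1)
        (by rw [mul_smul, hy.2.1, (C.rot_zpow hx j).2.1]) h h2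
    rcases C.cent cm with e | e
    · exact fin _ e.1
    · refine fin (2 ^ (k + 1) + (-2 * i - 1)) ?_
      rw [zpow_add, mul_assoc, show x ^ ((2 : ℤ) ^ (k + 1)) = z by exact_mod_cast xz]
      exact e.1

theorem exists_gen [Finite G] : ∃ r : G, Rot O S a t r ∧ ∀ x, Rot O S a t x → ∃ j : ℤ, x = r ^ j := by
  obtain ⟨r, hr, mx⟩ := Set.exists_max_image {x | Rot O S a t x} orderOf (Set.toFinite _)
    ⟨z, C.rot_z⟩
  refine ⟨r, hr, fun x hx => ?_⟩
  obtain ⟨k, hk⟩ := (IsPGroup.iff_orderOf.1 C.hS) ⟨r, hr.1⟩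
  obtain ⟨j, hj⟩ := (IsPGroup.iff_orderOf.1 C.hS) ⟨x, hx.1⟩
  rw [← Subgroup.orderOf_coe] at hk hj
  simp only at hk hj
  have le : j ≤ k := by
    have := mx x hx
    rw [hk, hj] at this
    exact (Nat.pow_le_pow_iff_right (by norm_num)).1 this
  obtain ⟨i, hi⟩ := C.rot_same j (r ^ 2 ^ (k - j)) x (C.rot_pow hr _) hx (by
    rw [orderOf_pow_of_dvd (by positivity) (hk ▸ pow_dvd_pow 2 (by omega)), hk,
      Nat.pow_div (by omega) (by norm_num)]
    congr 1
    omega) hj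
  exact ⟨2 ^ (k - j) * i, by rw [hi, zpow_mul]; norm_cast⟩

end Ctx

end Cfsg.Agent.H79.Ov
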