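import Cfsg.Agent.H79.OvDefs

/-!
# Excluding the three-dimensional linear and unitary groups
-/

set_option autoImplicit false

namespace Cfsg.Agent.H79.Ov

open Matrix

theorem mk_ne {H : Type*} [Group H] {x y : H} (g : H) (h : x * g * y ≠ y * g * x) :
    QuotientGroup.mk' (Subgroup.center H) x ≠ QuotientGroup.mk' (Subgroup.center H) y := by
  intro e
  obtain ⟨c, hc, rfl⟩ := (QuotientGroup.mk'_eq_mk' _).1 e
  refine h ?_
  have := Subgroup.mem_center_iff.1 hc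
  calc x * g * (x * c) = x * (g * x * c) := by group
    _ = x * c * g * x := by rw [this]; group

theorem inv_mk {H : Type*} [Group H] {x : H} (g : H) (h : x * g * 1 ≠ 1 * g * x) (h2 : x * x = 1) :
    Inv (QuotientGroup.mk' (Subgroup.center H) x) :=
  ⟨(map_one (QuotientGroup.mk' (Subgroup.center H))) ▸ mk_ne g h, by rw [← map_mul, h2, map_one]⟩

theorem two_ne {F : Type} [Field F] [Fintype F] (h : Odd (Fintype.card F)) : (2 : F) ≠ 0 := by
  intro e
  have := FiniteField.even_card_of_char_two (F := F) (by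
    have : CharP F 2 := (CharP.charP_iff_prime_eq_zero Nat.prime_two).2 (by exact_mod_cast e)
    exact ringChar.eq F 2)
  rw [Nat.odd_iff] at h
  omega

theorem xl3 : XL3 := by
  intro F _ _ hF h
  have h2 := two_ne hF
  obtain ⟨φ, eq, mk⟩ : ∃ φ : SpecialLinearGroup (Fin 3) F →* Matrix (Fin 3) (Fin 3) F,
      (∀ {x y}, φ x = φ y → x = y) ∧ ∀ M : Matrix (Fin 3) (Fin 3) F, M.det = 1 → ∃ x, φ x = M :=
    ⟨slToMat 3 F, Subtype.ext, fun M hM => ⟨⟨M, hM⟩, rfl⟩⟩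
  obtain ⟨a, ha⟩ := mk !![1, 0, 0; 0, -1, 0; 0, 0, -1] (by simp [det_fin_three])
  obtain ⟨b, hb⟩ := mk !![1, 0, 0; 2, -1, 0; 0, 0, -1] (by simp [det_fin_three])
  obtain ⟨s, hs⟩ := mk !![-1, 0, 0; 0, -1, 0; 0, 0, 1] (by simp [det_fin_three])
  obtain ⟨t, ht⟩ := mk !![-1, 0, 0; 0, -1, 2; 0, 0, 1] (by simp [det_fin_three])
  obtain ⟨g, hg⟩ := mk !![1, 0, 1; 0, 1, 0; 0, 0, 1] (by simp [det_fin_three])
  obtain ⟨k, hk⟩ := mk !![1, 1, 0; 0, 1, 0; 0, 0, 1] (by simp [det_fin_three])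
  have ne : ∀ {x y : SpecialLinearGroup (Fin 3) F} (i j : Fin 3),
      φ x i j - φ y i j = 2 ∨ φ y i j - φ x i j = 2 → x ≠ y :=
    fun i j h e => h2 (by simpa [e, eq_comm] using h)
  refine mk_ne k (ne 0 2 (.inr ?_)) (h _ _ _ _ (inv_mk (x := a) g (ne 0 2 (.inl ?_)) (eq ?_))
    (inv_mk (x := b) g (ne 0 2 (.inl ?_)) (eq ?_)) (inv_mk (x := s) g (ne 0 2 (.inr ?_)) (eq ?_))
    (inv_mk (x := t) g (ne 0 2 (.inr ?_)) (eq ?_)) (mk_ne k (ne 0 0 (.inl ?_)))
    (mk_ne k (ne 0 1 (.inl ?_))) (mk_ne k (ne 0 1 (.inl ?_))) (mk_ne k (ne 0 1 (.inl ?_)))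
    (mk_ne k (ne 0 1 (.inl ?_))) (Commute.map (eq ?_) _) (Commute.map (eq ?_) _)
    (Commute.map (eq ?_) _) (Commute.map (eq ?_) _))
  all_goals simp only [map_mul, map_one, ha, hb, hs, ht, hg, hk, one_fin_three, mul_fin_three]
  all_goals norm_num [cons_val_two]

theorem xu3 : XU3 := by
  intro F _ _ q hF hq h
  have q1 : 1 < q := by
    have := Fintype.one_lt_card (α := F)
    by_contra c
    obtain rfl : q = 1 := by omega
    omega
  have oq : Odd q := Nat.odd_iff.2 (by omega)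
  have h2 := two_ne (F := F) (hF ▸ oq.pow)
  obtain ⟨r, hr, hd⟩ := Nat.exists_prime_and_dvd (n := (q + 1) / 2) (by omega)
  have r2 : r ≠ 2 := by
    rintro rfl
    omega
  have hd' : r ∣ q + 1 := hd.trans (Nat.div_dvd_of_dvd (by omega))
  have := Fact.mk hr
  classical
  obtain ⟨μ, hμ⟩ := exists_prime_orderOf_dvd_card (G := Fˣ) r (by
    rw [Fintype.card_units, hF, show q ^ 2 - 1 = (q + 1) * (q - 1) from Nat.sq_sub_sq q 1]
    exact hd'.mul_right _)
  have m1 : (μ : F) ^ r = 1 := by rw [← hμ, ← Units.val_pow_eq_pow_val, pow_orderOf_eq_one]; rfl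
  have m2 : (μ : F) * (μ : F) ^ q = 1 := by
    obtain ⟨c, hc⟩ := hd'
    rw [← pow_succ', hc, pow_mul, m1, one_pow]
  have m3 : (μ : F)⁻¹ * (μ : F)⁻¹ ^ q = 1 := by rw [inv_pow, ← mul_inv, m2, inv_one]
  have m4 : (μ : F) - (μ : F)⁻¹ ≠ 0 := fun e => r2 (by
    have h1 : μ ^ 2 = 1 := Units.ext (by
      rw [Units.val_pow_eq_pow_val, pow_two]
      nth_rw 2 [sub_eq_zero.1 e]
      exact mul_inv_cancel₀ μ.ne_zero)
    exact (Nat.prime_dvd_prime_iff_eq hr Nat.prime_two).1 (hμ ▸ orderOf_dvd_of_pow_eq_one h1))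
  obtain ⟨φ, eq, mk⟩ : ∃ φ : SU 3 F q →* Matrix (Fin 3) (Fin 3) F,
      (∀ {x y}, φ x = φ y → x = y) ∧ ∀ M : Matrix (Fin 3) (Fin 3) F, M.det = 1 →
      (∀ u v, hermForm 3 F q (M *ᵥ u) (M *ᵥ v) = hermForm 3 F q u v) → ∃ x, φ x = M :=
    ⟨(slToMat 3 F).comp (SU 3 F q).subtype, fun e => Subtype.ext (Subtype.ext e),
      fun M hM hf => ⟨⟨⟨M, hM⟩, hf⟩, rfl⟩⟩
  obtain ⟨a, ha⟩ := mk !![1, 0, 0; 0, -1, 0; 0, 0, -1] (by simp [det_fin_three]) fun u v => by
    simp [hermForm, Fin.sum_univ_three, mulVec, dotProduct, oq.neg_pow]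
  obtain ⟨b, hb⟩ := mk !![-1, 0, 0; 0, -1, 0; 0, 0, 1] (by simp [det_fin_three]) fun u v => by
    simp [hermForm, Fin.sum_univ_three, mulVec, dotProduct, oq.neg_pow]
  obtain ⟨t, ht⟩ := mk !![0, 1, 0; 1, 0, 0; 0, 0, -1] (by simp [det_fin_three]) fun u v => by
    simp [hermForm, Fin.sum_univ_three, mulVec, dotProduct, oq.neg_pow, add_comm]
  obtain ⟨s, hs⟩ := mk !![-1, 0, 0; 0, 0, 1; 0, 1, 0] (by simp [det_fin_three]) fun u v => by
    simp [hermForm, Fin.sum_univ_three, mulVec, dotProduct, oq.neg_pow, add_comm, add_assoc,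
      add_left_comm]
  obtain ⟨ρ, hρ⟩ := mk !![(μ : F), 0, 0; 0, (μ : F)⁻¹, 0; 0, 0, 1] (by simp [det_fin_three])
    fun u v => by
      simp only [hermForm, Fin.sum_univ_three, mulVec, dotProduct]
      simp only [of_apply, cons_val', cons_val_zero, cons_val_one, cons_val_two, cons_val_fin_one,
        Nat.succ_eq_add_one, Nat.reduceAdd, tail_cons, head_cons, head_fin_const, zero_mul,
        add_zero, zero_add, one_mul, mul_pow, empty_val']
      linear_combination u 0 * v 0 ^ q * m2 + u 1 * v 1 ^ q * m3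
  have ne : ∀ {x y : SU 3 F q} (i j : Fin 3), φ x i j - φ y i j = 2 ∨
      φ y i j - φ x i j = 2 ∨ φ x i j - φ y i j = μ - (μ : F)⁻¹ → x ≠ y := by
    rintro x y i j h rfl
    simp only [sub_self] at h
    rcases h with h | h | h
    exacts [h2 h.symm, h2 h.symm, m4 h.symm]
  have pw : ρ ^ r = 1 := by
    have : ∀ k : ℕ, φ (ρ ^ k) = !![(μ : F) ^ k, 0, 0; 0, (μ : F)⁻¹ ^ k, 0; 0, 0, 1] := by
      intro k
      induction k with
      | zero => simp [one_fin_three]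
      | succ k ih =>
        rw [pow_succ, map_mul, ih, hρ]
        simp [pow_succ, mul_comm]
    refine eq ?_
    rw [this, inv_pow, m1]
    simp [one_fin_three]
  have iv : t * ρ * t * ρ = 1 := eq (by
    simp only [map_mul, map_one, ht, hρ, mul_fin_three]
    simp [one_fin_three])
  refine mk_ne (x := ρ) (y := 1) t (ne 0 1 (.inr (.inr ?_))) ((h _ _ _ _ r
    (inv_mk (x := a) t (ne 0 1 (.inl ?_)) (eq ?_))
    (inv_mk (x := b) s (ne 1 2 (.inr (.inl ?_))) (eq ?_))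
    (inv_mk (x := t) a (ne 1 0 (.inl ?_)) (eq ?_)) (mk_ne s (ne 1 2 (.inr (.inl ?_))))
    (Commute.map (eq ?_) _) (Commute.map (eq ?_) _) hr r2 (by rw [← map_pow, pw, map_one])
    (Commute.map (eq ?_) _) (Commute.map (eq ?_) _)
    (by rw [← map_mul, ← map_mul, eq_inv_of_mul_eq_one_left iv, map_inv])).trans (map_one _).symm)
  all_goals simp only [map_mul, map_one, ha, hb, hs, ht, hρ, one_fin_three, mul_fin_three]
  all_goals norm_num [cons_val_two]

end Cfsg.Agent.H79.Ov
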