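import Cfsg.Agent.H79.OvBaer

/-!
# Ovals in subplanes; a four-group of collineations preserving an oval contains a homology
-/

set_option autoImplicit false

namespace Cfsg.Agent.H79.Ov

open Finset

variable {P L : Type*}

/-- No three points of `O` are collinear. -/
def Arc (I : P → L → Prop) (O : Finset P) : Prop :=
  ∀ l, ∀ p ∈ O, ∀ q ∈ O, ∀ r ∈ O, I p l → I q l → I r l → p = q ∨ p = r ∨ q = r

/-- `l` meets `O` exactly in `p`. -/
def Tan (I : P → L → Prop) (O : Finset P) (p : P) (l : L) : Prop := I p l ∧ ∀ q ∈ O, I q l → q = p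

/-- An oval of a subplane of order `m`. -/
structure IsOval (I : P → L → Prop) (X O : Finset P) (m : ℕ) : Prop where
  sub : ∀ p ∈ O, p ∈ X
  card : O.card = m + 1
  arc : Arc I O

variable {I : P → L → Prop} {X O : Finset P} {Y : Finset L} {m : ℕ} {f : P → P} {g : L → L}

theorem Arc.mono (h : Arc I O) {O' : Finset P} (hs : ∀ p ∈ O', p ∈ O) : Arc I O' :=
  fun l p hp q hq r hr => h l p (hs p hp) q (hs q hq) r (hs r hr)

theorem card_le_two_of {α : Type*} {A : Finset α}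
    (h : ∀ a ∈ A, ∀ b ∈ A, ∀ c ∈ A, a = b ∨ a = c ∨ b = c) : A.card ≤ 2 := by
  by_contra c
  obtain ⟨a, ha⟩ : A.Nonempty := card_pos.1 (by omega)
  obtain ⟨b, hb, ab⟩ := exists_other (A := A) (by omega) a
  obtain ⟨d, hd, da, db⟩ := exists_other2 (A := A) (by omega) a b
  rcases h a ha b hb d hd with e | e | e
  · exact ab e.symm
  · exact da e.symm
  · exact db e.symm

theorem Arc.card_on (h : Arc I O) (l : L) : (on I O l).card ≤ 2 :=
  card_le_two_of fun a ha b hb c hc => by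
    rw [mem_on] at ha hb hc
    exact h l a ha.1 b hb.1 c hc.1 ha.2 hb.2 hc.2

theorem sec_card (hU : Uniq I) (arc : Arc I O) {O' : Finset P} (hs : ∀ p ∈ O', p ∈ O) {p : P}
    (hp : p ∈ O') (hj : ∀ q ∈ O', q ≠ p → ∃ l ∈ Y, I p l ∧ I q l)
    (hb : ∀ l ∈ Y, I p l → ∀ q ∈ O, I q l → q ∈ O') :
    (on (flip I) Y p).card + 1 = O'.card + (on (flip (Tan I O)) Y p).card := by
  classical
  have h := card_filter_add_card_filter_not (s := on (flip I) Y p) (fun l => Tan I O p l)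
  have e1 : (on (flip I) Y p).filter (fun l => Tan I O p l) = on (flip (Tan I O)) Y p := by
    ext l
    simp only [mem_filter, mem_on, flip]
    exact ⟨fun a => ⟨a.1.1, a.2⟩, fun a => ⟨⟨a.1, a.2.1⟩, a.2⟩⟩
  have e2 : (O'.erase p).card = ((on (flip I) Y p).filter fun l => ¬ Tan I O p l).card := by
    refine card_eq_of_rel I ?_ ?_ ?_ ?_
    · intro q hq
      rw [mem_erase] at hq
      obtain ⟨l, hl, a, b⟩ := hj q hq.2 hq.1
      refine ⟨l, ?_, b⟩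
      simp only [mem_filter, mem_on, flip]
      exact ⟨⟨hl, a⟩, fun c => hq.1 (c.2 q (hs q hq.2) b)⟩
    · intro l hl
      simp only [mem_filter, mem_on, flip, Tan, not_and, not_forall] at hl
      obtain ⟨q, hq, a, b⟩ := hl.2 hl.1.2
      exact ⟨q, mem_erase.2 ⟨b, hb l hl.1.1 hl.1.2 q hq a⟩, a⟩
    · intro q hq l hl k hk a b
      simp only [mem_filter, mem_on, flip, mem_erase] at hl hk hq
      exact (hU q p l k a hl.1.2 b hk.1.2).resolve_left hq.1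
    · intro l hl q hq r hr a b
      simp only [mem_filter, mem_on, flip, mem_erase] at hl hq hr
      rcases arc l p (hs p hp) q (hs q hq.2) r (hs r hr.2) hl.1.2 a b with e | e | e
      · exact absurd e.symm hq.1
      · exact absurd e.symm hr.1
      · exact e
  rw [e1, ← e2, card_erase_of_mem hp] at h
  have := card_pos.2 ⟨p, hp⟩
  omega

theorem tan_card (hU : Uniq I) (hS : IsSub I X Y m) (hO : IsOval I X O m) {p : P} (hp : p ∈ O) :
    (on (flip (Tan I O)) Y p).card = 1 := by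
  have h := sec_card (Y := Y) hU hO.arc (fun _ h => h) hp
    (fun q hq ne => hS.join p (hO.sub p hp) q (hO.sub q hq) ne.symm) fun _ _ _ _ hq _ => hq
  rw [hS.cp p (hO.sub p hp), hO.card] at h
  omega

theorem exists_tan (hU : Uniq I) (hS : IsSub I X Y m) (hO : IsOval I X O m) {p : P} (hp : p ∈ O) :
    ∃ l ∈ Y, Tan I O p l ∧ ∀ k ∈ Y, Tan I O p k → k = l := by
  obtain ⟨l, hl⟩ := card_eq_one.1 (tan_card hU hS hO hp)
  have h1 : l ∈ on (flip (Tan I O)) Y p := hl ▸ mem_singleton_self l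
  rw [mem_on] at h1
  exact ⟨l, h1.1, h1.2, fun k hk ht => mem_singleton.1 (hl ▸ mem_on.2 ⟨hk, ht⟩)⟩

theorem tan_fixed (hU : Uniq I) (hS : IsSub I X Y m) (hO : IsOval I X O m)
    (inc : ∀ p l, I (f p) (g l) ↔ I p l) (sj : ∀ q ∈ O, ∃ q' ∈ O, f q' = q) {p : P} (hp : p ∈ O)
    (fp : f p = p) {l : L} (hl : l ∈ Y) (hg : g l ∈ Y) (ht : Tan I O p l) : g l = l := by
  obtain ⟨k, -, -, u⟩ := exists_tan hU hS hO hp
  rw [u l hl ht] at hg ⊢
  refine u _ hg ⟨?_, fun q hq c => ?_⟩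
  · rw [← u l hl ht, ← fp]
    exact (inc p l).2 ht.1
  · obtain ⟨q', hq', rfl⟩ := sj q hq
    rw [← u l hl ht, inc] at c
    rw [ht.2 q' hq' c, fp]

theorem Col.sj (hc : Col I X Y f g) (hO : IsOval I X O m) (fO : ∀ p ∈ O, f p ∈ O) :
    ∀ q ∈ O, ∃ q' ∈ O, f q' = q :=
  fun q hq => ⟨f q, fO q hq, hc.fX q (hO.sub q hq)⟩

theorem Col.fix_on (hc : Col I X Y f g) (hO : IsOval I X O m) (fO : ∀ p ∈ O, f p ∈ O) {p q : P}
    (hp : p ∈ O) (hq : q ∈ O) (fp : f p = p) {l : L} (gl : g l = l) (pl : I p l) (ql : I q l) :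
    f q = q := by
  have a : I (f q) l := gl ▸ (hc.inc q l).2 ql
  rcases hO.arc l p hp q hq (f q) (fO q hq) pl ql a with e | e | e
  · exact e ▸ fp
  · have := hc.fX q (hO.sub q hq)
    rw [← e, fp] at this
    rw [← e, this]
  · exact e.symm

theorem card_fx_oval (hU : Uniq I) (hS : IsSub I X Y m) (hO : IsOval I X O m) (hc : Col I X Y f g)
    (fO : ∀ p ∈ O, f p ∈ O) {s : ℕ} (hB : IsSub I (fx X f) (fx Y g) s) {p : P} (hp : p ∈ O)
    (fp : f p = p) : (fx O f).card = s + 1 := by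
  have hp' : p ∈ fx X f := mem_fx.2 ⟨hO.sub p hp, fp⟩
  have h := sec_card (Y := fx Y g) (O' := fx O f) hU hO.arc (fun _ h => (mem_fx.1 h).1)
    (mem_fx.2 ⟨hp, fp⟩) (fun q hq ne => hB.join p hp' q
      (mem_fx.2 ⟨hO.sub q (mem_fx.1 hq).1, (mem_fx.1 hq).2⟩) ne.symm)
    fun l hl a q hq b => mem_fx.2 ⟨hq, hc.fix_on hO fO hp hq fp (mem_fx.1 hl).2 a b⟩
  have e : on (flip (Tan I O)) (fx Y g) p = on (flip (Tan I O)) Y p := by
    ext l
    simp only [mem_on, mem_fx, flip]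
    exact ⟨fun a => ⟨a.1.1, a.2⟩, fun a =>
      ⟨⟨a.1, tan_fixed hU hS hO hc.inc (hc.sj hO fO) hp fp a.1 (hc.mY l a.1) a.2⟩, a.2⟩⟩
  rw [e, tan_card hU hS hO hp, hB.cp p hp'] at h
  omega

theorem IsHom.notMem (hS : IsSub I X Y m) (hO : IsOval I X O m) (hc : Col I X Y f g)
    (fO : ∀ p ∈ O, f p ∈ O) (h3 : 3 ≤ m) {C : P} {l : L} (h : IsHom I X Y f g C l) : C ∉ O := by
  classical
  intro hC
  have hs : O.erase C ⊆ on I O l := by
    intro q hq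
    rw [mem_erase] at hq
    obtain ⟨k, hk, a, b⟩ := hS.join C h.mC q (hO.sub q hq.2) hq.1.symm
    have := hc.fix_on hO fO hC hq.2 ((h.pt C h.mC).2 (Or.inl rfl)) ((h.ln k hk).2 (Or.inr a)) a b
    exact mem_on.2 ⟨hq.2, ((h.pt q (hO.sub q hq.2)).1 this).resolve_left hq.1⟩
  have h1 := card_le_card hs
  have h2 := hO.arc.card_on l
  rw [card_erase_of_mem hC, hO.card] at h1
  omega

theorem IsHom.fix_iff (hS : IsSub I X Y m) (hO : IsOval I X O m) (hc : Col I X Y f g)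
    (fO : ∀ p ∈ O, f p ∈ O) (h3 : 3 ≤ m) {C : P} {l : L} (h : IsHom I X Y f g C l) {p : P}
    (hp : p ∈ O) : f p = p ↔ I p l := by
  rw [h.pt p (hO.sub p hp)]
  exact ⟨fun a => a.resolve_left fun e => h.notMem hS hO hc fO h3 (e ▸ hp), Or.inr⟩

theorem IsHom.card_le (hS : IsSub I X Y m) (hO : IsOval I X O m) (hc : Col I X Y f g)
    (fO : ∀ p ∈ O, f p ∈ O) (h3 : 3 ≤ m) {C : P} {l : L} (h : IsHom I X Y f g C l) :
    (fx O f).card ≤ 2 := by
  refine le_trans (card_le_card fun p hp => ?_) (hO.arc.card_on l)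
  rw [mem_fx] at hp
  exact mem_on.2 ⟨hp.1, (h.fix_iff hS hO hc fO h3 hp.1).1 hp.2⟩

theorem IsHom.card_lines (hS : IsSub I X Y m) {C : P} {l : L} (h : IsHom I X Y f g C l) :
    (fx Y g).card = m + 2 := by
  classical
  have e : fx Y g = insert l (on (flip I) Y C) := by
    ext k
    simp only [mem_fx, mem_insert, mem_on, flip]
    constructor
    · rintro ⟨a, b⟩
      exact ((h.ln k a).1 b).imp_right fun c => ⟨a, c⟩
    · rintro (rfl | ⟨a, b⟩)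
      · exact ⟨h.ml, (h.ln k h.ml).2 (Or.inl rfl)⟩
      · exact ⟨a, (h.ln k a).2 (Or.inr b)⟩
  rw [e, card_insert_of_notMem (fun c => h.nI ((mem_on (I := flip I)).1 c).2), hS.cp C h.mC]

theorem baer_of_three (hU : Uniq I) (hS : IsSub I X Y m) (hO : IsOval I X O m) (hc : Col I X Y f g)
    (fO : ∀ p ∈ O, f p ∈ O) (hm : Odd m) (h3 : 3 ≤ m) (hne : ∃ p ∈ X, f p ≠ p)
    (h : 3 ≤ (fx O f).card) : ∃ s, s * s = m ∧ Odd s ∧ 3 ≤ s ∧ IsSub I (fx X f) (fx Y g) s ∧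
      (fx O f).card = s + 1 := by
  rcases baer hU hS hc hm h3 hne with ⟨C, l, hh⟩ | ⟨s, hs, hB⟩
  · have := hh.card_le hS hO hc fO h3
    omega
  · obtain ⟨p, hp⟩ : (fx O f).Nonempty := card_pos.1 (by omega)
    rw [mem_fx] at hp
    have h1 := card_fx_oval hU hS hO hc fO hB hp.1 hp.2
    have h2 : Odd s := (Nat.odd_mul.1 (hs ▸ hm)).1
    refine ⟨s, hs, h2, ?_, hB, h1⟩
    obtain ⟨k, rfl⟩ := h2
    omega

theorem arith1 (v : ℕ) : 2 * v ≤ v * v + 1 := by nlinarith [sq_nonneg ((v : ℤ) - 1)]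

theorem arith2 {k s : ℕ} (hk : k * k = s) (os : Odd s) (s3 : 3 ≤ s)
    (h : 3 * s + 2 ≤ (k * k + k + 1) * 2) : False := by
  have h2 : k ≤ 2 := by nlinarith
  obtain ⟨j, rfl⟩ := os
  interval_cases k <;> omega

theorem arith3 {s m : ℕ} (hs : s * s = m) (s3 : 3 ≤ s) : s < m := by nlinarith

theorem four_group (hU : Uniq I) (hS : IsSub I X Y m) (hO : IsOval I X O m) (hm : Odd m)
    (h3 : 3 ≤ m) {f₁ f₂ : P → P} {g₁ g₂ : L → L} (c₁ : Col I X Y f₁ g₁) (c₂ : Col I X Y f₂ g₂)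
    (cf : ∀ p ∈ X, f₁ (f₂ p) = f₂ (f₁ p)) (cg : ∀ l ∈ Y, g₁ (g₂ l) = g₂ (g₁ l))
    (o₁ : ∀ p ∈ O, f₁ p ∈ O) (o₂ : ∀ p ∈ O, f₂ p ∈ O) (n₁ : ∃ p ∈ X, f₁ p ≠ p)
    (n₂ : ∃ p ∈ X, f₂ p ≠ p) (n₃ : ∃ p ∈ X, f₁ (f₂ p) ≠ p) (t₁ : 3 ≤ (fx O f₁).card)
    (t₂ : 3 ≤ (fx O f₂).card) (t₃ : 3 ≤ (fx O fun p => f₁ (f₂ p)).card) : False := by
  classical
  have c₃ : Col I X Y (fun p => f₁ (f₂ p)) (fun l => g₁ (g₂ l)) :=
    ⟨fun p l => by rw [c₁.inc, c₂.inc], fun p hp => c₁.mX _ (c₂.mX p hp),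
      fun l hl => c₁.mY _ (c₂.mY l hl),
      fun p hp => by rw [← cf _ (c₂.mX p hp), c₁.fX _ (c₂.mX _ (c₂.mX p hp)), c₂.fX p hp],
      fun l hl => by rw [← cg _ (c₂.mY l hl), c₁.gY _ (c₂.mY _ (c₂.mY l hl)), c₂.gY l hl]⟩
  obtain ⟨s, hs, os, s3, B₁, k₁⟩ := baer_of_three hU hS hO c₁ o₁ hm h3 n₁ t₁
  obtain ⟨s₂, hs₂, -, -, -, k₂⟩ := baer_of_three hU hS hO c₂ o₂ hm h3 n₂ t₂
  obtain ⟨s₃, hs₃, -, -, -, k₃⟩ :=
    baer_of_three hU hS hO c₃ (fun p hp => o₁ _ (o₂ p hp)) hm h3 n₃ t₃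
  obtain rfl : s = s₂ := Nat.mul_self_inj.1 (hs.trans hs₂.symm)
  obtain rfl : s = s₃ := Nat.mul_self_inj.1 (hs.trans hs₃.symm)
  have c₂' : Col I (fx X f₁) (fx Y g₁) f₂ g₂ :=
    ⟨c₂.inc, fun p hp => by
        rw [mem_fx] at hp ⊢
        exact ⟨c₂.mX p hp.1, by rw [cf p hp.1, hp.2]⟩,
      fun l hl => by
        rw [mem_fx] at hl ⊢
        exact ⟨c₂.mY l hl.1, by rw [cg l hl.1, hl.2]⟩,
      fun p hp => c₂.fX p (mem_fx.1 hp).1, fun l hl => c₂.gY l (mem_fx.1 hl).1⟩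
  by_cases hne : ∃ p ∈ fx X f₁, f₂ p ≠ p
  swap
  · push Not at hne
    have e : fx O f₁ = fx O f₂ := by
      refine eq_of_subset_of_card_le (fun p hp => ?_) (by omega)
      rw [mem_fx] at hp ⊢
      exact ⟨hp.1, hne p (mem_fx.2 ⟨hO.sub p hp.1, hp.2⟩)⟩
    have all : O ⊆ fx O fun p => f₁ (f₂ p) := by
      intro p hp
      refine mem_fx.2 ⟨hp, ?_⟩
      by_cases h1 : f₁ p = p
      · rw [hne p (mem_fx.2 ⟨hO.sub p hp, h1⟩), h1]
      have h2 : f₂ p ≠ p := fun c => h1 (mem_fx.1 (e ▸ mem_fx.2 ⟨hp, c⟩ : p ∈ fx O f₁)).2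
      obtain ⟨l, hl, gl, a, b⟩ := fixed_join hU hS c₁ (hO.sub p hp) h1
      have hl' : l ∈ fx Y g₁ := mem_fx.2 ⟨hl, gl⟩
      obtain ⟨u, hu, -⟩ := exists_other (A := on I (fx X f₁) l) (by rw [B₁.cl l hl']; omega) p
      obtain ⟨v, hv, uv⟩ := exists_other (A := on I (fx X f₁) l) (by rw [B₁.cl l hl']; omega) u
      rw [mem_on] at hu hv
      have g2 := fixl_of_two hU c₂.inc uv (hne v hv.1) (hne u hu.1) hv.2 hu.2
      have c : I (f₂ p) l := g2 ▸ (c₂.inc p l).2 a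
      rcases hO.arc l p hp (f₁ p) (o₁ p hp) (f₂ p) (o₂ p hp) a b c with e | e | e
      · exact absurd e.symm h1
      · exact absurd e.symm h2
      · rw [← e, c₁.fX p (hO.sub p hp)]
    have := card_le_card all
    rw [k₃, hO.card] at this
    have := arith3 hs s3
    omega
  set N := fx (fx Y g₁) g₂ with hN
  set V := fx (fx O f₁) f₂ with hV
  have mV : ∀ p, p ∈ V ↔ p ∈ O ∧ f₁ p = p ∧ f₂ p = p := fun p => by
    simp only [hV, mem_fx, and_assoc]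
  have mN : ∀ l, l ∈ N ↔ l ∈ Y ∧ g₁ l = l ∧ g₂ l = l := fun l => by
    simp only [hN, mem_fx, and_assoc]
  have tV : ∀ p ∈ V, (on (flip (Tan I O)) N p).card = 1 := by
    intro p hp
    rw [mV] at hp
    rw [← tan_card hU hS hO hp.1]
    congr 1
    ext l
    simp only [mem_on, mN, flip]
    exact ⟨fun a => ⟨a.1.1, a.2⟩, fun a =>
      ⟨⟨a.1, tan_fixed hU hS hO c₁.inc (c₁.sj hO o₁) hp.1 hp.2.1 a.1 (c₁.mY l a.1) a.2,
        tan_fixed hU hS hO c₂.inc (c₂.sj hO o₂) hp.1 hp.2.2 a.1 (c₂.mY l a.1) a.2⟩, a.2⟩⟩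
  have dV : ∀ p ∈ V, (on (flip I) N p).card = V.card := by
    intro p hp
    have hp' := (mV p).1 hp
    have h := sec_card (Y := N) (O' := V) hU hO.arc (fun q h => ((mV q).1 h).1) hp
      (fun q hq ne => by
        rw [mV] at hq
        obtain ⟨l, hl, a, b⟩ := hS.join p (hO.sub p hp'.1) q (hO.sub q hq.1) ne.symm
        exact ⟨l, (mN l).2 ⟨hl, fixl_of_two hU c₁.inc ne hq.2.1 hp'.2.1 b a,
          fixl_of_two hU c₂.inc ne hq.2.2 hp'.2.2 b a⟩, a, b⟩)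
      fun l hl a q hq b => (mV q).2 ⟨hq, c₁.fix_on hO o₁ hp'.1 hq hp'.2.1 ((mN l).1 hl).2.1 a b,
        c₂.fix_on hO o₂ hp'.1 hq hp'.2.2 ((mN l).1 hl).2.2 a b⟩
    rw [tV p hp] at h
    omega
  set A₁ := fx O f₁ \ V with hA₁
  set A₂ := fx O f₂ \ V with hA₂
  set A₃ := (fx O fun p => f₁ (f₂ p)) \ V with hA₃
  have mA₁ : ∀ p ∈ A₁, p ∈ O ∧ f₁ p = p ∧ f₂ p ≠ p := fun p hp => by
    simp only [hA₁, mem_sdiff, mV, mem_fx] at hp
    tauto
  have mA₂ : ∀ p ∈ A₂, p ∈ O ∧ f₂ p = p ∧ f₁ p ≠ p := fun p hp => by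
    simp only [hA₂, mem_sdiff, mV, mem_fx] at hp
    tauto
  have mA₃ : ∀ p ∈ A₃, p ∈ O ∧ f₂ p = f₁ p ∧ f₁ p ≠ p := fun p hp => by
    simp only [hA₃, mem_sdiff, mV, mem_fx] at hp
    have e : f₂ p = f₁ p := by
      conv_rhs => rw [← hp.1.2, c₁.fX _ (c₂.mX p (hO.sub p hp.1.1))]
    exact ⟨hp.1.1, e, fun c => hp.2 ⟨hp.1.1, c, e.trans c⟩⟩
  have cA₁ : A₁.card + V.card = s + 1 := by
    rw [hA₁, card_sdiff_add_card_eq_card fun p hp => ?_, k₁]
    rw [mV] at hp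
    exact mem_fx.2 ⟨hp.1, hp.2.1⟩
  have cA₂ : A₂.card + V.card = s + 1 := by
    rw [hA₂, card_sdiff_add_card_eq_card fun p hp => ?_, k₂]
    rw [mV] at hp
    exact mem_fx.2 ⟨hp.1, hp.2.2⟩
  have cA₃ : A₃.card + V.card = s + 1 := by
    rw [hA₃, card_sdiff_add_card_eq_card fun p hp => ?_, k₃]
    rw [mV] at hp
    exact mem_fx.2 ⟨hp.1, by rw [hp.2.2, hp.2.1]⟩
  have d₁ : ∀ p ∈ A₁, 1 ≤ (on (flip I) N p).card := by
    intro p hp
    obtain ⟨hp, a, b⟩ := mA₁ p hp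
    obtain ⟨l, hl, gl, c, d⟩ := fixed_join hU hS c₂ (hO.sub p hp) b
    exact card_pos.2 ⟨l, mem_on.2 ⟨(mN l).2 ⟨hl, fixl_of_two hU c₁.inc b
      (by rw [cf p (hO.sub p hp), a]) a d c, gl⟩, c⟩⟩
  have d₂ : ∀ p ∈ A₂, 1 ≤ (on (flip I) N p).card := by
    intro p hp
    obtain ⟨hp, a, b⟩ := mA₂ p hp
    obtain ⟨l, hl, gl, c, d⟩ := fixed_join hU hS c₁ (hO.sub p hp) b
    exact card_pos.2 ⟨l, mem_on.2 ⟨(mN l).2 ⟨hl, gl, fixl_of_two hU c₂.inc b
      (by rw [← cf p (hO.sub p hp), a]) a d c⟩, c⟩⟩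
  have d₃ : ∀ p ∈ A₃, 1 ≤ (on (flip I) N p).card := by
    intro p hp
    obtain ⟨hp, a, b⟩ := mA₃ p hp
    obtain ⟨l, hl, gl, c, d⟩ := fixed_join hU hS c₁ (hO.sub p hp) b
    obtain ⟨k, -, gk, c', d'⟩ := fixed_join hU hS c₂ (hO.sub p hp) (a ▸ b)
    obtain rfl : l = k := (hU _ _ _ _ d c (a ▸ d') c').resolve_left b
    exact card_pos.2 ⟨l, mem_on.2 ⟨(mN l).2 ⟨hl, gl, gk⟩, c⟩⟩
  have low : V.card * V.card + A₁.card + A₂.card + A₃.card ≤
      ∑ p ∈ O, (on (flip I) N p).card := by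
    have sub : V ∪ A₁ ∪ A₂ ∪ A₃ ⊆ O := by
      intro p hp
      simp only [mem_union] at hp
      rcases hp with ((h | h) | h) | h
      exacts [((mV p).1 h).1, (mA₁ p h).1, (mA₂ p h).1, (mA₃ p h).1]
    refine le_trans ?_ (sum_le_sum_of_subset sub)
    rw [sum_union, sum_union, sum_union, sum_congr rfl dV, sum_const, smul_eq_mul]
    · have a := card_nsmul_le_sum A₁ _ 1 d₁
      have b := card_nsmul_le_sum A₂ _ 1 d₂
      have c := card_nsmul_le_sum A₃ _ 1 d₃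
      simp only [smul_eq_mul, mul_one] at a b c
      omega
    · exact disjoint_left.2 fun p h1 h2 => (mA₁ p h2).2.2 ((mV p).1 h1).2.2
    · refine disjoint_left.2 fun p h1 h2 => (mA₂ p h2).2.2 ?_
      rcases mem_union.1 h1 with h | h
      exacts [((mV p).1 h).2.1, (mA₁ p h).2.1]
    · refine disjoint_left.2 fun p h1 h2 => (mA₃ p h2).2.2 ?_
      simp only [mem_union] at h1
      rcases h1 with (h | h) | h
      exacts [((mV p).1 h).2.1, (mA₁ p h).2.1, (mA₃ p h2).2.1 ▸ (mA₂ p h).2.1]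
  have dc1 : ∑ p ∈ O, (on (flip I) N p).card = ∑ l ∈ N, (on I O l).card := by
    simp only [on, card_filter]
    rw [sum_comm]
    rfl
  have dc2 : ∑ p ∈ V, (on (flip (Tan I O)) N p).card = ∑ l ∈ N, (on (Tan I O) V l).card := by
    simp only [on, card_filter]
    rw [sum_comm]
    rfl
  rw [sum_congr rfl tV, sum_const, smul_eq_mul, mul_one] at dc2
  have up : ∑ l ∈ N, ((on I O l).card + (on (Tan I O) V l).card) ≤ N.card * 2 := by
    refine le_trans (sum_le_card_nsmul _ _ 2 fun l _ => ?_) (by simp)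
    rcases (on (Tan I O) V l).eq_empty_or_nonempty with e | ⟨p, hp⟩
    · rw [e, card_empty]
      exact hO.arc.card_on l
    · rw [mem_on] at hp
      have a : (on I O l).card ≤ 1 := card_le_one.2 fun x hx y hy => by
        rw [mem_on] at hx hy
        rw [hp.2.2 x hx.1 hx.2, hp.2.2 y hy.1 hy.2]
      have b : (on (Tan I O) V l).card ≤ 1 := card_le_one.2 fun x hx y hy => by
        rw [mem_on] at hx hy
        rw [hp.2.2 x ((mV x).1 hx.1).1 hx.2.1, hp.2.2 y ((mV y).1 hy.1).1 hy.2.1]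
      omega
  rw [sum_add_distrib, ← dc1, ← dc2] at up
  have key : 3 * s + 2 ≤ N.card * 2 := by
    have := arith1 V.card
    omega
  rcases baer hU B₁ c₂' os s3 hne with ⟨C, l, hh⟩ | ⟨k, hk, hB⟩
  · have := hh.card_lines B₁
    rw [← hN] at this
    omega
  · have h1 := hB.cY
    rw [← hN] at h1
    exact arith2 hk os s3 (h1 ▸ key)

end Cfsg.Agent.H79.Ov
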