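import Cfsg.Agent.H79.OvBaer
import Cfsg.Agent.H79.OvDefs

/-!
# Counting tools for groups acting on a finset
-/

set_option autoImplicit false

namespace Cfsg.Agent.H79.Ov

open Finset
open scoped Pointwise

variable {G P : Type*} [Group G] [MulAction G P]

theorem card_fx_modEq {Δ : Finset P} {ρ : G} {r : ℕ} (hr : r.Prime) (hρ : ρ ^ r = 1)
    (inv : ∀ p ∈ Δ, ρ • p ∈ Δ) : Δ.card ≡ (fx Δ fun p => ρ • p).card [MOD r] := by
  classical
  have := Fact.mk hr
  let f : Function.End Δ := fun p => ⟨ρ • p.1, inv p.1 p.2⟩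
  have hf : ∀ (k : ℕ) (p : Δ), ((f ^ k) p).1 = ρ ^ k • p.1 := by
    intro k
    induction k with
    | zero => intro p; simp [Function.End.one_def]
    | succ k ih =>
      intro p
      rw [pow_succ, pow_succ, mul_smul, ← ih ⟨ρ • p.1, inv p.1 p.2⟩]
      rfl
  have h := Equiv.Perm.card_fixedPoints_modEq (f := f) (p := r) (n := 1) (by
    funext p
    apply Subtype.ext
    rw [hf, pow_one, hρ, one_smul]
    rfl)
  rw [Fintype.card_coe] at h
  convert h
  rw [← Fintype.card_coe]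
  refine Fintype.card_congr ⟨fun p => ⟨⟨p.1, (mem_fx.1 p.2).1⟩, Subtype.ext (mem_fx.1 p.2).2⟩,
    fun p => ⟨p.1.1, mem_fx.2 ⟨p.1.2, congrArg Subtype.val p.2⟩⟩, fun _ => rfl, fun _ => rfl⟩

theorem exists_pair {T : Subgroup G} (hT : IsPGroup 2 T) {Δ : Finset P}
    (inv : ∀ g ∈ T, ∀ p ∈ Δ, g • p ∈ Δ) (hc : Δ.card % 4 = 2) :
    ∃ a ∈ Δ, ∃ b ∈ Δ, a ≠ b ∧ ∀ g ∈ T, (g • a = a ∧ g • b = b) ∨ (g • a = b ∧ g • b = a) := by
  classical
  let W : SubMulAction T (Finset P) :=
    { carrier := {s | s ∈ Δ.powersetCard 2}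
      smul_mem' := by
        intro g s hs
        simp only [Set.mem_ofPred_eq, mem_powersetCard] at hs ⊢
        refine ⟨fun p hp => ?_, by rw [card_smul_finset, hs.2]⟩
        obtain ⟨q, hq, rfl⟩ := mem_smul_finset.1 hp
        exact inv g g.2 q (hs.1 hq) }
  have hW : Nat.card W = Δ.card.choose 2 := by
    rw [← card_powersetCard, ← Nat.card_eq_finsetCard]
    rfl
  have hodd : ¬ 2 ∣ Nat.card W := by
    rw [hW, Nat.choose_two_right]
    obtain ⟨k, hk⟩ : ∃ k, Δ.card = 4 * k + 2 := ⟨Δ.card / 4, by omega⟩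
    have : Δ.card * (Δ.card - 1) = 2 * (2 * (4 * k * k + 3 * k) + 1) := by
      rw [hk, show 4 * k + 2 - 1 = 4 * k + 1 from rfl]
      ring
    omega
  obtain ⟨s, hs⟩ := hT.nonempty_fixed_point_of_prime_not_dvd_card W hodd
  have h1 : s.1 ∈ Δ.powersetCard 2 := s.2
  rw [mem_powersetCard, card_eq_two] at h1
  obtain ⟨sub, a, b, ab, e⟩ := h1
  refine ⟨a, sub (by simp [e]), b, sub (by simp [e]), ab, fun g hg => ?_⟩
  have h2 : (⟨g, hg⟩ : T) • s.1 = s.1 := congrArg Subtype.val (hs ⟨g, hg⟩)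
  have ha : g • a ∈ s.1 := h2 ▸ smul_mem_smul_finset (a := (⟨g, hg⟩ : T)) (by simp [e])
  have hb : g • b ∈ s.1 := h2 ▸ smul_mem_smul_finset (a := (⟨g, hg⟩ : T)) (by simp [e])
  simp only [e, mem_insert, mem_singleton] at ha hb
  have inj : g • a ≠ g • b := fun c => ab (MulAction.injective g c)
  rcases ha with ha | ha <;> rcases hb with hb | hb
  · exact absurd (ha.trans hb.symm) inj
  · exact Or.inl ⟨ha, hb⟩
  · exact Or.inr ⟨ha, hb⟩
  · exact absurd (ha.trans hb.symm) inj

theorem card_fx_mod_four [IsSimpleGroup G] (hG : ¬ IsMulCommutative G) {O : Finset P}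
    (inv : ∀ g : G, ∀ p ∈ O, g • p ∈ O) {x : G} (hx : x * x = 1) :
    (fx O fun p => x • p).card % 4 = O.card % 4 := by
  classical
  let W : SubMulAction G P := { carrier := O, smul_mem' := fun g p hp => inv g p hp }
  have : Fintype W := inferInstanceAs (Fintype O)
  let φ : G →* ℤˣ := Equiv.Perm.sign.comp (MulAction.toPermHom G W)
  have hφ : φ x = 1 := by
    rcases φ.normal_ker.eq_bot_or_eq_top with h | h
    · exact absurd ⟨⟨fun a b => (MonoidHom.ker_eq_bot_iff φ).1 h (by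
        rw [map_mul, map_mul, mul_comm])⟩⟩ hG
    · exact (h ▸ Subgroup.mem_top x : x ∈ φ.ker)
  have h := Equiv.Perm.sign_of_pow_two_eq_one (σ := MulAction.toPermHom G W x)
    (by rw [← map_pow, pow_two, hx, map_one])
  have c1 : Fintype.card W = O.card := by
    rw [← Fintype.card_coe]
    exact Fintype.card_congr (Equiv.refl _)
  have c2 : Fintype.card (Function.fixedPoints (MulAction.toPermHom G W x)) =
      (fx O fun p => x • p).card := by
    rw [← Fintype.card_coe]
    exact Fintype.card_congr ⟨fun p => ⟨p.1.1, mem_fx.2 ⟨p.1.2, congrArg Subtype.val p.2⟩⟩,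
      fun p => ⟨⟨p.1, (mem_fx.1 p.2).1⟩, Subtype.ext (mem_fx.1 p.2).2⟩, fun _ => rfl, fun _ => rfl⟩
  rw [c1, c2] at h
  have h1 : Even ((O.card - (fx O fun p => x • p).card) / 2) := by
    by_contra c
    rw [Nat.not_even_iff_odd] at c
    rw [c.neg_one_pow] at h
    exact absurd (hφ.symm.trans h) (by decide)
  have h2 := card_fx_mod_two (X := O) (f := fun p => x • p) (inv x)
    fun p _ => by rw [smul_smul, hx, one_smul]
  have h3 : (fx O fun p => x • p).card ≤ O.card := card_le_card fun p hp => (mem_fx.1 hp).1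
  obtain ⟨k, hk⟩ := h1
  omega

theorem fix2_iff {O : Finset P} {g : G} : Fix2 O g ↔ (fx O fun p => g • p).card ≤ 2 := by
  constructor
  · intro h
    by_contra c
    obtain ⟨a, ha⟩ : (fx O fun p => g • p).Nonempty := card_pos.1 (by omega)
    obtain ⟨b, hb, ab⟩ := exists_other (A := fx O fun p => g • p) (by omega) a
    obtain ⟨d, hd, da, db⟩ := exists_other2 (A := fx O fun p => g • p) (by omega) a b
    rw [mem_fx] at ha hb hd
    rcases h a ha.1 b hb.1 d hd.1 ha.2 hb.2 hd.2 with e | e | e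
    exacts [ab e.symm, da e.symm, db e.symm]
  · intro h a ha b hb c hc fa fb fc
    classical
    by_contra! k
    have : ({a, b, c} : Finset P) ⊆ fx O fun p => g • p := by
      intro p hp
      simp only [mem_insert, mem_singleton] at hp
      rcases hp with rfl | rfl | rfl <;> exact mem_fx.2 ⟨‹_›, ‹_›⟩
    have h2 := card_le_card this
    rw [card_eq_three.2 ⟨a, b, c, k.1, k.2.1, k.2.2, rfl⟩] at h2
    omega

end Cfsg.Agent.H79.Ov
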