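import Cfsg.Agent.H79.OvOval
import Cfsg.Agent.H79.OvPerm
import Cfsg.Agent.H87.Quat
import Cfsg.Agent.H9.Dihedral

/-!
# Homologies preserving an oval
-/

set_option autoImplicit false

namespace Cfsg.Agent.H79.Ov

open Finset

variable {P L : Type*} [Fintype P] [Fintype L]

/-- A collineation group of a plane of odd order preserving an oval and acting on it by even
permutations. -/
structure Setup (I : P → L → Prop) (G : Type*) [Group G] [MulAction G P] [MulAction G L]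
    (O : Finset P) (n : ℕ) : Prop where
  hU : Uniq I
  hS : IsSub I univ univ n
  hO : IsOval I univ O n
  odd : Odd n
  h3 : 3 ≤ n
  inc : ∀ (g : G) p l, I (g • p) (g • l) ↔ I p l
  inv : ∀ g : G, ∀ p ∈ O, g • p ∈ O
  faith : ∀ g : G, (∀ p : P, g • p = p) → g = 1
  even : ∀ x : G, x * x = 1 → (fx O fun p => x • p).card % 4 = (n + 1) % 4

/-- `x` is a homology with centre `C` and axis `l`. -/
def Hom (I : P → L → Prop) {G : Type*} [Group G] [MulAction G P] [MulAction G L] (x : G) (C : P)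
    (l : L) : Prop := IsHom I univ univ (fun p => x • p) (fun l => x • l) C l

variable {I : P → L → Prop} {G : Type*} [Group G] [MulAction G P] [MulAction G L]
  {O : Finset P} {n : ℕ}

theorem Hom.nI {x : G} {C : P} {l : L} (h : Hom I x C l) : ¬ I C l := IsHom.nI h

theorem Hom.pt {x : G} {C : P} {l : L} (h : Hom I x C l) (p : P) : x • p = p ↔ p = C ∨ I p l :=
  IsHom.pt h p (mem_univ _)

theorem Hom.ln {x : G} {C : P} {l : L} (h : Hom I x C l) (k : L) : x • k = k ↔ k = l ∨ I C k :=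
  IsHom.ln h k (mem_univ _)

theorem smul_smul_of_sq {α : Type*} [MulAction G α] {x : G} (hx : x * x = 1) (p : α) :
    x • x • p = p := by
  rw [smul_smul, hx, one_smul]

namespace Setup

variable (S : Setup I G O n)
include S

theorem col {x : G} (hx : x * x = 1) : Col I univ univ (fun p => x • p) (fun l => x • l) :=
  ⟨S.inc x, fun _ _ => mem_univ _, fun _ _ => mem_univ _, fun p _ => smul_smul_of_sq hx p,
    fun l _ => smul_smul_of_sq hx l⟩

theorem join {p q : P} (h : p ≠ q) : ∃ l, I p l ∧ I q l := by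
  obtain ⟨l, -, a⟩ := S.hS.join p (mem_univ _) q (mem_univ _) h
  exact ⟨l, a⟩

theorem meet {l k : L} (h : l ≠ k) : ∃ p, I p l ∧ I p k := by
  obtain ⟨p, -, a⟩ := S.hS.meet l (mem_univ _) k (mem_univ _) h
  exact ⟨p, a⟩

theorem fixl {g : G} {p q : P} {l : L} (pq : p ≠ q) (hp : g • p = p) (hq : g • q = q) (pl : I p l)
    (ql : I q l) : g • l = l :=
  fixl_of_two (f := fun p => g • p) (g := fun l => g • l) S.hU (S.inc g) pq hp hq pl ql

theorem fixp {g : G} {p : P} {l k : L} (lk : l ≠ k) (hl : g • l = l) (hk : g • k = k) (pl : I p l)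
    (pk : I p k) : g • p = p :=
  fix_of_two (f := fun p => g • p) (g := fun l => g • l) S.hU (S.inc g) lk hl hk pl pk

theorem tanfix {g : G} {p : P} (hp : p ∈ O) (fp : g • p = p) {l : L} (ht : Tan I O p l) :
    g • l = l :=
  tan_fixed (f := fun p => g • p) (g := fun l => g • l) S.hU S.hS S.hO (S.inc g)
    (fun q hq => ⟨g⁻¹ • q, S.inv _ q hq, smul_inv_smul g q⟩) hp fp (mem_univ _) (mem_univ _) ht

theorem faithO {g : G} (h : ∀ p ∈ O, g • p = p) : g = 1 := by
  classical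
  have hl : ∀ a ∈ O, ∀ l, I a l → g • l = l := by
    intro a ha l al
    by_cases ht : Tan I O a l
    · exact S.tanfix ha (h a ha) ht
    · simp only [Tan, not_and, not_forall] at ht
      obtain ⟨q, hq, b, c⟩ := ht al
      exact S.fixl c (h q hq) (h a ha) b al
  refine S.faith g fun p => ?_
  by_cases hp : p ∈ O
  · exact h p hp
  have h3 := S.h3
  obtain ⟨a, ha⟩ : O.Nonempty := card_pos.1 (by rw [S.hO.card]; omega)
  obtain ⟨l, pl, al⟩ := S.join (fun e : p = a => hp (e ▸ ha))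
  obtain ⟨b, hb, nb⟩ : ∃ b ∈ O, ¬ I b l := by
    by_contra! c
    have h1 : O ⊆ on I O l := fun b hb => mem_on.2 ⟨hb, c b hb⟩
    have h2 := card_le_card h1
    have := S.hO.arc.card_on l
    rw [S.hO.card] at h2
    omega
  obtain ⟨k, pk, bk⟩ := S.join (fun e : p = b => hp (e ▸ hb))
  exact S.fixp (fun e : l = k => nb (e ▸ bk)) (hl a ha l al) (hl b hb k bk) pl pk

theorem exists_ne {x : G} (hx : x ≠ 1) : ∃ p ∈ (univ : Finset P), x • p ≠ p := by
  by_contra! c
  exact hx (S.faith x fun p => c p (mem_univ _))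

theorem dich {x : G} (hx : Inv x) : (∃ C l, Hom I x C l) ∨
    ∃ s, s * s = n ∧ IsSub I (fx univ fun p => x • p) (fx univ fun l => x • l) s :=
  baer S.hU S.hS (S.col hx.2) S.odd S.h3 (S.exists_ne hx.1)

theorem notMem {x : G} (hx : Inv x) {C : P} {l : L} (h : Hom I x C l) : C ∉ O :=
  IsHom.notMem S.hS S.hO (S.col hx.2) (S.inv x) S.h3 h

theorem fix_iff {x : G} (hx : Inv x) {C : P} {l : L} (h : Hom I x C l) {p : P} (hp : p ∈ O) :
    x • p = p ↔ I p l :=
  IsHom.fix_iff S.hS S.hO (S.col hx.2) (S.inv x) S.h3 h hp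

theorem hom_le {x : G} (hx : Inv x) {C : P} {l : L} (h : Hom I x C l) :
    (fx O fun p => x • p).card ≤ 2 :=
  IsHom.card_le S.hS S.hO (S.col hx.2) (S.inv x) S.h3 h

theorem centre_aux {σ τ : G} (hσ : Inv σ) {C : P} {l l' : L} (h : Hom I σ C l)
    (h' : Hom I τ C l') {p : P} (hp : p ∈ O) (f : σ • p = p) : τ • p = p := by
  by_contra c
  obtain ⟨k, a, b⟩ := S.join (fun e : C = p => S.notMem hσ h (e ▸ hp))
  have d : I (τ • p) k := (h'.ln k).2 (Or.inr a) ▸ (S.inc τ p k).2 b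
  have e := (S.col hσ.2).fix_on S.hO (S.inv σ) hp (S.inv τ p hp) f ((h.ln k).2 (Or.inr a)) b d
  exact h.nI (((S.hU _ _ _ _ d b ((S.fix_iff hσ h (S.inv τ p hp)).1 e)
    ((S.fix_iff hσ h hp).1 f)).resolve_left c) ▸ a)

theorem eq_of_centre {σ τ : G} (hσ : Inv σ) (hτ : Inv τ) {C : P} {l l' : L} (h : Hom I σ C l)
    (h' : Hom I τ C l') : σ = τ := by
  have : τ⁻¹ * σ = 1 := S.faithO fun p hp => by
    rw [mul_smul, inv_smul_eq_iff]
    by_cases f : σ • p = p
    · rw [f, S.centre_aux hσ h h' hp f]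
    have f' : τ • p ≠ p := fun c => f (S.centre_aux hτ h' h hp c)
    obtain ⟨k, a, b⟩ := S.join (fun e : C = p => S.notMem hσ h (e ▸ hp))
    have d : I (σ • p) k := (h.ln k).2 (Or.inr a) ▸ (S.inc σ p k).2 b
    have d' : I (τ • p) k := (h'.ln k).2 (Or.inr a) ▸ (S.inc τ p k).2 b
    rcases S.hO.arc k p hp _ (S.inv σ p hp) _ (S.inv τ p hp) b d d' with e | e | e
    exacts [absurd e.symm f, absurd e.symm f', e]
  exact (inv_mul_eq_one.1 this).symm

theorem hom_conj {σ : G} {C : P} {l : L} (h : Hom I σ C l) (g : G) :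
    Hom I (g * σ * g⁻¹) (g • C) (g • l) := by
  refine ⟨mem_univ _, mem_univ _, fun c => h.nI ((S.inc g C l).1 c), fun p _ => ?_, fun k _ => ?_⟩
  · obtain ⟨q, rfl⟩ := MulAction.surjective g p
    simp only [mul_smul, inv_smul_smul, smul_left_cancel_iff, S.inc, h.pt]
  · obtain ⟨q, rfl⟩ := MulAction.surjective g k
    simp only [mul_smul, inv_smul_smul, smul_left_cancel_iff, S.inc, h.ln]

theorem hom_unique {σ : G} {C C' : P} {l l' : L} (h : Hom I σ C l) (h' : Hom I σ C' l') :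
    C = C' ∧ l = l' := by
  have h3 := S.h3
  have e : l = l' := by
    obtain ⟨a, ha, na⟩ := exists_other (A := on I univ l)
      (by rw [S.hS.cl l (mem_univ _)]; omega) C'
    obtain ⟨b, hb, nb, ab⟩ := exists_other2 (A := on I univ l)
      (by rw [S.hS.cl l (mem_univ _)]; omega) C' a
    rw [mem_on] at ha hb
    exact (S.hU b a l l' hb.2 ha.2 (((h'.pt b).1 ((h.pt b).2 (Or.inr hb.2))).resolve_left nb)
      (((h'.pt a).1 ((h.pt a).2 (Or.inr ha.2))).resolve_left na)).resolve_left ab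
  subst e
  exact ⟨((h'.pt C).1 ((h.pt C).2 (Or.inl rfl))).resolve_right h.nI, rfl⟩

theorem hom_comm {σ g : G} {C : P} {l : L} (h : Hom I σ C l) (c : Commute g σ) :
    g • C = C ∧ g • l = l := by
  have := S.hom_conj h g
  rw [c.eq, mul_inv_cancel_right] at this
  exact S.hom_unique this h

theorem centre_on {σ τ : G} (hσ : Inv σ) (hτ : Inv τ) {C C' : P} {l l' : L} (h : Hom I σ C l)
    (h' : Hom I τ C' l') (ne : σ ≠ τ) (c : Commute σ τ) : I C' l :=
  ((h.pt C').1 (S.hom_comm h' c).1).resolve_left fun e => ne (S.eq_of_centre hσ hτ h (e ▸ h'))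

theorem eq_of_axis {σ τ : G} (hσ : Inv σ) (hτ : Inv τ) {C C' : P} {l : L} (h : Hom I σ C l)
    (h' : Hom I τ C' l) : σ = τ := by
  by_contra ne
  have ax : ∀ p, I p l → (σ * τ) • p = p := fun p hp => by
    rw [mul_smul, (h'.pt p).2 (Or.inr hp), (h.pt p).2 (Or.inr hp)]
  have sq : σ * τ * (σ * τ) = 1 := S.faithO fun p hp => by
    rw [mul_smul]
    by_cases f : (σ * τ) • p = p
    · rw [f, f]
    obtain ⟨k, a, b⟩ := S.join (Ne.symm f)
    obtain ⟨y, c, d⟩ := S.meet (fun e : k = l => f (ax p (e ▸ a)))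
    have ny : (σ * τ) • p ≠ y := fun e => f (MulAction.injective (σ * τ) (by
      simp only
      rw [e, ax y d]))
    have gk : (σ * τ) • k = k := (S.hU _ _ _ _ ((S.inc _ p k).2 a)
      (ax y d ▸ (S.inc (σ * τ) y k).2 c) b c).resolve_left ny
    have e : I ((σ * τ) • (σ * τ) • p) k := gk ▸ (S.inc _ _ k).2 b
    rcases S.hO.arc k p hp _ (S.inv _ p hp) _ (S.inv _ _ (S.inv _ p hp)) a b e with e | e | e
    · exact absurd e.symm f
    · exact e.symm
    · exact absurd (MulAction.injective _ e).symm f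
  have c : Commute σ τ := by
    have : σ * τ = (σ * τ)⁻¹ := eq_inv_of_mul_eq_one_left sq
    rw [mul_inv_rev, inv_eq_of_mul_eq_one_left hσ.2, inv_eq_of_mul_eq_one_left hτ.2] at this
    exact this
  exact h'.nI (S.centre_on hσ hτ h h' ne c)

theorem prod_fix {σ τ : G} (hσ : Inv σ) (hτ : Inv τ) {C C' : P} {l l' k : L} (h : Hom I σ C l)
    (h' : Hom I τ C' l') (ne : σ ≠ τ) (Ck : I C k) (Ck' : I C' k) {p : P}
    (hp : (σ * τ) • p = p) : (I p l ∧ I p l') ∨ I p k := by
  have e : τ • p = σ • p := by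
    conv_rhs => rw [← hp, mul_smul, smul_smul_of_sq hσ.2]
  by_cases f : σ • p = p
  · rcases (h.pt p).1 f with rfl | a
    · exact Or.inr Ck
    rcases (h'.pt p).1 (e.trans f) with rfl | b
    · exact Or.inr Ck'
    exact Or.inl ⟨a, b⟩
  obtain ⟨j, -, gj, a, b⟩ := fixed_join S.hU S.hS (S.col hσ.2) (mem_univ p) f
  obtain ⟨j', -, gj', a', b'⟩ := fixed_join S.hU S.hS (S.col hτ.2) (mem_univ p) (e ▸ f)
  simp only [e] at b b'
  obtain rfl : j = j' := (S.hU _ _ _ _ b a b' a').resolve_left f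
  have c := ((h.ln j).1 gj).resolve_left fun c => f ((h.pt p).2 (Or.inr (c ▸ a)))
  have c' := ((h'.ln j).1 gj').resolve_left fun c => f (e ▸ (h'.pt p).2 (Or.inr (c ▸ a)))
  have CC : C ≠ C' := fun c => ne (S.eq_of_centre hσ hτ h (c ▸ h'))
  exact Or.inr (((S.hU _ _ _ _ c c' Ck Ck').resolve_left CC) ▸ a)

theorem tan_centre {σ : G} (hσ : Inv σ) {C : P} {l T : L} (h : Hom I σ C l) {y : P} (hy : y ∈ O)
    (yl : I y l) (ht : Tan I O y T) : I C T := by
  have f := (h.pt y).2 (Or.inr yl)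
  refine ((h.ln T).1 (S.tanfix hy f ht)).resolve_left ?_
  rintro rfl
  have h1 := S.even σ hσ.2
  have h2 : (fx O fun p => σ • p) = {y} := by
    ext q
    simp only [mem_fx, mem_singleton]
    exact ⟨fun a => ht.2 q a.1 ((S.fix_iff hσ h a.1).1 a.2), fun e => e ▸ ⟨hy, f⟩⟩
  rw [h2, card_singleton] at h1
  obtain ⟨k, hk⟩ := S.odd
  omega

theorem prod_fix2 {σ τ : G} (hσ : Inv σ) (hτ : Inv τ) {C C' : P} {l l' : L} (h : Hom I σ C l)
    (h' : Hom I τ C' l') (ne : σ ≠ τ) : Fix2 O (σ * τ) := by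
  have CC : C ≠ C' := fun c => ne (S.eq_of_centre hσ hτ h (c ▸ h'))
  have ll : l ≠ l' := fun c => ne (S.eq_of_axis hσ hτ h (c ▸ h'))
  obtain ⟨k, Ck, Ck'⟩ := S.join CC
  intro a ha b hb c hc fa fb fc
  by_cases ex : ∃ y ∈ O, I y l ∧ I y l'
  · obtain ⟨y, hy, yl, yl'⟩ := ex
    obtain ⟨T, -, ht, -⟩ := exists_tan S.hU S.hS S.hO hy
    have key : ∀ p ∈ O, (σ * τ) • p = p → p = y := fun p hp f => by
      rcases S.prod_fix hσ hτ h h' ne (S.tan_centre hσ h hy yl ht) (S.tan_centre hτ h' hy yl' ht) f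
        with e | e
      · exact (S.hU _ _ _ _ e.1 yl e.2 yl').resolve_right ll
      · exact ht.2 p hp e
    exact Or.inl ((key a ha fa).trans (key b hb fb).symm)
  · have key : ∀ p ∈ O, (σ * τ) • p = p → I p k := fun p hp f =>
      (S.prod_fix hσ hτ h h' ne Ck Ck' f).resolve_left fun e => ex ⟨p, hp, e⟩
    exact S.hO.arc k a ha b hb c hc (key a ha fa) (key b hb fb) (key c hc fc)

theorem h4 {x y : G} (hx : Inv x) (hy : Inv y) (ne : x ≠ y) (c : Commute x y) :
    Fix2 O x ∨ Fix2 O y ∨ Fix2 O (x * y) := by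
  by_contra! k
  simp only [fix2_iff, not_le] at k
  have hxy : x * y ≠ 1 := fun e => ne (by
    rw [eq_inv_of_mul_eq_one_left e, inv_eq_of_mul_eq_one_left hy.2])
  refine four_group S.hU S.hS S.hO S.odd S.h3 (S.col hx.2) (S.col hy.2)
    (fun p _ => by rw [smul_smul, smul_smul, c.eq]) (fun p _ => by rw [smul_smul, smul_smul, c.eq])
    (S.inv x) (S.inv y) (S.exists_ne hx.1) (S.exists_ne hy.1)
    (by simpa only [mul_smul] using S.exists_ne hxy) k.1 k.2.1
    (Nat.succ_le_of_lt (by simpa only [mul_smul] using k.2.2))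

theorem noQ8 {x y β : G} (hβ : Inv β) (hx : x * x = β) (hy : y * y = β)
    (hxy : x * y * (x * y) = β) {a b c : P} (ha : a ∈ O) (hb : b ∈ O) (hc : c ∈ O) (ab : a ≠ b)
    (ac : a ≠ c) (bc : b ≠ c) (fx' : x • a = a ∧ x • b = b ∧ x • c = c)
    (fy : y • a = a ∧ y • b = b ∧ y • c = c) : False := by
  classical
  have three : ∀ (O' : Finset P) (f : P → P), a ∈ O' → b ∈ O' → c ∈ O' → f a = a → f b = b →
      f c = c → 3 ≤ (fx O' f).card := by
    intro O' f ha hb hc fa fb fc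
    rw [← card_eq_three.2 ⟨a, b, c, ab, ac, bc, rfl⟩]
    refine card_le_card fun p hp => ?_
    simp only [mem_insert, mem_singleton] at hp
    rcases hp with rfl | rfl | rfl <;> exact mem_fx.2 ⟨‹_›, ‹_›⟩
  have fa : β • a = a := by rw [← hx, mul_smul, fx'.1, fx'.1]
  have fb : β • b = b := by rw [← hx, mul_smul, fx'.2.1, fx'.2.1]
  have fc : β • c = c := by rw [← hx, mul_smul, fx'.2.2, fx'.2.2]
  obtain ⟨s, hs, os, s3, B, k⟩ := baer_of_three S.hU S.hS S.hO (S.col hβ.2) (S.inv β) S.odd S.h3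
    (S.exists_ne hβ.1) (three O _ ha hb hc fa fb fc)
  have cm : ∀ {α : Type _} [MulAction G α] (u : G), u * u = β → ∀ p : α, β • u • p = u • β • p :=
    fun u hu p => by rw [smul_smul, smul_smul, ← hu, mul_assoc]
  have cmL : ∀ (u : G), u * u = β → ∀ p : L, β • u • p = u • β • p :=
    fun u hu p => by rw [smul_smul, smul_smul, ← hu, mul_assoc]
  have col : ∀ u : G, u * u = β → Col I (fx univ fun p => β • p) (fx univ fun l => β • l)
      (fun p => u • p) (fun l => u • l) := fun u hu =>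
    ⟨S.inc u, fun p hp => by
        simp only [mem_fx, mem_univ, true_and] at hp ⊢
        rw [cm u hu, hp], fun p hp => by
        simp only [mem_fx, mem_univ, true_and] at hp ⊢
        rw [cmL u hu, hp], fun p hp => by
        simp only [mem_fx, mem_univ, true_and] at hp
        rw [smul_smul, hu, hp], fun p hp => by
        simp only [mem_fx, mem_univ, true_and] at hp
        rw [smul_smul, hu, hp]⟩
  have io : ∀ u : G, u * u = β → ∀ p ∈ fx O fun p => β • p, u • p ∈ fx O fun p => β • p :=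
    fun u hu p hp => by
      simp only [mem_fx] at hp ⊢
      exact ⟨S.inv u p hp.1, by rw [cm u hu, hp.2]⟩
  have nt : ∀ u : G, u * u = β → ∃ p ∈ fx univ fun p : P => β • p, u • p ≠ p := by
    intro u hu
    by_contra! tr
    refine hβ.1 (S.faithO fun p hp => ?_)
    by_contra f
    obtain ⟨l, -, gl, pl, ql⟩ := fixed_join S.hU S.hS (S.col hβ.2) (mem_univ p) f
    have hl : l ∈ fx univ fun l : L => β • l := mem_fx.2 ⟨mem_univ _, gl⟩
    obtain ⟨v, hv, -⟩ := exists_other (A := on I (fx univ fun p : P => β • p) l)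
      (by rw [B.cl l hl]; omega) p
    obtain ⟨w, hw, vw⟩ := exists_other (A := on I (fx univ fun p : P => β • p) l)
      (by rw [B.cl l hl]; omega) v
    rw [mem_on] at hv hw
    have ul := S.fixl vw (tr w hw.1) (tr v hv.1) hw.2 hv.2
    have d : I (u • p) l := ul ▸ (S.inc u p l).2 pl
    rcases S.hO.arc l p hp _ (S.inv β p hp) _ (S.inv u p hp) pl ql d with e | e | e
    · exact f e.symm
    · exact f (by rw [← hu, mul_smul, ← e, ← e])
    · refine f ?_
      have : u • u • p = p := by rw [← e, ← cm u hu, ← e, smul_smul_of_sq hβ.2]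
      rw [← hu, mul_smul, this]
  have e : x * y = y * x * β := by
    have h1 : x * y * x = y := mul_right_cancel (b := y) (by rw [hy, ← hxy]; group)
    calc x * y = x * y * (β * β) := by rw [hβ.2, mul_one]
      _ = x * y * x * x * β := by rw [← hx]; group
      _ = y * x * β := by rw [h1]
  have ha' : a ∈ fx O fun p => β • p := mem_fx.2 ⟨ha, fa⟩
  have hb' : b ∈ fx O fun p => β • p := mem_fx.2 ⟨hb, fb⟩
  have hc' : c ∈ fx O fun p => β • p := mem_fx.2 ⟨hc, fc⟩
  refine four_group (O := fx O fun p => β • p) S.hU B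
    ⟨fun p hp => mem_fx.2 ⟨mem_univ _, (mem_fx.1 hp).2⟩, k,
      S.hO.arc.mono fun p hp => (mem_fx.1 hp).1⟩ os s3 (col x hx) (col y hy)
    (fun p hp => ?_) (fun p hp => ?_) (io x hx) (io y hy) (nt x hx) (nt y hy)
    (by simpa only [mul_smul] using nt _ hxy) (three _ _ ha' hb' hc' fx'.1 fx'.2.1 fx'.2.2)
    (three _ _ ha' hb' hc' fy.1 fy.2.1 fy.2.2)
    (three _ _ ha' hb' hc' (by simp only [fy.1, fx'.1]) (by simp only [fy.2.1, fx'.2.1])
      (by simp only [fy.2.2, fx'.2.2]))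
  · rw [smul_smul, e, mul_smul, mul_smul, (mem_fx.1 hp).2]
  · rw [smul_smul, e, mul_smul, mul_smul, (mem_fx.1 hp).2]

theorem cyc [Finite G] {T : Subgroup G} (hT : IsPGroup 2 T) {a b c : P} (ha : a ∈ O) (hb : b ∈ O)
    (hc : c ∈ O) (ab : a ≠ b) (ac : a ≠ c) (bc : b ≠ c)
    (h : ∀ g ∈ T, g • a = a ∧ g • b = b ∧ g • c = c) : IsCyclic T := by
  have nf : ∀ g ∈ T, ¬ Fix2 O g := fun g hg k => by
    rcases k a ha b hb c hc (h g hg).1 (h g hg).2.1 (h g hg).2.2 with e | e | e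
    exacts [ab e, ac e, bc e]
  have uq : ∀ x ∈ T, ∀ y ∈ T, orderOf x = 2 → orderOf y = 2 → x = y := by
    have cm : ∀ x ∈ T, ∀ y ∈ T, Inv x → Inv y → Commute x y → x = y := fun x hx y hy ix iy c => by
      by_contra ne
      rcases S.h4 ix iy ne c with k | k | k
      exacts [nf x hx k, nf y hy k, nf _ (T.mul_mem hx hy) k]
    intro x hx y hy ox oy
    rw [H9.orderOf_eq_two_iff] at ox oy
    have : Nontrivial T := ⟨⟨⟨x, hx⟩, 1, fun e => ox.1 (congrArg Subtype.val e)⟩⟩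
    have := hT.center_nontrivial
    obtain ⟨z, hz⟩ := exists_prime_orderOf_dvd_card' (G := Subgroup.center T) 2
      ((hT.to_subgroup _).nontrivial_iff_card.1 inferInstance |>.elim fun k hk =>
        hk.2 ▸ dvd_pow_self 2 hk.1.ne')
    rw [← Subgroup.orderOf_coe, ← Subgroup.orderOf_coe, H9.orderOf_eq_two_iff] at hz
    have cz : ∀ u (hu : u ∈ T), Commute u (z.1 : G) := fun u hu =>
      congrArg Subtype.val (Subgroup.mem_center_iff.1 z.2 ⟨u, hu⟩)
    rw [cm x hx _ z.1.2 ox hz (cz x hx), cm y hy _ z.1.2 oy hz (cz y hy)]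
  rcases H87.isCyclic_or_quaternion_of_inv_unique hT uq with k | ⟨m, hm, ⟨e⟩⟩
  · exact k
  exfalso
  obtain ⟨u, v, ou, vv, vu, -⟩ := H9.exists_gens_of_equiv_quaternion e
  obtain ⟨j, rfl⟩ : ∃ j, m = j + 1 := ⟨m - 1, by omega⟩
  have hβ : Inv ((u ^ 2 ^ (j + 1) : T) : G) := by
    refine ⟨fun c => ?_, ?_⟩
    · have := orderOf_dvd_of_pow_eq_one (Subtype.ext c : u ^ 2 ^ (j + 1) = 1)
      rw [ou] at this
      have h1 := Nat.le_of_dvd (by positivity) this
      have h2 : 0 < 2 ^ (j + 1) := by positivity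
      omega
    · rw [← Subgroup.coe_mul, ← pow_add, ← two_mul, ← ou, pow_orderOf_eq_one, Subgroup.coe_one]
  have e1 : u ^ 2 ^ j * u ^ 2 ^ j = u ^ 2 ^ (j + 1) := by rw [← pow_add, ← two_mul, pow_succ']
  have e2 : u ^ 2 ^ j * v * (u ^ 2 ^ j * v) = u ^ 2 ^ (j + 1) := by
    have : v * u ^ 2 ^ j * v⁻¹ = (u ^ 2 ^ j)⁻¹ := by rw [← conj_pow, vu, inv_pow]
    calc _ = u ^ 2 ^ j * (v * u ^ 2 ^ j * v⁻¹) * (v * v) := by group
      _ = _ := by rw [this, mul_inv_cancel, one_mul, vv]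
  exact S.noQ8 (x := (u ^ 2 ^ j : T)) (y := v) hβ (congrArg Subtype.val e1)
    (congrArg Subtype.val vv) (congrArg Subtype.val e2) ha hb hc ab ac bc (h _ (u ^ 2 ^ j).2)
    (h _ v.2)

theorem hom_of_fix2 (h1 : n % 4 = 1) {x : G} (hx : Inv x) (h : Fix2 O x) : ∃ C l, Hom I x C l := by
  refine (S.dich hx).resolve_right ?_
  rintro ⟨s, hs, B⟩
  have e := S.even x hx.2
  obtain ⟨p, hp⟩ : (fx O fun p => x • p).Nonempty := card_pos.1 (by omega)
  rw [mem_fx] at hp
  have k := card_fx_oval S.hU S.hS S.hO (S.col hx.2) (S.inv x) B hp.1 hp.2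
  rw [fix2_iff, k] at h
  have := S.h3
  have : s ≤ 1 := by omega
  interval_cases s <;> omega

theorem hom_of_three (h1 : n % 4 = 3) {x : G} (hx : Inv x) : ∃ C l, Hom I x C l := by
  refine (S.dich hx).resolve_right ?_
  rintro ⟨s, hs, -⟩
  have := Nat.mul_mod s s 4
  have : s % 4 < 4 := Nat.mod_lt _ (by norm_num)
  interval_cases s % 4 <;> omega

theorem permAx [Finite G] (h1 : n % 4 = 1) : PermAx G O where
  inv := S.inv
  card := by rw [S.hO.card]; omega
  h1 x hx := by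
    have := S.even x hx.2
    show (fx O fun p => x • p).card % 4 = 2
    omega
  h2 σ τ hσ hτ a b ne := by
    obtain ⟨C, l, h⟩ := S.hom_of_fix2 h1 hσ a
    obtain ⟨C', l', h'⟩ := S.hom_of_fix2 h1 hτ b
    exact S.prod_fix2 hσ hτ h h' ne
  h2a σ τ hσ hτ f f' a ha b hb ab a1 b1 a2 b2 := by
    obtain ⟨C, l, h⟩ := S.hom_of_fix2 h1 hσ f
    obtain ⟨C', l', h'⟩ := S.hom_of_fix2 h1 hτ f'
    obtain rfl : l = l' := (S.hU a b l l' ((S.fix_iff hσ h ha).1 a1) ((S.fix_iff hσ h hb).1 b1)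
      ((S.fix_iff hτ h' ha).1 a2) ((S.fix_iff hτ h' hb).1 b2)).resolve_left ab
    exact S.eq_of_axis hσ hτ h h'
  h3 T hT a ha b hb c hc ab ac bc h := S.cyc hT ha hb hc ab ac bc h
  h4 x y hx hy ne c := S.h4 hx hy ne c

end Setup

end Cfsg.Agent.H79.Ov
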