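import Cfsg.Agent.H79.OvDih

/-!
# The quotient of the Sylow `2`-subgroup by the dihedral group of homologies
-/

set_option autoImplicit false

namespace Cfsg.Agent.H79.Ov

open Subgroup

variable {G P : Type*} [Group G] [MulAction G P] {O : Finset P}

/-- The configuration together with a generating rotation. -/
structure Ctx2 (O : Finset P) (S : Subgroup G) (a b c d : P) (z t r : G) : Prop
    extends Ctx O S a b c d z t where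
  hr : Rot O S a t r
  gen : ∀ x, Rot O S a t x → ∃ j : ℤ, x = r ^ j

/-- The pointwise stabiliser of the four points. -/
def Phi (S : Subgroup G) (a c d : P) : Subgroup G :=
  S ⊓ (MulAction.stabilizer G a ⊓ (MulAction.stabilizer G c ⊓ MulAction.stabilizer G d))

theorem mem_Phi {S : Subgroup G} {a c d : P} {x : G} :
    x ∈ Phi S a c d ↔ x ∈ S ∧ x • a = a ∧ x • c = c ∧ x • d = d := Iff.rfl

/-- Conjugation of `t` into the class of `t` in `⟨t, r⟩`. -/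
def Ev (t r s : G) : Prop := ∃ j : ℤ, s * t * s⁻¹ = t * r ^ (2 * j)

/-- Conjugation of `t` into the class of `t r` in `⟨t, r⟩`. -/
def Od (t r s : G) : Prop := ∃ j : ℤ, s * t * s⁻¹ = t * r ^ (2 * j + 1)

namespace Ctx2

variable {S : Subgroup G} {a b c d : P} {z t r : G} (C : Ctx2 O S a b c d z t r)
include C

theorem rt (j : ℤ) : r ^ j * t = t * r ^ (-j) := C.rot_inv C.hr j

theorem trt (j : ℤ) : t * r ^ j * t = r ^ (-j) := by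
  rw [mul_assoc, C.rt, ← mul_assoc, C.tt, one_mul]

/-- The dihedral group generated by the homologies. -/
def D : Subgroup G where
  carrier := {x | ∃ j : ℤ, x = r ^ j ∨ x = t * r ^ j}
  one_mem' := ⟨0, Or.inl (zpow_zero r).symm⟩
  mul_mem' := by
    rintro _ _ ⟨i, rfl | rfl⟩ ⟨j, rfl | rfl⟩
    · exact ⟨i + j, Or.inl (zpow_add r i j).symm⟩
    · exact ⟨-i + j, Or.inr (by rw [← mul_assoc, C.rt, mul_assoc, zpow_add])⟩
    · exact ⟨i + j, Or.inr (by rw [mul_assoc, zpow_add])⟩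
    · exact ⟨-i + j, Or.inl (by rw [← mul_assoc, C.trt, zpow_add])⟩
  inv_mem' := by
    rintro _ ⟨i, rfl | rfl⟩
    · exact ⟨-i, Or.inl (zpow_neg r i).symm⟩
    · exact ⟨i, Or.inr (C.rot_zpow C.hr i).2.2.1.inv⟩

theorem mem_D {x : G} : x ∈ C.D ↔ ∃ j : ℤ, x = r ^ j ∨ x = t * r ^ j := Iff.rfl

theorem rD (j : ℤ) : r ^ j ∈ C.D := ⟨j, Or.inl rfl⟩

theorem tD : t ∈ C.D := ⟨0, Or.inr (by simp)⟩

theorem rS (j : ℤ) : r ^ j ∈ S := S.zpow_mem C.hr.1 j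

theorem D_le : C.D ≤ S := by
  rintro _ ⟨i, rfl | rfl⟩
  exacts [C.rS i, S.mul_mem C.tS (C.rS i)]

theorem hm_cases {h : G} (hS : h ∈ S) (hh : Hm O h) : h = z ∨ ∃ j : ℤ, h = t * r ^ j := by
  rcases C.pr h hS with e | e
  · exact Or.inl (C.eq_z hS hh e.1)
  · obtain ⟨j, hj⟩ := C.gen (t * h) ⟨S.mul_mem C.tS hS, by rw [mul_smul, e.1, C.tb],
      by rwa [← mul_assoc, C.tt, one_mul]⟩
    exact Or.inr ⟨j, by rw [← hj, ← mul_assoc, C.tt, one_mul]⟩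

theorem hm_mem {h : G} (hS : h ∈ S) (hh : Hm O h) : h ∈ C.D := by
  rcases C.hm_cases hS hh with rfl | ⟨j, e⟩
  · obtain ⟨j, e⟩ := C.gen _ C.rot_z
    exact ⟨j, Or.inl e⟩
  · exact ⟨j, Or.inr e⟩

theorem fix2_of_mem {x : G} (hx : x ∈ C.D) (h1 : x ≠ 1) : Fix2 O x := by
  obtain ⟨j, rfl | rfl⟩ := hx
  · have h := C.rot_zpow C.hr j
    have := C.A.h2 t _ C.ht.1 h.2.2.1 C.ht.2 h.2.2.2 fun e => h1 (left_eq_mul.1 e)
    rwa [← mul_assoc, C.tt, one_mul] at this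
  · exact (C.rot_zpow C.hr j).2.2.2

theorem conj_refl {s : G} (hs : s ∈ S) (i : ℤ) : ∃ j : ℤ, s * (t * r ^ i) * s⁻¹ = t * r ^ j := by
  have h := C.rot_zpow C.hr i
  refine (C.hm_cases (S.mul_mem (S.mul_mem hs (S.mul_mem C.tS h.1)) (S.inv_mem hs))
    (C.A.hm_conj h.2.2 s)).resolve_left fun e => C.ab ?_
  have : t * r ^ i = z := by
    rw [mul_inv_eq_iff_eq_mul, ← (C.zc hs).eq] at e
    exact mul_left_cancel e
  rw [← C.ta, ← C.za]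
  conv_rhs => rw [C.za, ← h.2.1, ← mul_smul, this]

theorem r_odd_ne (j : ℤ) : r ^ (2 * j + 1) ≠ 1 := fun e => by
  obtain ⟨k, hk⟩ := C.hS ⟨r, C.hr.1⟩
  obtain ⟨i, hi⟩ := mem_zpowers_odd (x := r) (congrArg Subtype.val hk) j
  obtain ⟨m, hm⟩ := C.gen _ C.rot_z
  rw [e, one_zpow] at hi
  exact C.hz.1.1 (by rw [hm, hi, one_zpow])

theorem conj_r {s : G} (hs : s ∈ S) : ∃ e : ℤ, s * r * s⁻¹ = r ^ (2 * e + 1) := by
  obtain ⟨i, hi⟩ := C.conj_refl hs 0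
  obtain ⟨j, hj⟩ := C.conj_refl hs 1
  have h : s * r * s⁻¹ = r ^ (-i + j) := by
    rw [zpow_add, ← C.trt, mul_assoc (t * r ^ i), ← hi, ← hj, zpow_zero, zpow_one,
      mul_one, conj_mul, ← mul_assoc t, C.tt, one_mul]
  obtain ⟨e, he | he⟩ := Int.even_or_odd' (-i + j)
  · exfalso
    obtain ⟨m, hm⟩ := C.gen _ C.rot_z
    have h1 : s * z * s⁻¹ = z := mul_inv_eq_iff_eq_mul.2 (C.zc hs).eq
    refine C.hz.1.1 ?_
    rw [← h1, hm, ← conj_zpow, h, he, ← zpow_mul, show 2 * e * m = m * 2 * e by ring, zpow_mul,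
      zpow_mul, ← hm, zpow_two, C.hz.1.2, one_zpow]
  · exact ⟨e, he ▸ h⟩

theorem D_conj {s x : G} (hs : s ∈ S) (hx : x ∈ C.D) : s * x * s⁻¹ ∈ C.D := by
  obtain ⟨i, rfl | rfl⟩ := hx
  · obtain ⟨e, he⟩ := C.conj_r hs
    rw [← conj_zpow, he, ← zpow_mul]
    exact C.rD _
  · obtain ⟨j, hj⟩ := C.conj_refl hs i
    exact ⟨j, Or.inr hj⟩

theorem ev_or_od {s : G} (hs : s ∈ S) : Ev t r s ∨ Od t r s := by
  obtain ⟨i, hi⟩ := C.conj_refl hs 0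
  rw [zpow_zero, mul_one] at hi
  obtain ⟨e, rfl | rfl⟩ := Int.even_or_odd' i
  exacts [Or.inl ⟨e, hi⟩, Or.inr ⟨e, hi⟩]

theorem not_od {s : G} (h : Ev t r s) : ¬ Od t r s := by
  rintro ⟨j, hj⟩
  obtain ⟨i, hi⟩ := h
  refine C.r_odd_ne (j - i) ?_
  rw [show 2 * (j - i) + 1 = 2 * j + 1 - 2 * i by ring, zpow_sub,
    mul_left_cancel (hi.symm.trans hj), mul_inv_cancel]

theorem par_mul {s₁ s₂ : G} (hs : s₁ ∈ S) {i j : ℤ} (h₁ : s₁ * t * s₁⁻¹ = t * r ^ i)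
    (h₂ : s₂ * t * s₂⁻¹ = t * r ^ j) :
    ∃ e : ℤ, s₁ * s₂ * t * (s₁ * s₂)⁻¹ = t * r ^ (i + (2 * e + 1) * j) := by
  obtain ⟨e, he⟩ := C.conj_r hs
  refine ⟨e, ?_⟩
  rw [zpow_add, zpow_mul, ← he, conj_zpow, ← mul_assoc t, ← h₁, conj_mul, ← h₂]
  group

theorem ev_ev {s₁ s₂ : G} (hs : s₁ ∈ S) (h₁ : Ev t r s₁) (h₂ : Ev t r s₂) : Ev t r (s₁ * s₂) := by
  obtain ⟨i, hi⟩ := h₁
  obtain ⟨j, hj⟩ := h₂
  obtain ⟨e, he⟩ := C.par_mul hs hi hj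
  exact ⟨i + (2 * e + 1) * j, by rw [he]; congr 2; ring⟩

theorem od_od {s₁ s₂ : G} (hs : s₁ ∈ S) (h₁ : Od t r s₁) (h₂ : Od t r s₂) : Ev t r (s₁ * s₂) := by
  obtain ⟨i, hi⟩ := h₁
  obtain ⟨j, hj⟩ := h₂
  obtain ⟨e, he⟩ := C.par_mul hs hi hj
  exact ⟨i + (2 * e + 1) * j + e + 1, by rw [he]; congr 2; ring⟩

theorem od_ev {s₁ s₂ : G} (hs : s₁ ∈ S) (h₁ : Od t r s₁) (h₂ : Ev t r s₂) : Od t r (s₁ * s₂) := by
  obtain ⟨i, hi⟩ := h₁
  obtain ⟨j, hj⟩ := h₂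
  obtain ⟨e, he⟩ := C.par_mul hs hi hj
  exact ⟨i + (2 * e + 1) * j, by rw [he]; congr 2; ring⟩

theorem ev_od {s₁ s₂ : G} (hs : s₁ ∈ S) (h₁ : Ev t r s₁) (h₂ : Od t r s₂) : Od t r (s₁ * s₂) := by
  obtain ⟨i, hi⟩ := h₁
  obtain ⟨j, hj⟩ := h₂
  obtain ⟨e, he⟩ := C.par_mul hs hi hj
  exact ⟨i + (2 * e + 1) * j + e, by rw [he]; congr 2; ring⟩

omit C in
theorem ev_of_comm {s : G} (h : Commute s t) : Ev t r s :=
  ⟨0, by rw [h.eq]; simp⟩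

theorem od_inv {s : G} (hs : s ∈ S) (h : Od t r s) : Od t r s⁻¹ :=
  (C.ev_or_od (S.inv_mem hs)).resolve_left fun e => C.not_od (ev_of_comm (Commute.one_left t))
    (by simpa using C.od_ev hs h e)

theorem phi_t {x : G} (hx : x ∈ Phi S a c d) : Commute x t := C.comm_t hx.2.2.1 hx.2.2.2

theorem decomp {s : G} (hs : s ∈ S) (sa : s • a = a) (h : Ev t r s) :
    ∃ i : ℤ, ∃ ψ ∈ Phi S a c d, s = r ^ i * ψ := by
  obtain ⟨j, hj⟩ := h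
  have cm : Commute (r ^ j * s) t := by
    rw [mul_inv_eq_iff_eq_mul] at hj
    rw [Commute, SemiconjBy, mul_assoc, hj, ← mul_assoc, ← mul_assoc, C.rt, mul_assoc t,
      ← zpow_add, mul_assoc]
    congr 3
    ring
  have ra : ∀ i : ℤ, (r ^ i * s) • a = a := fun i => by
    rw [mul_smul, sa, (C.rot_zpow C.hr i).2.1]
  rcases C.cent cm with e | e
  · exact ⟨-j, r ^ j * s, ⟨S.mul_mem (C.rS j) hs, ra j, e⟩, by group⟩
  · obtain ⟨m, hm⟩ := C.gen _ C.rot_z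
    rw [hm, ← mul_assoc, ← zpow_add] at e
    exact ⟨-(m + j), r ^ (m + j) * s, ⟨S.mul_mem (C.rS _) hs, ra _, e⟩, by group⟩

theorem decomp' {s : G} (hs : s ∈ S) (h : Ev t r s) :
    ∃ δ ∈ C.D, ∃ ψ ∈ Phi S a c d, s = δ * ψ := by
  rcases C.pr s hs with e | e
  · obtain ⟨i, ψ, hψ, e⟩ := C.decomp hs e.1 h
    exact ⟨_, C.rD i, ψ, hψ, e⟩
  · obtain ⟨i, ψ, hψ, e⟩ := C.decomp (S.mul_mem C.tS hs) (by rw [mul_smul, e.1, C.tb])
      (C.ev_ev C.tS (ev_of_comm (Commute.refl t)) h)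
    exact ⟨t * r ^ i, ⟨i, Or.inr rfl⟩, ψ, hψ, by rw [mul_assoc, ← e, ← mul_assoc, C.tt, one_mul]⟩

theorem phi_D {x : G} (hx : x ∈ Phi S a c d) (hD : x ∈ C.D) : x = 1 := by
  by_contra c
  exact C.not_fix2 hx.1 hx.2.1 hx.2.2.1 (C.fix2_of_mem hD c)

theorem phi_cyc : ∃ φ ∈ Phi S a c d, ∀ x ∈ Phi S a c d, ∃ i : ℤ, x = φ ^ i := by
  obtain ⟨φ, h⟩ := (C.A.h3 (Phi S a c d) (C.hS.to_le inf_le_left) a C.ha b C.hb c C.hc C.ab C.ac
    C.bc fun g hg => ⟨hg.2.1, C.fb hg.1 hg.2.1, hg.2.2.1⟩).exists_generator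
  refine ⟨φ, φ.2, fun x hx => ?_⟩
  obtain ⟨i, hi⟩ := h ⟨x, hx⟩
  exact ⟨i, (congrArg Subtype.val hi).symm⟩

theorem phi_comm {x y : G} (hx : x ∈ Phi S a c d) (hy : y ∈ Phi S a c d) : Commute x y := by
  obtain ⟨φ, -, h⟩ := C.phi_cyc
  obtain ⟨i, rfl⟩ := h x hx
  obtain ⟨j, rfl⟩ := h y hy
  exact Commute.zpow_zpow_self φ i j

theorem phi_inv_unique {x y : G} (hx : x ∈ Phi S a c d) (hy : y ∈ Phi S a c d) (ix : Inv x)
    (iy : Inv y) : x = y := by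
  by_contra ne
  have k := (Phi S a c d).mul_mem hx hy
  rcases C.A.h4 x y ix iy ne (C.phi_comm hx hy) with e | e | e
  exacts [C.not_fix2 hx.1 hx.2.1 hx.2.2.1 e, C.not_fix2 hy.1 hy.2.1 hy.2.2.1 e,
    C.not_fix2 k.1 k.2.1 k.2.2.1 e]

theorem inverts {u : G} (hu : u * u = 1) (h : Od t r u) : u * r * u⁻¹ = r⁻¹ := by
  obtain ⟨j, hj⟩ := h
  obtain ⟨k, hk⟩ := C.hS ⟨r, C.hr.1⟩
  obtain ⟨i, hi⟩ := mem_zpowers_odd (x := r) (congrArg Subtype.val hk) j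
  have h1 : u * (t * r ^ (2 * j + 1)) * u⁻¹ = t := by
    rw [← hj, inv_eq_of_mul_eq_one_left hu]
    calc _ = (u * u) * t * (u * u) := by group
      _ = t := by rw [hu, one_mul, mul_one]
  have h2 : u * r ^ (2 * j + 1) * u⁻¹ = (r ^ (2 * j + 1))⁻¹ := by
    calc _ = (u * t * u⁻¹) * (u * (t * r ^ (2 * j + 1)) * u⁻¹) := by
          rw [conj_mul, ← mul_assoc t, C.tt, one_mul]
      _ = _ := by rw [hj, h1, C.trt, zpow_neg]
  conv_lhs => rw [hi, ← conj_zpow, h2, inv_zpow, ← hi]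

theorem od_same {u v : G} (uS : u ∈ S) (vS : v ∈ S) (hu : Inv u) (hv : Inv v) (bu : ¬ Fix2 O u)
    (bv : ¬ Fix2 O v) (ou : Od t r u) (ov : Od t r v) {δ β : G} (hδ : δ ∈ C.D)
    (hβ : β ∈ Phi S a c d) (iβ : Inv β) (e : u * v = δ * β) : False := by
  have bβ := C.not_fix2 hβ.1 hβ.2.1 hβ.2.2.1
  obtain ⟨i, γ, γS, iγ, bγ, γt, e⟩ : ∃ (i : ℤ) (γ : G), γ ∈ S ∧ Inv γ ∧ ¬ Fix2 O γ ∧
      Commute γ t ∧ u * v = r ^ i * γ := by
    obtain ⟨i, rfl | rfl⟩ := hδ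
    · exact ⟨i, β, hβ.1, iβ, bβ, C.phi_t hβ, e⟩
    · have ne : t ≠ β := fun c => bβ (c ▸ C.ht.2)
      have it := C.ht.1.mul iβ ne (C.phi_t hβ).symm
      refine ⟨-i, t * β, S.mul_mem C.tS hβ.1, it, fun f => bβ ?_,
        (Commute.refl t).mul_left (C.phi_t hβ), by rw [e, ← mul_assoc, C.rt, neg_neg]⟩
      have := C.A.h2 t _ C.ht.1 it C.ht.2 f fun c => iβ.1 (left_eq_mul.1 c)
      rwa [← mul_assoc, C.tt, one_mul] at this
  have ur := C.inverts hu.2 ou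
  have vr := C.inverts hv.2 ov
  have c1 : Commute (u * v) r := by
    have : u * v * r * (u * v)⁻¹ = r := by
      calc _ = u * (v * r * v⁻¹) * u⁻¹ := by group
        _ = r := by rw [vr, ← conj_inv, ur, inv_inv]
    exact mul_inv_eq_iff_eq_mul.1 this
  have c2 : Commute γ r := by
    have : γ = r ^ (-i) * (u * v) := by rw [e]; group
    rw [this]
    exact (Commute.zpow_self r _).mul_left c1
  have ui : u * r ^ i * u⁻¹ = (r ^ i)⁻¹ := by rw [← conj_zpow, ur, inv_zpow]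
  have c3 : Commute u γ := by
    have h1 : u * (u * v) * u⁻¹ = (u * v)⁻¹ := by
      rw [← mul_assoc, hu.2, one_mul, mul_inv_rev, hv.inv]
    rw [e, ← conj_mul, ui, mul_inv_rev, iγ.inv, (c2.zpow_right i).inv_right.eq] at h1
    exact mul_inv_eq_iff_eq_mul.1 (mul_left_cancel h1)
  have ne : u ≠ γ := fun c => C.not_od (ev_of_comm γt) (c ▸ ou)
  have hm : Hm O (u * γ) :=
    ⟨hu.mul iγ ne c3, ((C.A.h4 u γ hu iγ ne c3).resolve_left bu).resolve_left bγ⟩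
  have : v = (r ^ i)⁻¹ * (u * γ) := by
    rw [← ui]
    calc v = u * (u * v) := by rw [← mul_assoc, hu.2, one_mul]
      _ = _ := by rw [e, hu.inv, mul_assoc (u * r ^ i), ← mul_assoc u u, hu.2, one_mul, mul_assoc]
  exact bv (C.fix2_of_mem (this ▸ C.D.mul_mem (C.D.inv_mem (C.rD i))
    (C.hm_mem (S.mul_mem uS γS) hm)) hv.1)

theorem comm_or_central {w φ : G} (wS : w ∈ S) (wa : w • a = a) (hw : w * t * w⁻¹ = t * r)
    (hφ : φ ∈ Phi S a c d) : w * φ * w⁻¹ * φ⁻¹ ∈ C.D ∨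
      ∃ β ∈ Phi S a c d, Inv β ∧ Commute β r ∧ Commute β w := by
  have ow : Od t r w := ⟨0, by simpa using hw⟩
  have wa' : w⁻¹ • a = a := inv_smul_eq_iff.2 wa.symm
  obtain ⟨m, φ', hφ', e1⟩ := C.decomp (s := w * φ * w⁻¹)
    (S.mul_mem (S.mul_mem wS hφ.1) (S.inv_mem wS)) (by rw [mul_smul, mul_smul, wa', hφ.2.1, wa])
    (C.od_od (S.mul_mem wS hφ.1) (C.od_ev wS ow (ev_of_comm (C.phi_t hφ))) (C.od_inv wS ow))
  obtain ⟨m₀, φ₀, hφ₀, e2⟩ := C.decomp (s := w * w) (S.mul_mem wS wS)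
    (by rw [mul_smul, wa, wa]) (C.od_od wS ow ow)
  obtain ⟨A, hA⟩ := C.conj_r hφ.1
  obtain ⟨B, hB⟩ := C.conj_r wS
  obtain ⟨E, hE⟩ := C.conj_r (S.inv_mem wS)
  have hA' : φ' * r * φ'⁻¹ = r ^ (2 * A + 1) := by
    have h1 : w * φ * w⁻¹ * r * (w * φ * w⁻¹)⁻¹ = r ^ (2 * A + 1) := by
      calc _ = w * (φ * (w⁻¹ * r * w⁻¹⁻¹) * φ⁻¹) * w⁻¹ := by group
        _ = w * (w⁻¹ * r * w⁻¹⁻¹) ^ (2 * A + 1) * w⁻¹ := by
          rw [hE, ← conj_zpow (a := φ), hA, ← zpow_mul, ← zpow_mul, mul_comm (2 * A + 1)]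
        _ = _ := by rw [conj_zpow]; group
    rw [e1] at h1
    calc _ = r ^ (-m) * (r ^ m * φ' * r * (r ^ m * φ')⁻¹) * r ^ m := by group
      _ = _ := by rw [h1]; group
  have ψr : Commute (φ⁻¹ * φ') r := by
    have : φ⁻¹ * φ' * r * (φ⁻¹ * φ')⁻¹ = r := by
      calc _ = φ⁻¹ * (φ' * r * φ'⁻¹) * φ := by group
        _ = r := by rw [hA', ← hA]; group
    exact mul_inv_eq_iff_eq_mul.1 this
  have hψ := (Phi S a c d).mul_mem ((Phi S a c d).inv_mem hφ) hφ'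
  have E1 : r ^ (2 * (A - m)) = 1 := by
    have h1 : w * φ * w⁻¹ * (t * r) * (w * φ * w⁻¹)⁻¹ = t * r := by
      rw [← hw]
      calc _ = w * (φ * t * φ⁻¹) * w⁻¹ := by group
        _ = _ := by rw [(C.phi_t hφ).eq, mul_inv_cancel_right]
    rw [e1] at h1
    have h2 : r ^ m * φ' * (t * r) * (r ^ m * φ')⁻¹ = t * r ^ (2 * (A - m) + 1) := by
      calc _ = r ^ m * (φ' * t * φ'⁻¹) * (φ' * r * φ'⁻¹) * r ^ (-m) := by group
        _ = _ := by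
          rw [(C.phi_t hφ').eq, mul_inv_cancel_right, hA', C.rt]
          group
    rw [h2, zpow_add, zpow_one] at h1
    exact mul_eq_right.1 (mul_left_cancel h1)
  have E2 : r ^ (2 * (B + 1 + m₀)) = 1 := by
    have h1 : w * w * t * (w * w)⁻¹ = t * r ^ (2 * B + 2) := by
      calc _ = w * (w * t * w⁻¹) * w⁻¹ := by group
        _ = _ := by rw [hw, ← conj_mul, hw, hB]; group
    have h2 : w * w * t * (w * w)⁻¹ = t * r ^ (-(2 * m₀)) := by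
      rw [e2]
      calc _ = r ^ m₀ * (φ₀ * t * φ₀⁻¹) * r ^ (-m₀) := by group
        _ = _ := by
          rw [(C.phi_t hφ₀).eq, mul_inv_cancel_right, C.rt]
          group
    have h3 := mul_left_cancel (h1.symm.trans h2)
    rw [show 2 * (B + 1 + m₀) = 2 * B + 2 + 2 * m₀ by ring, zpow_add, h3]
    group
  have E3 : w * (φ⁻¹ * φ') * w⁻¹ = (φ⁻¹ * φ')⁻¹ := by
    have h1 : w * w * φ * (w * w)⁻¹ = r ^ (-(2 * A * m₀)) * φ := by
      rw [e2]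
      calc _ = r ^ m₀ * (φ₀ * φ * φ₀⁻¹) * r ^ (-m₀) := by group
        _ = r ^ m₀ * (φ * r ^ (-m₀) * φ⁻¹) * φ := by
          rw [(C.phi_comm hφ₀ hφ).eq]
          group
        _ = _ := by rw [← conj_zpow, hA]; group
    have h2 : w * w * φ * (w * w)⁻¹ =
        r ^ (2 * m * (B + 1)) * φ' * (w * (φ⁻¹ * φ') * w⁻¹) := by
      calc _ = w * (w * φ * w⁻¹) * w⁻¹ := by group
        _ = w * (r ^ m * φ') * w⁻¹ := by rw [e1]
        _ = (w * r ^ m * w⁻¹) * (w * φ * w⁻¹) * (w * (φ⁻¹ * φ') * w⁻¹) := by group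
        _ = _ := by rw [← conj_zpow, hB, e1]; group
    have h3 : r ^ (2 * m * (B + 1)) = r ^ (-(2 * A * m₀)) := by
      rw [show 2 * m * (B + 1) = 2 * (B + 1 + m₀) * m + 2 * (A - m) * m₀ + -(2 * A * m₀) by ring,
        zpow_add, zpow_add, zpow_mul, zpow_mul _ _ m₀, E1, E2, one_zpow, one_zpow, one_mul, one_mul]
    rw [h1, h3, mul_assoc (r ^ _)] at h2
    rw [mul_inv_rev, inv_inv, eq_inv_mul_iff_mul_eq]
    exact (mul_left_cancel h2).symm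
  by_cases h1 : φ⁻¹ * φ' = 1
  · left
    rw [e1, ← inv_mul_eq_one.1 h1, mul_inv_cancel_right]
    exact C.rD m
  · right
    obtain ⟨k, hk⟩ := C.hS ⟨_, hψ.1⟩
    obtain ⟨j, hj⟩ := exists_inv_pow (x := φ⁻¹ * φ') (congrArg Subtype.val hk) h1
    refine ⟨_, (Phi S a c d).pow_mem hψ j, hj, ψr.pow_left j, ?_⟩
    have : w * (φ⁻¹ * φ') ^ j * w⁻¹ = (φ⁻¹ * φ') ^ j := by rw [← conj_pow, E3, inv_pow, hj.inv]
    exact (mul_inv_eq_iff_eq_mul.1 this).symm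

end Ctx2

end Cfsg.Agent.H79.Ov
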