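import Cfsg.Agent.H79.R3Defs

/-!
The table of orbit numbers.
-/

set_option autoImplicit false

namespace Cfsg.Agent.H79.R3

open Cfsg H11

universe w

theorem bessel {G : Type w} [Group G] [Fintype G] {k : ℕ} (v : Fin k → G → ℂ)
    (M : Fin k → Fin k → ℤ) (hM : ∀ i j, classInner (v i) (v j) = M i j) (χ : G → ℂ)
    (m : Fin k → ℤ) (hm : ∀ i, classInner χ (v i) = m i) (h1 : classInner χ χ = 1)
    (x : Fin k → ℤ) :
    0 ≤ 1 - 2 * ∑ i, x i * m i + ∑ i, ∑ j, x i * x j * M i j ∧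
      (1 - 2 * ∑ i, x i * m i + ∑ i, ∑ j, x i * x j * M i j = 0 →
        ∀ ψ, classInner χ ψ = ∑ i, (x i : ℂ) * classInner (v i) ψ) := by
  have hm' : ∀ i, classInner (v i) χ = m i := fun i => by
    rw [← conj_classInner, hm, map_intCast]
  have e : classInner (χ - ∑ i, x i • v i) (χ - ∑ i, x i • v i) =
      ((1 - 2 * ∑ i, x i * m i + ∑ i, ∑ j, x i * x j * M i j : ℤ) : ℂ) := by
    simp only [classInner_sub_left, classInner_sub_right, classInner_sum_left,
      classInner_sum_right, classInner_zsmul_left, classInner_zsmul_right, hM, hm, hm', h1,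
      mul_sub, Finset.sum_sub_distrib]
    push_cast
    rw [Finset.sum_comm]
    simp only [← Finset.mul_sum, mul_assoc, mul_left_comm]
    ring
  refine ⟨?_, fun h ψ => ?_⟩
  · have := classInner_self_re_nonneg (χ - ∑ i, x i • v i)
    rw [e, Complex.intCast_re] at this
    exact_mod_cast this
  · rw [h, Int.cast_zero, classInner_self_eq_zero, sub_eq_zero] at e
    rw [e, classInner_sum_left]
    simp only [classInner_zsmul_left]

/-- The seven small types. -/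
def ty : Fin 7 → ℕ × ℕ × ℕ := ![(0, 0, 0), (0, 0, 1), (0, 0, 2), (0, 1, 2), (0, 0, 3), (0, 1, 3),
  (1, 2, 3)]

/-- The Gram matrix. -/
def gram (δ : ℤ) : Fin 7 → Fin 7 → ℤ :=
  ![![1, 1, 1, 1, 1, 1, 1], ![1, 2, 2, 3, 2, 3, 4], ![1, 2, 3, 4, 3, 5, 7], ![1, 3, 4, 7, 4, 8, 13],
    ![1, 2, 3, 4, 4 - δ, 6 - δ, 8 - δ], ![1, 3, 5, 8, 6 - δ, 12 - δ, 19 - δ],
    ![1, 4, 7, 13, 8 - δ, 19 - δ, 34 - δ]]

theorem gram5 : ∀ i j : Fin 7, (ct (ty i).1 ((ty i).2.1 - (ty i).1) ((ty i).2.2 - (ty i).2.1)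
    (ty j).1 ((ty j).2.1 - (ty j).1) ((ty j).2.2 - (ty j).2.1) ((ty i).2.2 + (ty j).2.2 - 5) : ℤ) =
    gram 1 i j := by decide +kernel

theorem gram6 : ∀ i j : Fin 7, (ct (ty i).1 ((ty i).2.1 - (ty i).1) ((ty i).2.2 - (ty i).2.1)
    (ty j).1 ((ty j).2.1 - (ty j).1) ((ty j).2.2 - (ty j).2.1) 0 : ℤ) = gram 0 i j := by
  decide +kernel

theorem g124 : ∀ i : Fin 7, (ct (ty i).1 ((ty i).2.1 - (ty i).1) ((ty i).2.2 - (ty i).2.1)
    1 1 2 0 : ℤ) = ![1, 4, 8, 14, 11, 25, 43] i := by decide +kernel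

theorem ty_le : ∀ i : Fin 7, (ty i).1 ≤ (ty i).2.1 ∧ (ty i).2.1 ≤ (ty i).2.2 ∧ (ty i).2.2 ≤ 3 := by
  decide

theorem cmp_swap1 {n : ℕ} (hn : 5 ≤ n) :
    cmp n 0 2 3 = cmp n 0 1 3 ∘ Equiv.swap (⟨1, by omega⟩ : Fin n) ⟨2, by omega⟩ := by
  funext i
  simp only [Function.comp, Equiv.swap_apply_def, cmp, Fin.ext_iff]
  split_ifs <;> simp_all

theorem cmp_swap2 {n : ℕ} (hn : 5 ≤ n) :
    cmp n 0 2 (n - 2) = cmp n 0 2 4 ∘ Equiv.swap (⟨2, by omega⟩ : Fin n) ⟨3, by omega⟩ := by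
  funext i
  simp only [Function.comp, Equiv.swap_apply_def, cmp, Fin.ext_iff]
  split_ifs <;> simp_all <;> omega

theorem six {a b c d e f : ℤ} (h : a * a + b * b + c * c + d * d + e * e + f * f ≤ 1)
    (h0 : 0 ≤ 3 * a + 3 * b + 3 * c + d + 2 * e + f) :
    (a = 1 ∧ b = 0 ∧ c = 0 ∧ d = 0 ∧ e = 0 ∧ f = 0) ∨ (a = 0 ∧ b = 1 ∧ c = 0 ∧ d = 0 ∧ e = 0 ∧ f = 0) ∨
    (a = 0 ∧ b = 0 ∧ c = 1 ∧ d = 0 ∧ e = 0 ∧ f = 0) ∨ (a = 0 ∧ b = 0 ∧ c = 0 ∧ e = 0 ∧ f = 0) ∨
    (a = 0 ∧ b = 0 ∧ c = 0 ∧ d = 0 ∧ e = 1 ∧ f = 0) ∨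
    (a = 0 ∧ b = 0 ∧ c = 0 ∧ d = 0 ∧ e = 0 ∧ f = 1) := by
  have k : ∀ x : ℤ, 0 ≤ x * x ∧ (x = 0 ∨ x ≤ x * x ∧ -x ≤ x * x ∧ 1 ≤ x * x) := fun x =>
    ⟨mul_self_nonneg x, by
      by_cases h : x = 0
      · exact Or.inl h
      · have : 0 < x * x := mul_self_pos.2 h
        refine Or.inr ⟨by nlinarith, by nlinarith, by omega⟩⟩
  have ka := k a
  have kb := k b
  have kc := k c
  have kd := k d
  have ke := k e
  have kf := k f
  generalize a * a = A at *
  generalize b * b = B at *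
  generalize c * c = C at *
  generalize d * d = D at *
  generalize e * e = E at *
  generalize f * f = F at *
  by_cases ha : a = 0
  · by_cases hb : b = 0
    · by_cases hc : c = 0
      · by_cases he : e = 0
        · by_cases hf : f = 0
          · exact Or.inr (Or.inr (Or.inr (Or.inl ⟨ha, hb, hc, he, hf⟩)))
          · have : d = 0 := by omega
            exact Or.inr (Or.inr (Or.inr (Or.inr (Or.inr ⟨ha, hb, hc, this, he, by omega⟩))))
        · have h1 : d = 0 := by omega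
          have h2 : f = 0 := by omega
          exact Or.inr (Or.inr (Or.inr (Or.inr (Or.inl ⟨ha, hb, hc, h1, by omega, h2⟩))))
      · have h1 : d = 0 := by omega
        have h2 : f = 0 := by omega
        have h3 : e = 0 := by omega
        exact Or.inr (Or.inr (Or.inl ⟨ha, hb, by omega, h1, h3, h2⟩))
    · have h1 : d = 0 := by omega
      have h2 : f = 0 := by omega
      have h3 : e = 0 := by omega
      have h4 : c = 0 := by omega
      exact Or.inr (Or.inl ⟨ha, by omega, h4, h1, h3, h2⟩)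
  · have h1 : d = 0 := by omega
    have h2 : f = 0 := by omega
    have h3 : e = 0 := by omega
    have h4 : c = 0 := by omega
    have h5 : b = 0 := by omega
    exact Or.inl ⟨by omega, h5, h4, h1, h3, h2⟩

theorem tab (hct : CtStmt) (perm : PermStmt.{w}) : TabStmt.{w} := by
  intro G _ _ n p π hf hn χ o hχ ho
  have e1 : o 0 2 3 = o 0 1 3 := by
    have h1 := ho 0 2 3 (by omega) (by omega) (by omega)
    rw [cmp_swap1 hn, perm G n p π hf _ _ (sum_cmp (by omega) (by omega) (by omega) (by omega)),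
      ← ho 0 1 3 (by omega) (by omega) (by omega)] at h1
    exact_mod_cast h1
  have e2 : o 0 2 (n - 2) = o 0 2 4 := by
    have h1 := ho 0 2 (n - 2) (by omega) (by omega) (by omega)
    rw [cmp_swap2 hn, perm G n p π hf _ _ (sum_cmp (by omega) (by omega) (by omega) (by omega)),
      ← ho 0 2 4 (by omega) (by omega) (by omega)] at h1
    exact_mod_cast h1
  rcases hχ with rfl | ⟨hχ, h1⟩
  · have : ∀ a b d, a ≤ b → b ≤ d → d ≤ n → o a b d = 1 := fun a b d h1 h2 h3 => by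
      have := ho a b d h1 h2 h3
      rw [classInner_zero_left, add_zero] at this
      exact_mod_cast this
    right; right; right; left
    rw [this 0 1 2, this 0 1 3, this 0 2 3, this 1 2 3, this 0 0 3] <;> omega
  have inner : ∀ a b d a' b' d', a ≤ b → b ≤ d → d ≤ n → a' ≤ b' → b' ≤ d' → d' ≤ n →
      classInner (π (cmp n a b d)) (π (cmp n a' b' d')) =
        ((ct a (b - a) (d - b) a' (b' - a') (d' - b') (d + d' - n) : ℤ) : ℂ) := by
    intro a b d a' b' d' h1 h2 h3 h4 h5 h6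
    rw [hf.inner _ _ (sum_cmp (by omega) h1 h2 h3) (sum_cmp (by omega) h4 h5 h6),
      hct n a b d a' b' d' (by omega) h1 h2 h3 h4 h5 h6, Int.cast_natCast]
  let v : Fin 7 → G → ℂ := fun i => π (cmp n (ty i).1 (ty i).2.1 (ty i).2.2)
  obtain ⟨δ, hδ, hM⟩ : ∃ δ : ℤ, 0 ≤ δ ∧ ∀ i j, classInner (v i) (v j) = gram δ i j := by
    by_cases h5 : n = 5
    · subst h5
      refine ⟨1, by norm_num, fun i j => ?_⟩
      have hi := ty_le i
      have hj := ty_le j
      rw [← gram5, ← inner] <;> omega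
    · refine ⟨0, le_rfl, fun i j => ?_⟩
      have hi := ty_le i
      have hj := ty_le j
      rw [← gram6, show 0 = (ty i).2.2 + (ty j).2.2 - n by omega, ← inner] <;> omega
  have nat : ∀ a b d, a ≤ b → b ≤ d → d ≤ n →
      classInner χ (π (cmp n a b d)) = ((o a b d - 1 : ℤ) : ℂ) := fun a b d h1 h2 h3 => by
    push_cast
    rw [ho a b d h1 h2 h3]; ring
  have hm : ∀ i, classInner χ (v i) = ((o (ty i).1 (ty i).2.1 (ty i).2.2 - 1 : ℤ) : ℂ) := fun i => by
    have hi := ty_le i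
    exact nat _ _ _ hi.1 hi.2.1 (by omega)
  have o0 : o 0 0 0 = 1 := by
    have s := sum_cmp (n := n) (by omega) le_rfl le_rfl (Nat.zero_le n)
    have a1 := hf.one _ s
    have a2 : classInner 1 (π (cmp n 0 0 0)) = 1 := by rw [← conj_classInner, a1, map_one]
    have a3 : classInner (π (cmp n 0 0 0)) (π (cmp n 0 0 0)) = 1 := by
      have := hM 0 0
      simpa [gram, v, ty] using this
    have a4 : π (cmp n 0 0 0) = 1 := by
      rw [← sub_eq_zero, ← classInner_self_eq_zero, classInner_sub_left, classInner_sub_right,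
        classInner_sub_right, a1, a2, a3, classInner_irr_self isIrrCharacter_one']
      ring
    have := ho 0 0 0 le_rfl le_rfl (Nat.zero_le _)
    rw [a4, classInner_irr_of_ne hχ isIrrCharacter_one' h1, add_zero] at this
    exact_mod_cast this
  have pos : 1 ≤ o 1 2 3 := by
    obtain ⟨k, hk⟩ := exists_nat_classInner (isCharacter_of_irr hχ) (hf.ch (cmp n 1 2 3))
    have := ho 1 2 3 (by omega) (by omega) (by omega)
    rw [hk] at this
    have : o 1 2 3 = 1 + k := by exact_mod_cast this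
    omega
  obtain ⟨a, ha⟩ : ∃ a : ℤ, a = o 0 0 1 - 1 := ⟨_, rfl⟩
  obtain ⟨b, hb⟩ : ∃ b : ℤ, b = o 0 0 2 - o 0 0 1 := ⟨_, rfl⟩
  obtain ⟨c, hc⟩ : ∃ c : ℤ, c = o 0 1 2 - o 0 0 2 - o 0 0 1 + 1 := ⟨_, rfl⟩
  obtain ⟨d, hd⟩ : ∃ d : ℤ, d = o 0 0 3 - o 0 0 2 := ⟨_, rfl⟩
  obtain ⟨e, he⟩ : ∃ e : ℤ, e = o 0 1 3 - o 0 0 3 - o 0 1 2 + o 0 0 1 := ⟨_, rfl⟩
  obtain ⟨f, hf'⟩ : ∃ f : ℤ, f = o 1 2 3 - 2 * o 0 1 3 + o 0 0 3 - o 0 1 2 + o 0 0 2 + o 0 0 1 - 1 :=
    ⟨_, rfl⟩
  obtain ⟨b1, b2⟩ := bessel v (gram δ) hM χ _ hm (classInner_irr_self hχ)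
    ![-a + c - f, a - b - c + e + f, b - c - d + f, c - e - f, d - e + f, e - 2 * f, f]
  have key : 1 - 2 * ∑ i : Fin 7, ![-a + c - f, a - b - c + e + f, b - c - d + f, c - e - f,
        d - e + f, e - 2 * f, f] i * ((o (ty i).1 (ty i).2.1 (ty i).2.2 : ℤ) - 1) +
      ∑ i : Fin 7, ∑ j : Fin 7, ![-a + c - f, a - b - c + e + f, b - c - d + f, c - e - f,
        d - e + f, e - 2 * f, f] i * ![-a + c - f, a - b - c + e + f, b - c - d + f, c - e - f,
        d - e + f, e - 2 * f, f] j * gram δ i j =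
      1 - (a * a + b * b + c * c + d * d + e * e + f * f) - δ * (d * d) := by
    have q1 : (o 0 0 1 : ℤ) = 1 + a := by omega
    have q2 : (o 0 0 2 : ℤ) = 1 + a + b := by omega
    have q3 : (o 0 1 2 : ℤ) = 1 + 2 * a + b + c := by omega
    have q4 : (o 0 0 3 : ℤ) = 1 + a + b + d := by omega
    have q5 : (o 0 1 3 : ℤ) = 1 + 2 * a + 2 * b + c + d + e := by omega
    have q6 : (o 1 2 3 : ℤ) = 1 + 3 * a + 3 * b + 3 * c + d + 2 * e + f := by omega
    simp [Fin.sum_univ_succ, ty, gram, o0, q1, q2, q3, q4, q5, q6]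
    ring
  rw [key] at b1 b2
  have := mul_nonneg hδ (mul_self_nonneg d)
  rcases six (a := a) (b := b) (c := c) (d := d) (e := e) (f := f) (by omega) (by omega) with
    h | h | h | h | h | h
  · left; omega
  · right; left
    obtain ⟨rfl, rfl, rfl, rfl, rfl, rfl⟩ := h
    have b3 := b2 (by ring) (π (cmp n 0 2 4))
    rw [nat 0 2 4 (by omega) (by omega) (by omega)] at b3
    have i1 := inner 0 0 1 0 2 4 (by omega) (by omega) (by omega) (by omega) (by omega) (by omega)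
    have i2 := inner 0 0 2 0 2 4 (by omega) (by omega) (by omega) (by omega) (by omega) (by omega)
    rw [show 1 + 4 - n = 0 by omega] at i1
    have c1 : ct 0 (0 - 0) (1 - 0) 0 (2 - 0) (4 - 2) 0 = 3 := by decide +kernel
    have c2 : ct 0 (0 - 0) (2 - 0) 0 (2 - 0) (4 - 2) (2 + 4 - n) ≤ 6 := by
      have : 2 + 4 - n = 0 ∨ 2 + 4 - n = 1 := by omega
      rcases this with h | h <;> rw [h] <;> decide +kernel
    rw [c1] at i1
    generalize ct 0 (0 - 0) (2 - 0) 0 (2 - 0) (4 - 2) (2 + 4 - n) = t at i2 c2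
    simp [Fin.sum_univ_succ, v, ty, i1, i2] at b3
    have : (o 0 2 4 : ℤ) - 1 = -3 + t := by exact_mod_cast b3
    omega
  · right; right; left; omega
  · right; right; right; left; omega
  · right; right; right; right; left; omega
  · right; right; right; right; right
    refine ⟨by omega, by omega, by omega, by omega, fun h7 => ?_⟩
    obtain ⟨rfl, rfl, rfl, rfl, rfl, rfl⟩ := h
    have b3 := b2 (by ring) (π (cmp n 1 2 4))
    rw [nat 1 2 4 (by omega) (by omega) (by omega)] at b3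
    have i1 : ∀ i, classInner (v i) (π (cmp n 1 2 4)) =
        ((![1, 4, 8, 14, 11, 25, 43] i : ℤ) : ℂ) := fun i => by
      have hi := ty_le i
      rw [← g124, show 0 = (ty i).2.2 + 4 - n by omega]
      exact inner _ _ _ 1 2 4 hi.1 hi.2.1 (by omega) (by omega) (by omega) (by omega)
    simp only [i1] at b3
    have : (o 1 2 4 : ℤ) - 1 = 1 := by
      have e : ((o 1 2 4 - 1 : ℤ) : ℂ) = ((1 : ℤ) : ℂ) := by
        rw [b3]; simp [Fin.sum_univ_succ]; norm_num
      exact_mod_cast e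
    omega

end Cfsg.Agent.H79.R3
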