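import Cfsg.Agent.H79.R3Main
import Cfsg.Agent.H79.R3Tab
import Cfsg.Agent.H19.R3One
import Cfsg.Agent.H2.R3Syl
import Cfsg.Agent.H2.R3Cb2
import Cfsg.Agent.H21.R3Zd
import Cfsg.Agent.H24.R3Res
import Cfsg.Agent.H30.R3Friend
import Cfsg.Agent.H31.R3W1b
import Cfsg.Agent.H33.R3Cc1
import Cfsg.Agent.H38.R3Cov
import Cfsg.Agent.H38.R3Cc2
import Cfsg.Agent.H44.R3Ce1
import Cfsg.Agent.H56.R3Cb1
import Cfsg.Agent.H56.R3Flg
import Cfsg.Agent.H56.R3Par2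
import Cfsg.Agent.H57.R3Aff
import Cfsg.Agent.H57.R3Inv
import Cfsg.Agent.H57.R3Orb
import Cfsg.Agent.H58.R3W2
import Cfsg.Agent.H62.R3Cb3
import Cfsg.Agent.H64.R3Cb4
import Cfsg.Agent.H67.R3Ce2
import Cfsg.Agent.H69.R3Red
import Cfsg.Agent.H77.R3Tt
import Cfsg.Agent.H85.R3Fam
import Cfsg.Agent.H85.R3Uni
import Cfsg.Agent.H86.R3Ct
import Cfsg.Agent.H90.R3W1a
import Cfsg.Agent.H91.R3Zb
import Cfsg.Agent.H92.R3Par1
import Cfsg.Agent.H94.R3Ca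

/-!
Rank three actions of `PSL_n(q)`: all steps together.
-/

set_option autoImplicit false

namespace Cfsg.Agent.H79.R3

universe u w

theorem geo : Geo.{u} :=
  have cov : CovStmt.{u} := H38.R3Cov.cov
  have zb : ZbStmt.{u} := H91.R3Zb.zb cov
  { ca := H94.R3Ca.ca cov zb
    cb1 := H56.R3Cb1.cb1 cov zb (H21.R3Zd.zt cov) (H91.R3Zb.zs cov)
    cb2 := H2R3.cb2
    cb3 := H62.R3Cb3.cb3 cov
    cb4 := H64.R3Cb4.cb4'
    cc1 := H33.R3Cc1.cc1 cov zb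
    cc2 := H38.R3Cc2.cc2
    cc3 := H57.R3Aff.cc3 cov
    ce1 := H44.R3Ce1.ce1 cov (H21.R3Zd.zd cov)
    ce2 := H67.R3Ce2.ce2 cov
    inv := H57.R3Inv.inv
    res := H24.R3r.res (H58.R3W.w2 cov H30.R3Friend.friend) H90.R3W1a.w1a H31.R3W1b.w1b'
    pl := H92.R3Par1.pl
    par1 := H92.R3Par1.par1 cov
    par2 := H56.R3Par2.par2 cov H92.R3Par1.ev
    tt1 := H77.R3.tt1
    tt2 := H77.R3.tt2 }

theorem chr : Chr.{u, w} where
  ctab := H86.R3.ctab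
  one := H19.R3O.one H85.R3U.uni
  tab := tab H86.R3.ctab H85.R3U.perm
  fam := H85.R3F.fam
  orb := H57.R3Orb.orb H56.R3Flg.flg
  red := H69.R3Red.red H56.R3Flg.flg
  num := H69.R3Red.num
  syl := H2R3S.syl
  full := H2R3S.full
  ev2 := H2R3S.ev2

end Cfsg.Agent.H79.R3
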