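import Cfsg.Agent.H79.R3Defs
import Cfsg.Agent.H77.CkG
import Cfsg.Agent.H8.SgTri
import Cfsg.Agent.H62.SgNof

/-!
Rank three actions of `PSL_n(q)`: assembly of the steps.
-/

set_option autoImplicit false

namespace Cfsg.Agent.H79.R3

open Cfsg Module
open scoped Pointwise MatrixGroups

universe u w

theorem ck : CkStmt.{u} := fun _ _ _ _ _ _ _ K hn h w φ e =>
  H77.Ck.tv_of_two H8.SgTri.tri H62.SgNof.nof hn K h w φ e

/-- The geometric steps. -/
structure Geo : Prop where
  ca : CaStmt.{u}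
  cb1 : Cb1Stmt.{u}
  cb2 : Cb2Stmt.{u}
  cb3 : Cb3Stmt.{u}
  cb4 : Cb4Stmt.{u}
  cc1 : Cc1Stmt.{u}
  cc2 : Cc2Stmt.{u}
  cc3 : Cc3Stmt.{u}
  ce1 : Ce1Stmt.{u}
  ce2 : Ce2Stmt.{u}
  inv : InvStmt.{u}
  res : ResStmt.{u}
  pl : PlStmt.{u}
  par1 : Par1Stmt.{u}
  par2 : Par2Stmt.{u}
  tt1 : Tt1Stmt.{u}
  tt2 : Tt2Stmt.{u}

theorem Geo.main (H : Geo.{u}) {F V : Type u} [Field F] [Finite F] [AddCommGroup V] [Module F V]
    [Finite V] (K : Subgroup (V ≃ₗ[F] V)) (hn : 5 ≤ finrank F V) (o : ℕ → ℕ → ℕ → ℕ)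
    (ho : ∀ a b d, a ≤ b → b ≤ d → d ≤ finrank F V → Orb3 K a b d (o a b d))
    (ht : NTab o (finrank F V))
    (h2 : (2 : F) = 0 → ∃ g ∈ K, ¬ IsSc g ∧ IsSc (g * g)) :
    Red K ∨ ∀ w φ, φ w = 0 → Tv K w φ := by
  have o3 : ∀ {a b d m}, a ≤ b → b ≤ d → d ≤ 5 → o a b d = m → Orb3 K a b d m :=
    fun h1 h2 h3 e => e ▸ ho _ _ _ h1 h2 (h3.trans hn)
  have o2 : ∀ {b d m}, b ≤ d → d ≤ 5 → o 0 b d = m → Orb2 K b d m :=
    fun h2 h3 e => (o3 (Nat.zero_le _) h2 h3 e).two
  have o1 : ∀ {d m}, d ≤ 5 → o 0 0 d = m → Orb1 K d m :=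
    fun h3 e => (o2 (Nat.zero_le _) h3 e).one
  have fin : Tr2 K 1 2 → (∃ L : Submodule F V, dm L = 2 ∧ Two K L) →
      ∀ w φ, φ w = 0 → Tv K w φ := fun t ⟨L, l1, l2⟩ =>
    ck F V K hn (H.tt2 F V K (by omega) (H.tt1 F V K L t l1 l2))
  have wag : PlTr K 1 → PlTr K 2 → (Odd (Nat.card F) → PtInv K) →
      ∃ L : Submodule F V, dm L = 2 ∧ Two K L := by
    intro p1 p2 hp
    have : ∃ g ∈ K, ¬ IsSc g ∧ IsSc (g * g) ∧
        ((2 : F) = 0 ∨ ∃ x : Submodule F V, dm x = 1 ∧ g • x = x) := by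
      by_cases e : (2 : F) = 0
      · obtain ⟨g, g1, g2, g3⟩ := h2 e
        exact ⟨g, g1, g2, g3, Or.inl e⟩
      · have hodd : Odd (Nat.card F) := by
          have := Fintype.ofFinite F
          rw [Nat.card_eq_fintype_card, Nat.odd_iff]
          refine FiniteField.odd_card_of_char_ne_two fun h => e ?_
          have := (ringChar.spec F 2).2 (h ▸ dvd_rfl)
          exact_mod_cast this
        obtain ⟨g, g1, x, x1, x2, g2, g3⟩ := hp hodd
        exact ⟨g, g1, g2, g3, Or.inr ⟨x, x1, x2⟩⟩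
    obtain ⟨g, g1, g2, g3, g4⟩ := this
    obtain ⟨E, d, e1, e2, e3, e4⟩ := H.inv F V g (by omega) g2 g3 g4
    exact H.res F V K g E d p1 p2 g1 e1 e2 e3 e4
  rcases ht with ⟨a1, a2, a3⟩ | ⟨a1, a2, a3, a4, a5, a6, a7⟩ | ⟨a1, a2, a3, a4, a5, a6, a7⟩ |
    ⟨a1, a2, a3, a4⟩ | ⟨a1, a2, a3, a4, a5⟩ | ⟨a1, a2, a3, a4, a5⟩
  · exact Or.inl (H.ca F V K hn (o1 (by omega) a1) (o1 (by omega) a2) (o2 (by omega) (by omega) a3))
  · exfalso
    have h13 := o2 (by omega) (by omega) a4
    obtain ⟨t, W, k, hb, k1, k2⟩ := H.cb1 F V K hn (o1 (by omega) a1).tr (o1 (by omega) a2)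
      (o2 (by omega) (by omega) a3) h13 (o3 (by omega) (by omega) (by omega) a5)
    by_cases e1 : k = 1
    · subst e1
      exact H.cb3 F V K t W _ hn hb a6 (o2 (by omega) (by omega) rfl)
    · by_cases e2 : k + 2 = finrank F V
      · have e3 : finrank F V - 2 = k := by omega
        refine H.cb4 F V K t W k _ (by omega) e2 hb a7 ?_
        have := (ho 0 2 (finrank F V - 2) (by omega) (by omega) (by omega)).two
        rw [e3] at this ⊢
        exact this
      · exact H.cb2 F V K t W k hb (by omega) (by omega) h13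
  · exfalso
    have h12 := o2 (by omega) (by omega) a4
    have h13 := o2 (by omega) (by omega) a5
    have t2 := (o1 (by omega) a2).tr
    obtain ⟨Γ, L, s, d, b1, b2, b3, b4⟩ := H.cc2 F V K t2 (o1 (by omega) a3).tr h12 h13
      (o2 (by omega) (by omega) a6) (o3 (by omega) (by omega) (by omega) a7)
      (H.cc1 F V K hn (o1 (by omega) a1).tr t2 h12 h13)
    exact H.cc3 F V Γ L s d b1 b2 b3 b4
  · have h3 : Orb1 K 3 (o 0 0 3) := o1 (by omega) rfl
    have h13 := o2 (by omega) (by omega) a2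
    exact Or.inr (fin (o2 (by omega) (by omega) a1).tr (wag (H.pl F V K 1 _ (by omega) h3 h13)
      (H.pl F V K 2 _ (by omega) h3 (o2 (by omega) (by omega) a3)) fun h =>
        H.par1 F V K _ (by omega) h h13 (o3 (by omega) (by omega) (by omega) a4)))
  · have t := (o2 (by omega) (by omega) a1).tr
    obtain ⟨Γ, L, s, b1, b2, b3⟩ := H.ce1 F V K (o1 (by omega) a2).tr
      (o2 (by omega) (by omega) a3) (o2 (by omega) (by omega) a4)
      (o3 (by omega) (by omega) (by omega) a5)
    exact Or.inr (fin t ⟨L, b2.dim, H.ce2 F V K Γ L s t b1 b2 b3⟩)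
  · have t := (o2 (by omega) (by omega) a1).tr
    have h3 := o1 (by omega) a2
    have h13 := o2 (by omega) (by omega) a3
    exact Or.inr (fin t (wag (H.pl F V K 1 _ (by omega) h3 h13)
      (H.pl F V K 2 _ (by omega) h3 (o2 (by omega) (by omega) a4)) fun h =>
        H.par2 F V K hn h t h13.tr fun h7 => o3 (by omega) (by omega) (by omega) (a5 h7)))

/-- The character theoretic steps. -/
structure Chr : Prop where
  ctab : CtStmt
  one : OneStmt.{u}
  tab : TabStmt.{u}
  fam : FamStmt.{u}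
  orb : OrbStmt.{u, w}
  red : RedStmt.{u, w}
  num : NumStmt.{u}
  syl : SylStmt.{u}
  full : FullStmt.{u}
  ev2 : Ev2Stmt.{u, w}

theorem card_orbits_prod {G X Y : Type*} [Group G] [MulAction G X] [MulAction G Y]
    [MulAction.IsPretransitive G X] (x : X) :
    Nat.card (MulAction.orbitRel.Quotient G (X × Y)) =
      Nat.card (MulAction.orbitRel.Quotient (MulAction.stabilizer G x) Y) := by
  symm
  refine Nat.card_congr (Equiv.ofBijective (Quotient.map (fun y => (x, y)) ?_) ⟨?_, ?_⟩)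
  · rintro a b ⟨g, rfl⟩
    exact ⟨g.1, Prod.ext g.2 rfl⟩
  · intro a b
    induction a using Quotient.inductionOn
    induction b using Quotient.inductionOn
    intro h
    obtain ⟨g, hg⟩ := Quotient.exact h
    exact Quotient.sound ⟨⟨g, congrArg Prod.fst hg⟩, congrArg Prod.snd hg⟩
  · intro a
    induction a using Quotient.inductionOn with
    | h a =>
      obtain ⟨g, hg⟩ := MulAction.exists_smul_eq G a.1 x
      exact ⟨Quotient.mk _ (g • a.2), Quotient.sound ⟨g, Prod.ext hg rfl⟩⟩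

theorem main_sl (H : Geo.{u}) (C : Chr.{u, w}) {n : ℕ} (hn : 5 ≤ n) {F : Type u} [Field F]
    [Finite F] {X : Type w} [Finite X] [MulAction (Matrix.SpecialLinearGroup (Fin n) F) X]
    [MulAction.IsPreprimitive (Matrix.SpecialLinearGroup (Fin n) F) X] (x : X)
    (hz : ∀ z ∈ Subgroup.center (Matrix.SpecialLinearGroup (Fin n) F), ∀ y : X, z • y = y)
    (h3 : Nat.card (MulAction.orbitRel.Quotient
      (MulAction.stabilizer (Matrix.SpecialLinearGroup (Fin n) F) x) X) = 3) :
    Nat.card X * ((Nat.card F ^ 2 - 1) * (Nat.card F - 1)) =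
      (Nat.card F ^ n - 1) * (Nat.card F ^ (n - 1) - 1) := by
  classical
  have : Finite (Matrix.SpecialLinearGroup (Fin n) F) := Subtype.finite
  have := Fintype.ofFinite (Matrix.SpecialLinearGroup (Fin n) F)
  have : Nonempty X := ⟨x⟩
  have : Nontrivial X := by
    by_contra h
    have := not_nontrivial_iff_subsingleton.1 h
    have : Subsingleton (MulAction.orbitRel.Quotient
      (MulAction.stabilizer (Matrix.SpecialLinearGroup (Fin n) F) x) X) :=
      Quotient.instSubsingletonQuotient _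
    have := Finite.card_le_one_iff_subsingleton.2 this
    omega
  have hK : IsCoatom (MulAction.stabilizer (Matrix.SpecialLinearGroup (Fin n) F) x) :=
    MulAction.IsPreprimitive.isCoatom_stabilizer_of_isPreprimitive _ x
  have hf := C.fam n F (by omega)
  have hθ : classInner (H11.permChar (Matrix.SpecialLinearGroup (Fin n) F) X)
      (H11.permChar (Matrix.SpecialLinearGroup (Fin n) F) X) = 3 := by
    rw [H11.classInner_permChar_permChar, card_orbits_prod x, h3]; norm_num
  have red : Red ((MulAction.stabilizer (Matrix.SpecialLinearGroup (Fin n) F) x).map (slin n F)) := by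
    have hi := MulAction.index_stabilizer_of_transitive (Matrix.SpecialLinearGroup (Fin n) F) x
    by_cases hp : ringChar F ∣ Nat.card X
    · have hp' := hp
      obtain ⟨k, hk⟩ := hp'
      obtain ⟨χ, h1, h2⟩ := C.one _ n _ _ hf (CharP.char_is_prime F (ringChar F)).two_le _ k
        (H11.isCharacter_permChar X) hθ (H11.classInner_permChar_one_of_isPretransitive X)
        (by rw [H11.permChar_one, hk, mul_comm])
      have ho : ∀ a b d : ℕ, ∃ m : ℕ, a ≤ b → b ≤ d → d ≤ n →
          classInner (H11.permChar (Matrix.SpecialLinearGroup (Fin n) F) X)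
            (piS n F (cmp n a b d)) = m ∧
          Orb3 ((MulAction.stabilizer (Matrix.SpecialLinearGroup (Fin n) F) x).map (slin n F))
            a b d m := by
        intro a b d
        by_cases h : a ≤ b ∧ b ≤ d ∧ d ≤ n
        · obtain ⟨m, hm⟩ := C.orb n F X x a b d (by omega) h.1 h.2.1 h.2.2
          exact ⟨m, fun _ _ _ => hm⟩
        · exact ⟨0, fun h1 h2 h3 => (h ⟨h1, h2, h3⟩).elim⟩
      choose o ho using ho
      have hr : finrank F (Fin n → F) = n := by simp
      have ht : NTab o n := C.tab _ n _ _ hf hn χ o h1 fun a b d e1 e2 e3 => by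
        rw [← (ho a b d e1 e2 e3).1, h2 _ (sum_cmp (by omega) e1 e2 e3)]
      refine (H.main _ (by omega) o (fun a b d e1 e2 e3 => (ho a b d e1 e2 (by omega)).2)
        (by rwa [hr]) fun e => C.ev2 n F X x hz h3 ?_).resolve_right fun h => hK.1 (C.full n F _ h)
      have h2 : ringChar F ∣ 2 := (ringChar.spec F 2).1 (by exact_mod_cast e)
      rw [(Nat.prime_dvd_prime_iff_eq (CharP.char_is_prime F (ringChar F)) Nat.prime_two).1 h2] at hp
      exact even_iff_two_dvd.2 hp
    · exact (C.syl n F _ (by omega) (by rwa [hi])).resolve_right hK.1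
  obtain ⟨j, hj, e⟩ := C.red n F X x (by omega) hK red
  have s := sum_cmp (n := n) (by omega) le_rfl (Nat.zero_le j) hj
  refine C.num n F j _ hn hj ?_ (by rw [← e, H11.permChar_one])
  rw [e, hf.inner _ _ s s, C.ctab n 0 0 j 0 0 j (by omega) le_rfl (Nat.zero_le _) hj le_rfl
    (Nat.zero_le _) hj] at hθ
  exact_mod_cast hθ

theorem main (H : Geo.{u}) (C : Chr.{u, w}) {G : Type*} {X : Type w} [Group G] [MulAction G X]
    [Fintype X] {F : Type u} [Field F] [Fintype F] (n : ℕ) (hn : 5 ≤ n)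
    (e : G ≃* Matrix.ProjectiveSpecialLinearGroup (Fin n) F) (hprim : MulAction.IsPreprimitive G X)
    (x : X) (h3 : Nat.card (MulAction.orbitRel.Quotient ↥(MulAction.stabilizer G x) X) = 3) :
    Fintype.card X * ((Fintype.card F ^ 2 - 1) * (Fintype.card F - 1)) =
      (Fintype.card F ^ n - 1) * (Fintype.card F ^ (n - 1) - 1) := by
  let f : Matrix.SpecialLinearGroup (Fin n) F →* G :=
    e.symm.toMonoidHom.comp (QuotientGroup.mk' _)
  have hf : Function.Surjective f := e.symm.surjective.comp (QuotientGroup.mk'_surjective _)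
  letI : MulAction (Matrix.SpecialLinearGroup (Fin n) F) X := MulAction.compHom X f
  have hs : ∀ (g : Matrix.SpecialLinearGroup (Fin n) F) (y : X), g • y = f g • y := fun _ _ => rfl
  have : MulAction.IsPretransitive (Matrix.SpecialLinearGroup (Fin n) F) X := ⟨fun a b => by
    obtain ⟨g, hg⟩ := MulAction.exists_smul_eq G a b
    obtain ⟨g, rfl⟩ := hf g
    exact ⟨g, hg⟩⟩
  have : MulAction.IsPreprimitive (Matrix.SpecialLinearGroup (Fin n) F) X := ⟨fun {B} hB => by
    refine hprim.isTrivialBlock_of_isBlock ?_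
    rw [MulAction.isBlock_iff_smul_eq_or_disjoint] at hB ⊢
    intro g
    obtain ⟨g, rfl⟩ := hf g
    exact hB g⟩
  simp only [← Nat.card_eq_fintype_card]
  refine main_sl H C hn x (fun z hz y => ?_) ?_
  · have : f z = 1 := by
      change e.symm (QuotientGroup.mk z) = 1
      rw [(QuotientGroup.eq_one_iff z).2 hz, map_one]
    rw [hs, this, one_smul]
  · rw [← h3]
    refine Nat.card_congr (Quotient.congrRight fun a b => ⟨?_, ?_⟩)
    · rintro ⟨g, hg⟩
      exact ⟨⟨f g, g.2⟩, hg⟩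
    · rintro ⟨⟨g, h1⟩, hg⟩
      obtain ⟨g, rfl⟩ := hf g
      exact ⟨⟨g, h1⟩, hg⟩

end Cfsg.Agent.H79.R3
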