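import Cfsg.Agent.H79.RbCl
import Cfsg.Agent.H47.DgSrg
import Cfsg.Agent.H14.InduceChar

set_option autoImplicit false

open Cfsg Equiv Finset CliffordAlgebra

namespace Cfsg.Agent.H79.RB.Beta

variable {n : ℕ}

/-- The sum of the generators. -/
noncomputable def UU (n : ℕ) : Cl n := ∑ i, cc i

theorem UU_eq : UU n = ι (Qn n) fun _ => 1 := by
  rw [UU]
  simp only [cc]
  rw [← map_sum]
  congr 1
  ext i
  simp [Finset.sum_apply, Pi.single_apply]

theorem UU_sq : UU n * UU n = algebraMap ℂ _ n := by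
  rw [UU_eq, ι_sq_scalar, Qn_apply]
  simp

theorem involute_UU : involute (UU n) = -UU n := by rw [UU_eq, involute_ι]

theorem cl_UU (g : Pin n) : cl n g * UU n = sg (pr n g) • (UU n * cl n g) := by
  rw [UU, mul_sum, sum_mul, smul_sum]
  simp only [cl_cc]
  exact Equiv.sum_comp (pr n g) fun i => sg (pr n g) • (cc i * cl n g)

theorem exists_u (hn : 1 ≤ n) : ∃ u : Cl n, u * u = 1 ∧ involute u = -u ∧
    ∀ g : Pin n, cl n g * u = sg (pr n g) • (u * cl n g) := by
  obtain ⟨r, hr⟩ := IsAlgClosed.exists_eq_mul_self ((n : ℂ)⁻¹)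
  have h0 : (n : ℂ) ≠ 0 := Nat.cast_ne_zero.2 (by omega)
  refine ⟨r • UU n, ?_, by rw [map_smul, involute_UU, smul_neg], fun g => ?_⟩
  · rw [smul_mul_smul_comm, UU_sq, ← hr, Algebra.algebraMap_eq_smul_one, smul_smul,
      inv_mul_cancel₀ h0, one_smul]
  · rw [mul_smul_comm, cl_UU, smul_mul_assoc, smul_comm]

theorem sg_of_one {σ : Perm (Fin n)} (h : Perm.sign σ = 1) : sg σ = 1 := by simp [sg, h]

theorem sg_of_neg {σ : Perm (Fin n)} (h : Perm.sign σ = -1) : sg σ = -1 := by simp [sg, h]

theorem trace_anti {J : Type} [Fintype J] [DecidableEq J] {A B : Matrix J J ℂ} (hB : B * B = 1)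
    (h : A * B = -(B * A)) : A.trace = 0 := by
  have h1 : A.trace = (A * B * B).trace := by rw [mul_assoc, hB, mul_one]
  rw [h, neg_mul, Matrix.trace_neg, Matrix.trace_mul_comm, ← mul_assoc, hB, one_mul] at h1
  linear_combination h1 / 2

theorem trace_even (hB : ClBaseStmt) {J : Type} [Fintype J] [DecidableEq J]
    (ρ : Cl n →ₐ[ℂ] Matrix J J ℂ) {g : Pin n} (h : Perm.sign (pr n g) = 1) :
    (ρ (cl n g)).trace = Fintype.card J * trc n (cl n g) := by
  have := (hB n).2.2.1 ((Matrix.traceLinearMap J ℂ ℂ).comp ρ.toLinearMap)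
    (fun x y => by simp [Matrix.trace_mul_comm (ρ x)]) (cl n g)
    (by rw [involute_cl, sg_of_one h, one_smul])
  simpa using this

open Classical in
/-- The twisted embedding in the even part. -/
noncomputable def tw (u : Cl n) (h1 : u * u = 1)
    (h2 : ∀ g : Pin n, cl n g * u = sg (pr n g) • (u * cl n g)) : Pin n →* Cl n where
  toFun g := if Perm.sign (pr n g) = 1 then cl n g else Complex.I • (cl n g * u)
  map_one' := by simp
  map_mul' g h := by
    have hu : ∀ g : Pin n, u * cl n g = sg (pr n g) • (cl n g * u) := fun g => by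
      rw [h2, smul_smul, sg_mul_self, one_smul]
    rcases Int.units_eq_one_or (Perm.sign (pr n g)) with hg | hg <;>
      rcases Int.units_eq_one_or (Perm.sign (pr n h)) with hh | hh
    · simp [hg, hh]
    · simp [hg, hh, mul_assoc]
    · simp only [map_mul, hg, hh, mul_one, if_true]
      rw [if_neg (by decide), if_neg (by decide), smul_mul_assoc, mul_assoc, mul_assoc, hu,
        sg_of_one hh, one_smul]
    · simp only [map_mul, hg, hh]
      rw [if_pos (by decide), if_neg (by decide), if_neg (by decide), smul_mul_smul_comm,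
        Complex.I_mul_I, mul_assoc, ← mul_assoc u, hu, sg_of_neg hh, smul_mul_assoc, mul_assoc, h1]
      simp

theorem beta (hB : ClBaseStmt) (hR : RepStmt) : BetaStmt := by
  intro n hn
  obtain ⟨u, u1, u2, u3⟩ := exists_u hn
  rcases Nat.even_or_odd' n with ⟨k, hk | hk⟩
  · obtain ⟨J, _, _, hJ, ρ, hω⟩ := hR n k (by omega)
    obtain ⟨ω, w1, w2⟩ := hω hk.le
    let Φ : Pin n →* Matrix J J ℂ := (ρ : Cl n →* Matrix J J ℂ).comp (tw u u1 u3)
    have he : ∀ g, Perm.sign (pr n g) = 1 → Φ g = ρ (cl n g) := fun g hg => by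
      change ρ (if _ then _ else _) = _
      rw [if_pos hg]
    have hinv : ∀ g, involute (tw u u1 u3 g) = tw u u1 u3 g := fun g => by
      change involute (if _ then _ else _) = if _ then _ else _
      rcases Int.units_eq_one_or (Perm.sign (pr n g)) with hg | hg
      · rw [if_pos hg, involute_cl, sg_of_one hg, one_smul]
      · rw [if_neg (by rw [hg]; decide), map_smul, map_mul, involute_cl, sg_of_neg hg, u2]
        simp
    have hc : ∀ g, ω * Φ g = Φ g * ω := fun g => by
      change ω * ρ _ = ρ _ * ω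
      rw [w2, hinv]
    let E : Matrix J J ℂ := (2 : ℂ)⁻¹ • (1 + ω)
    have hE : E * E = E := by
      simp only [E, smul_mul_smul_comm, add_mul, mul_add, one_mul, mul_one, w1]
      rw [show (1 + ω + (ω + 1)) = (2 : ℂ) • (1 + ω) by rw [two_smul, add_comm ω 1], smul_smul]
      norm_num
    refine ⟨fun g => (Φ g * E).trace, H47.DgS.isChar_mat Φ E hE fun g => ?_, fun g => ?_,
      fun g hg => ?_, fun ho => ?_⟩
    · simp only [E, mul_smul_comm, smul_mul_assoc, mul_add, add_mul, mul_one, one_mul, hc]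
    · have : Φ (zz n) = -1 := by rw [he _ (by simp [pr_zz]), cl_zz, map_neg, map_one]
      simp only [map_mul, this, neg_mul, one_mul, Matrix.trace_neg]
    · have h0 : (ρ (cl n g) * ω).trace = 0 := by
        refine trace_anti (B := ρ u) (by rw [← map_mul, u1, map_one]) ?_
        rw [mul_assoc, w2, u2, map_neg, neg_mul, mul_neg, ← mul_assoc, ← map_mul, u3,
          sg_of_one hg, one_smul, map_mul, mul_assoc]
      simp only [he g hg, E, mul_smul_comm, mul_add, mul_one, Matrix.trace_smul, Matrix.trace_add,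
        h0, add_zero, smul_eq_mul]
      rw [trace_even hB ρ hg, hJ]
      obtain ⟨k, rfl⟩ : ∃ j, k = j + 1 := ⟨k - 1, by omega⟩
      rw [show (n - 1) / 2 = k by omega]
      push_cast
      ring
    · exact absurd ho (by rw [hk]; simp)
  · obtain ⟨J, _, _, hJ, ρ, -⟩ := hR n k hk.le
    let Φ : Pin n →* Matrix J J ℂ := (ρ : Cl n →* Matrix J J ℂ).comp (cl n)
    refine ⟨fun g => (Φ g).trace, H14.isCharacter_trace Φ, fun g => ?_, fun g hg => ?_,
      fun _ g hg => ?_⟩
    · have : Φ (zz n) = -1 := by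
        change ρ (cl n (zz n)) = _
        rw [cl_zz, map_neg, map_one]
      simp only [map_mul, this, neg_mul, one_mul, Matrix.trace_neg]
    · change (ρ (cl n g)).trace = _
      rw [trace_even hB ρ hg, hJ, show (n - 1) / 2 = k by omega]
      push_cast
      ring
    · change (ρ (cl n g)).trace = _
      refine trace_anti (B := ρ u) (by rw [← map_mul, u1, map_one]) ?_
      rw [← map_mul, u3, sg_of_neg hg, ← map_mul]
      simp

end Cfsg.Agent.H79.RB.Beta
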