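import Cfsg.Agent.H79.RbDefs

set_option autoImplicit false

open Cfsg Equiv Finset

namespace Cfsg.Agent.H79.RB.Lat

/-- The integers inside `ℂ`. -/
noncomputable def ZZ : Subring ℂ := (Int.castRingHom ℂ).range

theorem isInt_iff {x : ℂ} : IsInt x ↔ x ∈ ZZ :=
  ⟨fun ⟨k, h⟩ => ⟨k, h.symm⟩, fun ⟨k, h⟩ => ⟨k, h.symm⟩⟩

theorem s2_ne : s2 ≠ 0 := fun h => by
  have := s2_mul_self
  rw [h] at this
  norm_num at this

theorem s2_inv : s2⁻¹ = s2 / 2 := by
  rw [← s2_mul_self]
  field_simp [s2_ne]

theorem two_mem : (2 : ℂ) ∈ ZZ := ⟨2, by simp⟩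

theorem pair_sum {I : Type} [Fintype I] (σ : I → I) (hσ : ∀ i, σ (σ i) = i) (f : I → ℂ)
    (hf : ∀ i, f (σ i) = f i) (h1 : ∀ i, σ i = i → f i ∈ ZZ)
    (h2 : ∀ i, σ i ≠ i → 2 * f i ∈ ZZ) : ∑ i, f i ∈ ZZ := by
  classical
  rw [← sum_filter_add_sum_filter_not univ fun i => σ i = i]
  refine add_mem (sum_mem fun i hi => h1 i (mem_filter.1 hi).2) ?_
  have : (QuotientAddGroup.mk' ZZ.toAddSubgroup) (∑ i ∈ univ.filter fun i => ¬ σ i = i, f i) = 0 := by
    rw [map_sum]
    refine sum_involution (fun i _ => σ i) ?_ ?_ ?_ ?_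
    · intro i hi
      rw [hf, ← map_add, ← two_mul]
      exact (QuotientAddGroup.eq_zero_iff _).2 (h2 i (mem_filter.1 hi).2)
    · intro i hi _
      exact (mem_filter.1 hi).2
    · intro i hi
      refine mem_filter.2 ⟨mem_univ _, ?_⟩
      rw [hσ]
      exact fun h => (mem_filter.1 hi).2 h.symm
    · intro i _
      exact hσ i
  exact (QuotientAddGroup.eq_zero_iff _).1 this

open Classical in
/-- The scale of the lattice. -/
noncomputable def kap (ε : ℕ) (f : Prop) : ℂ := if Even ε then 1 else if f then s2⁻¹ else s2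

theorem step {I : Type} [Fintype I] (σ : I → I) (hσ : ∀ i, σ (σ i) = i) (fj : Prop) (t v : I → ℂ)
    (ht : ∀ i, t (σ i) = t i) (hv : ∀ i, v (σ i) = v i) (b ε : ℕ)
    (ho : Odd b → ∀ i, s2 * t i ∈ ZZ ∧ (σ i = i ∨ fj → t i / s2 ∈ ZZ))
    (he : Even b → ∀ i, t i ∈ ZZ ∧ (σ i = i → fj → t i / 2 ∈ ZZ))
    (h : ∀ i, kap ε (σ i = i) * v i ∈ ZZ) :
    kap (ε + b + 1) fj * (s2⁻¹ * ∑ i, v i * t i) ∈ ZZ := by
  have h2 := s2_mul_self
  have h0 := s2_ne
  rw [mul_sum, mul_sum]
  refine pair_sum σ hσ _ (fun i => by rw [ht, hv]) (fun i hi => ?_) (fun i hi => ?_)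
  · have hi' := h i
    rcases Nat.even_or_odd b with hb | hb <;> rcases Nat.even_or_odd ε with hε | hε
    · have hp : ¬ Even (ε + b + 1) := by rw [Nat.even_add_one, not_not]; exact hε.add hb
      rw [kap, if_pos hε, one_mul] at hi'
      by_cases hj : fj
      · rw [kap, if_neg hp, if_pos hj]
        convert mul_mem hi' ((he hb i).2 hi hj) using 1
        rw [← h2]; field_simp
      · rw [kap, if_neg hp, if_neg hj]
        convert mul_mem hi' (he hb i).1 using 1
        field_simp
    · have hp : Even (ε + b + 1) := (hε.add_even hb).add_one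
      rw [kap, if_neg (Nat.not_even_iff_odd.2 hε), if_pos hi] at hi'
      rw [kap, if_pos hp]
      convert mul_mem hi' (he hb i).1 using 1
      ring
    · have hp : Even (ε + b + 1) := (hε.add_odd hb).add_one
      rw [kap, if_pos hε, one_mul] at hi'
      rw [kap, if_pos hp]
      convert mul_mem hi' ((ho hb i).2 (Or.inl hi)) using 1
      field_simp
    · have hp : ¬ Even (ε + b + 1) := by rw [Nat.even_add_one, not_not]; exact hε.add_odd hb
      rw [kap, if_neg (Nat.not_even_iff_odd.2 hε), if_pos hi] at hi'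
      by_cases hj : fj
      · rw [kap, if_neg hp, if_pos hj]
        convert mul_mem hi' ((ho hb i).2 (Or.inl hi)) using 1
        field_simp
      · rw [kap, if_neg hp, if_neg hj]
        convert mul_mem two_mem (mul_mem hi' ((ho hb i).2 (Or.inl hi))) using 1
        rw [← h2]; field_simp
  · have hi' := h i
    rcases Nat.even_or_odd b with hb | hb <;> rcases Nat.even_or_odd ε with hε | hε
    · have hp : ¬ Even (ε + b + 1) := by rw [Nat.even_add_one, not_not]; exact hε.add hb
      rw [kap, if_pos hε, one_mul] at hi'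
      by_cases hj : fj
      · rw [kap, if_neg hp, if_pos hj]
        convert mul_mem hi' (he hb i).1 using 1
        rw [← h2]; field_simp
      · rw [kap, if_neg hp, if_neg hj]
        convert mul_mem two_mem (mul_mem hi' (he hb i).1) using 1
        field_simp
    · have hp : Even (ε + b + 1) := (hε.add_even hb).add_one
      rw [kap, if_neg (Nat.not_even_iff_odd.2 hε), if_neg hi] at hi'
      rw [kap, if_pos hp]
      convert mul_mem hi' (he hb i).1 using 1
      rw [← h2]; field_simp
    · have hp : Even (ε + b + 1) := (hε.add_odd hb).add_one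
      rw [kap, if_pos hε, one_mul] at hi'
      rw [kap, if_pos hp]
      convert mul_mem hi' (ho hb i).1 using 1
      rw [← h2]; field_simp
    · have hp : ¬ Even (ε + b + 1) := by rw [Nat.even_add_one, not_not]; exact hε.add_odd hb
      rw [kap, if_neg (Nat.not_even_iff_odd.2 hε), if_neg hi] at hi'
      by_cases hj : fj
      · rw [kap, if_neg hp, if_pos hj]
        convert mul_mem hi' ((ho hb i).2 (Or.inr hj)) using 1
        rw [← h2]; field_simp
      · rw [kap, if_neg hp, if_neg hj]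
        convert mul_mem hi' (ho hb i).1 using 1
        rw [← h2]; field_simp

theorem hom_smul {n : ℕ} {P : Fk} (a : ℂ) (h : Hom n P) : Hom n (a • P) := fun m hm =>
  h m fun h0 => hm (by rw [MvPolynomial.coeff_smul, h0, smul_zero])

theorem hom_sum {n : ℕ} {J : Type} (s : Finset J) (f : J → Fk) (h : ∀ j ∈ s, Hom n (f j)) :
    Hom n (∑ j ∈ s, f j) := fun m hm => by
  rw [MvPolynomial.coeff_sum] at hm
  obtain ⟨j, hj, h0⟩ := exists_ne_zero_of_sum_ne_zero hm
  exact h j hj m h0

section

variable {I : ℕ → Type} [∀ n, Fintype (I n)] (σ : ∀ n, I n → I n) (c : ∀ n, I n → Fk)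

/-- The two lattices. -/
def LL (ε n : ℕ) (P : Fk) : Prop := Hom n P ∧ ∀ i, kap ε (σ n i = i) * ip P (c n i) ∈ ZZ

variable {σ c}

theorem LL.congr {ε ε' n n' : ℕ} {P : Fk} (h : LL σ c ε n P) (he : Even ε ↔ Even ε') (hn : n = n') :
    LL σ c ε' n' P := by
  subst hn
  refine ⟨h.1, fun i => ?_⟩
  have := h.2 i
  simp only [kap, he] at this ⊢
  exact this

theorem LL.sum {ε n : ℕ} {J : Type} (s : Finset J) (f : J → Fk) (h : ∀ j ∈ s, LL σ c ε n (f j)) :
    LL σ c ε n (∑ j ∈ s, f j) := by
  refine ⟨hom_sum s f fun j hj => (h j hj).1, fun i => ?_⟩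
  rw [map_sum, LinearMap.sum_apply, mul_sum]
  exact sum_mem fun j hj => (h j hj).2 i

theorem LL.sign {ε n : ℕ} {P : Fk} (h : LL σ c ε n P) (j : ℕ) : LL σ c ε n (((-1 : ℂ) ^ j) • P) := by
  refine ⟨hom_smul _ h.1, fun i => ?_⟩
  rw [map_smul, LinearMap.smul_apply, smul_eq_mul, mul_left_comm]
  exact mul_mem (pow_mem (neg_mem (one_mem _)) _) (h.2 i)

theorem LL.two {ε n : ℕ} {P : Fk} (h : LL σ c ε n P) : LL σ c (ε + 1) n (s2 • P) := by
  have h2 := s2_mul_self
  have h0 := s2_ne
  refine ⟨hom_smul _ h.1, fun i => ?_⟩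
  have hi := h.2 i
  rw [map_smul, LinearMap.smul_apply, smul_eq_mul]
  rcases Nat.even_or_odd ε with hε | hε
  · rw [kap, if_pos hε, one_mul] at hi
    rw [kap, if_neg (by rw [Nat.even_add_one, not_not]; exact hε)]
    split_ifs
    · convert hi using 1
      field_simp
    · convert mul_mem two_mem hi using 1
      rw [← h2]; ring
  · rw [kap, if_neg (Nat.not_even_iff_odd.2 hε)] at hi
    rw [kap, if_pos hε.add_one, one_mul]
    split_ifs at hi
    · convert mul_mem two_mem hi using 1
      rw [← h2]; field_simp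
    · exact hi

end

theorem lat (hB : BasicStmt) (hA : AdjStmt) (hO : OrthStmt) (hS : SpanStmt) : LatStmt := by
  classical
  intro I _ σ c hσ hc hH hne hP h0 ho he
  obtain ⟨b1, b2, -, b4, b5, b6, b7, -, -, -, b11, b12, b13⟩ := hB
  have h2 := s2_mul_self
  have hs0 := s2_ne
  have mulq : ∀ ε a b P, 0 < b → LL σ c ε a P → LL σ c (ε + b + 1) (a + b) (s2⁻¹ • (qq b * P)) := by
    intro ε a b P hb h
    refine ⟨hom_smul _ (add_comm b a ▸ b1 _ _ _ _ (b2 b) h.1), fun j => ?_⟩
    have e : ip (qq b * P) (c (a + b) j) =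
        ∑ i, ip P (c a i) * ip (qq b * c a i) (c (a + b) j) := by
      conv_lhs => rw [hP a P h.1]
      simp [mul_sum, map_sum, LinearMap.sum_apply]
    rw [map_smul, LinearMap.smul_apply, smul_eq_mul, e]
    refine step (σ a) (hσ a) _ _ _ (fun i => by rw [hc]) (fun i => by rw [hc]) b ε
      (fun hb' i => ?_) (fun hb' i => ?_) h.2
    · exact ⟨isInt_iff.1 (ho a b i j hb').1, fun h => isInt_iff.1 ((ho a b i j hb').2 h)⟩
    · exact ⟨isInt_iff.1 (he a b i j hb' hb).1,
        fun h h' => isInt_iff.1 ((he a b i j hb' hb).2 h h')⟩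
  have tt : ∀ ε a b P, 0 < b → LL σ c ε (a + b) P → LL σ c (ε + b + 1) a (s2⁻¹ • TT b P) := by
    intro ε a b P hb h
    refine ⟨hom_smul _ (b5 _ _ _ h.1), fun i => ?_⟩
    have e : ip (TT b P) (c a i) =
        ∑ j, ip P (c (a + b) j) * ip (qq b * c a i) (c (a + b) j) := by
      rw [ip_comm, ← hA.2.1]
      conv_lhs => rw [hP _ P h.1]
      simp [map_sum]
    rw [map_smul, LinearMap.smul_apply, smul_eq_mul, e]
    refine step (σ (a + b)) (hσ _) _ _ _ (fun i => by rw [hc]) (fun i => by rw [hc]) b ε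
      (fun hb' j => ?_) (fun hb' j => ?_) h.2
    · exact ⟨isInt_iff.1 (ho a b i j hb').1, fun h => isInt_iff.1 ((ho a b i j hb').2 h.symm)⟩
    · exact ⟨isInt_iff.1 (he a b i j hb' hb).1,
        fun h h' => isInt_iff.1 ((he a b i j hb' hb).2 h' h)⟩
  have tt' : ∀ ε a b P, LL σ c ε (a + b) P → LL σ c (ε + b) a (TT b P) := by
    intro ε a b P h
    rcases Nat.eq_zero_or_pos b with rfl | hb
    · rw [b4]; exact h
    · have := (tt ε a b P hb h).two
      rw [smul_smul, mul_inv_cancel₀ hs0, one_smul] at this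
      exact this.congr (by rw [add_assoc, Nat.even_add]; simp) rfl
  have ph : ∀ ε n (x : ℕ) P, 0 < x → LL σ c ε n P →
      LL σ c (ε + x + 1) (n + x) (s2⁻¹ • phi x P) := by
    intro ε n x P hx h
    rw [b7 x n P fun j hj => b6 n j P h.1 hj, smul_sum]
    refine LL.sum _ _ fun j hj => ?_
    rw [smul_comm]
    refine LL.sign ?_ j
    obtain ⟨a, rfl⟩ := Nat.exists_eq_add_of_le' (Nat.lt_succ_iff.1 (mem_range.1 hj))
    have e : qz ((x : ℤ) + j) = qq (x + j) := by
      rw [qz, if_pos (by positivity), ← Nat.cast_add, Int.toNat_natCast]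
    rw [e]
    refine (mulq _ a (x + j) _ (by omega) (tt' ε a j P h)).congr ?_ (by omega)
    rw [show ε + j + (x + j) + 1 = ε + x + 1 + 2 * j by ring, Nat.even_add]
    simp
  have qs : ∀ S : Finset ℕ, 0 ∉ S →
      LL σ c (∑ x ∈ S, x + #S) (∑ x ∈ S, x) (s2⁻¹ ^ #S • QS S) := by
    intro S
    induction S using Finset.induction_on_max with
    | empty =>
      intro _
      simp only [sum_empty, card_empty, pow_zero, one_smul, b12]
      refine ⟨by simpa [b12] using b11 ∅, fun i => ?_⟩
      rw [kap, if_pos (by simp), one_mul]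
      exact isInt_iff.1 (h0 i)
    | insert x S hx ih =>
      intro h
      have hxS : x ∉ S := fun h' => lt_irrefl _ (hx x h')
      have hx0 : 0 < x := Nat.pos_of_ne_zero fun h' => h (h' ▸ mem_insert_self _ _)
      have := ph _ _ x _ hx0 (ih fun h' => h (mem_insert_of_mem h'))
      rw [map_smul, smul_smul, ← pow_succ', ← b13 S x hx] at this
      rw [sum_insert hxS, card_insert_of_notMem hxS]
      exact this.congr (by rw [show ∑ x ∈ S, x + #S + x + 1 = x + ∑ x ∈ S, x + (#S + 1) by ring])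
        (add_comm _ _)
  intro n i
  obtain ⟨S, hS0, hSn, hv⟩ : ∃ S : Finset ℕ, 0 ∉ S ∧ ∑ x ∈ S, x = n ∧ ip (c n i) (QS S) ≠ 0 := by
    by_contra h
    push Not at h
    exact hne n i (hS n _ (hH n i) h)
  refine ⟨S, hS0, hSn, ?_⟩
  have hL := qs S hS0
  rw [hSn] at hL
  set P := s2⁻¹ ^ #S • QS S with hPdef
  have hQ : QS S = s2 ^ #S • P := by
    rw [hPdef, smul_smul, ← mul_pow, mul_inv_cancel₀ hs0, one_pow, one_smul]
  have hPP : ip P P = 1 := by
    rw [hPdef, map_smul, map_smul, LinearMap.smul_apply, hO S S hS0 hS0, if_pos rfl, smul_eq_mul,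
      smul_eq_mul, ← h2, ← mul_pow, ← mul_pow]
    field_simp
    simp
  have hexp := hP n P hL.1
  have hsq : ∑ j, ip P (c n j) * ip P (c n j) = 1 := by
    rw [← hPP]
    conv_rhs => rw [show ip P P = ip P (∑ j, ip P (c n j) • c n j) by rw [← hexp]]
    simp [map_sum]
  have hvi : ip P (c n i) ≠ 0 := by
    intro h
    apply hv
    rw [hQ, map_smul, ip_comm, h, smul_zero]
  -- integer coordinates
  by_cases hε : Even (n + #S)
  · have hz : ∀ j, ∃ k : ℤ, ip P (c n j) = k := fun j => by
      have := hL.2 j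
      rw [kap, if_pos hε, one_mul] at this
      exact isInt_iff.2 this
    choose u hu using hz
    have hsum : ∑ j, u j * u j = 1 := by
      have : ((∑ j, u j * u j : ℤ) : ℂ) = (1 : ℤ) := by
        push_cast
        simpa only [hu] using hsq
      exact_mod_cast this
    have hui : u i ≠ 0 := fun h => hvi (by rw [hu, h]; simp)
    rw [← add_sum_erase _ _ (mem_univ i)] at hsum
    have hnn : 0 ≤ ∑ j ∈ univ.erase i, u j * u j := sum_nonneg fun j _ => mul_self_nonneg _
    have hpos : 0 < u i * u i := mul_self_pos.2 hui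
    have h1 : u i * u i = 1 := by omega
    have hz : ∀ j ∈ univ.erase i, u j * u j = 0 :=
      (sum_eq_zero_iff_of_nonneg fun j _ => mul_self_nonneg _).1 (by omega)
    have hP1 : P = (u i : ℂ) • c n i := by
      rw [hexp, ← add_sum_erase _ _ (mem_univ i), sum_eq_zero, add_zero, hu]
      intro j hj
      rw [hu, mul_self_eq_zero.1 (hz j hj)]
      simp
    have h1' : (u i : ℂ) * u i = 1 := by exact_mod_cast h1
    refine ⟨#S, u i, ?_, ?_⟩
    · rcases mul_self_eq_one_iff.1 h1 with h | h <;> simp [h]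
    · rw [hQ, hP1, smul_smul, smul_smul, mul_right_comm, h1', one_mul]
  · have hz : ∀ j, ∃ k : ℤ, s2 * ip P (c n j) = k ∧ (σ n j = j → Even k) := fun j => by
      have := hL.2 j
      rw [kap, if_neg hε] at this
      split_ifs at this with hj
      · obtain ⟨k, hk⟩ := isInt_iff.2 this
        refine ⟨2 * k, ?_, fun _ => even_two_mul k⟩
        push_cast
        rw [← hk, ← h2]
        field_simp
      · obtain ⟨k, hk⟩ := isInt_iff.2 this
        exact ⟨k, hk, fun h => absurd h hj⟩
    choose u hu hu2 using hz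
    have hsum : ∑ j, u j * u j = 2 := by
      have : ((∑ j, u j * u j : ℤ) : ℂ) = (2 : ℤ) := by
        push_cast
        simp only [← hu]
        rw [← h2, ← mul_one (s2 * s2), ← hsq, mul_sum]
        exact sum_congr rfl fun j _ => by ring
      exact_mod_cast this
    have hui : u i ≠ 0 := fun h => hvi (by
      have := hu i
      rw [h, Int.cast_zero] at this
      exact (mul_eq_zero.1 this).resolve_left hs0)
    have hpos : 0 < u i * u i := mul_self_pos.2 hui
    have hfix : σ n i ≠ i := by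
      intro h
      obtain ⟨k, hk⟩ := hu2 i h
      rw [← add_sum_erase _ _ (mem_univ i)] at hsum
      have hnn : 0 ≤ ∑ j ∈ univ.erase i, u j * u j := sum_nonneg fun j _ => mul_self_nonneg _
      have hk0 : k ≠ 0 := fun h => hui (by rw [hk, h]; simp)
      have : 0 < k * k := mul_self_pos.2 hk0
      rw [hk] at hsum
      nlinarith
    have hus : u (σ n i) = u i := by
      have := hu (σ n i)
      rw [hc, hu] at this
      exact_mod_cast this.symm
    have hmem : σ n i ∈ univ.erase i := mem_erase.2 ⟨hfix, mem_univ _⟩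
    rw [← add_sum_erase _ _ (mem_univ i), ← add_sum_erase _ _ hmem, hus] at hsum
    have hnn : 0 ≤ ∑ j ∈ (univ.erase i).erase (σ n i), u j * u j :=
      sum_nonneg fun j _ => mul_self_nonneg _
    have h1 : u i * u i = 1 := by omega
    have hz : ∀ j ∈ (univ.erase i).erase (σ n i), u j * u j = 0 :=
      (sum_eq_zero_iff_of_nonneg fun j _ => mul_self_nonneg _).1 (by omega)
    have hP1 : P = ((u i : ℂ) * s2) • c n i := by
      rw [hexp, ← add_sum_erase _ _ (mem_univ i), ← add_sum_erase _ _ hmem, sum_eq_zero, add_zero,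
        hc, ← add_smul, ← hu, ← two_mul, ← h2]
      · congr 1
        ring
      intro j hj
      have := hu j
      rw [mul_self_eq_zero.1 (hz j hj), Int.cast_zero] at this
      rw [(mul_eq_zero.1 this).resolve_left hs0, zero_smul]
    have h1' : (u i : ℂ) * u i = 1 := by exact_mod_cast h1
    refine ⟨#S + 1, u i, ?_, ?_⟩
    · rcases mul_self_eq_one_iff.1 h1 with h | h <;> simp [h]
    · rw [hQ, hP1, smul_smul, smul_smul]
      congr 1
      rw [pow_succ]
      linear_combination (-(s2 ^ #S * s2)) * h1'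

end Cfsg.Agent.H79.RB.Lat
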