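import Cfsg.Agent.H79.RbCl

set_option autoImplicit false

open Cfsg Equiv Finset CliffordAlgebra

namespace Cfsg.Agent.H79.RB.Tau

variable {n : ℕ}

theorem trc_anti (hB : ClBaseStmt) (i : Fin n) {y : Cl n} (h : cc i * y = -(y * cc i)) :
    trc n y = 0 := by
  have h1 : trc n y = trc n (cc i * y * cc i) := by
    rw [(hB n).2.1 (cc i * y), ← mul_assoc, cc_sq, one_mul]
  rw [h, neg_mul, mul_assoc, cc_sq, mul_one, map_neg] at h1
  linear_combination h1 / 2

theorem trc_two (hB : ClBaseStmt) {a b : Fin n} (hab : a ≠ b) {x : Cl n}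
    (ha : x * cc a = cc a * x) : trc n (cc a * cc b * x) = 0 := by
  refine trc_anti hB a ?_
  rw [mul_assoc (cc a * cc b), ha, ← mul_assoc (cc a * cc b), mul_assoc (cc a) (cc b) (cc a),
    cc_anti hab.symm]
  simp [mul_assoc]

theorem s2_ne : s2 ≠ 0 := fun h => by
  have := s2_mul_self
  rw [h] at this
  norm_num at this

theorem key (hB : ClBaseStmt) {a b c : Fin n} (hab : a ≠ b) (hac : a ≠ c) (hbc : b ≠ c) {x : Cl n}
    (ha : x * cc a = cc a * x) (hb : x * cc b = cc b * x) :
    2 * trc n (s2⁻¹ • (cc a - cc b) * (s2⁻¹ • (cc b - cc c) * x)) = -trc n x := by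
  have h : s2⁻¹ • (cc a - cc b) * (s2⁻¹ • (cc b - cc c) * x) =
      (s2⁻¹ * s2⁻¹) • (cc a * cc b * x - cc a * cc c * x - x + cc b * cc c * x) := by
    rw [smul_mul_assoc, smul_mul_assoc, mul_smul_comm, smul_smul, ← mul_assoc, sub_mul, mul_sub,
      mul_sub, cc_sq]
    congr 1
    noncomm_ring
  rw [h, map_smul, map_add, map_sub, map_sub, trc_two hB hab ha, trc_two hB hac ha,
    trc_two hB hbc hb, ← mul_inv, s2_mul_self, smul_eq_mul]
  ring

theorem lift_sq (hP : PinStmt) {g h : Pin n} (e : pr n g = pr n h) :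
    trc n (cl n g) ^ 2 = trc n (cl n h) ^ 2 := by
  have h1 : pr n (g * h⁻¹) = 1 := by rw [map_mul, map_inv, e, mul_inv_cancel]
  rcases ((hP n).2.2.1 _).1 h1 with h2 | h2
  · rw [mul_inv_eq_one.1 h2]
  · rw [mul_inv_eq_iff_eq_mul.1 h2, map_mul, cl_zz, neg_one_mul, map_neg, neg_sq]

theorem comm_of_fix {g : Pin n} (hs : Perm.sign (pr n g) = 1) {a : Fin n} (ha : pr n g a = a) :
    cl n g * cc a = cc a * cl n g := by
  rw [cl_cc, ha, sg, hs]
  simp

theorem list_step (hB : ClBaseStmt) (hT : TrpStmt) (hP : PinStmt) (h : Pin n)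
    (hs : Perm.sign (pr n h) = 1) (m : ℕ) : ∀ l : List (Fin n), l.Nodup → l.length = 2 * m + 1 →
      (∀ a ∈ l, pr n h a = a) → Perm.sign l.formPerm = 1 ∧
        ∀ g : Pin n, pr n g = l.formPerm * pr n h →
          trc n (cl n g) ^ 2 * 2 ^ (2 * m) = trc n (cl n h) ^ 2 := by
  induction m with
  | zero =>
    intro l _ hl _
    obtain ⟨a, rfl⟩ := List.length_eq_one_iff.1 hl
    refine ⟨by simp, fun g hg => ?_⟩
    rw [List.formPerm_singleton, one_mul] at hg
    rw [lift_sq hP hg]
    simp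
  | succ m ih =>
    intro l hl hlen hfix
    match l, hl, hlen, hfix with
    | a :: b :: c :: l, hl, hlen, hfix =>
      have hl1 := List.nodup_cons.1 hl
      have hl2 := List.nodup_cons.1 hl1.2
      have hab : a ≠ b := fun e => hl1.1 (by simp [e])
      have hac : a ≠ c := fun e => hl1.1 (by simp [e])
      have hbc : b ≠ c := fun e => hl2.1 (by simp [e])
      have ha : a ∉ c :: l := fun e => hl1.1 (List.mem_cons_of_mem _ e)
      obtain ⟨i1, i2⟩ := ih (c :: l) hl2.2 (by simp at hlen ⊢; omega)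
        fun x hx => hfix x (List.mem_cons_of_mem _ (List.mem_cons_of_mem _ hx))
      have hf : (a :: b :: c :: l).formPerm = swap a b * (swap b c * (c :: l).formPerm) := by
        rw [List.formPerm_cons_cons, List.formPerm_cons_cons]
      refine ⟨by rw [hf, Perm.sign_mul, Perm.sign_mul, i1, Perm.sign_swap hab, Perm.sign_swap hbc]; simp,
        fun g hg => ?_⟩
      obtain ⟨g', hg'⟩ := (hP n).1 ((c :: l).formPerm * pr n h)
      obtain ⟨t1, c1, p1⟩ := hT n a b hab
      obtain ⟨t2, c2, p2⟩ := hT n b c hbc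
      have hs' : Perm.sign (pr n g') = 1 := by rw [hg', Perm.sign_mul, i1, hs, one_mul]
      have fa : pr n g' a = a := by
        rw [hg', Perm.mul_apply, hfix a (by simp), List.formPerm_apply_of_notMem ha]
      have fb : pr n g' b = b := by
        rw [hg', Perm.mul_apply, hfix b (by simp), List.formPerm_apply_of_notMem hl2.1]
      have e : pr n g = pr n (t1 * (t2 * g')) := by
        rw [hg, hf, map_mul, map_mul, p1, p2, hg', mul_assoc, mul_assoc]
      have hk := key hB hab hac hbc (comm_of_fix hs' fa) (comm_of_fix hs' fb)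
      rw [lift_sq hP e, map_mul (cl n), map_mul (cl n), c1, c2, ← i2 g' hg', show 2 * (m + 1) = 2 * m + 2 by ring,
        pow_add]
      have hk2 := congrArg (· ^ 2) hk
      simp only [neg_sq] at hk2
      rw [← hk2]
      ring
    | [], _, hlen, _ => simp at hlen
    | [_], _, hlen, _ => simp at hlen
    | [_, _], _, hlen, _ => simp at hlen

theorem cyc (hB : ClBaseStmt) (hT : TrpStmt) (hP : PinStmt) (σ : Perm (Fin n)) :
    (∀ r ∈ σ.cycleType, Odd r) → Perm.sign σ = 1 ∧ ∀ g : Pin n, pr n g = σ →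
      trc n (cl n g) ^ 2 * 2 ^ σ.cycleType.sum = 2 ^ Multiset.card σ.cycleType := by
  have one : Perm.sign (1 : Perm (Fin n)) = 1 ∧ ∀ g : Pin n, pr n g = 1 →
      trc n (cl n g) ^ 2 * 2 ^ (1 : Perm (Fin n)).cycleType.sum =
        2 ^ Multiset.card (1 : Perm (Fin n)).cycleType := by
    refine ⟨by simp, fun g hg => ?_⟩
    rw [lift_sq hP (hg.trans (map_one _).symm), map_one, (hB n).1]
    simp
  have step : ∀ σ ρ : Perm (Fin n), σ.Disjoint ρ → σ.IsCycle →
      ((∀ r ∈ ρ.cycleType, Odd r) → Perm.sign ρ = 1 ∧ ∀ g : Pin n, pr n g = ρ →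
        trc n (cl n g) ^ 2 * 2 ^ ρ.cycleType.sum = 2 ^ Multiset.card ρ.cycleType) →
      (∀ r ∈ (σ * ρ).cycleType, Odd r) → Perm.sign (σ * ρ) = 1 ∧ ∀ g : Pin n, pr n g = σ * ρ →
        trc n (cl n g) ^ 2 * 2 ^ (σ * ρ).cycleType.sum = 2 ^ Multiset.card (σ * ρ).cycleType := by
    intro σ ρ hd hc ih ho
    rw [hd.cycleType_mul, hc.cycleType] at ho ⊢
    obtain ⟨i1, i2⟩ := ih fun r hr => ho r (Multiset.mem_add.2 (Or.inr hr))
    obtain ⟨m, hm⟩ := ho #σ.support (by simp)
    obtain ⟨a, ha, -⟩ := id hc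
    have hf : (σ.toList a).formPerm = σ := by rw [Perm.formPerm_toList, hc.cycleOf_eq ha]
    have hlen : (σ.toList a).length = 2 * m + 1 := by
      rw [Perm.length_toList, hc.cycleOf_eq ha, hm]
    obtain ⟨h, hh⟩ := (hP n).1 ρ
    obtain ⟨j1, j2⟩ := list_step hB hT hP h (hh ▸ i1) m (σ.toList a) (Perm.nodup_toList _ _) hlen
      fun x hx => by
        have h1 := Perm.mem_toList_iff.1 hx
        have h2 : x ∈ σ.support := (Perm.SameCycle.mem_support_iff h1.1).1 h1.2
        rw [hh]
        exact (hd x).resolve_left (Perm.mem_support.1 h2)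
    rw [hf] at j1 j2
    refine ⟨by rw [Perm.sign_mul, i1, j1, one_mul], fun g hg => ?_⟩
    have j3 := j2 g (by rw [hg, hh])
    have j4 := i2 h hh
    simp only [Multiset.sum_add, Multiset.card_add, Multiset.sum_singleton, Multiset.card_singleton,
      hm, pow_add]
    rw [← j4, ← j3]
    ring
  induction σ using Perm.cycle_induction_on with
  | base_one => exact fun _ => one
  | base_cycles σ hc =>
    have := step σ 1 (Perm.disjoint_one_right σ) hc fun _ => one
    rwa [mul_one] at this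
  | induction_disjoint σ ρ hd hc _ ih => exact step σ ρ hd hc ih

theorem tau (hB : ClBaseStmt) (hT : TrpStmt) (hP : PinStmt) : TauStmt := by
  intro n g hg
  have h := (cyc hB hT hP (pr n g) fun r hr => hg r (by
    rw [H19.typ_eq]; exact Multiset.mem_add.2 (Or.inl hr))).2 g rfl
  have hle : (pr n g).cycleType.sum ≤ n := by
    rw [Perm.sum_cycleType]
    simpa using card_le_univ (pr n g).support
  rw [H19.typ_eq, Multiset.card_add, Multiset.card_replicate, Fintype.card_fin, pow_add, ← h]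
  conv_lhs => rw [show (2 : ℂ) ^ n = 2 ^ ((pr n g).cycleType.sum + (n - (pr n g).cycleType.sum)) by
    rw [Nat.add_sub_cancel' hle]]
  rw [pow_add]
  ring

end Cfsg.Agent.H79.RB.Tau
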