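import Cfsg.Agent.H79.RbMain
import Cfsg.Agent.H79.RbLat
import Cfsg.Agent.H79.RbTau
import Cfsg.Agent.H79.RbBeta
import Cfsg.Agent.H4.RbStr
import Cfsg.Agent.H29.RbCar
import Cfsg.Agent.H6.RbBasic
import Cfsg.Agent.H20.RbComm
import Cfsg.Agent.H39.RbAdj
import Cfsg.Agent.H69.RbAct
import Cfsg.Agent.H43.RbSpan
import Cfsg.Agent.H40.RbMove
import Cfsg.Agent.H31.RbWt
import Cfsg.Agent.H83.RbSchur
import Cfsg.Agent.H71.RbClass
import Cfsg.Agent.H80.RbMon
import Cfsg.Agent.H72.RbVal
import Cfsg.Agent.H3.RbPars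
import Cfsg.Agent.H13.RbId
import Cfsg.Agent.H6.RbSpinDeg
import Cfsg.Agent.H32.RbClBase
import Cfsg.Agent.H72.RbPin
import Cfsg.Agent.H92.RbEmb

/-! Assembly of the spin character theory: identification with Schur's `Q`-functions. -/

set_option autoImplicit false

namespace Cfsg.Agent.H79.RB

theorem basic : BasicStmt := H6.RbB.basicStmt
theorem comm : CommStmt := H20.RB.commStmt basic
theorem car : CarStmt := H29.RbCar.carStmt basic comm
theorem adj : AdjStmt := H39.RbAdj.adjStmt basic comm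
theorem act : ActStmt := H69.RbA.actStmt basic car
theorem orth : OrthStmt := H69.RbA.orthStmt basic car adj
theorem spanS : SpanStmt := H43.RbSpan.spanStmt basic orth
theorem latS : LatStmt := Lat.lat basic adj orth spanS
theorem mn : MnStmt := H40.RbMove.mnStmt basic comm act H31.RbWt.wtStmt
theorem deg : DegStmt := H83.RbS.degStmt basic adj (H40.RbMove.recStmt basic comm act)
theorem cls : ClassStmt := H71.RbClass.classStmt
theorem monS : MonStmt := H80.RbMon.monStmt
theorem val : ValStmt := H72.RbVal.valStmt cls monS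

theorem ident (h2 : Ix2Stmt) : IdStmt :=
  H13.RbId.idStmt latS cls monS val (H3.RbPars.parsStmt cls monS val) (H4.RbStr.strStmt monS h2)
    (H72.RbVal.prodStmt cls monS)

theorem spinDeg (h2 : Ix2Stmt) : SpinDegStmt :=
  H6.RbSD.spinDegStmt (ident h2) cls monS val mn deg H31.RbWt.padicStmt

theorem spinFam (hR : RepStmt) : Nonempty SpinFam :=
  have hB : ClBaseStmt := H32.RbClBase.clBaseStmt
  have hP : PinStmt := H72.RbPin.pinStmt hB
  exists_spinFam hB hP (H92.RbEmb.embStmt hB) (Tau.tau hB H72.RbPin.trpStmt hP) (Beta.beta hB hR)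

end Cfsg.Agent.H79.RB
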