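import Cfsg.Agent.H79.RbDefs

/-! The Clifford model of the double covers of the symmetric groups (project RB). -/

set_option autoImplicit false

open Cfsg Equiv Finset CliffordAlgebra

namespace Cfsg.Agent.H79.RB

noncomputable def Qn (n : ℕ) : QuadraticForm ℂ (Fin n → ℂ) :=
  QuadraticMap.weightedSumSquares ℂ (1 : Fin n → ℂ)

abbrev Cl (n : ℕ) : Type := CliffordAlgebra (Qn n)

noncomputable def cc {n : ℕ} (i : Fin n) : Cl n := ι (Qn n) (Pi.single i 1)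

theorem Qn_apply {n : ℕ} (v : Fin n → ℂ) : Qn n v = ∑ i, v i * v i := by
  simp [Qn, QuadraticMap.weightedSumSquares_apply]

theorem cc_sq {n : ℕ} (i : Fin n) : cc i * cc i = 1 := by
  rw [cc, ι_sq_scalar, Qn_apply, Finset.sum_eq_single i (fun j _ hj => by simp [hj]) (by simp)]
  simp

theorem cc_anti {n : ℕ} {i j : Fin n} (h : i ≠ j) : cc i * cc j = -(cc j * cc i) := by
  rw [cc, cc]
  refine ι_mul_ι_comm_of_isOrtho ?_
  rw [QuadraticMap.IsOrtho, Qn_apply, Qn_apply, Qn_apply, ← Finset.sum_add_distrib]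
  refine Finset.sum_congr rfl fun k _ => ?_
  by_cases h1 : k = i
  · subst h1; simp [h]
  · by_cases h2 : k = j
    · subst h2; simp [h1]
    · simp [h1, h2]

theorem involute_cc {n : ℕ} (i : Fin n) : involute (cc i) = -cc i := involute_ι _

theorem reverse_cc {n : ℕ} (i : Fin n) : reverse (cc i) = cc i := reverse_ι _

/-- The sign as a complex number. -/
noncomputable def sg {n : ℕ} (σ : Perm (Fin n)) : ℂ := ((Perm.sign σ : ℤ) : ℂ)

theorem sg_mul {n : ℕ} (σ ρ : Perm (Fin n)) : sg (σ * ρ) = sg σ * sg ρ := by simp [sg]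

theorem sg_one {n : ℕ} : sg (1 : Perm (Fin n)) = 1 := by simp [sg]

theorem sg_inv {n : ℕ} (σ : Perm (Fin n)) : sg σ⁻¹ = sg σ := by simp [sg]

theorem sg_mul_self {n : ℕ} (σ : Perm (Fin n)) : sg σ * sg σ = 1 := by
  rw [sg, ← Int.cast_mul, ← Units.val_mul, Int.units_mul_self]
  simp

/-- The double cover of the symmetric group inside the Clifford algebra. -/
def Pin (n : ℕ) : Subgroup ((Cl n)ˣ × Perm (Fin n)) where
  carrier := {g | (∀ i, (g.1 : Cl n) * cc i = sg g.2 • (cc (g.2 i) * g.1)) ∧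
    involute (g.1 : Cl n) = sg g.2 • (g.1 : Cl n) ∧ reverse (g.1 : Cl n) * g.1 = 1}
  one_mem' := by
    refine ⟨fun i => ?_, ?_, ?_⟩ <;> simp [sg_one]
  mul_mem' := by
    rintro g h ⟨g1, g2, g3⟩ ⟨h1, h2, h3⟩
    refine ⟨fun i => ?_, ?_, ?_⟩
    · simp only [Prod.fst_mul, Prod.snd_mul, Units.val_mul, Perm.mul_apply, sg_mul]
      rw [mul_assoc, h1, mul_smul_comm, ← mul_assoc, g1, smul_mul_assoc, smul_smul, mul_comm (sg h.2),
        mul_assoc]
    · simp only [Prod.fst_mul, Prod.snd_mul, Units.val_mul, sg_mul, map_mul]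
      rw [g2, h2, smul_mul_smul_comm]
    · simp only [Prod.fst_mul, Units.val_mul, reverse.map_mul]
      rw [mul_assoc, ← mul_assoc (reverse (g.1 : Cl n)), g3, one_mul, h3]
  inv_mem' := by
    rintro g ⟨g1, g2, g3⟩
    have hr : reverse (g.1 : Cl n) = ↑g.1⁻¹ := by
      rw [← mul_one (reverse (g.1 : Cl n)), ← g.1.mul_inv, ← mul_assoc, g3, one_mul]
    refine ⟨fun i => ?_, ?_, ?_⟩
    · simp only [Prod.fst_inv, Prod.snd_inv, sg_inv]
      have h := g1 (g.2⁻¹ i)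
      rw [show g.2 (g.2⁻¹ i) = i by simp] at h
      have h' : cc i * (g.1 : Cl n) = sg g.2 • ((g.1 : Cl n) * cc (g.2⁻¹ i)) := by
        rw [h, smul_smul, sg_mul_self, one_smul]
      calc (↑g.1⁻¹ : Cl n) * cc i = ↑g.1⁻¹ * (cc i * g.1) * ↑g.1⁻¹ := by
            rw [mul_assoc, mul_assoc, g.1.mul_inv, mul_one]
        _ = _ := by
            rw [h', mul_smul_comm, ← mul_assoc, g.1.inv_mul, one_mul, smul_mul_assoc]
    · simp only [Prod.fst_inv, Prod.snd_inv, sg_inv]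
      rw [← hr, ← reverse_involute, g2, map_smul]
    · simp only [Prod.fst_inv]
      rw [← hr, reverse_reverse, hr, g.1.mul_inv]

/-- The projection on the symmetric group. -/
noncomputable def pr (n : ℕ) : Pin n →* Perm (Fin n) := (MonoidHom.snd _ _).comp (Pin n).subtype

/-- The underlying element of the Clifford algebra. -/
noncomputable def cl (n : ℕ) : Pin n →* Cl n :=
  (Units.coeHom _).comp ((MonoidHom.fst _ _).comp (Pin n).subtype)

theorem cl_cc {n : ℕ} (g : Pin n) (i : Fin n) :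
    cl n g * cc i = sg (pr n g) • (cc (pr n g i) * cl n g) := g.2.1 i

theorem involute_cl {n : ℕ} (g : Pin n) : involute (cl n g) = sg (pr n g) • cl n g := g.2.2.1

theorem reverse_cl {n : ℕ} (g : Pin n) : reverse (cl n g) * cl n g = 1 := g.2.2.2

theorem pin_ext {n : ℕ} {g h : Pin n} (h1 : cl n g = cl n h) (h2 : pr n g = pr n h) : g = h :=
  Subtype.ext (Prod.ext (Units.ext h1) h2)

/-- The central involution `-1`. -/
noncomputable def zz (n : ℕ) : Pin n := ⟨(-1, 1), by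
  refine ⟨fun i => ?_, ?_, ?_⟩ <;> simp [sg_one]⟩

theorem cl_zz (n : ℕ) : cl n (zz n) = -1 := rfl

theorem pr_zz (n : ℕ) : pr n (zz n) = 1 := rfl

/-- The normalized trace of the regular representation. -/
noncomputable def trc (n : ℕ) : Cl n →ₗ[ℂ] ℂ :=
  (Module.finrank ℂ (Cl n) : ℂ)⁻¹ • (LinearMap.trace ℂ (Cl n)).comp (LinearMap.mul ℂ (Cl n))

def ClBaseStmt : Prop :=
  ∀ n : ℕ, trc n 1 = 1 ∧ (∀ x y, trc n (x * y) = trc n (y * x)) ∧
    (∀ t : Cl n →ₗ[ℂ] ℂ, (∀ x y, t (x * y) = t (y * x)) →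
      ∀ x, involute x = x → t x = t 1 * trc n x) ∧
    ∀ x : Cl n, involute x = x → (∀ i, x * cc i = cc i * x) → ∃ a : ℂ, x = algebraMap ℂ _ a

/-- Lifts of the transpositions. -/
def TrpStmt : Prop :=
  ∀ (n : ℕ) (i j : Fin n), i ≠ j →
    ∃ t : Pin n, cl n t = s2⁻¹ • (cc i - cc j) ∧ pr n t = swap i j

def PinStmt : Prop :=
  ∀ n : ℕ, Function.Surjective (pr n) ∧ zz n ≠ 1 ∧ (∀ g, pr n g = 1 ↔ g = 1 ∨ g = zz n) ∧
    Finite (Pin n) ∧
    ∀ x y : Pin n, (pr n x).Disjoint (pr n y) → x * y =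
      (if Perm.sign (pr n x) = -1 ∧ Perm.sign (pr n y) = -1 then zz n else 1) * (y * x)

def EmbStmt : Prop :=
  ∀ a b : ℕ, ∃ (i1 : Pin a →* Pin (a + b)) (i2 : Pin b →* Pin (a + b)),
    i1 (zz a) = zz (a + b) ∧ i2 (zz b) = zz (a + b) ∧
    (∀ x, pr (a + b) (i1 x) = (pr a x).viaEmbedding (Fin.castAddEmb b)) ∧
    (∀ y, pr (a + b) (i2 y) = (pr b y).viaEmbedding (Fin.natAddEmb a)) ∧
    ∀ x y, Perm.sign (pr a x) = 1 → Perm.sign (pr b y) = 1 →
      trc (a + b) (cl (a + b) (i1 x * i2 y)) = trc a (cl a x) * trc b (cl b y)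

def TauStmt : Prop :=
  ∀ (n : ℕ) (g : Pin n), OddT (pr n g) →
    trc n (cl n g) ^ 2 * 2 ^ n = 2 ^ Multiset.card (H19.typ (pr n g))

/-- Jordan–Wigner matrices. -/
def JwStmt : Prop :=
  ∀ k : ℕ, ∃ (J : Type) (_ : Fintype J) (_ : DecidableEq J), Fintype.card J = 2 ^ k ∧
    ∃ γ : Fin (2 * k + 1) → Matrix J J ℂ,
      (∀ i, γ i * γ i = 1) ∧ ∀ i j, i ≠ j → γ i * γ j = -(γ j * γ i)

/-- Representations of the Clifford algebra with a spare generator. -/
def RepStmt : Prop :=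
  ∀ (n k : ℕ), n ≤ 2 * k + 1 → ∃ (J : Type) (_ : Fintype J) (_ : DecidableEq J),
    Fintype.card J = 2 ^ k ∧ ∃ ρ : Cl n →ₐ[ℂ] Matrix J J ℂ,
      n ≤ 2 * k → ∃ ω : Matrix J J ℂ, ω * ω = 1 ∧ ∀ x, ω * ρ x = ρ (involute x) * ω

def BetaStmt : Prop :=
  ∀ n : ℕ, 1 ≤ n → ∃ β : Pin n → ℂ, IsCharacter (Pin n) β ∧ (∀ g, β (zz n * g) = -β g) ∧
    (∀ g, Perm.sign (pr n g) = 1 → β g = 2 ^ ((n - 1) / 2) * trc n (cl n g)) ∧
    (Odd n → ∀ g, Perm.sign (pr n g) = -1 → β g = 0)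

theorem exists_spinFam (hB : ClBaseStmt) (hP : PinStmt) (hE : EmbStmt) (hT : TauStmt)
    (hβ : BetaStmt) : Nonempty SpinFam := by
  choose i1 i2 h1 h2 h3 h4 h5 using hE
  refine ⟨@SpinFam.mk (fun n => Pin n) (fun _ => inferInstance)
    (fun n => @Fintype.ofFinite _ (hP n).2.2.2.1) pr zz (fun n => (hP n).1) (fun n => (hP n).2.1)
    (fun n => (hP n).2.2.1) (fun n => (hP n).2.2.2.2) i1 i2 h1 h2 h3 h4
    (fun n g => trc n (cl n g)) ?_ ?_ h5 hT hβ⟩
  · intro n g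
    simp [cl_zz]
  · intro n g h
    simp only [map_mul]
    rw [(hB n).2.1, ← mul_assoc, ← map_mul, inv_mul_cancel, map_one, one_mul]

end Cfsg.Agent.H79.RB
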