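import Cfsg.Agent.H19.SymAlt

/-! Definitions and piece statements of project RB (S4578, covers of alternating groups).
Notes: `stubs/notes/h79_s4578.md`. -/

set_option autoImplicit false

open Cfsg Equiv Finset

namespace Cfsg.Agent.H79.RB

universe u v

/-! ### The conclusion and general block criteria -/

/-- The conclusion of S4578 for one character. -/
def RC {G : Type u} [Group G] (p : ℕ) (B : Set (IrrCharacter G)) (D : Subgroup G)
    (χ : IrrCharacter G) : Prop :=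
  blockHeight p B (χ : G → ℂ) ≤ ((Subgroup.center D).index).factorization p ∧
    (blockHeight p B (χ : G → ℂ) = ((Subgroup.center D).index).factorization p ↔
      IsMulCommutative D)

/-- The conclusion for all `p`-blocks of `G`. -/
def RCAll (G : Type u) [Group G] (p : ℕ) : Prop :=
  ∀ M : Ideal AlgInt, IsPModular p M → ∀ B : Set (IrrCharacter G), IsPBlock M B →
    ∀ D : Subgroup G, IsDefectGroup p M B D → ∀ χ ∈ B, RC p B D χ

/-- The exponent of `p` in the degree. -/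
noncomputable def nu {G : Type u} [Group G] (p : ℕ) (χ : IrrCharacter G) : ℕ :=
  (charDegree (χ : G → ℂ)).factorization p

def CritStmt : Prop :=
  ∀ (G : Type) [Group G] [Finite G] (p : ℕ) [Fact p.Prime] (M : Ideal AlgInt), IsPModular p M →
    ∀ B : Set (IrrCharacter G), IsPBlock M B → ∀ D : Subgroup G, IsDefectGroup p M B D →
    ∀ χ ∈ B,
      (Nat.card D ≤ p ^ 2 → RC p B D χ) ∧
      (IsCyclic D → RC p B D χ) ∧
      (¬ IsMulCommutative D → Nat.card (Subgroup.center D) ≤ p → RC p B D χ) ∧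
      (∀ k : ℕ, nu p χ + k ≤ (Nat.card G).factorization p →
        (∀ A : Subgroup G, A ≤ D → IsMulCommutative A → Nat.card A ≤ p ^ k) → RC p B D χ) ∧
      (∀ k : ℕ, nu p χ + k ≤ (Nat.card G).factorization p → ¬ IsMulCommutative D →
        Nat.card (Subgroup.center D) < p ^ k → RC p B D χ) ∧
      (D ≠ ⊥ → nu p χ + 1 ≤ (Nat.card G).factorization p)

def TransStmt : Prop :=
  ∀ (G : Type) (H : Type v) [Group G] [Group H] [Finite G] (p : ℕ) [Fact p.Prime],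
    Nonempty (G ≃* H) → RCAll G p → RCAll H p

/-- Abelian `p`-groups of permutations moving at most `p k` points. -/
def AbStmt : Prop :=
  ∀ (n p k : ℕ), p.Prime → ∀ A : Subgroup (Perm (Fin n)), IsPGroup p A → IsMulCommutative A →
    ∀ U : Finset (Fin n), (∀ σ ∈ A, σ.support ⊆ U) → #U ≤ p * k → Nat.card A ≤ p ^ k

/-- Local structure of a defect group in a central `p'`-extension of `A_n` or `S_n`. -/
def LocStmt : Prop :=
  ∀ (G : Type) [Group G] [Finite G] (n : ℕ) (π : G →* Perm (Fin n)) (p : ℕ) [Fact p.Prime],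
    p ≠ 2 → π.ker ≤ Subgroup.center G → ¬ p ∣ Nat.card π.ker →
    alternatingGroup (Fin n) ≤ π.range →
    ∀ M : Ideal AlgInt, IsPModular p M → ∀ B : Set (IrrCharacter G), IsPBlock M B →
    ∀ D : Subgroup G, IsDefectGroup p M B D →
    ∃ (k : ℕ) (u g : G), u ∈ D ∧ u ^ p = 1 ∧ (π u).cycleType = Multiset.replicate k p ∧
      (∀ d ∈ D, (π d).support ⊆ (π u).support) ∧ (π u).Disjoint (π g) ∧
      ∀ χ ∈ B, (χ : G → ℂ) (u * g) ≠ 0

def Ix1Stmt : Prop :=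
  ∀ (G : Type) [Group G] [Finite G] (N : Subgroup G), N.index = 2 →
    ∀ (χ : IrrCharacter N) (x : N) (s : G), s ∉ N → s * x = x * s → (χ : N → ℂ) x ≠ 0 →
    ∃ θ : IrrCharacter G, (θ : G → ℂ) x ≠ 0 ∧
      (charDegree (θ : G → ℂ) = charDegree (χ : N → ℂ) ∨
        charDegree (θ : G → ℂ) = 2 * charDegree (χ : N → ℂ))

def Ix2Stmt : Prop :=
  ∀ (G : Type) [Group G] [Finite G] (N : Subgroup G), N.index = 2 →
    ∀ ψ : G → ℂ, IsCharacter G ψ → (∀ g, g ∉ N → ψ g = 0) → ∀ s : G, s ∉ N →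
    ∃ ψ₁ : N → ℂ, IsCharacter N ψ₁ ∧
      ∀ y y' : N, (y' : G) = s * y * s⁻¹ → ψ y = ψ₁ y + ψ₁ y'

def SymDegStmt : Prop :=
  ∀ (n p k : ℕ), p.Prime → ∀ (θ : IrrCharacter (Perm (Fin n))) (σ : Perm (Fin n)),
    (θ : Perm (Fin n) → ℂ) σ ≠ 0 → k ≤ (H19.typ σ).count p →
    nu p θ + k ≤ n.factorial.factorization p

/-- Two cycles of the same odd length can be swapped by an odd permutation. -/
def SwapStmt : Prop :=
  ∀ (n p k : ℕ), Odd p → 2 ≤ k → ∀ u : Perm (Fin n), u.cycleType = Multiset.replicate k p →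
    (∃ s : Perm (Fin n), Perm.sign s = -1 ∧ s * u = u * s ∧ s.support ⊆ u.support) ∧
      ∀ g : Perm (Fin n), u.Disjoint g → k ≤ (H19.typ (u * g)).count p

/-! ### The prime 2 and the small degrees -/

def AltBlkStmt : Prop :=
  ∀ (n : ℕ), 2 ≤ n → ∀ M : Ideal AlgInt, IsPModular 2 M →
    ∀ b : Set (IrrCharacter (alternatingGroup (Fin n))), IsPBlock M b →
    ∀ D : Subgroup (alternatingGroup (Fin n)), IsDefectGroup 2 M b D →
    ∃ (w : ℕ) (j : Fin w × Bool ↪ Fin n) (Q : Sylow 2 (Perm (Fin w × Bool))),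
      D.map (alternatingGroup (Fin n)).subtype =
        ((Q : Subgroup (Perm (Fin w × Bool))) ⊓ alternatingGroup (Fin w × Bool)).map
          (Perm.viaEmbeddingHom j) ∧
      ∀ χ ∈ b, nu 2 χ + w ≤ n.factorial.factorization 2

def SylpStmt : Prop :=
  ∀ (v : ℕ) (Q : Sylow 2 (Perm (Fin (v + 2) × Bool))),
    ∃ e : Perm (Fin (v + 2) × Bool),
      (∀ i, swap (e (i, false)) (e (i, true)) ∈ (Q : Subgroup (Perm (Fin (v + 2) × Bool)))) ∧
      swap (e (0, false)) (e (1, false)) * swap (e (0, true)) (e (1, true)) ∈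
        (Q : Subgroup (Perm (Fin (v + 2) × Bool)))

def Cen2Stmt : Prop :=
  ∀ (w : ℕ) (Q : Sylow 2 (Perm (Fin w × Bool))) (R : Subgroup (Perm (Fin w × Bool))),
    R = (Q : Subgroup (Perm (Fin w × Bool))) ⊓ alternatingGroup (Fin w × Bool) →
    (w ≤ 1 → R = ⊥) ∧ (w = 2 → Nat.card R = 4) ∧
      (3 ≤ w → ¬ IsMulCommutative R ∧ Nat.card (Subgroup.center R) < 2 ^ (w - 1))

def Sm16Stmt : Prop :=
  ∀ (P : Type) [Group P], Nat.card P = 16 → 4 ≤ Nat.card (commutator P) →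
    Nat.card (Subgroup.center P) ≤ 2 ∧
      ∀ D : Subgroup P, Nat.card D = 8 → IsMulCommutative D → IsCyclic D

def SmallStmt : Prop :=
  ∀ (H : Type) [Group H] [Finite H], IsQuasisimple H → ∀ n : ℕ, n = 5 ∨ n = 6 ∨ n = 7 →
    Nonempty (H ⧸ Subgroup.center H ≃* alternatingGroup (Fin n)) →
    ∀ (p : ℕ), p.Prime → ∀ D : Subgroup H, IsPGroup p D →
      Nat.card D ≤ p ^ 2 ∨ IsCyclic D ∨
        (¬ IsMulCommutative D ∧ Nat.card (Subgroup.center D) ≤ p)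

/-! ### The Fock space: the variable `X i` stands for the power sum `p_(2i+1)` -/

abbrev Fk : Type := MvPolynomial ℕ ℂ

/-- The weight of a monomial. -/
def wt (m : ℕ →₀ ℕ) : ℕ := m.sum fun i k => (2 * i + 1) * k

/-- The norm `z_μ / 2^l(μ)` of a monomial. -/
noncomputable def nrm (m : ℕ →₀ ℕ) : ℂ :=
  m.prod fun i k => (((2 * i + 1 : ℕ) : ℂ) / 2) ^ k * (k.factorial : ℂ)

/-- The bilinear form in which the monomials are orthogonal of norm `nrm`. -/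
noncomputable def ip : Fk →ₗ[ℂ] Fk →ₗ[ℂ] ℂ :=
  (MvPolynomial.basisMonomials ℕ ℂ).constr ℂ fun m => nrm m • MvPolynomial.lcoeff ℂ m

/-- Homogeneous of weight `n`. -/
def Hom (n : ℕ) (P : Fk) : Prop := ∀ m, MvPolynomial.coeff m P ≠ 0 → wt m = n

/-- The monomials of weight `n`. -/
noncomputable def Mon (n : ℕ) : Finset (ℕ →₀ ℕ) :=
  (Iic (∑ i ∈ range n, Finsupp.single i n)).filter fun m => wt m = n

noncomputable def qq (n : ℕ) : Fk := ∑ m ∈ Mon n, MvPolynomial.monomial m (nrm m)⁻¹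

noncomputable def qz (a : ℤ) : Fk := if 0 ≤ a then qq a.toNat else 0

/-- The substitution `X i ↦ X i + t ^ (2 i + 1)`. -/
noncomputable def shift : Fk →ₐ[ℂ] Polynomial Fk :=
  MvPolynomial.aeval fun i => Polynomial.C (MvPolynomial.X i) + Polynomial.X ^ (2 * i + 1)

noncomputable def TT (j : ℕ) : Fk →ₗ[ℂ] Fk :=
  ((Polynomial.lcoeff Fk j).restrictScalars ℂ).comp shift.toLinearMap

/-- The adjoint `(r / 2) ∂_r` of the multiplication by `p_r`, `r = 2 i + 1`. -/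
noncomputable def AA (i : ℕ) : Fk →ₗ[ℂ] Fk :=
  (((2 * i + 1 : ℕ) : ℂ) / 2) • (MvPolynomial.pderiv i).toLinearMap

/-- The neutral fermion `φ_a = ∑_j (-1)^j q_(a+j) T_j`. -/
noncomputable def phi (a : ℤ) : Fk →ₗ[ℂ] Fk :=
  (Polynomial.lsum fun j : ℕ => ((-1 : ℂ) ^ j) • LinearMap.mulLeft ℂ (qz (a + j))).comp
    shift.toLinearMap

noncomputable def QL (L : List ℤ) : Fk := L.foldr (fun a P => phi a P) 1

/-- Schur's `Q`-function of the strict partition with set of parts `S`. -/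
noncomputable def QS (S : Finset ℕ) : Fk := QL ((S.sort (· ≥ ·)).map fun x : ℕ => (x : ℤ))

noncomputable def s2 : ℂ := ((Real.sqrt 2 : ℝ) : ℂ)

def IsInt (x : ℂ) : Prop := ∃ k : ℤ, x = k

def BasicStmt : Prop :=
  (∀ a b P R, Hom a P → Hom b R → Hom (a + b) (P * R)) ∧ (∀ n, Hom n (qq n)) ∧ qq 0 = 1 ∧
  (∀ P, TT 0 P = P) ∧ (∀ a j P, Hom (a + j) P → Hom a (TT j P)) ∧
  (∀ n j P, Hom n P → n < j → TT j P = 0) ∧
  (∀ (a : ℤ) (N : ℕ) P, (∀ j, N < j → TT j P = 0) →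
    phi a P = ∑ j ∈ range (N + 1), ((-1 : ℂ) ^ j) • (qz (a + j) * TT j P)) ∧
  (∀ (a : ℤ) (n n' : ℕ) P, Hom n P → (n' : ℤ) = n + a → Hom n' (phi a P)) ∧
  (∀ (a : ℤ) (n : ℕ) P, Hom n P → (n : ℤ) + a < 0 → phi a P = 0) ∧
  (∀ a : ℤ, phi a 1 = qz a) ∧
  (∀ S : Finset ℕ, Hom (∑ x ∈ S, x) (QS S)) ∧ QS ∅ = 1 ∧
  (∀ (S : Finset ℕ) (x : ℕ), (∀ y ∈ S, y < x) → QS (insert x S) = phi x (QS S))

def CommStmt : Prop :=
  (∀ i j P, AA i (TT j P) = TT j (AA i P)) ∧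
  (∀ (i : ℕ) (a : ℤ), AA i (qz a) = qz (a - (2 * i + 1 : ℕ))) ∧
  (∀ (i : ℕ) (a : ℤ) P, AA i (phi a P) = phi a (AA i P) + phi (a - (2 * i + 1 : ℕ)) P) ∧
  (∀ (i : ℕ) (a : ℤ) P,
    MvPolynomial.X i * phi a P = phi a (MvPolynomial.X i * P) + phi (a + (2 * i + 1 : ℕ)) P)

def CarStmt : Prop :=
  ∀ (a b : ℤ) P, phi a (phi b P) + phi b (phi a P) =
    if a + b = 0 then (2 * (-1 : ℂ) ^ a.natAbs) • P else 0

def AdjStmt : Prop :=
  (∀ i P R, ip (MvPolynomial.X i * P) R = ip P (AA i R)) ∧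
  (∀ j P R, ip (qq j * P) R = ip P (TT j R)) ∧
  (∀ (a : ℤ) P R, ip (phi a P) R = (-1 : ℂ) ^ a.natAbs * ip P (phi (-a) R))

def ActStmt : Prop :=
  ∀ S : Finset ℕ, 0 ∉ S →
    phi 0 (QS S) = ((-1 : ℂ) ^ #S) • QS S ∧
    ∀ x : ℕ, 0 < x →
      (x ∈ S → phi x (QS S) = 0) ∧
      (x ∉ S → ∃ ε : ℂ, (ε = 1 ∨ ε = -1) ∧ phi x (QS S) = ε • QS (insert x S)) ∧
      (x ∉ S → phi (-(x : ℤ)) (QS S) = 0) ∧
      (x ∈ S → ∃ ε : ℂ, (ε = 1 ∨ ε = -1) ∧ phi (-(x : ℤ)) (QS S) = (2 * ε) • QS (S.erase x))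

def OrthStmt : Prop :=
  ∀ S T : Finset ℕ, 0 ∉ S → 0 ∉ T → ip (QS S) (QS T) = if S = T then 2 ^ #S else 0

def SpanStmt : Prop :=
  ∀ (n : ℕ) (P : Fk), Hom n P →
    (∀ S : Finset ℕ, 0 ∉ S → ∑ x ∈ S, x = n → ip P (QS S) = 0) → P = 0

/-- Removing an `r`-bar. -/
def Move (r : ℕ) (S S' : Finset ℕ) : Prop :=
  ∃ x ∈ S, (r < x ∧ x - r ∉ S ∧ S' = insert (x - r) (S.erase x)) ∨ (x = r ∧ S' = S.erase x) ∨
    (x < r ∧ r - x ∈ S.erase x ∧ S' = (S.erase x).erase (r - x))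

/-- The number of bars of length divisible by `r`. -/
def bw (r : ℕ) (S : Finset ℕ) : ℤ :=
  (∑ x ∈ S, (x / r : ℕ) : ℕ) + (#((S ×ˢ S).filter fun e => e.2 < e.1 ∧ r ∣ e.1 + e.2) : ℤ) -
    (#((S ×ˢ S).filter fun e => e.2 < e.1 ∧ r ∣ e.1 - e.2) : ℤ)

def MoveStmt : Prop :=
  ∀ (i : ℕ) (S : Finset ℕ), 0 ∉ S →
    AA i (QS S) ∈ Submodule.span ℂ {P | ∃ S', Move (2 * i + 1) S S' ∧ P = QS S'}

def WtStmt : Prop :=
  ∀ (r : ℕ) (S : Finset ℕ), 0 ∉ S → 0 ≤ bw r S ∧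
    (Odd r → ∀ S', Move r S S' → 0 ∉ S' ∧ bw r S' + 1 = bw r S)

def MnStmt : Prop :=
  ∀ (i k : ℕ) (S : Finset ℕ) (m : ℕ →₀ ℕ), 0 ∉ S → MvPolynomial.coeff m (QS S) ≠ 0 →
    k ≤ m i → (k : ℤ) ≤ bw (2 * i + 1) S

/-- Removing a box. -/
def dn (S : Finset ℕ) (x : ℕ) : Finset ℕ := (insert (x - 1) (S.erase x)).erase 0

def RecStmt : Prop :=
  ∀ S : Finset ℕ, 0 ∉ S → AA 0 (QS S) = ∑ x ∈ S.filter (fun x => x - 1 ∉ S), QS (dn S x)

/-- Schur's product `∏ 1 / x! ∏ (x - y) / (x + y)`. -/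
noncomputable def hS (S : Finset ℕ) : ℚ :=
  (∏ x ∈ S, (x.factorial : ℚ)⁻¹) *
    ∏ e ∈ (S ×ˢ S).filter (fun e => e.2 < e.1), ((e.1 : ℚ) - e.2) / ((e.1 : ℚ) + e.2)

def SchurStmt : Prop :=
  ∀ S : Finset ℕ, 0 ∉ S →
    ((∑ x ∈ S, x : ℕ) : ℚ) * hS S = ∑ x ∈ S.filter (fun x => x - 1 ∉ S), hS (dn S x)

def DegStmt : Prop :=
  ∀ (S : Finset ℕ) (n : ℕ), 0 ∉ S → ∑ x ∈ S, x = n →
    ∃ g : ℕ, ip (MvPolynomial.X 0 ^ n) (QS S) = g ∧ (g : ℚ) = n.factorial * hS S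

def PadicStmt : Prop :=
  ∀ (p : ℕ) (S : Finset ℕ) (n g : ℕ), p.Prime → 0 ∉ S → (g : ℚ) = n.factorial * hS S →
    (g.factorization p : ℤ) + bw p S ≤ n.factorial.factorization p

def LatStmt : Prop :=
  ∀ (I : ℕ → Type) [∀ n, Fintype (I n)] (σ : ∀ n, I n → I n) (c : ∀ n, I n → Fk),
    (∀ n i, σ n (σ n i) = i) → (∀ n i, c n (σ n i) = c n i) → (∀ n i, Hom n (c n i)) →
    (∀ n i, c n i ≠ 0) → (∀ n P, Hom n P → P = ∑ i, ip P (c n i) • c n i) →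
    (∀ i, IsInt (ip 1 (c 0 i))) →
    (∀ a b (i : I a) (j : I (a + b)), Odd b →
      IsInt (s2 * ip (qq b * c a i) (c (a + b) j)) ∧
        (σ a i = i ∨ σ (a + b) j = j → IsInt (ip (qq b * c a i) (c (a + b) j) / s2))) →
    (∀ a b (i : I a) (j : I (a + b)), Even b → 0 < b →
      IsInt (ip (qq b * c a i) (c (a + b) j)) ∧
        (σ a i = i → σ (a + b) j = j → IsInt (ip (qq b * c a i) (c (a + b) j) / 2))) →
    ∀ n i, ∃ S : Finset ℕ, 0 ∉ S ∧ ∑ x ∈ S, x = n ∧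
      ∃ (e : ℕ) (ε : ℂ), (ε = 1 ∨ ε = -1) ∧ s2 ^ e • c n i = ε • QS S

theorem ip_monomial (m : ℕ →₀ ℕ) (R : Fk) :
    ip (MvPolynomial.monomial m 1) R = nrm m * MvPolynomial.coeff m R := by
  have := (MvPolynomial.basisMonomials ℕ ℂ).constr_basis ℂ
    (fun m => nrm m • MvPolynomial.lcoeff ℂ m) m
  rw [MvPolynomial.coe_basisMonomials] at this
  rw [ip, this]
  simp

theorem ip_monomial' (m : ℕ →₀ ℕ) (a : ℂ) (R : Fk) :
    ip (MvPolynomial.monomial m a) R = a * (nrm m * MvPolynomial.coeff m R) := by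
  have : MvPolynomial.monomial m a = a • (MvPolynomial.monomial m 1 : Fk) := by
    simp [MvPolynomial.smul_monomial]
  rw [this, map_smul, LinearMap.smul_apply, ip_monomial, smul_eq_mul]

theorem ip_comm (P R : Fk) : ip P R = ip R P := by
  induction P using MvPolynomial.induction_on' with
  | monomial m a =>
    induction R using MvPolynomial.induction_on' with
    | monomial m' b =>
      rw [ip_monomial', ip_monomial', MvPolynomial.coeff_monomial, MvPolynomial.coeff_monomial]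
      by_cases h : m = m'
      · subst h; simp; ring
      · simp [h, Ne.symm h]
    | add p q hp hq => simp [map_add, hp, hq]
  | add p q hp hq => simp [map_add, hp, hq]

theorem nrm_ne_zero (m : ℕ →₀ ℕ) : nrm m ≠ 0 := by
  refine Finset.prod_ne_zero_iff.2 fun i _ => mul_ne_zero (pow_ne_zero _ ?_) ?_
  · exact div_ne_zero (Nat.cast_ne_zero.2 (by omega)) two_ne_zero
  · exact Nat.cast_ne_zero.2 (Nat.factorial_ne_zero _)

theorem wt_add (m m' : ℕ →₀ ℕ) : wt (m + m') = wt m + wt m' :=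
  Finsupp.sum_add_index' (by simp) (by intros; ring)

theorem wt_single (i k : ℕ) : wt (Finsupp.single i k) = (2 * i + 1) * k :=
  Finsupp.sum_single_index (by simp)

theorem le_wt (m : ℕ →₀ ℕ) (i : ℕ) : (2 * i + 1) * m i ≤ wt m := by
  by_cases h : i ∈ m.support
  · exact Finset.single_le_sum (f := fun i => (2 * i + 1) * m i) (fun _ _ => Nat.zero_le _) h
  · simp [Finsupp.notMem_support_iff.1 h]

theorem mem_Mon {n : ℕ} {m : ℕ →₀ ℕ} : m ∈ Mon n ↔ wt m = n := by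
  rw [Mon, mem_filter, mem_Iic]
  refine ⟨fun h => h.2, fun h => ⟨fun i => ?_, h⟩⟩
  have h1 := le_wt m i
  rw [Finsupp.finsetSum_apply]
  by_cases hi : i < n
  · rw [Finset.sum_eq_single i (fun j _ hj => by simp [hj]) (fun hj => absurd (mem_range.2 hi) hj)]
    simp only [Finsupp.single_eq_same]
    nlinarith
  · have : m i = 0 := by
      by_contra h0
      have : 1 ≤ m i := Nat.pos_of_ne_zero h0
      nlinarith
    simp [this]

theorem s2_mul_self : s2 * s2 = 2 := by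
  rw [s2, ← Complex.ofReal_mul, Real.mul_self_sqrt (by norm_num)]
  norm_num

/-! ### Double covers of the symmetric groups -/

/-- All cycles (fixed points included) have odd length. -/
def OddT {n : ℕ} (σ : Perm (Fin n)) : Prop := ∀ r ∈ H19.typ σ, Odd r

/-- The monomial of a permutation of odd type. -/
noncomputable def mon {n : ℕ} (σ : Perm (Fin n)) : ℕ →₀ ℕ :=
  Multiset.toFinsupp ((H19.typ σ).map (· / 2))

/-- A family of double covers of the symmetric groups with Young embeddings, the normalized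
Clifford trace `τ` and the basic spin characters. -/
structure SpinFam where
  G : ℕ → Type
  [grp : ∀ n, Group (G n)]
  [fin : ∀ n, Fintype (G n)]
  π : ∀ n, G n →* Perm (Fin n)
  z : ∀ n, G n
  surj : ∀ n, Function.Surjective (π n)
  z_ne : ∀ n, z n ≠ 1
  ker : ∀ n (g : G n), π n g = 1 ↔ g = 1 ∨ g = z n
  sc : ∀ n (x y : G n), (π n x).Disjoint (π n y) → x * y =
    (if Perm.sign (π n x) = -1 ∧ Perm.sign (π n y) = -1 then z n else 1) * (y * x)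
  i1 : ∀ a b, G a →* G (a + b)
  i2 : ∀ a b, G b →* G (a + b)
  i1_z : ∀ a b, i1 a b (z a) = z (a + b)
  i2_z : ∀ a b, i2 a b (z b) = z (a + b)
  π_i1 : ∀ a b x, π (a + b) (i1 a b x) = (π a x).viaEmbedding (Fin.castAddEmb b)
  π_i2 : ∀ a b y, π (a + b) (i2 a b y) = (π b y).viaEmbedding (Fin.natAddEmb a)
  τ : ∀ n, G n → ℂ
  τ_z : ∀ n g, τ n (z n * g) = -τ n g
  τ_conj : ∀ n g h, τ n (h * g * h⁻¹) = τ n g
  τ_mul : ∀ a b x y, Perm.sign (π a x) = 1 → Perm.sign (π b y) = 1 →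
    τ (a + b) (i1 a b x * i2 a b y) = τ a x * τ b y
  τ_sq : ∀ n g, OddT (π n g) → τ n g ^ 2 * 2 ^ n = 2 ^ Multiset.card (H19.typ (π n g))
  basic : ∀ n, 1 ≤ n → ∃ β : G n → ℂ, IsCharacter (G n) β ∧ (∀ g, β (z n * g) = -β g) ∧
    (∀ g, Perm.sign (π n g) = 1 → β g = 2 ^ ((n - 1) / 2) * τ n g) ∧
    (Odd n → ∀ g, Perm.sign (π n g) = -1 → β g = 0)

attribute [instance] SpinFam.grp SpinFam.fin

namespace SpinFam

variable (F : SpinFam)

/-- The double cover of the alternating group. -/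
def Alt (n : ℕ) : Subgroup (F.G n) := (alternatingGroup (Fin n)).comap (F.π n)

/-- Spin class functions. -/
def Spin {n : ℕ} (f : F.G n → ℂ) : Prop :=
  IsClassFunction (F.G n) f ∧ ∀ g, f (F.z n * g) = -f g

/-- Vanishing on the odd elements. -/
def Ev {n : ℕ} (f : F.G n → ℂ) : Prop := ∀ g, Perm.sign (F.π n g) = -1 → f g = 0

open Classical in
/-- The characteristic map. -/
noncomputable def ch {n : ℕ} (f : F.G n → ℂ) : Fk :=
  (s2 ^ n / Nat.card (F.G n)) • ∑ g ∈ univ.filter (fun g => OddT (F.π n g)),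
    MvPolynomial.monomial (mon (F.π n g)) (f g * F.τ n g)

/-- The structure constant. -/
noncomputable def rr {a b : ℕ} (f : F.G a → ℂ) (g : F.G b → ℂ) (h : F.G (a + b) → ℂ) : ℂ :=
  ((Nat.card (F.G a) : ℂ) * Nat.card (F.G b))⁻¹ *
    ∑ x ∈ univ.filter (fun x => Perm.sign (F.π a x) = 1),
      ∑ y ∈ univ.filter (fun y => Perm.sign (F.π b y) = 1),
        f x * g y * h (F.i1 a b x * F.i2 a b y)

end SpinFam

def ClassStmt : Prop :=
  ∀ (F : SpinFam) (n : ℕ),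
    F.z n ∈ Subgroup.center (F.G n) ∧ F.z n * F.z n = 1 ∧
    Nat.card (F.G n) = 2 * n.factorial ∧
    ∀ x : F.G n,
      (OddT (F.π n x) → Perm.sign (F.π n x) = 1) ∧
      (Perm.sign (F.π n x) = 1 → ¬ OddT (F.π n x) → ∃ h, h * x * h⁻¹ = F.z n * x) ∧
      (OddT (F.π n x) → ∃ h, h * x * h⁻¹ = x⁻¹) ∧
      (OddT (F.π n x) → ∀ h, F.π n h * F.π n x = F.π n x * F.π n h → h * x = x * h)

def MonStmt : Prop :=
  (∀ (n : ℕ) (σ : Perm (Fin n)), OddT σ → wt (mon σ) = n ∧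
    nrm (mon σ) * 2 ^ Multiset.card (H19.typ σ) = H19.zM (H19.typ σ) ∧
    (∀ i, mon σ i = (H19.typ σ).count (2 * i + 1)) ∧
    ∀ σ' : Perm (Fin n), OddT σ' → mon σ = mon σ' → IsConj σ σ') ∧
  (∀ (n : ℕ) (m : ℕ →₀ ℕ), wt m = n → ∃ σ : Perm (Fin n), OddT σ ∧ mon σ = m) ∧
  (∀ n : ℕ, OddT (1 : Perm (Fin n)) ∧ mon (1 : Perm (Fin n)) = Finsupp.single 0 n) ∧
  ∀ (a b : ℕ) (σ : Perm (Fin a)) (ρ : Perm (Fin b)),
    H19.typ (σ.viaEmbedding (Fin.castAddEmb b) * ρ.viaEmbedding (Fin.natAddEmb a)) =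
      H19.typ σ + H19.typ ρ ∧
    (σ.viaEmbedding (Fin.castAddEmb b)).Disjoint (ρ.viaEmbedding (Fin.natAddEmb a)) ∧
    Perm.sign (σ.viaEmbedding (Fin.castAddEmb b)) = Perm.sign σ ∧
    Perm.sign (ρ.viaEmbedding (Fin.natAddEmb a)) = Perm.sign ρ

def ValStmt : Prop :=
  ∀ (F : SpinFam) (n : ℕ) (f : F.G n → ℂ), Hom n (F.ch f) ∧
    (F.Spin f → ∀ g, OddT (F.π n g) → ip (MvPolynomial.monomial (mon (F.π n g)) 1) (F.ch f) =
      s2 ^ n / 2 ^ Multiset.card (H19.typ (F.π n g)) * (f g * F.τ n g)) ∧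
    (1 ≤ n → (∀ g, Perm.sign (F.π n g) = 1 → f g = 2 ^ ((n - 1) / 2) * F.τ n g) →
      qq n = (if Odd n then s2 else 2) • F.ch f)

open Classical in
def ParsStmt : Prop :=
  ∀ (F : SpinFam) (n : ℕ) [Fintype (IrrCharacter (F.G n))] (P : Fk), Hom n P →
    P = ∑ θ ∈ univ.filter (fun θ : IrrCharacter (F.G n) => F.Spin (θ : F.G n → ℂ)),
      ip P (F.ch (θ : F.G n → ℂ)) • F.ch (θ : F.G n → ℂ)

def StrStmt : Prop :=
  ∀ (F : SpinFam) (a b : ℕ) (f : F.G a → ℂ) (g : F.G b → ℂ) (h : F.G (a + b) → ℂ),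
    IsCharacter _ f → IsCharacter _ g → IsCharacter _ h → F.Spin h →
    IsInt (2 * F.rr f g h) ∧
      ((F.Ev f ∧ F.Ev g) ∨ (F.Ev f ∧ F.Ev h) ∨ (F.Ev g ∧ F.Ev h) → IsInt (F.rr f g h))

def ProdStmt : Prop :=
  ∀ (F : SpinFam) (a b : ℕ) (f : F.G a → ℂ) (g : F.G b → ℂ) (h : F.G (a + b) → ℂ),
    F.Spin f → F.Spin g → F.Spin h → ip (F.ch f * F.ch g) (F.ch h) = F.rr f g h

def IdStmt : Prop :=
  ∀ (F : SpinFam) (n : ℕ) (θ : IrrCharacter (F.G n)), F.Spin (θ : F.G n → ℂ) →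
    ∃ S : Finset ℕ, 0 ∉ S ∧ ∑ x ∈ S, x = n ∧
      ∃ (e : ℕ) (ε : ℂ), (ε = 1 ∨ ε = -1) ∧ s2 ^ e • F.ch (θ : F.G n → ℂ) = ε • QS S

def SpinDegStmt : Prop :=
  ∀ (F : SpinFam) (n p k : ℕ), p.Prime → p ≠ 2 →
    ∀ (θ : IrrCharacter (F.G n)) (x : F.G n), F.Spin (θ : F.G n → ℂ) →
    Perm.sign (F.π n x) = 1 → (θ : F.G n → ℂ) x ≠ 0 → k ≤ (H19.typ (F.π n x)).count p →
    nu p θ + k ≤ n.factorial.factorization p

def SpCenStmt : Prop :=
  ∀ (F : SpinFam) (n v : ℕ) (j : Fin (v + 2) × Bool ↪ Fin n)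
    (Q : Sylow 2 (Perm (Fin (v + 2) × Bool))) (D : Subgroup (F.G n)), F.z n ∈ D →
    D.map (F.π n) = ((Q : Subgroup (Perm (Fin (v + 2) × Bool))) ⊓
      alternatingGroup (Fin (v + 2) × Bool)).map (Perm.viaEmbeddingHom j) →
    ¬ IsMulCommutative D ∧ Nat.card (Subgroup.center D) ≤ 2

def UniqStmt : Prop :=
  ∀ (F : SpinFam) (n : ℕ), 8 ≤ n → ∀ (H : Type) [Group H] [Finite H], IsQuasisimple H →
    Nonempty (H ⧸ Subgroup.center H ≃* alternatingGroup (Fin n)) →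
    Nonempty (alternatingGroup (Fin n) ≃* H) ∨ Nonempty (F.Alt n ≃* H)

def Alt2Stmt : Prop := ∀ n : ℕ, 2 ≤ n → RCAll (alternatingGroup (Fin n)) 2

def Spin2Stmt : Prop := ∀ (F : SpinFam) (n : ℕ), 2 ≤ n → RCAll (F.Alt n) 2

def AltOddStmt : Prop :=
  ∀ (n p : ℕ), 2 ≤ n → p.Prime → p ≠ 2 → RCAll (alternatingGroup (Fin n)) p

def SpinOddStmt : Prop :=
  ∀ (F : SpinFam) (n p : ℕ), 2 ≤ n → p.Prime → p ≠ 2 → RCAll (F.Alt n) p

end Cfsg.Agent.H79.RB
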