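import Cfsg.Agent.H79.RbAll
import Cfsg.Agent.H94.RbRep
import Cfsg.Agent.H43.RbCrit
import Cfsg.Agent.H71.RbLoc
import Cfsg.Agent.H71.RbTwo
import Cfsg.Agent.H71.RbOdd
import Cfsg.Agent.H71.RbSpCen
import Cfsg.Agent.H92.RbUniq
import Cfsg.Agent.H90.RbAb
import Cfsg.Agent.H6.RbSymDeg
import Cfsg.Agent.H80.RbSm16
import Cfsg.Agent.H8.RbSmall
import Cfsg.Agent.H3.RbCen2

set_option autoImplicit false

open Cfsg

namespace Cfsg.Agent.H79.RB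

universe v

theorem final (h1 : Ix1Stmt) (h2 : Ix2Stmt)
    (H : Type v) [Group H] [Finite H] (hq : IsQuasisimple H) (n : ℕ) (hn : 5 ≤ n)
    (e : H ⧸ Subgroup.center H ≃* alternatingGroup (Fin n)) (p : ℕ) [hp : Fact p.Prime] :
    RCAll H p := by
  obtain ⟨F⟩ := spinFam H94.RbRep.rep
  have hC := H43.RbCrit.critStmt
  exact main F hC H43.RbCrit.transStmt H43.RbCrit.transStmt
    (H8.RbSmall.smallStmt H80.RbSm16.sm16Stmt) H92.RbUniq.uniqStmt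
    (H71.RbTwo.alt2Stmt hC H6.RbSym.altBlkStmt H3.RbCen2.cen2Stmt)
    (H71.RbTwo.spin2Stmt hC H6.RbSym.altBlkStmt H3.RbCen2.cen2Stmt
      (H71.RbSpCen.spCenStmt H3.RbCen2.sylpStmt))
    (H71.RbOdd.altOddStmt hC H90.RbAb.abStmt H71.RbLoc.locStmt h1 H6.RbSym.symDegStmt
      H90.RbAb.swapStmt)
    (H71.RbOdd.spinOddStmt hC H90.RbAb.abStmt H71.RbLoc.locStmt h1 H6.RbSym.symDegStmt
      H90.RbAb.swapStmt (spinDeg h2)) H hq n hn e p

end Cfsg.Agent.H79.RB
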