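import Cfsg.Agent.H79.RbCl

set_option autoImplicit false

open Cfsg Equiv

namespace Cfsg.Agent.H79.RB

universe v

theorem center_map_eq {G : Type*} {H : Type*} [Group G] [Group H] (e : G ≃* H) :
    (Subgroup.center G).map (e : G →* H) = Subgroup.center H := by
  ext y
  constructor
  · rintro ⟨x, hx, rfl⟩
    rw [Subgroup.mem_center_iff]
    intro g
    obtain ⟨g, rfl⟩ := e.surjective g
    have := (Subgroup.mem_center_iff.1 hx) g
    simpa using congrArg e this
  · intro hy
    refine ⟨e.symm y, Subgroup.mem_center_iff.2 fun g => e.injective ?_, by simp⟩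
    simpa using (Subgroup.mem_center_iff.1 hy) (e g)

theorem main0 (F : SpinFam) (hC : CritStmt) (hT : TransStmt.{0}) (hS : SmallStmt) (hU : UniqStmt)
    (hA2 : Alt2Stmt) (hS2 : Spin2Stmt) (hAo : AltOddStmt) (hSo : SpinOddStmt)
    (H : Type) [Group H] [Finite H] (hq : IsQuasisimple H) (n : ℕ) (hn : 5 ≤ n)
    (e : H ⧸ Subgroup.center H ≃* alternatingGroup (Fin n)) (p : ℕ) [hp : Fact p.Prime] :
    RCAll H p := by
  by_cases h8 : 8 ≤ n
  · rcases hU F n h8 H hq ⟨e⟩ with h | h
    · refine hT _ H p h ?_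
      by_cases h2 : p = 2
      · subst h2; exact hA2 n (by omega)
      · exact hAo n p (by omega) hp.out h2
    · refine hT _ H p h ?_
      by_cases h2 : p = 2
      · subst h2; exact hS2 F n (by omega)
      · exact hSo F n p (by omega) hp.out h2
  · intro M hM B hB D hD χ hχ
    obtain ⟨c1, c2, c3, -⟩ := hC H p M hM B hB D hD χ hχ
    have hP : IsPGroup p D := IsPGroup.of_card (H17.dg_card hM hB hD)
    rcases hS H hq n (by omega) ⟨e⟩ p hp.out D hP with h | h | h
    · exact c1 h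
    · exact c2 h
    · exact c3 h.1 h.2

theorem main (F : SpinFam) (hC : CritStmt) (hT : TransStmt.{0}) (hT' : TransStmt.{v})
    (hS : SmallStmt) (hU : UniqStmt)
    (hA2 : Alt2Stmt) (hS2 : Spin2Stmt) (hAo : AltOddStmt) (hSo : SpinOddStmt)
    (H : Type v) [Group H] [Finite H] (hq : IsQuasisimple H) (n : ℕ) (hn : 5 ≤ n)
    (e : H ⧸ Subgroup.center H ≃* alternatingGroup (Fin n)) (p : ℕ) [hp : Fact p.Prime] :
    RCAll H p := by
  let f : Shrink.{0} H ≃* H := Shrink.mulEquiv
  haveI : Finite (Shrink.{0} H) := Finite.of_equiv _ f.symm.toEquiv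
  let g : Shrink.{0} H ⧸ Subgroup.center (Shrink.{0} H) ≃* H ⧸ Subgroup.center H :=
    QuotientGroup.congr _ _ f (center_map_eq f)
  refine hT' _ H p ⟨f⟩ (main0 F hC hT hS hU hA2 hS2 hAo hSo _ ⟨?_, ?_⟩ n hn (g.trans e) p)
  · haveI := hq.1
    exact Group.IsPerfect.ofSurjective (f := f.symm.toMonoidHom) f.symm.surjective
  · haveI := hq.2
    exact g.isSimpleGroup
end Cfsg.Agent.H79.RB
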