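import Cfsg.Agent.H58.BT

/-! Groups with fewer than `p ^ 2` Sylow `p`-subgroups of order `p`: the action on the Sylow
subgroups. -/

set_option autoImplicit false

namespace Cfsg.Agent.H79.Sq

open MulAction Subgroup Cfsg Cfsg.Agent.H58

universe u

section
variable {G : Type*} [Group G] [Finite G] {p : ℕ} [hp : Fact p.Prime]

theorem smul_eq_iff (Q : Sylow p G) (g : G) :
    g • Q = Q ↔ g ∈ normalizer ((Q : Subgroup G) : Set G) := Sylow.smul_eq_iff_mem_normalizer

theorem card_eq {P : Sylow p G} (hP : Nat.card P = p) (Q : Sylow p G) : Nat.card Q = p :=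
  (card_sylow_eq Q P).trans hP

/-- A nontrivial element of `P` normalizes no other Sylow subgroup. -/
theorem eq_of_smul_eq {P : Sylow p G} (hP : Nat.card P = p) {x : G} (hx : x ∈ (P : Subgroup G))
    (hx1 : x ≠ 1) {Q : Sylow p G} (h : x • Q = Q) : Q = P := by
  have h1 := orderOf_eq_of_mem_of_card_prime hp.out hP hx hx1
  have h2 : x ∈ (Q : Subgroup G) :=
    mem_sylow_of_mem_normalizer Q (isPGroup_zpowers_of_orderOf_eq h1) ((smul_eq_iff Q x).1 h)
  by_contra hne
  have := sylow_TI_of_card_prime P hP Q P hne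
  exact hx1 (by simpa [this] using (show x ∈ (Q : Subgroup G) ⊓ P from ⟨h2, hx⟩))

theorem smul_eq_of_mem_centralizer (P : Sylow p G) {y : G}
    (hy : y ∈ centralizer ((P : Subgroup G) : Set G)) : y • P = P :=
  (smul_eq_iff P y).2 (centralizer_le_normalizer _ hy)

theorem smul_ne {P Q : Sylow p G} {g : G} (hg : g • P = P) (h : Q ≠ P) : g • Q ≠ P := fun e =>
  h (by rw [← hg] at e; exact smul_left_cancel g (e.trans rfl) |>.trans rfl)

theorem card_ne (P : Sylow p G) {n : ℕ} (hn : Nat.card (Sylow p G) = 1 + n * p) :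
    Nat.card {Q : Sylow p G // Q ≠ P} = n * p := by
  classical
  have := Fintype.ofFinite (Sylow p G)
  rw [Nat.card_eq_fintype_card] at hn ⊢
  rw [Fintype.card_subtype_compl, Fintype.card_subtype_eq, hn]
  omega

/-- An element of `N(Q) \ C(Q)` fixes at most `n + 1` Sylow subgroups. -/
theorem fix_le {Q : Sylow p G} (hQ : Nat.card Q = p) {n : ℕ}
    (hn : Nat.card (Sylow p G) = 1 + n * p) {g : G} (hg : g • Q = Q)
    (hgc : g ∉ centralizer ((Q : Subgroup G) : Set G)) :
    Nat.card (fixedBy (Sylow p G) g) ≤ n + 1 := by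
  classical
  have := Fintype.ofFinite G
  have hN := (smul_eq_iff Q g).1 hg
  let f : {R : fixedBy (Sylow p G) g // R.1 ≠ Q} × (Q : Subgroup G) → {R : Sylow p G // R ≠ Q} :=
    fun a => ⟨(a.2 : G) • a.1.1.1, smul_ne ((smul_eq_iff Q _).2 (le_normalizer a.2.2)) a.1.2⟩
  have hf : Function.Injective f := by
    rintro ⟨⟨⟨R, hR⟩, hRQ⟩, ⟨x, hx⟩⟩ ⟨⟨⟨R', hR'⟩, hRQ'⟩, ⟨x', hx'⟩⟩ h
    have h1 : x • R = x' • R' := congrArg Subtype.val h
    have h2 : R' = (x'⁻¹ * x) • R := by rw [mul_smul, h1, inv_smul_smul]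
    have hu : x'⁻¹ * x ∈ (Q : Subgroup G) := mul_mem (inv_mem hx') hx
    rw [mem_fixedBy] at hR hR'
    have h3 : x'⁻¹ * x = 1 := by
      by_contra h3
      set u := x'⁻¹ * x
      have h4 : u⁻¹ * (g * u * g⁻¹) ∈ (Q : Subgroup G) :=
        mul_mem (inv_mem hu) ((mem_normalizer_iff.1 hN u).1 hu)
      have h5 : (u⁻¹ * (g * u * g⁻¹)) • R = R := by
        have e1 : g⁻¹ • R = R := by rw [inv_smul_eq_iff, hR]
        rw [mul_smul, mul_smul, mul_smul, e1, ← h2, hR', h2, inv_smul_smul]
      have h6 : u⁻¹ * (g * u * g⁻¹) = 1 := by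
        by_contra h6
        exact hRQ (eq_of_smul_eq hQ h4 h6 h5)
      apply hgc
      rw [← centralizer_singleton_eq hQ hu h3, mem_centralizer_iff]
      intro a ha
      rw [Set.mem_singleton_iff.1 ha]
      rw [inv_mul_eq_one, eq_mul_inv_iff_mul_eq] at h6
      exact h6
    have h4 : x = x' := by rw [inv_mul_eq_one] at h3; exact h3.symm
    rw [h3, one_smul] at h2
    subst h4 h2
    rfl
  have h1 := Nat.card_le_card_of_injective f hf
  rw [card_ne Q hn, Nat.card_prod, show Nat.card (Q : Subgroup G) = p from hQ] at h1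
  have h2 := Nat.le_of_mul_le_mul_right h1 hp.out.pos
  have := Fintype.ofFinite (fixedBy (Sylow p G) g)
  have h3 : Nat.card {R : fixedBy (Sylow p G) g // R.1 ≠ Q} + 1 =
      Nat.card (fixedBy (Sylow p G) g) := by
    have e : ∀ R : fixedBy (Sylow p G) g, R.1 ≠ Q ↔ ¬ R = ⟨Q, hg⟩ := fun R => by
      simp [Subtype.ext_iff]
    rw [Nat.card_congr (Equiv.subtypeEquivRight e), Nat.card_eq_fintype_card,
      Nat.card_eq_fintype_card, Fintype.card_subtype_compl, Fintype.card_subtype_eq]
    have : 0 < Fintype.card (fixedBy (Sylow p G) g) := Fintype.card_pos_iff.2 ⟨⟨Q, hg⟩⟩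
    omega
  omega

/-- A `P`-invariant set of Sylow subgroups containing `P` and a second one has more than `p`
members. -/
theorem lt_ncard {P : Sylow p G} (hP : Nat.card P = p) {S : Set (Sylow p G)} (hPS : P ∈ S)
    {Q : Sylow p G} (hQ : Q ≠ P) (hS : ∀ x ∈ (P : Subgroup G), x • Q ∈ S) : p + 1 ≤ S.ncard := by
  classical
  let f : Option (P : Subgroup G) → S := fun a => match a with
    | none => ⟨P, hPS⟩
    | some x => ⟨(x : G) • Q, hS x x.2⟩
  have hne : ∀ x : (P : Subgroup G), (x : G) • Q ≠ P := fun x =>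
    smul_ne ((smul_eq_iff P _).2 (le_normalizer x.2)) hQ
  have hf : Function.Injective f := by
    rintro (_ | x) (_ | x') h
    · rfl
    · exact absurd (congrArg Subtype.val h).symm (hne x')
    · exact absurd (congrArg Subtype.val h) (hne x)
    · have h1 : (x : G) • Q = (x' : G) • Q := congrArg Subtype.val h
      have h2 : ((x' : G)⁻¹ * x) • Q = Q := by rw [mul_smul, h1, inv_smul_smul]
      have h3 : (x' : G)⁻¹ * x = 1 := by
        by_contra h3
        exact hQ (eq_of_smul_eq hP (mul_mem (inv_mem x'.2) x.2) h3 h2)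
      rw [inv_mul_eq_one] at h3
      rw [Subtype.ext h3]
  have h1 := Nat.card_le_card_of_injective f hf
  rwa [Finite.card_option, show Nat.card (P : Subgroup G) = p from hP] at h1

/-- Key lemma: an element centralizing `P` and normalizing `Q` centralizes `Q`. -/
theorem mem_centralizer_of_smul_eq {P : Sylow p G} (hP : Nat.card P = p) {n : ℕ}
    (hn : Nat.card (Sylow p G) = 1 + n * p) (hnp : n < p) {y : G}
    (hy : y ∈ centralizer ((P : Subgroup G) : Set G)) {Q : Sylow p G} (h : y • Q = Q) :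
    y ∈ centralizer ((Q : Subgroup G) : Set G) := by
  by_cases hQ : Q = P
  · rwa [hQ]
  by_contra hc
  have h1 := fix_le (card_eq hP Q) hn h hc
  have h2 := lt_ncard hP (S := fixedBy (Sylow p G) y) (smul_eq_of_mem_centralizer P hy) hQ
    fun x hx => by
      rw [mem_fixedBy, ← mul_smul, ← mem_centralizer_iff.1 hy x hx, mul_smul, h]
  rw [← Nat.card_coe_set_eq] at h2
  omega

end

/-- If `C(P) ≠ P` is not transitive on the other Sylow subgroups, some element of `C(P)` of prime
order fixes only `P` and has a small centralizer in `C(P)`. -/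
def GeoStmt : Prop :=
  ∀ (G : Type u) [Group G] [Finite G] [IsSimpleGroup G] (p n : ℕ) [Fact p.Prime] (P : Sylow p G),
    ¬ IsMulCommutative G → Nat.card P = p → Nat.card (Sylow p G) = 1 + n * p → n < p →
    centralizer ((P : Subgroup G) : Set G) ≠ P →
    (∃ Q R : Sylow p G, Q ≠ P ∧ R ≠ P ∧
      ∀ c ∈ centralizer ((P : Subgroup G) : Set G), c • Q ≠ R) →
    ∃ y ∈ centralizer ((P : Subgroup G) : Set G), (orderOf y).Prime ∧ orderOf y ≠ p ∧
      (∀ Q : Sylow p G, y • Q = Q → Q = P) ∧
      2 * Nat.card ↥(centralizer ({y} : Set G) ⊓ centralizer ((P : Subgroup G) : Set G)) < p * p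

end Cfsg.Agent.H79.Sq
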