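import Cfsg.Agent.H79.SqDefs

/-! Existence of the block data `Sq.Dat`. -/

set_option autoImplicit false

namespace Cfsg.Agent.H79.Sq

open MulAction Subgroup Cfsg Cfsg.Agent.H58

theorem form_struct {p n h u : ℕ} (hp : 2 ≤ p) (hn : n < p) (hh : 0 < h) (hu : 0 < u)
    (e : n * (u + 1) = h * u * p + u ^ 2 + u + h) :
    ∃ m, p = (u + 1) * m + 1 ∧ n = u * (m + 1) + 1 := by
  obtain rfl : h = 1 := by
    by_contra h1
    have h2 : 2 * u * p ≤ h * u * p := by gcongr; omega
    have h3 : n * (u + 1) ≤ p * (u + 1) := by gcongr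
    nlinarith [Nat.mul_le_mul_right p hu]
  obtain ⟨q, rfl⟩ : ∃ q, p = q + 1 := ⟨p - 1, by omega⟩
  have h1 : n * (u + 1) = u * q + (u + 1) * (u + 1) := by rw [e]; ring
  have h2 : u + 1 ∣ u * q :=
    (Nat.dvd_add_left (dvd_mul_right _ _)).1 (h1 ▸ dvd_mul_left _ _)
  obtain ⟨m, rfl⟩ : u + 1 ∣ q := Nat.Coprime.dvd_of_dvd_mul_left (by simp) h2
  exact ⟨m, rfl, Nat.eq_of_mul_eq_mul_right (show 0 < u + 1 by omega) (by rw [h1]; ring)⟩

theorem deg_pos_aux {p n d u : ℕ} (hp : 2 ≤ p)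
    (hd : d ∣ (p - 1) * (1 + n * p)) (hu : d = u * p + 1) : d = 1 ∨ d = 1 + n * p ∨
      ∃ h, 0 < h ∧ 0 < u ∧ n * (u + 1) = h * u * p + u ^ 2 + u + h := by
  obtain ⟨d', hd'⟩ := hd
  obtain ⟨q, rfl⟩ : ∃ q, p = q + 1 := ⟨p - 1, by omega⟩
  rw [Nat.add_sub_cancel, hu] at hd'
  have hq : (0 : ℤ) < q := by omega
  have h1 : (q : ℤ) * (1 + n * (q + 1)) = (u * (q + 1) + 1) * d' := by exact_mod_cast hd'
  obtain ⟨k, hk⟩ : ∃ k : ℤ, k = 1 + n * q - u * d' := ⟨_, rfl⟩
  have h2 : (d' : ℤ) + 1 = (q + 1) * k := by rw [hk]; linear_combination -h1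
  have hk1 : 1 ≤ k := by
    by_contra hh
    have : k ≤ 0 := by omega
    have : (q + 1) * k ≤ 0 := mul_nonpos_of_nonneg_of_nonpos (by omega) this
    omega
  have h3 : ((n : ℤ) - u) * q = (k - 1) * (u * (q + 1) + 1) := by
    have h4 : (q + 1 : ℤ) * (((n : ℤ) - u) * q) = (q + 1) * ((k - 1) * (u * (q + 1) + 1)) := by
      linear_combination h1 + (u * (q + 1) + 1) * h2
    exact mul_left_cancel₀ (by omega) h4
  have h5 : ((n : ℤ) - u) * (u + 1) = (u * (q + 1) + 1) * (n - u * k) := by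
    linear_combination (-(u : ℤ)) * h3
  have hun : (u : ℤ) ≤ n := by
    by_contra hh
    have : ((n : ℤ) - u) * q < 0 := mul_neg_of_neg_of_pos (by omega) hq
    have : 0 ≤ (k - 1) * (u * (q + 1) + 1) := mul_nonneg (by omega) (by positivity)
    omega
  rcases Nat.eq_zero_or_pos u with rfl | hu0
  · left; omega
  right
  rcases hun.lt_or_eq with hlt | h
  swap
  · left; rw [hu, show u = n by exact_mod_cast h]; ring
  right
  have hpos : 0 < (n : ℤ) - u * k := by
    have : 0 < ((n : ℤ) - u) * (u + 1) := mul_pos (by omega) (by positivity)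
    rw [h5] at this
    exact pos_of_mul_pos_of_nonneg_left this (by positivity)
  obtain ⟨h, hh⟩ := Int.eq_ofNat_of_zero_le hpos.le
  refine ⟨h, by omega, hu0, ?_⟩
  rw [hh] at h5
  have : (n : ℤ) * (u + 1) = h * u * (q + 1) + u ^ 2 + u + h := by linear_combination h5
  exact_mod_cast this

theorem deg_pos {p u m d w : ℕ} (hp : p = (u + 1) * m + 1) (hum : u + 1 ≤ m)
    (hd : d ∣ (p - 1) * (1 + (u * (m + 1) + 1) * p)) (hw : d = w * p + 1) :
    d = 1 ∨ d = 1 + (u * (m + 1) + 1) * p ∨ d = u * p + 1 := by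
  have hp2 : 2 ≤ p := by nlinarith
  rcases deg_pos_aux hp2 hd hw with h | h | ⟨h, h1, h2, h3⟩
  · exact Or.inl h
  · exact Or.inr (Or.inl h)
  obtain ⟨m', e1, e2⟩ := form_struct hp2 (by nlinarith) h1 h2 h3
  have e3 : w + m = u + m' := by nlinarith
  obtain rfl : w = u := by
    rcases lt_trichotomy w u with h | h | h
    · have : m' < m := by omega
      nlinarith
    · exact h
    · have : m < m' := by omega
      nlinarith
  exact Or.inr (Or.inr hw)

theorem deg_neg {p u m d w : ℕ} (hp : p = (u + 1) * m + 1) (hum : u + 1 ≤ m)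
    (hd : d ∣ (p - 1) * (1 + (u * (m + 1) + 1) * p)) (hw : d + 1 = w * p) :
    d + 1 = p ∨ d = (p - 1) * (1 + (u * (m + 1) + 1) * p) ∨ d + 1 = (m + 1) * p := by
  have hp2 : 2 ≤ p := by nlinarith
  set n := u * (m + 1) + 1 with hn
  obtain ⟨d', hd'⟩ := hd
  have hpos : 0 < (p - 1) * (1 + n * p) := Nat.mul_pos (by omega) (by omega)
  have hd0 : 0 < d' := Nat.pos_of_ne_zero (by rintro rfl; omega)
  obtain ⟨v, hv⟩ : p ∣ d' - 1 := by
    rw [← Int.natCast_dvd_natCast, Nat.cast_sub hd0]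
    have h1 : ((p : ℤ) - 1) * (1 + n * p) = d * d' := by
      have : (((p - 1) * (1 + n * p) : ℕ) : ℤ) = d * d' := by exact_mod_cast hd'
      rwa [Nat.cast_mul, Nat.cast_sub (by omega)] at this
    have h2 : (d : ℤ) + 1 = w * p := by exact_mod_cast hw
    exact ⟨w * d' - 1 - n * (p - 1), by push_cast; linear_combination h1 + d' * h2⟩
  rcases deg_pos hp hum (d := d') (w := v) (Dvd.intro_left d hd'.symm)
    (by rw [mul_comm, ← hv]; omega) with h | h | h
  · right; left; rw [hd', h, mul_one]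
  · left; rw [h] at hd'
    have := Nat.eq_of_mul_eq_mul_right (by omega) hd'
    omega
  · right; right
    have h1 : (p - 1) * (1 + n * p) = (m * (p + u + 1)) * (u * p + 1) := by
      rw [hn, show p - 1 = (u + 1) * m by omega, hp]; ring
    rw [h1, h] at hd'
    rw [← Nat.eq_of_mul_eq_mul_right (by omega) hd', hp]; ring

variable {G : Type*} [Group G] [Fintype G] {p : ℕ} [hp : Fact p.Prime]

theorem exists_dat [IsSimpleGroup G] (hG : ¬ IsMulCommutative G) (P : Sylow p G)
    (hP : Nat.card P = p) {n : ℕ} (hn : Nat.card (Sylow p G) = 1 + n * p) (hnp : n < p)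
    (hF : FormF p n) : ∃ u m e t, Nonempty (Dat G p P u m e t) := by
  classical
  have hp2 := hp.out.two_le
  have hperf : commutator G = ⊤ := by
    refine (IsSimpleGroup.eq_bot_or_eq_top_of_normal _ inferInstance).resolve_left fun h => ?_
    exact hG ⟨⟨fun a b => commutatorElement_eq_one_iff_mul_comm.1
      (mem_bot.1 (h ▸ commutator_mem_commutator (mem_top a) (mem_top b)))⟩⟩
  obtain ⟨h, u, hh, hu, hF⟩ := hF
  obtain ⟨m, hpe, rfl⟩ := form_struct hp2 hnp hh hu hF
  have hum : u + 1 ≤ m := by nlinarith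
  obtain ⟨e, t, he, he2, het, ⟨D⟩⟩ := exists_brData hperf P hP
  have hidx := index_centralizer_sylow P
  rw [he, hn] at hidx
  have ht : 0 < t := Nat.pos_of_ne_zero (by rintro rfl; omega)
  set N := 1 + (u * (m + 1) + 1) * p with hN
  have hX : ∀ χ ∈ D.X, charDegree χ.1 ∣ (p - 1) * N := fun χ hχ =>
    (hidx ▸ D.degX_dvd hP hχ).trans (Nat.mul_dvd_mul_right (Dvd.intro _ het) _)
  have hA : ∀ χ ∈ D.A, charDegree χ.1 = N ∨ charDegree χ.1 = u * p + 1 := by
    intro χ hχ
    obtain ⟨h1, h2, h3⟩ := D.mem_A.1 hχ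
    have h4 := D.fixDim_X hP h1
    have h5 := H21.deg_pos χ
    rw [h3] at h4
    have h6 : 1 ≤ fixDim P χ.1 := Nat.pos_of_ne_zero (by intro e; rw [e] at h4; omega)
    exact (deg_pos hpe hum (hX χ h1) (w := fixDim P χ.1 - 1)
      (by zify [h6]; linear_combination -h4)).resolve_left
      fun h => h2 (eq_triv_of_deg_one hperf h)
  have hB : ∀ χ ∈ D.B, charDegree χ.1 + 1 = p ∨ charDegree χ.1 = (p - 1) * N ∨
      charDegree χ.1 + 1 = (m + 1) * p := by
    intro χ hχ
    obtain ⟨h1, h3⟩ := (D.mem_B hP).1 hχ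
    have h4 := D.fixDim_X hP h1
    rw [h3] at h4
    exact deg_neg hpe hum (hX χ h1) (w := fixDim P χ.1 + 1) (by zify; linear_combination -h4)
  have hz : t * D.z ∣ (p - 1) * N := by
    rw [← het, mul_comm e, mul_assoc]; exact Nat.mul_dvd_mul_left _ (hidx ▸ D.z_dvd hP ht)
  have hΘ := D.fixDim_Θ hP
  have hz0 := D.z_pos ht
  have huN : u * p + 1 ≤ N := by nlinarith [Nat.zero_le (u * m * p)]
  have hZ2 : D.ε = -1 → t * D.z = u * p + 1 ∨ t * D.z = N := fun h => by
    rw [h] at hΘ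
    have h5 : 1 ≤ fixDim P D.Θ := Nat.pos_of_ne_zero (by
      intro e; rw [e] at hΘ
      have : (0 : ℤ) < t * D.z := by exact_mod_cast Nat.mul_pos ht hz0
      omega)
    exact ((deg_pos hpe hum hz (w := fixDim P D.Θ - 1)
      (by zify [h5]; linear_combination -hΘ)).resolve_left
      fun e => D.z_ne_one hperf ht (Nat.eq_one_of_mul_eq_one_left e)).symm
  have hsA : ∑ χ ∈ D.A, (charDegree χ.1 : ℤ) ≤ D.A.card * N := by
    rw [← nsmul_eq_mul, ← Finset.sum_const]
    exact Finset.sum_le_sum fun χ hχ => by rcases hA χ hχ with h | h <;> omega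
  have hsB : 0 ≤ ∑ χ ∈ D.B, (charDegree χ.1 : ℤ) := Finset.sum_nonneg fun _ _ => by positivity
  have hdeg := D.deg_eq' hP ht
  have hc : (1 : ℤ) + D.A.card + D.B.card = e := by exact_mod_cast D.card_A_add_card_B hP
  have hep : (e : ℤ) * t = p - 1 := by zify [hp.out.one_le] at het; exact het
  have hN1 : (1 : ℤ) < N := by have : 1 < N := by nlinarith
                               exact_mod_cast this
  refine ⟨u, m, e, t, ⟨⟨D, ‹_›, hG, hP, hpe, hu, hum, hn, he, he2, by omega, hA,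
    fun χ hχ => ?_, ?_⟩⟩⟩
  · rcases hB χ hχ with h | h | h
    · exact Or.inl h
    · exfalso
      have h1 : (charDegree χ.1 : ℤ) ≤ ∑ χ ∈ D.B, (charDegree χ.1 : ℤ) :=
        Finset.single_le_sum (f := fun χ : IrrCharacter G => (charDegree χ.1 : ℤ))
          (fun _ _ => by positivity) hχ
      have h2 : (1 : ℤ) ≤ D.B.card := by exact_mod_cast Finset.card_pos.2 ⟨χ, hχ⟩
      have h3 : -(N : ℤ) ≤ D.ε * D.z := by
        rcases D.eps_pm with h3 | h3
        · rw [h3]; omega
        · have h4 : D.z ≤ N := (Nat.le_mul_of_pos_left _ ht).trans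
            (by rcases hZ2 h3 with h5 | h5 <;> omega)
          rw [h3]; omega
      rw [h, Nat.cast_mul, Nat.cast_sub hp.out.one_le] at h1
      have h4 : (e : ℤ) ≤ p - 1 := by
        have : (1 : ℤ) ≤ t := by exact_mod_cast ht
        nlinarith
      have h5 : (D.A.card : ℤ) * N ≤ (p - 3) * N := by gcongr; omega
      push_cast at h1
      nlinarith
    · exact Or.inr h
  · rcases D.eps_pm with h | h
    · refine Or.inl ⟨h, ?_⟩
      rw [h] at hΘ
      rcases deg_neg hpe hum hz (w := fixDim P D.Θ + 1) (by zify; linear_combination -hΘ) with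
        h1 | h1 | h1
      · exact Or.inl h1
      · exfalso
        rw [← het, mul_comm e, mul_assoc] at h1
        have h2 : (D.z : ℤ) = e * N := by exact_mod_cast Nat.eq_of_mul_eq_mul_left ht h1
        have h5 : (D.A.card : ℤ) * N ≤ (e - 1) * N := by gcongr; omega
        rw [h, h2] at hdeg
        nlinarith
      · exact Or.inr h1
    · exact Or.inr ⟨h, hZ2 h⟩

end Cfsg.Agent.H79.Sq
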