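import Cfsg.Agent.H79.SqBase
import Cfsg.Agent.H58.BrCore
import Cfsg.Agent.H58.BrSing

/-! Simple groups with fewer than `p ^ 2` Sylow `p`-subgroups: the block data and the pieces. -/

set_option autoImplicit false

namespace Cfsg.Agent.H79.Sq

open MulAction Subgroup Cfsg Cfsg.Agent.H58

universe w

/-- The principal block when `n_p = 1 + n p`, `n = u (m + 1) + 1 < p = (u + 1) m + 1`. -/
structure Dat (G : Type*) [Group G] (p : ℕ) (P : Sylow p G) (u m e t : ℕ) extends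
    BrData G p P e t where
  simple : IsSimpleGroup G
  ncomm : ¬ IsMulCommutative G
  hP : Nat.card P = p
  hpe : p = (u + 1) * m + 1
  hu : 1 ≤ u
  hum : u + 1 ≤ m
  hn : Nat.card (Sylow p G) = 1 + (u * (m + 1) + 1) * p
  he : (centralizer ((P : Subgroup G) : Set G)).relIndex (normalizer ((P : Subgroup G) : Set G)) = e
  he2 : 2 ≤ e
  het : e * t = (u + 1) * m
  degA : ∀ χ ∈ toBrData.A, charDegree χ.1 = 1 + (u * (m + 1) + 1) * p ∨ charDegree χ.1 = u * p + 1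
  degB : ∀ χ ∈ toBrData.B, charDegree χ.1 + 1 = p ∨ charDegree χ.1 + 1 = (m + 1) * p
  degZ : (ε = 1 ∧ (t * z + 1 = p ∨ t * z + 1 = (m + 1) * p)) ∨
    (ε = -1 ∧ (t * z = u * p + 1 ∨ t * z = 1 + (u * (m + 1) + 1) * p))

/-- The characters induced from the linear characters of `N(P) / C(P)`. -/
structure Ind (G : Type*) [Group G] [Fintype G] (p : ℕ) (P : Sylow p G) (e : ℕ) where
  Λ : Fin e → G → ℂ
  i0 : Fin e
  nb : ℕ
  char : ∀ i, IsCharacter G (Λ i)
  one : ∀ i, Λ i 1 = Nat.card (Sylow p G)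
  sing : ∀ i g, p ∣ orderOf g → Λ i g = 1
  triv : ∀ i, classInner (Λ i) (fun _ => 1) = if i = i0 then 1 else 0
  sum : ∀ χ, IsCharacter G χ →
    ∑ i, classInner (Λ i) χ = fixDim (centralizer ((P : Subgroup G) : Set G)) χ
  four : ∀ χ, IsClassFunction G χ → ∀ g : G,
    (∀ a : G, a⁻¹ * g * a ∈ normalizer ((P : Subgroup G) : Set G) →
      ∀ c ∈ centralizer ((P : Subgroup G) : Set G), χ (a⁻¹ * g * a * c) = χ g) →
    ∑ i, classInner χ (Λ i) * Λ i g = Nat.card (fixedBy (Sylow p G) g) * χ g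
  fixC : ∀ i, fixDim (centralizer ((P : Subgroup G) : Set G)) (Λ i) = nb
  orb : nb = 2 ∨ (3 ≤ nb ∧ ∃ Q R : Sylow p G, Q ≠ P ∧ R ≠ P ∧
    ∀ c ∈ centralizer ((P : Subgroup G) : Set G), c • Q ≠ R)
  pos : ∀ χ, IsCharacter G χ → (∀ x ∈ (P : Subgroup G), x ≠ 1 →
    ∀ y ∈ centralizer ((P : Subgroup G) : Set G), ¬ p ∣ orderOf y → χ (x * y) = 1) →
    1 ≤ fixDim (centralizer ((P : Subgroup G) : Set G)) χ

namespace Dat

variable {G : Type*} [Group G] {p : ℕ} {P : Sylow p G} {u m e t : ℕ} (D : Dat G p P u m e t)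

/-- positive sign, degree `n_p` -/
noncomputable def A1 : Finset (IrrCharacter G) :=
  D.A.filter fun χ => charDegree χ.1 = 1 + (u * (m + 1) + 1) * p
/-- positive sign, degree `u p + 1` -/
noncomputable def A2 : Finset (IrrCharacter G) := D.A.filter fun χ => charDegree χ.1 = u * p + 1
/-- negative sign, degree `p - 1` -/
noncomputable def B1 : Finset (IrrCharacter G) := D.B.filter fun χ => charDegree χ.1 + 1 = p
/-- negative sign, degree `(m + 1) p - 1` -/
noncomputable def B2 : Finset (IrrCharacter G) :=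
  D.B.filter fun χ => charDegree χ.1 + 1 = (m + 1) * p

theorem mem_A1 {χ : IrrCharacter G} :
    χ ∈ D.A1 ↔ χ ∈ D.A ∧ charDegree χ.1 = 1 + (u * (m + 1) + 1) * p := Finset.mem_filter
theorem mem_A2 {χ : IrrCharacter G} : χ ∈ D.A2 ↔ χ ∈ D.A ∧ charDegree χ.1 = u * p + 1 :=
  Finset.mem_filter
theorem mem_B1 {χ : IrrCharacter G} : χ ∈ D.B1 ↔ χ ∈ D.B ∧ charDegree χ.1 + 1 = p :=
  Finset.mem_filter
theorem mem_B2 {χ : IrrCharacter G} : χ ∈ D.B2 ↔ χ ∈ D.B ∧ charDegree χ.1 + 1 = (m + 1) * p :=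
  Finset.mem_filter

include D

theorem five_le : 5 ≤ p := by have := D.hpe; have := D.hu; have := D.hum; nlinarith

theorem t_pos : 0 < t := Nat.pos_of_ne_zero (by
  rintro rfl; have := D.het; have := D.hum; simp at *; omega)

theorem het' : e * t + 1 = p := by rw [D.het, D.hpe]

theorem n_lt : u * (m + 1) + 1 < p := by have := D.hpe; have := D.hum; nlinarith

/-- `n_p = A B` -/
theorem AB : 1 + (u * (m + 1) + 1) * p = (u * m + 1) * (p + u + 1) := by
  have := D.hpe; subst this; ring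

theorem vA : u * p + 1 = (u + 1) * (u * m + 1) := by have := D.hpe; subst this; ring

theorem mB : (m + 1) * p = m * (p + u + 1) + 1 := by have := D.hpe; subst this; ring

theorem cop_vB : (u + 1).Coprime (p + u + 1) := by
  rw [D.hpe, show (u + 1) * m + 1 + u + 1 = 1 + (u + 1) * (m + 1) by ring]; simp

omit D in
theorem cop_mA : m.Coprime (u * m + 1) := by simp

theorem sum_A {R : Type*} [AddCommMonoid R] (f : IrrCharacter G → R) :
    ∑ χ ∈ D.A, f χ = ∑ χ ∈ D.A1, f χ + ∑ χ ∈ D.A2, f χ := by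
  rw [← Finset.sum_filter_add_sum_filter_not D.A
    fun χ => charDegree χ.1 = 1 + (u * (m + 1) + 1) * p]
  congr 2
  refine Finset.filter_congr fun χ hχ => ⟨(D.degA χ hχ).resolve_left, fun h h' => ?_⟩
  have := D.five_le
  nlinarith [Nat.zero_le (u * m * p)]

theorem sum_B {R : Type*} [AddCommMonoid R] (f : IrrCharacter G → R) :
    ∑ χ ∈ D.B, f χ = ∑ χ ∈ D.B1, f χ + ∑ χ ∈ D.B2, f χ := by
  rw [← Finset.sum_filter_add_sum_filter_not D.B fun χ => charDegree χ.1 + 1 = p]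
  congr 2
  refine Finset.filter_congr fun χ hχ => ⟨(D.degB χ hχ).resolve_left, fun h h' => ?_⟩
  have := D.five_le
  have := D.hum
  nlinarith

variable [hp : Fact p.Prime]

theorem count : 1 + D.A1.card + D.A2.card + D.B1.card + D.B2.card = e := by
  have h1 := D.card_A_add_card_B D.hP
  have h2 := D.sum_A fun _ => (1 : ℕ)
  have h3 := D.sum_B fun _ => (1 : ℕ)
  simp only [Finset.sum_const, smul_eq_mul, mul_one] at h2 h3
  omega

theorem rel4 {θ : IrrCharacter G} (hθ : θ ∈ D.Y) {g : G} (hg : ¬ p ∣ orderOf g) :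
    (D.ε : ℂ) * θ.1 g = 1 + ∑ χ ∈ D.A1, χ.1 g + ∑ χ ∈ D.A2, χ.1 g - ∑ χ ∈ D.B1, χ.1 g -
      ∑ χ ∈ D.B2, χ.1 g := by
  rw [D.rel' D.hP hθ hg, D.sum_A, D.sum_B]; ring

/-- the degree equation -/
theorem star : D.ε * D.z = e + p * (D.A1.card * (u * (m + 1) + 1) + D.A2.card * u -
    D.B1.card - D.B2.card * (m + 1)) := by
  have h1 := D.deg_eq' D.hP D.t_pos
  have h2 : (1 : ℤ) + D.A1.card + D.A2.card + D.B1.card + D.B2.card = e := by
    exact_mod_cast D.count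
  rw [D.sum_A, D.sum_B,
    Finset.sum_congr rfl fun χ hχ => (by rw [(D.mem_A1.1 hχ).2]; push_cast; rfl :
      (charDegree χ.1 : ℤ) = 1 + (u * (m + 1) + 1) * p),
    Finset.sum_congr (s₁ := D.A2) rfl fun χ hχ => (by rw [(D.mem_A2.1 hχ).2]; push_cast; rfl :
      (charDegree χ.1 : ℤ) = u * p + 1),
    Finset.sum_congr (s₁ := D.B1) rfl fun χ hχ => (by have := (D.mem_B1.1 hχ).2; omega :
      (charDegree χ.1 : ℤ) = p - 1),
    Finset.sum_congr (s₁ := D.B2) rfl fun χ hχ => (by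
      have := (D.mem_B2.1 hχ).2; zify at this; linear_combination this :
      (charDegree χ.1 : ℤ) = (m + 1) * p - 1)] at h1
  simp only [Finset.sum_const, nsmul_eq_mul] at h1
  linear_combination h1 + h2

variable [Fintype G]

omit hp in
theorem perfect : commutator G = ⊤ := by
  have := D.simple
  refine (IsSimpleGroup.eq_bot_or_eq_top_of_normal _ inferInstance).resolve_left fun h => ?_
  exact D.ncomm ⟨⟨fun a b => commutatorElement_eq_one_iff_mul_comm.1
    (mem_bot.1 (h ▸ commutator_mem_commutator (mem_top a) (mem_top b)))⟩⟩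

theorem index_C : (centralizer ((P : Subgroup G) : Set G)).index =
    e * ((u * m + 1) * (p + u + 1)) := by rw [index_centralizer_sylow P, D.he, D.hn, D.AB]

theorem dvd_of_A2 {χ : IrrCharacter G} (hχ : χ ∈ D.A2) : u + 1 ∣ e := by
  have h := D.degX_dvd D.hP (D.mem_A.1 (D.mem_A2.1 hχ).1).1
  rw [(D.mem_A2.1 hχ).2, D.index_C, D.vA, mul_comm (u + 1), mul_left_comm] at h
  exact D.cop_vB.dvd_of_dvd_mul_right (Nat.dvd_of_mul_dvd_mul_left (by omega) h)

theorem dvd_of_B2 {χ : IrrCharacter G} (hχ : χ ∈ D.B2) : m ∣ e := by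
  have h := D.degX_dvd D.hP ((D.mem_B D.hP).1 (D.mem_B2.1 hχ).1).1
  have h2 := (D.mem_B2.1 hχ).2
  rw [D.mB, Nat.add_right_cancel_iff] at h2
  rw [h2, D.index_C, ← mul_assoc] at h
  exact cop_mA.dvd_of_dvd_mul_right (Nat.dvd_of_mul_dvd_mul_right (by omega) h)

theorem dvd_of_B1 {χ : IrrCharacter G} (hχ : χ ∈ D.B1) : t ∣ (u * m + 1) * (p + u + 1) := by
  have h := D.degX_dvd D.hP ((D.mem_B D.hP).1 (D.mem_B1.1 hχ).1).1
  have h2 := (D.mem_B1.1 hχ).2
  rw [← D.het', Nat.add_right_cancel_iff] at h2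
  rw [h2, D.index_C] at h
  exact Nat.dvd_of_mul_dvd_mul_left (by have := D.he2; omega) h

theorem card_G (h : SelfCent p G) : Nat.card G = p * e * ((u * m + 1) * (p + u + 1)) := by
  rw [← card_normalizer_mul_card_sylow P, D.hn, D.AB]
  exact congrArg (· * _) (h.card_normalizer P D.he P)

/-- Stanton's bound when `C(P) ≠ P`. -/
theorem two_p_le (h : ¬ SelfCent p G) :
    (∀ χ ∈ D.X, χ ≠ H21.triv G → 2 * p ≤ charDegree χ.1) ∧ 2 * p ≤ D.z := by
  have := D.simple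
  refine ⟨fun χ hχ h1 => not_lt.1 fun hd => h (selfCent_of_deg_lt D.ncomm P D.hP D.hM
    ((D.mem χ).2 (Or.inl hχ)) h1 hd), not_lt.1 fun hd => ?_⟩
  obtain ⟨θ, hθ⟩ : D.Y.Nonempty := Finset.card_pos.1 (D.cardY.symm ▸ D.t_pos)
  exact h (selfCent_of_deg_lt D.ncomm P D.hP D.hM ((D.mem θ).2 (Or.inr hθ))
    (D.ne_triv_of_mem_Y hθ) (D.degY θ hθ ▸ hd))

theorem B1_eq_empty (h : ¬ SelfCent p G) : D.B1 = ∅ := by
  refine Finset.eq_empty_of_forall_notMem fun χ hχ => ?_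
  obtain ⟨h1, h2⟩ := D.mem_B1.1 hχ
  obtain ⟨h3, h4⟩ := (D.mem_B D.hP).1 h1
  have := (D.two_p_le h).1 χ h3 (by rintro rfl; rw [D.sg_triv D.hP] at h4; omega)
  omega

end Dat

/-- `C(P) = P`: no character (or sum of exceptional characters) of degree `n_p`. -/
def ABStmt : Prop :=
  ∀ (G : Type w) [Group G] [Fintype G] (p : ℕ) [Fact p.Prime] (P : Sylow p G) (u m e t : ℕ)
    (D : Dat G p P u m e t) (_ : Ind G p P e), SelfCent p G →
    D.A1 = ∅ ∧ t * D.z ≠ 1 + (u * (m + 1) + 1) * p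

/-- `C(P) = P`: the shape of the block. -/
def ShapeStmt : Prop :=
  ∀ (G : Type w) [Group G] [Fintype G] (p : ℕ) [Fact p.Prime] (P : Sylow p G) (u m e t : ℕ)
    (D : Dat G p P u m e t), SelfCent p G → D.A1 = ∅ → t * D.z ≠ 1 + (u * (m + 1) + 1) * p →
    D.ε = 1 ∧ t = m ∧ e = u + 1 ∧ D.z = p + u + 1 ∧ D.B2 = ∅ ∧ D.A2.card = 1 ∧
      (u = 1 ∨ (m = u + 2 ∧ Even m))

/-- `C(P) = P`, `e = 2`: recognition of `PSL(2, p + 1)`. -/
def MersStmt : Prop :=
  ∀ (G : Type w) [Group G] [Fintype G] (p : ℕ) [Fact p.Prime] (P : Sylow p G) (m : ℕ)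
    (D : Dat G p P 1 m 2 m), SelfCent p G → D.ε = 1 → D.z = p + 2 → D.A1 = ∅ → D.B2 = ∅ →
    D.A2.card = 1 → (∃ k, p + 1 = 2 ^ k) ∧ ∃ (F : Type) (_ : Field F) (_ : Fintype F),
      Fintype.card F = p + 1 ∧ Nonempty (G ≃* Matrix.ProjectiveSpecialLinearGroup (Fin 2) F)

/-- `C(P) = P`, `p = v ^ 2 + v + 1`: the bound `v ≤ 6`. -/
def BoundStmt : Prop :=
  ∀ (G : Type w) [Group G] [Fintype G] (p : ℕ) [Fact p.Prime] (P : Sylow p G) (u : ℕ)
    (D : Dat G p P u (u + 2) (u + 1) (u + 2)), SelfCent p G → D.ε = 1 → D.z = p + u + 1 →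
    D.A1 = ∅ → D.B2 = ∅ → D.A2.card = 1 → u ≤ 5

/-- `C(P) ≠ P` is not transitive on the other Sylow subgroups. -/
def TransStmt : Prop :=
  ∀ (G : Type w) [Group G] [Fintype G] (p : ℕ) [Fact p.Prime] (P : Sylow p G) (u m e t : ℕ)
    (_ : Dat G p P u m e t) (I : Ind G p P e), ¬ SelfCent p G → I.nb ≠ 2

/-- The number of characters of degree `n_p`. -/
def CountStmt : Prop :=
  ∀ (G : Type w) [Group G] [Fintype G] (p : ℕ) [Fact p.Prime] (P : Sylow p G) (u m e t : ℕ)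
    (D : Dat G p P u m e t) (I : Ind G p P e), I.nb * D.A1.card + 1 ≤ e

/-- Column orthogonality at an element of `C(P)` of prime order normalizing only `P`. -/
def ColStmt : Prop :=
  ∀ (G : Type w) [Group G] [Fintype G] (p : ℕ) [Fact p.Prime] (P : Sylow p G) (u m e t : ℕ)
    (D : Dat G p P u m e t), ∀ y ∈ centralizer ((P : Subgroup G) : Set G), (orderOf y).Prime →
    orderOf y ≠ p → (∀ Q : Sylow p G, y • Q = Q → Q = P) →
    t * (D.A2.card + D.B2.card) * p * p ≤ p + e * t *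
      Nat.card ↥(centralizer ({y} : Set G) ⊓ centralizer ((P : Subgroup G) : Set G))

end Cfsg.Agent.H79.Sq
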