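import Cfsg.Agent.H79.SqDefs
import Cfsg.Agent.H14.InduceChar

/-! Existence of the induced linear characters `Sq.Ind`. -/

set_option autoImplicit false

namespace Cfsg.Agent.H79.Sq

open MulAction Subgroup Cfsg Cfsg.Agent.H58
open scoped ComplexConjugate

open Classical in
theorem exists_lin {N : Type*} [Group N] [Finite N] (K : Subgroup N) [K.Normal]
    (hc : IsCyclic (N ⧸ K)) {e : ℕ} (he : K.index = e) :
    ∃ (μ : Fin e → N →* ℂˣ) (i0 : Fin e), (∀ i, ∀ k ∈ K, μ i k = 1) ∧ (∀ i, μ i = 1 ↔ i = i0) ∧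
      ∀ g, ∑ i, (μ i g : ℂ) = if g ∈ K then (e : ℂ) else 0 := by
  letI := hc.commGroup
  have := Fintype.ofFinite (Additive (N ⧸ K))
  have h0 : Fintype.card (Additive (N ⧸ K)) = e := by rw [← Nat.card_eq_fintype_card]; exact he
  have hcard : Fintype.card (AddChar (Additive (N ⧸ K)) ℂ) = e := by rw [AddChar.card_eq, h0]
  let E : Fin e ≃ AddChar (Additive (N ⧸ K)) ℂ := (Fintype.equivFinOfCardEq hcard).symm
  let f (ψ : AddChar (Additive (N ⧸ K)) ℂ) : N →* ℂ :=
    { toFun := fun g => ψ (Additive.ofMul (g : N ⧸ K))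
      map_one' := ψ.map_zero_eq_one
      map_mul' := fun a b => ψ.map_add_eq_mul (Additive.ofMul (a : N ⧸ K))
        (Additive.ofMul (b : N ⧸ K)) }
  refine ⟨fun i => (f (E i)).toHomUnits, E.symm 0, fun i k hk => ?_, fun i => ⟨fun h => ?_, ?_⟩,
    fun g => ?_⟩
  · ext
    change E i (Additive.ofMul (k : N ⧸ K)) = 1
    rw [(QuotientGroup.eq_one_iff k).2 hk]
    exact (E i).map_zero_eq_one
  · rw [Equiv.eq_symm_apply]
    ext a
    obtain ⟨g, hg⟩ := QuotientGroup.mk_surjective (Additive.toMul a)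
    have := congrArg (fun φ : N →* ℂˣ => (φ g : ℂ)) h
    change E i (Additive.ofMul (g : N ⧸ K)) = 1 at this
    rw [hg] at this
    exact this
  · rintro rfl
    ext g
    change E (E.symm 0) (Additive.ofMul (g : N ⧸ K)) = 1
    rw [Equiv.apply_symm_apply]; rfl
  · change ∑ i, E i (Additive.ofMul (g : N ⧸ K)) = _
    rw [E.sum_comp fun ψ => ψ (Additive.ofMul (g : N ⧸ K)), AddChar.sum_apply_eq_ite, h0]
    exact if_congr (QuotientGroup.eq_one_iff g) rfl rfl

variable {G : Type*} [Group G] [Fintype G] {p : ℕ} [hp : Fact p.Prime]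

theorem ind_eq (P : Sylow p G) (F : normalizer ((P : Subgroup G) : Set G) → ℂ) (g : G) (c : ℂ)
    (h : ∀ (a : G) (ha : a⁻¹ * g * a ∈ normalizer ((P : Subgroup G) : Set G)), F ⟨_, ha⟩ = c) :
    indFun _ F g = Nat.card (fixedBy (Sylow p G) g) * c := by
  classical
  rw [H14.card_fixedBy_eq_indFun_one (Sylow p G) P g,
    show stabilizer G P = normalizer ((P : Subgroup G) : Set G) from P.stabilizer_eq_normalizer,
    H14.indFun_apply, H14.indFun_apply, mul_assoc, Finset.sum_mul]
  congr 1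
  refine Finset.sum_congr rfl fun a _ => ?_
  by_cases ha : a⁻¹ * g * a ∈ normalizer ((P : Subgroup G) : Set G)
  · rw [H14.extendByZero_of_mem _ _ ha, H14.extendByZero_of_mem _ _ ha, h a ha, one_mul]
  · rw [H14.extendByZero_of_not_mem _ _ ha, H14.extendByZero_of_not_mem _ _ ha, zero_mul]

omit [Fintype G] in
theorem exists_pow_order [Finite G] {g : G} (hg : p ∣ orderOf g) :
    ∃ k, orderOf (g ^ k) = p :=
  ⟨_, orderOf_pow_orderOf_div (orderOf_pos g).ne' hg⟩

omit [Fintype G] in
theorem mem_C_of_dvd [Finite G] {P : Sylow p G} (hP : Nat.card P = p) {g : G}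
    (hg : p ∣ orderOf g) (h : g ∈ normalizer ((P : Subgroup G) : Set G)) :
    g ∈ centralizer ((P : Subgroup G) : Set G) := by
  obtain ⟨k, hk⟩ := exists_pow_order hg
  have h1 : g ^ k ∈ (P : Subgroup G) :=
    mem_sylow_of_mem_normalizer P (isPGroup_zpowers_of_orderOf_eq hk) (pow_mem h k)
  have h2 : g ^ k ≠ 1 := fun e => hp.out.one_lt.ne (by rw [← hk, e, orderOf_one])
  rw [← centralizer_singleton_eq hP h1 h2, mem_centralizer_singleton_iff]
  exact (Commute.self_pow g k).eq

omit [Fintype G] in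
theorem card_fix_of_dvd [Finite G] {P : Sylow p G} (hP : Nat.card P = p) {g : G}
    (hg : p ∣ orderOf g) : Nat.card (fixedBy (Sylow p G) g) = 1 := by
  obtain ⟨k, hk⟩ := exists_pow_order hg
  obtain ⟨Q, hQ⟩ := (isPGroup_zpowers_of_orderOf_eq hk).exists_le_sylow
  have h1 : g ^ k ∈ (Q : Subgroup G) := hQ (mem_zpowers _)
  have h2 : g ^ k ≠ 1 := fun e => hp.out.one_lt.ne (by rw [← hk, e, orderOf_one])
  have h3 : g • Q = Q := smul_eq_of_mem_centralizer Q (by
    rw [← centralizer_singleton_eq (card_eq hP Q) h1 h2, mem_centralizer_singleton_iff]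
    exact (Commute.self_pow g k).eq)
  rw [Nat.card_eq_one_iff_exists]
  exact ⟨⟨Q, h3⟩, fun R => Subtype.ext
    (eq_of_smul_eq (card_eq hP Q) h1 h2 (fixedBy_subset_pow g k R.2))⟩

omit hp in
open Classical in
theorem sum_ite_sub {C N : Subgroup G} [Fintype N] (h : C ≤ N) (f : G → ℂ) :
    ∑ k : N, (if k ∈ C.subgroupOf N then f k else 0) = sumOn C f := by
  refine (Finset.sum_subtype (p := (· ∈ N)) (Finset.univ.filter (· ∈ N))
    (by simp) (fun k => if k ∈ C then f k else 0)).symm.trans ?_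
  rw [sumOn, Finset.sum_filter, Finset.sum_filter]
  refine Finset.sum_congr rfl fun k _ => ?_
  by_cases hk : k ∈ C
  · simp [hk, h hk]
  · simp [hk]

theorem fixDim_C_pos {P : Sylow p G} (hP : Nat.card P = p) {χ : G → ℂ} (hχ : IsCharacter G χ)
    (hv : ∀ x ∈ (P : Subgroup G), x ≠ 1 →
      ∀ y ∈ centralizer ((P : Subgroup G) : Set G), ¬ p ∣ orderOf y → χ (x * y) = 1) :
    1 ≤ fixDim (centralizer ((P : Subgroup G) : Set G)) χ := by
  classical
  set C := centralizer ((P : Subgroup G) : Set G)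
  have hPC : (P : Subgroup G) ≤ C := le_centralizer_of_card_prime hP
  have hN : ((P : Subgroup G).subgroupOf C).Normal :=
    (normal_subgroupOf_iff_le_normalizer hPC).2 (centralizer_le_normalizer _)
  have hc : Nat.card ((P : Subgroup G).subgroupOf C) = p := by
    rw [Nat.card_congr (subgroupOfEquivOfLe hPC).toEquiv]; exact hP
  have hi : ¬ p ∣ ((P : Subgroup G).subgroupOf C).index := fun h =>
    P.not_dvd_index (h.trans (relIndex_dvd_index_of_le hPC))
  obtain ⟨V, hV⟩ := exists_right_complement'_of_coprime (N := (P : Subgroup G).subgroupOf C)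
    (by rw [hc]; exact (Nat.Prime.coprime_iff_not_dvd hp.out).2 hi)
  have hVp : ∀ y : V, ¬ p ∣ orderOf ((y : C) : G) := fun y h => hi (by
    rw [hV.symm.index_eq_card]
    rw [orderOf_coe, orderOf_coe] at h
    exact h.trans (orderOf_dvd_natCard y))
  by_contra h0
  have h1 := card_mul_fixDim C hχ
  have h2 := card_mul_fixDim V (H11.isCharacter_restrict hχ C)
  rw [show fixDim C χ = 0 by omega, sumOn_eq_sum,
    ← (Equiv.ofBijective _ hV).sum_comp fun c : C => χ c, Fintype.sum_prod_type_right] at h1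
  have h3 : ∀ y : V, ∑ x : (P : Subgroup G).subgroupOf C, χ ((x : C) * (y : C) : C) =
      χ (y : C) + (p - 1) := fun y => by
    rw [← sumOn_eq_sum _ fun x : C => χ (x * (y : C) : C), sumOn_of_const (c := 1), hc]
    · simp
    · exact fun x hx hx1 => hv x hx (fun e => hx1 (Subtype.ext e)) _ (y : C).2 (hVp y)
  have h4 : (0 : ℂ) = ∑ y : V, (χ (y : C) + (p - 1)) := by
    rw [← Finset.sum_congr rfl fun y _ => h3 y]; simpa using h1
  rw [Finset.sum_add_distrib, ← sumOn_eq_sum V fun x : C => χ x, ← h2, Finset.sum_const,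
    Finset.card_univ, ← Nat.card_eq_fintype_card, nsmul_eq_mul, ← mul_add] at h4
  rcases mul_eq_zero.1 h4.symm with h | h
  · exact Nat.card_pos.ne' (by exact_mod_cast h)
  · have h5 : fixDim V (fun x : C => χ x) + p = 1 := by
      have : ((fixDim V (fun x : C => χ x) + p : ℕ) : ℂ) = (1 : ℕ) := by
        push_cast; linear_combination h
      exact_mod_cast this
    have := hp.out.two_le
    omega

omit [Fintype G] in
theorem orbits_cases [Finite G] (P : Sylow p G) (hn : Nat.card (Sylow p G) ≠ 1) :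
    Nat.card (orbitRel.Quotient (centralizer ((P : Subgroup G) : Set G)) (Sylow p G)) = 2 ∨
    (3 ≤ Nat.card (orbitRel.Quotient (centralizer ((P : Subgroup G) : Set G)) (Sylow p G)) ∧
      ∃ Q R : Sylow p G, Q ≠ P ∧ R ≠ P ∧
        ∀ c ∈ centralizer ((P : Subgroup G) : Set G), c • Q ≠ R) := by
  classical
  set C := centralizer ((P : Subgroup G) : Set G)
  have hne : ∀ Q : Sylow p G, Q ≠ P → (Quotient.mk _ P : orbitRel.Quotient C (Sylow p G)) ≠
      Quotient.mk _ Q := fun Q hQ h => by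
    obtain ⟨c, hc⟩ := Quotient.exact h.symm
    exact hQ (hc.symm.trans (smul_eq_of_mem_centralizer P c.2))
  by_cases h : ∃ Q R : Sylow p G, Q ≠ P ∧ R ≠ P ∧ ∀ c ∈ C, c • Q ≠ R
  · refine Or.inr ⟨?_, h⟩
    obtain ⟨Q, R, hQ, hR, h⟩ := h
    have := Fintype.ofFinite (orbitRel.Quotient C (Sylow p G))
    rw [Nat.card_eq_fintype_card]
    refine Fintype.two_lt_card_iff.2 ⟨_, _, _, hne Q hQ, hne R hR, fun e => ?_⟩
    obtain ⟨c, hc⟩ := Quotient.exact e.symm
    exact h c c.2 hc
  · push Not at h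
    obtain ⟨Q, hQ⟩ : ∃ Q, Q ≠ P := by
      by_contra h'
      push Not at h'
      exact hn (Nat.card_eq_one_iff_exists.2 ⟨P, h'⟩)
    refine Or.inl (Nat.card_eq_two_iff.2 ⟨_, _, hne Q hQ, Set.eq_univ_of_forall fun a => ?_⟩)
    obtain ⟨R, rfl⟩ := Quotient.exists_rep a
    by_cases hR : R = P
    · exact Or.inl (by rw [hR])
    · obtain ⟨c, hc, e⟩ := h Q R hQ hR
      exact Or.inr (Quotient.sound ⟨⟨c, hc⟩, e⟩)

omit hp in
open Classical in
theorem lin_sum {C N : Subgroup G} {e : ℕ} (h : C ≤ N) (hc : e * Nat.card C = Nat.card N)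
    (μ : Fin e → N →* ℂˣ) (h3 : ∀ g, ∑ i, (μ i g : ℂ) = if g ∈ C.subgroupOf N then (e : ℂ) else 0)
    {χ : G → ℂ} (hχ : IsCharacter G χ) :
    ∑ i, classInner (indFun N fun k => (μ i k : ℂ)) χ = fixDim C χ := by
  have h1 : ∀ i, classInner (indFun N fun k => (μ i k : ℂ)) χ =
      (Nat.card N : ℂ)⁻¹ * ∑ k : N, μ i k * conj (χ k) := fun i =>
    H14.classInner_indFun_left _ _ (H11.isClassFunction_of_isCharacter hχ)
  have h2 := congrArg conj (card_mul_fixDim C hχ)
  rw [map_mul, map_natCast, map_natCast, sumOn, map_sum] at h2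
  simp_rw [h1]
  rw [← Finset.mul_sum, Finset.sum_comm]
  simp_rw [← Finset.sum_mul, h3, ite_mul, zero_mul]
  rw [sum_ite_sub h fun k => e * conj (χ k), sumOn_mul, sumOn, ← h2, ← mul_assoc (e : ℂ),
    ← Nat.cast_mul, hc, inv_mul_cancel_left₀ (H14.card_subgroup_ne_zero N)]

omit hp in
open Classical in
theorem lin_four {C N : Subgroup G} {e : ℕ} (h : C ≤ N) (hc : e * Nat.card C = Nat.card N)
    (μ : Fin e → N →* ℂˣ) (h3 : ∀ g, ∑ i, (μ i g : ℂ) = if g ∈ C.subgroupOf N then (e : ℂ) else 0)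
    {χ : G → ℂ} (hχ : IsClassFunction G χ) (g : N) {c : ℂ} (hg : ∀ k ∈ C, χ (g * k) = c) :
    (∑ i, classInner χ (indFun N fun k => (μ i k : ℂ)) • fun k => (μ i k : ℂ)) g = c := by
  have h1 : ∀ i, classInner χ (indFun N fun k => (μ i k : ℂ)) * μ i g =
      (Nat.card N : ℂ)⁻¹ * ∑ k : N, χ (g * k : N) * μ i k⁻¹ := fun i => by
    rw [H14.classInner_indFun_right _ _ hχ, classInner, mul_assoc, Finset.sum_mul,
      ← Equiv.sum_comp (Equiv.mulLeft g)]
    congr 1
    refine Finset.sum_congr rfl fun k _ => ?_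
    rw [H11.conj_apply (H11.isCharacter_monoidHom (μ i)), mul_assoc, ← Units.val_mul, ← map_mul]
    simp
  simp_rw [Finset.sum_apply, Pi.smul_apply, smul_eq_mul, h1]
  rw [← Finset.mul_sum, Finset.sum_comm]
  simp_rw [← Finset.mul_sum, h3, mul_ite, mul_zero, inv_mem_iff]
  rw [show ∑ k : N, (if k ∈ C.subgroupOf N then χ (g * k : N) * e else 0) = _ from
      sum_ite_sub h fun k => χ (g * k) * e,
    sumOn_congr (f' := fun _ => c * e) fun k hk => by rw [hg k hk], sumOn_const, ← hc]
  have := H14.card_subgroup_ne_zero N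
  rw [← hc, Nat.cast_mul, mul_ne_zero_iff] at this
  obtain ⟨_, _⟩ := this
  push_cast
  field_simp

theorem exists_ind (P : Sylow p G) (hP : Nat.card P = p) {n e : ℕ}
    (hn : Nat.card (Sylow p G) = 1 + n * p) (hn0 : 0 < n) (hnp : n < p)
    (he : (centralizer ((P : Subgroup G) : Set G)).relIndex
      (normalizer ((P : Subgroup G) : Set G)) = e) : Nonempty (Ind G p P e) := by
  classical
  have hCN : centralizer ((P : Subgroup G) : Set G) ≤ normalizer ((P : Subgroup G) : Set G) :=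
    centralizer_le_normalizer _
  have hcard := relIndex_mul_card_centralizer (P : Subgroup G)
  have hidx : (normalizer ((P : Subgroup G) : Set G)).index = Nat.card (Sylow p G) :=
    P.card_eq_index_normalizer.symm
  have hker := (P : Subgroup G).normalizerMonoidHom_ker
  have hcyc : IsCyclic (_ ⧸ (P : Subgroup G).normalizerMonoidHom.ker) := by
    have : IsCyclic (P : Subgroup G) := isCyclic_of_prime_card hP
    have : IsCyclic (MulAut (P : Subgroup G)) := by
      refine (IsCyclic.mulAutMulEquiv (P : Subgroup G)).isCyclic.2 ?_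
      rw [show Nat.card (P : Subgroup G) = p from hP]; infer_instance
    exact isCyclic_of_injective _ (QuotientGroup.kerLift_injective _)
  obtain ⟨μ, i0, h1, h2, h3⟩ := exists_lin _ hcyc (e := e) (by rw [hker]; exact he)
  simp only [hker] at h1 h3
  have hind := ind_eq P
  have hcent : ∀ c ∈ centralizer ((P : Subgroup G) : Set G), ∀ a : G,
      a⁻¹ * c * a ∈ normalizer ((P : Subgroup G) : Set G) →
      a⁻¹ * c * a ∈ centralizer ((P : Subgroup G) : Set G) := fun c hc a ha => by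
    have e1 : c • a • P = a • P := by
      have := (smul_eq_iff P _).2 ha
      rwa [mul_smul, mul_smul, inv_smul_eq_iff] at this
    have e2 := mem_centralizer_of_smul_eq hP hn hnp hc e1
    refine mem_centralizer_iff.2 fun x hx => ?_
    have e3 := mem_centralizer_iff.1 e2 _ (conj_mem_smul_sylow a hx)
    calc x * (a⁻¹ * c * a) = a⁻¹ * (a * x * a⁻¹ * c) * a := by group
      _ = _ := by rw [e3]; group
  have hch : ∀ i, IsCharacter G (indFun _ fun k => (μ i k : ℂ)) := fun i =>
    H14.IsCharacter.indFun _ (H11.isCharacter_monoidHom (μ i))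
  refine ⟨⟨fun i => indFun _ fun k => μ i k, i0,
    Nat.card (orbitRel.Quotient (centralizer ((P : Subgroup G) : Set G)) (Sylow p G)), hch,
    fun i => by rw [H14.indFun_one, hidx, map_one, Units.val_one, mul_one], fun i g hg => ?_, fun i => ?_,
    fun χ hχ => lin_sum hCN (he ▸ hcard) μ h3 hχ, fun χ hχ g hg => ?_, fun i => ?_,
    orbits_cases P (by have := hp.out.pos; nlinarith), fun χ => fixDim_C_pos hP⟩⟩
  · rw [ind_eq P _ g 1 fun a ha => ?_, card_fix_of_dvd hP hg]
    · simp
    · rw [h1 i ⟨_, ha⟩ (mem_C_of_dvd hP ?_ ha), Units.val_one]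
      change p ∣ orderOf (a⁻¹ * g * a)
      rwa [show a⁻¹ * g * a = a⁻¹ * g * a⁻¹⁻¹ by rw [inv_inv], ← MulAut.conj_apply,
        MulEquiv.orderOf_eq]
  · rw [H14.classInner_indFun_left _ _ fun _ _ => rfl, H11.classInner_one_right]
    split_ifs with h
    · rw [(h2 i).2 h]
      simp
    · have := sum_hom_units_eq_zero ((Units.coeHom ℂ).comp (μ i)) fun e => h ((h2 i).1 (by
        ext k; exact congrArg (fun φ : _ →* ℂ => φ k) e))
      rw [show ∑ k, (μ i k : ℂ) = 0 from this, mul_zero]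
  · rw [← ind_eq P (∑ i, classInner χ (indFun _ fun k => (μ i k : ℂ)) • fun k => (μ i k : ℂ)) g _
      fun a ha => lin_four hCN (he ▸ hcard) μ h3 hχ ⟨_, ha⟩ (hg a ha), H14.indFun_sum,
      Finset.sum_apply]
    exact Finset.sum_congr rfl fun i _ => by rw [H14.indFun_smul]; rfl
  · refine fixDim_eq_of (hch i) ?_
    have := Fintype.ofFinite (orbitRel.Quotient (centralizer ((P : Subgroup G) : Set G)) (Sylow p G))
    have := Fintype.ofFinite (Sylow p G)
    have h4 := sum_card_fixedBy_eq_card_orbits_mul_card_group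
      (centralizer ((P : Subgroup G) : Set G)) (Sylow p G)
    simp only [← Nat.card_eq_fintype_card] at h4
    rw [sumOn_eq_sum, mul_comm, ← Nat.cast_mul, ← h4, Nat.cast_sum]
    refine Finset.sum_congr rfl fun c _ => ?_
    rw [ind_eq P _ c 1 fun a ha => by rw [h1 i ⟨_, ha⟩ (hcent c c.2 a ha), Units.val_one], mul_one]
    rfl

end Cfsg.Agent.H79.Sq
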