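import Cfsg.Agent.H58.SWDefs
import Cfsg.Agent.S2692

/-! Project SW: the matrix model of an almost simple group with unitary socle. -/

set_option autoImplicit false

namespace Cfsg.Agent.H79.SwSetU

open Matrix Cfsg Cfsg.Agent.H58.SW

universe u

section
variable {F : Type} [Field F] [Fintype F] [DecidableEq F] {n : ℕ}

theorem model {c : Cl F n} (kt : KT c)
    (uq : ∀ t ψ, c.Ind t ψ → (∀ s ∈ c.S, ψ s * s⁻¹ ∈ c.Z) → ψ = 1 ∧ t.neg = false ∧ t.σ = 1)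
    {G : Type u} [Group G] {N : Subgroup G} (hc : Subgroup.centralizer (N : Set G) = ⊥)
    (π : c.S →* N) (hs : Function.Surjective π) (hk : ∀ s : c.S, π s = 1 → (s : Gl n F) ∈ c.Z)
    (hex : ∀ g : G, ∃ ψ, c.Std ψ ∧
      ∀ s s' : c.S, (s' : Gl n F) = ψ s → (π s' : G) = g * π s * g⁻¹) :
    ∃ φ : G →* Au n F, Mod N c φ := by
  let P : G → Au n F → Prop := fun g ψ => c.Std ψ ∧
    ∀ s s' : c.S, (s' : Gl n F) = ψ s → (π s' : G) = g * π s * g⁻¹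
  have smul : ∀ ψ ψ', c.Std ψ → c.Std ψ' → c.Std (ψ * ψ') := fun ψ ψ' ⟨t, h⟩ ⟨t', h'⟩ =>
    (kt.mul_ind t ψ t' ψ' h h').imp fun _ k => k.1
  have sinv : ∀ ψ, c.Std ψ → c.Std ψ⁻¹ := fun ψ ⟨t, h⟩ => (kt.inv_ind t ψ h).imp fun _ k => k.1
  have pS : ∀ ψ, c.Std ψ → ∀ s ∈ c.S, ψ s ∈ c.S := fun ψ h s hs => (kt.pres ψ h s).2.1.2 hs
  have un : ∀ g ψ ψ', P g ψ → P g ψ' → ψ = ψ' := fun g ψ ψ' h h' => by
    obtain ⟨t, ht⟩ := smul _ _ (sinv ψ h.1) h'.1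
    refine inv_mul_eq_one.1 (uq t _ ht fun s hs => ?_).1
    have ha := pS ψ' h'.1 s hs
    have hb := pS ψ⁻¹ (sinv ψ h.1) _ ha
    have e1 := h.2 ⟨_, hb⟩ ⟨_, ha⟩ (by simp)
    have e2 := h'.2 ⟨_, hs⟩ ⟨_, ha⟩ rfl
    have e3 : π ⟨_, hb⟩ = π ⟨_, hs⟩ :=
      Subtype.ext (mul_left_cancel (mul_right_cancel (e1.symm.trans e2)))
    exact hk (⟨_, hb⟩ * ⟨_, hs⟩⁻¹) (by rw [map_mul, map_inv, e3, mul_inv_cancel])
  have mu : ∀ g ψ g' ψ', P g ψ → P g' ψ' → P (g * g') (ψ * ψ') := fun g ψ g' ψ' h h' =>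
    ⟨smul _ _ h.1 h'.1, fun s s' e => by
      rw [h.2 ⟨_, pS ψ' h'.1 s s.2⟩ s' e, h'.2 s ⟨_, pS ψ' h'.1 s s.2⟩ rfl]; group⟩
  choose f hf using hex
  let φ : G →* Au n F := MonoidHom.mk' f fun g g' => un _ _ _ (hf _) (mu _ _ _ _ (hf g) (hf g'))
  have inn : ∀ s : c.S, φ (π s) = MulAut.conj (s : Gl n F) := fun s =>
    un _ _ _ (hf _) ⟨⟨_, (kt.conj s s.2.1).1⟩, fun a b e => by
      rw [show b = s * a * s⁻¹ from Subtype.ext e, map_mul, map_mul, map_inv]; rfl⟩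
  refine ⟨φ, (injective_iff_map_eq_one φ).2 fun g hg => ?_, fun g => (hf g).1, ?_⟩
  · rw [← Subgroup.mem_bot, ← hc, Subgroup.mem_centralizer_iff]
    intro x hx
    obtain ⟨s, e⟩ := hs ⟨x, hx⟩
    have := (hf g).2 s s (by rw [show f g = 1 from hg]; rfl)
    rw [e] at this
    exact eq_mul_inv_iff_mul_eq.1 this
  · ext ψ
    constructor
    · rintro ⟨x, hx, rfl⟩
      obtain ⟨s, e⟩ := hs ⟨x, hx⟩
      exact ⟨s, s.2, by rw [← inn s, e]⟩
    · rintro ⟨s, hs, rfl⟩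
      exact ⟨_, (π ⟨s, hs⟩).2, inn _⟩

end

theorem setU (hKA : KAStmt) (hKT : KTStmt) (hI : IrrStmt) (hU : UniqStmt) : SetUStmt.{u} := by
  classical
  rintro G _ _ N hN hc ⟨F, _, _, n, q, hF, hn, hs, ⟨e⟩⟩
  obtain ⟨p, hp⟩ := CharP.exists F
  have pp : p.Prime := CharP.char_is_prime F p
  let c : Cl F n := ⟨true, q, p, pp, hp, by simpa using hF, by omega, by omega, fun _ => hs⟩
  have ka := hKA F n c
  have kt := hKT F n c
  have St : c.St = GU n F q := if_pos rfl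
  let j : c.S →* SU n F q := MonoidHom.mk' (fun s => ⟨⟨(s : Gl n F), ((ka.mem_S _).1 s.2).2⟩,
    (show (s : Gl n F) ∈ GU n F q from St ▸ s.2.1)⟩) fun _ _ => rfl
  have jv : ∀ s, ((j s : SpecialLinearGroup (Fin n) F) : Mt n F) = (s : Gl n F) := fun _ => rfl
  have js : Function.Surjective j := fun x =>
    ⟨⟨SpecialLinearGroup.toGL x.1, (ka.mem_S _).2
      ⟨St ▸ (show SpecialLinearGroup.toGL x.1 ∈ GU n F q from x.2), x.1.2⟩⟩, rfl⟩
  let π : c.S →* N := e.symm.toMonoidHom.comp ((QuotientGroup.mk' _).comp j)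
  have πv : ∀ s, π s = e.symm (QuotientGroup.mk (j s)) := fun _ => rfl
  refine ⟨F, inferInstance, inferInstance, inferInstance, n, c, model kt (hU F n c) hc π
    (e.symm.surjective.comp ((QuotientGroup.mk'_surjective _).comp js)) (fun s h => ?_) fun g => ?_⟩
  · rw [πv, map_eq_one_iff _ e.symm.injective, QuotientGroup.eq_one_iff,
      Subgroup.mem_center_iff] at h
    obtain ⟨a, ha⟩ := (hI F n c).cs (s : Gl n F) fun t ht =>
      (congrArg (fun x : SU n F q => ((x : SpecialLinearGroup (Fin n) F) : Mt n F))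
        (h (j ⟨t, ht⟩))).symm
    refine ⟨s.2.1, Subgroup.mem_center_iff.2 fun x => Units.ext ?_⟩
    rw [Units.val_mul, Units.val_mul, ha]
    simp
  · obtain ⟨f, hf, hq⟩ := ka.qp
    have : Fact p.Prime := ⟨pp⟩
    obtain ⟨δ, φ, σ, ⟨A, hA, hδ⟩, hφ, eβ⟩ := S2692.result (p := p) hq hf hF hn hs
      ((e.symm.trans (MulAut.conjNormal g)).trans e)
    let ψ : Au n F := Units.mapEquiv (σ.mapMatrix (m := Fin n)).toMulEquiv
    have ψv : ∀ x : Gl n F, ((ψ x : Gl n F) : Mt n F) = (x : Mt n F).map σ := fun _ => rfl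
    have h0 : c.Std ψ := ⟨⟨σ, false, 1⟩, one_mem _, by simp, fun x => by simp [Tau.ap, ψv]⟩
    refine ⟨MulAut.conj A * ψ, ⟨⟨σ, false, A⟩, St ▸ hA, by simp, fun x => by simp [Tau.ap, ψv]⟩,
      fun s s' h => ?_⟩
    have h1 := (kt.pres ψ h0 s).2.1.2 s.2
    have h2 := hφ (j s) (j ⟨_, h1⟩) rfl
    have h3 := hδ (j ⟨_, h1⟩) (j s') (by rw [jv, jv, h]; rfl)
    have h4 : e (MulAut.conjNormal g (e.symm (QuotientGroup.mk (j s)))) =
        δ (φ (QuotientGroup.mk (j s))) :=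
      congrArg (fun β : MulAut (PSU n F q) => β (QuotientGroup.mk (j s))) eβ
    have h5 := h4.trans ((congrArg δ h2).trans h3)
    rw [πv, πv, ← h5, e.symm_apply_apply]
    rfl

end Cfsg.Agent.H79.SwSetU
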